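import Mathlib
import Mathlib.RepresentationTheory.Basic
import Mathlib.LinearAlgebra.BilinearForm.Orthogonal
import Mathlib.LinearAlgebra.Dimension.Finrank
import Mathlib.RingTheory.Artinian.Module
import Cfsg.Agent.ClassicalGeometry.InvolutiveNorm
import Cfsg.Agent.H74.SpB
import Cfsg.Agent.H209.EPX.Defs_m3
import Cfsg.Agent.H989.Gs.Gen
import Cfsg.Agent.H920.FP.Zero
import Cfsg.Agent.LieClassical.OrthTrans
import Cfsg.Agent.LieClassical.OrthFinite
import Cfsg.Agent.H914.Gs.SpBase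
import Cfsg.Agent.ClassicalGeometry.SympAutOddA
import Cfsg.Agent.ClassicalGeometry.SympAutExists
import Cfsg.Agent.H989.Fx.Ty_m3
import Cfsg.Agent.H203.IF.Heis
import Cfsg.Agent.H740.Fixed
import Cfsg.Agent.OddOrderLocal.QuadOdd
import Cfsg.Agent.H847.Bs.Defs2
import Cfsg.Agent.H749.BlockOrth_m3
import Cfsg.Agent.LieClassical.SLGen
import Cfsg.Agent.H380.Bs.Small
import Cfsg.Agent.H160.QDisc
import Cfsg.Agent.H956.IF.Central
import Cfsg.Agent.FastGrp
import Cfsg.Agent.Prune
set_option linter.all false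

section
prune_inst 0x7f00000000000000000000000000000000000000000000000000000000000000000000000000000000000000000000000000000000000000000000000000000000000000000000000000000000000000003fffffffffffffffffffffffffff9effbdfffffffd

section
prune_inst 0xf0e8f9abb829dfdfff7e7fa79ccdfc39909fffa4dff94bffe06bff1b9f030209c123ad09e090fc4ed6401410a87803f9ffeeffe26bd87ffffd1ff41ffbee0fe5f7b50851d48c340fbc0ffe03f0778e7f000000000000000000000000000020000200000000

-- part: H30/IF/Frob
section
prune_inst 0xc1702444596202000000058631203c46d60005b0002b0001f9000e460f8edf22cd802f60c4a038121a2aa28500350060001000d04050000004000400011d01a080ab52023310ad0416001f803087180c00000000000000000000000000041004000000002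
set_option linter.all false
open scoped Cfsg.Agent.FastGrp

/-!
# Frobenius groups `2^k : p` of small index in their intersection with a subgroup (helper30, S5719)

`Fr E u p k`: `E` of exponent 2 and order `2 ^ k`, `u` of odd prime order `p` acts on `E` without fixed points and
irreducibly. `Fr.key`: if `|X : X ∩ A| < 2 ^ k` for `X = E ⟨u⟩`, then `E ≤ A` or `p 2 ^ k ≤ |X : X ∩ A| |A ∩ E|`.
-/

set_option autoImplicit false

namespace Cfsg.Agent.H30.Fxy

open Subgroup

variable {G : Type*} [Group G]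

/-- `E : ⟨u⟩` is a Frobenius group with irreducible action. -/
structure Fr (E : Subgroup G) (u : G) (p k : ℕ) : Prop where
  prime : p.Prime
  ne_two : p ≠ 2
  sq : ∀ x ∈ E, x * x = 1
  card : Nat.card E = 2 ^ k
  norm : ∀ x ∈ E, u * x * u⁻¹ ∈ E
  ord : orderOf u = p
  fix : ∀ x ∈ E, u * x = x * u → x = 1
  irr : ∀ j, 0 < j → j < k → ¬ p ∣ 2 ^ j - 1

variable {E : Subgroup G} {u : G} {p k : ℕ}

theorem Fr.inv (h : Fr E u p k) {x : G} (hx : x ∈ E) : x⁻¹ = x := inv_eq_of_mul_eq_one_right (h.sq x hx)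

theorem Fr.comm (h : Fr E u p k) {x y : G} (hx : x ∈ E) (hy : y ∈ E) : x * y = y * x := by
  have h1 := h.inv (E.mul_mem hx hy)
  rw [mul_inv_rev, h.inv hx, h.inv hy] at h1
  exact h1.symm

theorem Fr.normn (h : Fr E u p k) (n : ℕ) {x : G} (hx : x ∈ E) : u ^ n * x * (u ^ n)⁻¹ ∈ E := by
  induction n with
  | zero => simpa using hx
  | succ n ih =>
    have h1 := h.norm _ ih
    rwa [show u * (u ^ n * x * (u ^ n)⁻¹) * u⁻¹ = u ^ (n + 1) * x * (u ^ (n + 1))⁻¹ by
      rw [pow_succ']; group] at h1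

theorem Fr.pos (h : Fr E u p k) : 0 < p := h.prime.pos

theorem Fr.pow_p (h : Fr E u p k) : u ^ p = 1 := by rw [← h.ord]; exact pow_orderOf_eq_one u

theorem Fr.normi (h : Fr E u p k) (n : ℕ) {x : G} (hx : x ∈ E) : (u ^ n)⁻¹ * x * u ^ n ∈ E := by
  have h1 : (u ^ n)⁻¹ = u ^ ((p - 1) * n) := by
    rw [inv_eq_iff_mul_eq_one, ← pow_add, show n + (p - 1) * n = p * n by
      have := h.pos
      obtain ⟨m, rfl⟩ : ∃ m, p = m + 1 := ⟨p - 1, by omega⟩
      simp only [Nat.add_sub_cancel]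
      ring, pow_mul, h.pow_p, one_pow]
  have h2 := h.normn ((p - 1) * n) hx
  rw [← h1, inv_inv] at h2
  exact h2

/-- the powers of `u` in `E` -/
theorem Fr.pow_eq_one (h : Fr E u p k) {n : ℕ} (hn : u ^ n ∈ E) : u ^ n = 1 := by
  have h1 : (u ^ n) ^ 2 = 1 := by rw [pow_two]; exact h.sq _ hn
  have h2 : (u ^ n) ^ p = 1 := by rw [← pow_mul, mul_comm, pow_mul, h.pow_p, one_pow]
  have h3 : orderOf (u ^ n) ∣ 2 := orderOf_dvd_of_pow_eq_one h1
  have h4 : orderOf (u ^ n) ∣ p := orderOf_dvd_of_pow_eq_one h2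
  have h5 : Nat.Coprime 2 p := (Nat.coprime_primes Nat.prime_two h.prime).2 (Ne.symm h.ne_two)
  have h6 : orderOf (u ^ n) ∣ 1 := by
    rw [← h5.gcd_eq_one]
    exact Nat.dvd_gcd h3 h4
  exact orderOf_eq_one_iff.1 (Nat.dvd_one.1 h6)

/-- an invariant subgroup is trivial or everything -/
theorem Fr.inv_or (h : Fr E u p k) [Finite G] {W : Subgroup G} (hW : W ≤ E) (hi : ∀ x ∈ W, u * x * u⁻¹ ∈ W) :
    W = ⊥ ∨ W = E := by
  classical
  have hp : Fact p.Prime := ⟨h.prime⟩
  let f : Function.End W := fun x => ⟨u * x * u⁻¹, hi x x.2⟩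
  have hf : ∀ n : ℕ, ∀ x : W, (((f ^ n) x : W) : G) = u ^ n * x * (u ^ n)⁻¹ := by
    intro n
    induction n with
    | zero =>
      intro x
      change (x : G) = _
      simp
    | succ n ih =>
      intro x
      rw [pow_succ']
      change (u * (((f ^ n) x : W) : G) * u⁻¹) = _
      rw [ih, pow_succ']
      group
  have hfp : f ^ p ^ 1 = 1 := by
    funext x
    apply Subtype.ext
    rw [hf, pow_one, h.pow_p]
    change _ = (x : G)
    simp
  have : Fintype W := Fintype.ofFinite _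
  have h1 := Equiv.Perm.card_fixedPoints_modEq hfp
  have h2 : Fintype.card (Function.fixedPoints f) = 1 := by
    rw [Fintype.card_eq_one_iff]
    refine ⟨⟨1, ?_⟩, ?_⟩
    · apply Subtype.ext
      change u * ((1 : W) : G) * u⁻¹ = ((1 : W) : G)
      simp
    · rintro ⟨y, hy⟩
      apply Subtype.ext
      apply Subtype.ext
      have hy' : u * (y : G) * u⁻¹ = y := congrArg Subtype.val hy
      exact h.fix _ (hW y.2) (mul_inv_eq_iff_eq_mul.1 hy')
  rw [h2] at h1
  have h3 : Nat.card W = Fintype.card W := Nat.card_eq_fintype_card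
  have h4 : Nat.card W ∣ 2 ^ k := by rw [← h.card]; exact card_dvd_of_le hW
  obtain ⟨j, hj, he⟩ := (Nat.dvd_prime_pow Nat.prime_two).1 h4
  rw [← h3, he] at h1
  rcases Nat.eq_zero_or_pos j with h5 | h5
  · left
    rw [h5, pow_zero] at he
    exact Subgroup.card_eq_one.1 he
  · right
    rcases Nat.lt_or_ge j k with h6 | h6
    · exfalso
      apply h.irr j h5 h6
      exact (Nat.modEq_iff_dvd' Nat.one_le_two_pow).1 h1.symm
    · have h7 : j = k := by omega
      apply eq_of_le_of_card_ge hW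
      rw [he, h7, h.card]

/-- the group `E ⟨u⟩` -/
def Fr.X (h : Fr E u p k) : Subgroup G where
  carrier := {x | ∃ i : ℕ, ∃ e ∈ E, x = u ^ i * e}
  one_mem' := ⟨0, 1, one_mem _, by simp⟩
  mul_mem' := by
    rintro _ _ ⟨i, e, he, rfl⟩ ⟨j, f, hf, rfl⟩
    refine ⟨i + j, (u ^ j)⁻¹ * e * u ^ j * f, mul_mem (h.normi j he) hf, ?_⟩
    rw [pow_add]
    group
  inv_mem' := by
    rintro _ ⟨i, e, he, rfl⟩
    have h1 : (u ^ i)⁻¹ = u ^ ((p - 1) * i) := by
      rw [inv_eq_iff_mul_eq_one, ← pow_add, show i + (p - 1) * i = p * i by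
        have := h.pos
        obtain ⟨m, rfl⟩ : ∃ m, p = m + 1 := ⟨p - 1, by omega⟩
        simp only [Nat.add_sub_cancel]
        ring, pow_mul, h.pow_p, one_pow]
    refine ⟨(p - 1) * i, u ^ i * e⁻¹ * (u ^ i)⁻¹, h.normn i (inv_mem he), ?_⟩
    rw [← h1]
    group

theorem Fr.le_X (h : Fr E u p k) : E ≤ h.X := fun x hx => ⟨0, x, hx, by simp⟩

theorem Fr.card_X (h : Fr E u p k) [Finite G] : p * 2 ^ k ≤ Nat.card h.X := by
  let f : Fin p × E → h.X := fun q => ⟨u ^ (q.1 : ℕ) * q.2, q.1, q.2, q.2.2, rfl⟩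
  have hf : Function.Injective f := by
    rintro ⟨i, e⟩ ⟨j, e'⟩ hq
    have h1 : u ^ (i : ℕ) * (e : G) = u ^ (j : ℕ) * e' := congrArg Subtype.val hq
    have h2 : ∀ i j : ℕ, i < p → j < p → i ≤ j → ∀ e e' : E, u ^ i * (e : G) = u ^ j * e' → i = j := by
      intro i j hi hj hij e e' h1
      have h3 : u ^ (j - i) ∈ E := by
        have h4 : u ^ (j - i) = e * (e' : G)⁻¹ := by
          rw [eq_mul_inv_iff_mul_eq]
          have h5 : u ^ j = u ^ i * u ^ (j - i) := by rw [← pow_add]; congr 1; omega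
          rw [h5, mul_assoc] at h1
          exact (mul_left_cancel h1).symm
        rw [h4]
        exact mul_mem e.2 (inv_mem e'.2)
      have h6 := h.pow_eq_one h3
      have h7 : p ∣ j - i := by rw [← h.ord]; exact orderOf_dvd_of_pow_eq_one h6
      have h8 := Nat.eq_zero_of_dvd_of_lt h7 (by omega)
      omega
    have h3 : (i : ℕ) = j := by
      rcases Nat.le_total (i : ℕ) j with h4 | h4
      · exact h2 i j i.2 j.2 h4 e e' h1
      · exact (h2 j i j.2 i.2 h4 e' e h1.symm).symm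
    have h4 : i = j := Fin.ext h3
    subst h4
    exact Prod.ext rfl (Subtype.ext (mul_left_cancel h1))
  have h1 := Nat.card_le_card_of_injective f hf
  rwa [Nat.card_prod, h.card, Nat.card_eq_fintype_card, Fintype.card_fin] at h1

/-- powers in `X` -/
theorem Fr.pow_X (h : Fr E u p k) {i : ℕ} {e : G} (he : e ∈ E) (m : ℕ) :
    ∃ f ∈ E, (u ^ i * e) ^ m = u ^ (i * m) * f := by
  induction m with
  | zero => exact ⟨1, one_mem _, by simp⟩
  | succ m ih =>
    obtain ⟨f, hf, h1⟩ := ih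
    refine ⟨(u ^ i)⁻¹ * f * u ^ i * e, mul_mem (h.normi i hf) he, ?_⟩
    rw [pow_succ, h1, Nat.mul_succ, pow_add]
    group

/-- **The key lemma.** -/
theorem Fr.key (h : Fr E u p k) [Finite G] {A : Subgroup G} (h0 : A.relIndex h.X < 2 ^ k) :
    E ≤ A ∨ p * 2 ^ k ≤ A.relIndex h.X * Nat.card (A ⊓ E : Subgroup G) := by
  have hrel : ∀ B : Subgroup G, Nat.card B = A.relIndex B * Nat.card (A ⊓ B : Subgroup G) := by
    intro B
    rw [Subgroup.relIndex, ← Subgroup.index_mul_card (A.subgroupOf B)]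
    congr 1
    rw [← Subgroup.inf_subgroupOf_right, Nat.card_congr (Subgroup.subgroupOfEquivOfLe (inf_le_right : A ⊓ B ≤ B)).toEquiv]
  by_cases hc : ∃ e ∈ E, u * e ∈ A
  · left
    obtain ⟨e, he, hA⟩ := hc
    rcases h.inv_or (W := A ⊓ E) inf_le_right (by
      intro x hx
      refine ⟨?_, h.norm x hx.2⟩
      have h1 := A.mul_mem (A.mul_mem hA hx.1) (A.inv_mem hA)
      have h2 : u * e * x * (u * e)⁻¹ = u * x * u⁻¹ := by
        rw [mul_assoc u e x, h.comm he hx.2]
        group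
      rwa [h2] at h1) with h1 | h1
    · exfalso
      have h2 := hrel E
      rw [h1, card_bot, mul_one, h.card] at h2
      have h3 : A.relIndex h.X ≠ 0 := (A.subgroupOf h.X).index_ne_zero_of_finite
      have h4 := relIndex_le_of_le_right h.le_X h3
      omega
    · rw [← h1]; exact inf_le_left
  · right
    have h1 : A ⊓ h.X ≤ E := by
      rintro x ⟨hxA, i, e, he, rfl⟩
      by_cases hi : p ∣ i
      · obtain ⟨m, rfl⟩ := hi
        rw [pow_mul, h.pow_p, one_pow, one_mul]
        exact he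
      · exfalso
        have h2 : Nat.Coprime i p := ((Nat.Prime.coprime_iff_not_dvd h.prime).2 hi).symm
        obtain ⟨m, hm⟩ := Nat.exists_mul_mod_eq_one_of_coprime h2 h.prime.one_lt
        obtain ⟨f, hf, h3⟩ := h.pow_X (i := i) he m
        apply hc
        refine ⟨f, hf, ?_⟩
        have h4 : u ^ (i * m) = u := by
          rw [← Nat.div_add_mod (i * m) p, hm.2, pow_add, pow_mul, h.pow_p, one_pow, one_mul, pow_one]
        rw [h4] at h3
        rw [← h3]
        exact A.pow_mem hxA m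
    have h2 : A ⊓ h.X = A ⊓ E := le_antisymm (le_inf inf_le_left h1) (inf_le_inf_left A h.le_X)
    rw [← h2, ← hrel]
    exact h.card_X

/-- index less than `2 p` -/
theorem Fr.le_of_lt (h : Fr E u p k) [Finite G] {A : Subgroup G} (h0 : A.relIndex h.X < 2 ^ k)
    (h1 : A.relIndex h.X < 2 * p) : E ≤ A := by
  rcases h.key h0 with h2 | h2
  · exact h2
  · have h3 : Nat.card (A ⊓ E : Subgroup G) ∣ 2 ^ k := by rw [← h.card]; exact card_dvd_of_le inf_le_right
    obtain ⟨j, hj, he⟩ := (Nat.dvd_prime_pow Nat.prime_two).1 h3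
    rcases Nat.lt_or_ge j k with h4 | h4
    · exfalso
      have h5 : 2 * 2 ^ j ≤ 2 ^ k := by
        rw [← pow_succ']
        exact Nat.pow_le_pow_right (by norm_num) h4
      rw [he] at h2
      have h6 : 0 < 2 ^ j := by positivity
      have h7 : A.relIndex h.X * 2 ^ j < 2 * p * 2 ^ j := Nat.mul_lt_mul_of_pos_right h1 h6
      have h8 : 2 * p * 2 ^ j ≤ p * 2 ^ k := by
        calc 2 * p * 2 ^ j = p * (2 * 2 ^ j) := by ring
          _ ≤ _ := Nat.mul_le_mul_left _ h5
      omega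
    · have h5 : A ⊓ E = E := eq_of_le_of_card_ge inf_le_right (by rw [he, h.card]; exact Nat.pow_le_pow_right (by norm_num) h4)
      rw [← h5]
      exact inf_le_left

/-- index less than `4 p` -/
theorem Fr.half (h : Fr E u p k) [Finite G] {A : Subgroup G} (h0 : A.relIndex h.X < 2 ^ k)
    (h1 : A.relIndex h.X < 4 * p) : 2 ^ k ≤ 2 * Nat.card (A ⊓ E : Subgroup G) := by
  rcases h.key h0 with h2 | h2
  · rw [inf_eq_right.2 h2, h.card]
    omega
  · have h3 : Nat.card (A ⊓ E : Subgroup G) ∣ 2 ^ k := by rw [← h.card]; exact card_dvd_of_le inf_le_right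
    obtain ⟨j, hj, he⟩ := (Nat.dvd_prime_pow Nat.prime_two).1 h3
    rw [he] at h2 ⊢
    by_contra hcon
    have h4 : 2 ^ (j + 1) < 2 ^ k := by rw [pow_succ']; omega
    have h5 : j + 1 < k := (Nat.pow_lt_pow_iff_right (by norm_num)).1 h4
    have h6 : 4 * 2 ^ j ≤ 2 ^ k := by
      calc 4 * 2 ^ j = 2 ^ (j + 2) := by ring
        _ ≤ _ := Nat.pow_le_pow_right (by norm_num) h5
    have h7 : 0 < 2 ^ j := by positivity
    have h8 : A.relIndex h.X * 2 ^ j < 4 * p * 2 ^ j := Nat.mul_lt_mul_of_pos_right h1 h7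
    have h9 : 4 * p * 2 ^ j ≤ p * 2 ^ k := by
      calc 4 * p * 2 ^ j = p * (4 * 2 ^ j) := by ring
        _ ≤ _ := Nat.mul_le_mul_left _ h6
    omega

end Cfsg.Agent.H30.Fxy
end

-- part: H447/IFO/Inv
section
prune_inst 0xf07021047c2002000018058023001c62f2000502004b000000000e060fc90c4264400e21b2b0211218ba8cc448300060011000800000000000000400011d0080008112008008a10022000e000000000000000000000000000000000000000004000000002
set_option linter.all false
open scoped Cfsg.Agent.FastGrp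

/-!
# An isometry inverting an abelian group of odd order (helper447, for S5719)

`H` abelian of odd order, acting by isometries of a non-degenerate alternating form over a finite field `F` whose
characteristic does not divide `|H|`: there is an isometry `g` with `g ∘ ρ h = ρ h⁻¹ ∘ g` for all `h` (`main`).
-/

set_option autoImplicit false

namespace Cfsg.Agent.H447.IFO

section

variable {F : Type*} [Field F] {H : Type*} [CommGroup H] {V : Type*} [AddCommGroup V] [Module F V]

/-- Factorisation of linear maps. -/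
theorem exists_factor {E W : Type*} [AddCommGroup E] [Module F E] [AddCommGroup W] [Module F W]
    (α : E →ₗ[F] V) (β : E →ₗ[F] W) (h : ∀ e, α e = 0 → β e = 0) : ∃ φ : V →ₗ[F] W, ∀ e, φ (α e) = β e := by
  obtain ⟨t, ht⟩ := LinearMap.exists_rightInverse_of_surjective α.rangeRestrict (LinearMap.range_rangeRestrict α)
  obtain ⟨π, hπ⟩ := LinearMap.exists_leftInverse_of_injective (LinearMap.range α).subtype
    (Submodule.ker_subtype _)
  refine ⟨β ∘ₗ t ∘ₗ π, fun e => ?_⟩
  have h1 : π (α e) = α.rangeRestrict e := by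
    have := LinearMap.congr_fun hπ (α.rangeRestrict e)
    exact this
  have h2 : α (t (α.rangeRestrict e)) = α e := by
    have := LinearMap.congr_fun ht (α.rangeRestrict e)
    exact congrArg Subtype.val this
  change β (t (π (α e))) = β e
  rw [h1]
  have h3 : β (t (α.rangeRestrict e) - e) = 0 := h _ (by rw [map_sub, h2, sub_self])
  rwa [map_sub, sub_eq_zero] at h3

variable (ρ : H →* Module.End F V)

/-- action of the group algebra -/
noncomputable def ac : MonoidAlgebra F H →ₐ[F] Module.End F V := MonoidAlgebra.lift F (Module.End F V) H ρ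

/-- the involution of the group algebra -/
noncomputable def st (F : Type*) [Field F] (H : Type*) [CommGroup H] : MonoidAlgebra F H →ₐ[F] MonoidAlgebra F H :=
  MonoidAlgebra.lift F (MonoidAlgebra F H) H ((MonoidAlgebra.of F H).comp invMonoidHom)

theorem ac_single (h : H) (r : F) (v : V) : ac ρ (MonoidAlgebra.single h r) v = r • ρ h v := by
  rw [ac, MonoidAlgebra.lift_single]
  rfl

theorem st_single (h : H) (r : F) : st F H (MonoidAlgebra.single h r) = MonoidAlgebra.single h⁻¹ r := by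
  rw [st, MonoidAlgebra.lift_single]
  change r • MonoidAlgebra.of F H h⁻¹ = _
  rw [MonoidAlgebra.of_apply, MonoidAlgebra.smul_single, smul_eq_mul, mul_one]

theorem st_st (e : MonoidAlgebra F H) : st F H (st F H e) = e := by
  induction e using MonoidAlgebra.induction_linear with
  | zero => simp
  | add x y hx hy => rw [map_add, map_add, hx, hy]
  | single h r => rw [st_single, st_single, inv_inv]

theorem ac_mul (e e' : MonoidAlgebra F H) (v : V) : ac ρ (e * e') v = ac ρ e (ac ρ e' v) := by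
  rw [map_mul]; rfl

theorem ac_comm (e e' : MonoidAlgebra F H) (v : V) : ac ρ e (ac ρ e' v) = ac ρ e' (ac ρ e v) := by
  rw [← ac_mul, ← ac_mul, mul_comm]

/-- invariant subspaces -/
def Inv (W : Submodule F V) : Prop := ∀ h, ∀ w ∈ W, ρ h w ∈ W

variable {ρ}

theorem Inv.ac {W : Submodule F V} (hW : Inv ρ W) (e : MonoidAlgebra F H) {w : V} (hw : w ∈ W) : ac ρ e w ∈ W := by
  induction e using MonoidAlgebra.induction_linear with
  | zero => rw [map_zero]; exact W.zero_mem
  | add x y hx hy => rw [map_add]; exact W.add_mem hx hy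
  | single h r => rw [ac_single]; exact W.smul_mem _ (hW h w hw)

/-- minimal invariant subspaces -/
structure Sim (ρ : H →* Module.End F V) (W : Submodule F V) : Prop where
  inv : Inv ρ W
  ne : W ≠ ⊥
  min : ∀ Y ≤ W, Inv ρ Y → Y ≠ ⊥ → Y = W

theorem exists_sim [FiniteDimensional F V] {U : Submodule F V} (hU : Inv ρ U) (hne : U ≠ ⊥) :
    ∃ W ≤ U, Sim ρ W := by
  obtain ⟨W, ⟨hWU, hW, hW0⟩, hmin⟩ := (wellFounded_lt (α := Submodule F V)).has_min
    {W | W ≤ U ∧ Inv ρ W ∧ W ≠ ⊥} ⟨U, le_rfl, hU, hne⟩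
  refine ⟨W, hWU, hW, hW0, fun Y hY hYi hY0 => ?_⟩
  by_contra hcon
  exact hmin Y ⟨hY.trans hWU, hYi, hY0⟩ (lt_of_le_of_ne hY hcon)

/-- a minimal invariant subspace is cyclic -/
theorem Sim.cyc {W : Submodule F V} (hW : Sim ρ W) {w0 : V} (hw0 : w0 ∈ W) (h0 : w0 ≠ 0) {w : V} (hw : w ∈ W) :
    ∃ e, Cfsg.Agent.H447.IFO.ac ρ e w0 = w := by
  let α : MonoidAlgebra F H →ₗ[F] V := (LinearMap.applyₗ w0) ∘ₗ (Cfsg.Agent.H447.IFO.ac ρ).toLinearMap
  have hα : ∀ e, α e = Cfsg.Agent.H447.IFO.ac ρ e w0 := fun e => rfl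
  have h1 : LinearMap.range α = W := by
    apply hW.min
    · rintro _ ⟨e, rfl⟩
      rw [hα]
      exact hW.inv.ac e hw0
    · rintro h _ ⟨e, rfl⟩
      refine ⟨MonoidAlgebra.single h 1 * e, ?_⟩
      rw [hα, hα, ac_mul, ac_single, one_smul]
    · intro hb
      apply h0
      have : w0 ∈ LinearMap.range α := ⟨1, by rw [hα, map_one]; rfl⟩
      rwa [hb, Submodule.mem_bot] at this
  rw [← h1] at hw
  exact hw

end

section Form

variable {F : Type*} [Field F] {H : Type*} [CommGroup H] {V : Type*} [AddCommGroup V] [Module F V]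

/-- the data: an alternating form and isometries -/
structure Dat (ρ : H →* Module.End F V) (B : V →ₗ[F] V →ₗ[F] F) : Prop where
  iso : ∀ h v w, B (ρ h v) (ρ h w) = B v w
  alt : ∀ v, B v v = 0

variable {ρ : H →* Module.End F V} {B : V →ₗ[F] V →ₗ[F] F}

theorem Dat.swap (D : Dat ρ B) (v w : V) : B v w = - B w v := by
  have h := D.alt (v + w)
  rw [map_add, map_add, LinearMap.add_apply, LinearMap.add_apply, D.alt, D.alt, zero_add, add_zero] at h
  exact eq_neg_of_add_eq_zero_right h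

theorem Dat.adj (D : Dat ρ B) (e : MonoidAlgebra F H) (v w : V) : B (ac ρ e v) w = B v (ac ρ (st F H e) w) := by
  induction e using MonoidAlgebra.induction_linear with
  | zero => simp
  | add x y hx hy =>
    rw [map_add, map_add, map_add, LinearMap.add_apply, LinearMap.add_apply, map_add, map_add,
      LinearMap.add_apply, hx, hy]
  | single h r =>
    rw [st_single, ac_single, ac_single, map_smul, map_smul, LinearMap.smul_apply, ← D.iso h v (ρ h⁻¹ w)]
    have : ρ h (ρ h⁻¹ w) = w := by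
      rw [← Module.End.mul_apply, ← map_mul, mul_inv_cancel, map_one]; rfl
    rw [this]

theorem Dat.adj' (D : Dat ρ B) (e : MonoidAlgebra F H) (v w : V) : B (ac ρ (st F H e) v) w = B v (ac ρ e w) := by
  rw [D.adj, st_st]

/-- the orthogonal space -/
def perp (B : V →ₗ[F] V →ₗ[F] F) (W : Submodule F V) : Submodule F V where
  carrier := {v | ∀ w ∈ W, B w v = 0}
  zero_mem' := fun w _ => map_zero _
  add_mem' := fun {a b} ha hb w hw => by rw [map_add, ha w hw, hb w hw, add_zero]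
  smul_mem' := fun c v hv w hw => by rw [map_smul, hv w hw, smul_zero]

theorem Dat.perp_inv (D : Dat ρ B) {W : Submodule F V} (hW : Inv ρ W) : Inv ρ (perp B W) := by
  intro h v hv w hw
  have h1 := hv _ (hW h⁻¹ w hw)
  rw [← D.iso h] at h1
  have : ρ h (ρ h⁻¹ w) = w := by
    rw [← Module.End.mul_apply, ← map_mul, mul_inv_cancel, map_one]; rfl
  rwa [this] at h1

/-- non-degenerate subspaces -/
def Nd (B : V →ₗ[F] V →ₗ[F] F) (U : Submodule F V) : Prop := ∀ u ∈ U, (∀ w ∈ U, B w u = 0) → u = 0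

/-- the conclusion for a subspace -/
def Good (ρ : H →* Module.End F V) (B : V →ₗ[F] V →ₗ[F] F) (U : Submodule F V) : Prop :=
  ∃ g : V →ₗ[F] V, (∀ u ∈ U, g u ∈ U) ∧ (∀ u ∈ U, ∀ w ∈ U, B (g u) (g w) = B u w) ∧
    ∀ h, ∀ u ∈ U, g (ρ h u) = ρ h⁻¹ (g u)

/-- the basic map between two minimal invariant subspaces in duality -/
theorem Dat.exists_phi (D : Dat ρ B) {W W' : Submodule F V} (hW : Sim ρ W) (hW' : Sim ρ W')
    (hd : ∀ w' ∈ W', (∀ w ∈ W, B w w' = 0) → w' = 0) {w0 w1 : V} (hw0 : w0 ∈ W) (h0 : w0 ≠ 0) (hw1 : w1 ∈ W') :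
    ∃ φ : V →ₗ[F] V, ∀ e, φ (ac ρ e w0) = ac ρ (st F H e) w1 := by
  let α : MonoidAlgebra F H →ₗ[F] V := (LinearMap.applyₗ w0) ∘ₗ (ac ρ).toLinearMap
  let β : MonoidAlgebra F H →ₗ[F] V := (LinearMap.applyₗ w1) ∘ₗ (ac ρ).toLinearMap ∘ₗ (st F H).toLinearMap
  obtain ⟨φ, hφ⟩ := exists_factor α β (by
    intro e he
    have he' : ac ρ e w0 = 0 := he
    change ac ρ (st F H e) w1 = 0
    apply hd _ (hW'.inv.ac _ hw1)
    intro w hw
    obtain ⟨e', rfl⟩ := hW.cyc hw0 h0 hw
    rw [← D.adj, ac_comm, he', map_zero, map_zero, LinearMap.zero_apply])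
  exact ⟨φ, hφ⟩

/-- the annihilator of a vector -/
def annI (ρ : H →* Module.End F V) (w0 : V) : Ideal (MonoidAlgebra F H) where
  carrier := {e | ac ρ e w0 = 0}
  zero_mem' := by change ac ρ 0 w0 = 0; rw [map_zero]; rfl
  add_mem' := by
    intro a b ha hb
    have ha' : ac ρ a w0 = 0 := ha
    have hb' : ac ρ b w0 = 0 := hb
    change ac ρ (a + b) w0 = 0
    rw [map_add, LinearMap.add_apply, ha', hb', add_zero]
  smul_mem' := by
    intro c x hx
    have hx' : ac ρ x w0 = 0 := hx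
    change ac ρ (c • x) w0 = 0
    rw [smul_eq_mul, ac_mul, hx', map_zero]

theorem mem_annI {w0 : V} {e : MonoidAlgebra F H} : e ∈ annI ρ w0 ↔ ac ρ e w0 = 0 := Iff.rfl

theorem Sim.annI_max {W : Submodule F V} (hW : Sim ρ W) {w0 : V} (hw0 : w0 ∈ W) (h0 : w0 ≠ 0) :
    (annI ρ w0).IsMaximal := by
  rw [Ideal.isMaximal_iff]
  refine ⟨?_, ?_⟩
  · intro h
    rw [mem_annI, map_one] at h
    exact h0 h
  · intro J x hJ hx hxJ
    obtain ⟨e, he⟩ := hW.cyc (hW.inv.ac x hw0) hx hw0
    have h1 : e * x - 1 ∈ annI ρ w0 := by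
      rw [mem_annI, map_sub, map_one, LinearMap.sub_apply, ac_mul, he]
      exact sub_self _
    have h2 := J.sub_mem (J.mul_mem_left e hxJ) (hJ h1)
    rwa [sub_sub_cancel] at h2

theorem Dat.exists_c [Finite F] [FiniteDimensional F V] [Finite H] (D : Dat ρ B) (hodd : Odd (Nat.card H))
    {W : Submodule F V} (hW : Sim ρ W) (hnd : Nd B W) {w0 : V} (hw0 : w0 ∈ W) (h0 : w0 ≠ 0) :
    ∃ c : MonoidAlgebra F H, ∀ w ∈ W, ac ρ c (ac ρ (st F H c) w) = - w := by
  have hmax := hW.annI_max hw0 h0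
  let K := MonoidAlgebra F H ⧸ annI ρ w0
  let _ : Field K := Ideal.Quotient.field (annI ρ w0)
  have hVf : Finite V := Module.finite_of_finite F
  have hKf : Finite K := by
    let j : K → V := Quotient.lift (fun e : MonoidAlgebra F H => ac ρ e w0) (by
      intro a b hab
      have h1 : a - b ∈ annI ρ w0 := by
        rw [← Ideal.Quotient.eq]
        exact Quotient.sound hab
      rw [mem_annI, map_sub, LinearMap.sub_apply, sub_eq_zero] at h1
      exact h1)
    refine Finite.of_injective j ?_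
    intro a b
    obtain ⟨a, rfl⟩ := Ideal.Quotient.mk_surjective a
    obtain ⟨b, rfl⟩ := Ideal.Quotient.mk_surjective b
    intro hab
    have h1 : ac ρ a w0 = ac ρ b w0 := hab
    rw [Ideal.Quotient.eq, mem_annI, map_sub, LinearMap.sub_apply, h1, sub_self]
  have hs : annI ρ w0 ≤ Ideal.comap (st F H).toRingHom (annI ρ w0) := by
    intro e he
    rw [Ideal.mem_comap]
    change ac ρ (st F H e) w0 = 0
    have he' : ac ρ e w0 = 0 := he
    apply hnd _ (hW.inv.ac _ hw0)
    intro w hw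
    obtain ⟨e', rfl⟩ := hW.cyc hw0 h0 hw
    rw [← D.adj, ac_comm, he', map_zero, map_zero, LinearMap.zero_apply]
  let σ : K →+* K := Ideal.quotientMap (annI ρ w0) (st F H).toRingHom hs
  have hσ : ∀ e, σ (Ideal.Quotient.mk _ e) = Ideal.Quotient.mk _ (st F H e) := fun e => rfl
  have hσ2 : ∀ a : K, σ (σ a) = a := by
    intro a
    obtain ⟨a, rfl⟩ := Ideal.Quotient.mk_surjective a
    rw [hσ, hσ, st_st]
  have hne : σ ≠ RingHom.id K := by
    intro hid
    -- `ρ h⁻¹ w0 = ρ h w0` for all `h`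
    have h1 : ∀ h : H, ρ h w0 = w0 := by
      have h2 : ∀ h : H, ρ (h ^ 2) w0 = w0 := by
        intro h
        have h3 := hσ (MonoidAlgebra.single h 1)
        rw [hid, RingHom.id_apply, st_single, Ideal.Quotient.eq, mem_annI, map_sub, LinearMap.sub_apply, ac_single,
          ac_single, one_smul, one_smul, sub_eq_zero] at h3
        rw [pow_two, map_mul, Module.End.mul_apply, h3, ← Module.End.mul_apply, ← map_mul, mul_inv_cancel, map_one]
        rfl
      have h4 : ∀ (h : H) (i : ℕ), ρ ((h ^ 2) ^ i) w0 = w0 := by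
        intro h i
        induction i with
        | zero => rw [pow_zero, map_one]; rfl
        | succ i ih => rw [pow_succ, map_mul, Module.End.mul_apply, h2, ih]
      intro h
      obtain ⟨i, hi⟩ := hodd
      have h5 : (h ^ 2) ^ (i + 1) = h := by
        rw [← pow_mul]
        have : 2 * (i + 1) = Nat.card H + 1 := by omega
        rw [this, pow_succ, pow_card_eq_one', one_mul]
      rw [← h5]
      exact h4 h _
    apply h0
    apply hnd _ hw0
    intro w hw
    obtain ⟨e, rfl⟩ := hW.cyc hw0 h0 hw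
    clear hw
    induction e using MonoidAlgebra.induction_linear with
    | zero => simp
    | add x y hx hy => rw [map_add, LinearMap.add_apply, map_add, LinearMap.add_apply, hx, hy, add_zero]
    | single h r => rw [ac_single, h1, map_smul, LinearMap.smul_apply, D.alt, smul_zero]
  obtain ⟨x, hx⟩ := Cfsg.Agent.ClassicalGeometry.InvolutiveNorm.exists_mul_sigma_eq hne hσ2
    (a := (-1 : K)) (by rw [map_neg, map_one])
  obtain ⟨c, rfl⟩ := Ideal.Quotient.mk_surjective x
  rw [hσ, ← map_mul, ← map_one (Ideal.Quotient.mk (annI ρ w0)), ← map_neg, Ideal.Quotient.eq, sub_neg_eq_add, mem_annI,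
    map_add, map_one, LinearMap.add_apply, ac_mul] at hx
  have hx' : ac ρ c (ac ρ (st F H c) w0) = - w0 := by
    rw [eq_neg_iff_add_eq_zero]
    exact hx
  refine ⟨c, fun w hw => ?_⟩
  obtain ⟨e, rfl⟩ := hW.cyc hw0 h0 hw
  rw [ac_comm ρ (st F H c) e, ac_comm ρ c e, hx', map_neg]

/-- the case of a non-degenerate minimal invariant subspace -/
theorem Dat.good_a [Finite F] [FiniteDimensional F V] [Finite H] (D : Dat ρ B) (hodd : Odd (Nat.card H))
    {W : Submodule F V} (hW : Sim ρ W) (hnd : Nd B W) : Good ρ B W := by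
  obtain ⟨w0, hw0, h0⟩ := Submodule.exists_mem_ne_zero_of_ne_bot hW.ne
  obtain ⟨φ, hφ⟩ := D.exists_phi hW hW hnd hw0 h0 hw0
  obtain ⟨c, hc⟩ := D.exists_c hodd hW hnd hw0 h0
  refine ⟨(ac ρ c) ∘ₗ φ, ?_, ?_, ?_⟩
  · intro u hu
    obtain ⟨e, rfl⟩ := hW.cyc hw0 h0 hu
    change ac ρ c (φ _) ∈ W
    rw [hφ]
    exact hW.inv.ac _ (hW.inv.ac _ hw0)
  · intro u hu w hw
    obtain ⟨e, rfl⟩ := hW.cyc hw0 h0 hu
    obtain ⟨e', rfl⟩ := hW.cyc hw0 h0 hw
    change B (ac ρ c (φ _)) (ac ρ c (φ _)) = _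
    rw [hφ, hφ, D.adj, ac_comm ρ (st F H c) c, hc _ (hW.inv.ac _ hw0), map_neg, D.adj', ac_comm, ← D.adj', st_st,
      ← D.swap]
  · intro h u hu
    obtain ⟨e, rfl⟩ := hW.cyc hw0 h0 hu
    change ac ρ c (φ _) = ρ h⁻¹ (ac ρ c (φ _))
    have h1 : ρ h (ac ρ e w0) = ac ρ (MonoidAlgebra.single h 1 * e) w0 := by rw [ac_mul, ac_single, one_smul]
    have h2 : ∀ v : V, ρ h⁻¹ v = ac ρ (MonoidAlgebra.single h⁻¹ 1) v := fun v => by rw [ac_single, one_smul]
    rw [h1, hφ, hφ, map_mul, st_single, ac_mul, h2, ac_comm]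

/-- a projection commuting with the action (Maschke) -/
theorem exists_proj [Finite H] (hH : (Nat.card H : F) ≠ 0) {X : Submodule F V} (hX : Inv ρ X) :
    ∃ π : V →ₗ[F] V, (∀ v, π v ∈ X) ∧ (∀ x ∈ X, π x = x) ∧ ∀ h v, π (ρ h v) = ρ h (π v) := by
  classical
  cases nonempty_fintype H
  obtain ⟨π0, hπ0⟩ := LinearMap.exists_leftInverse_of_injective X.subtype (Submodule.ker_subtype _)
  have hπ1 : ∀ x ∈ X, ((π0 x : X) : V) = x := fun x hx => congrArg Subtype.val (LinearMap.congr_fun hπ0 ⟨x, hx⟩)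
  have hrr : ∀ (h : H) (v : V), ρ h (ρ h⁻¹ v) = v := by
    intro h v
    rw [← Module.End.mul_apply, ← map_mul, mul_inv_cancel, map_one]; rfl
  let π : V →ₗ[F] V := (Nat.card H : F)⁻¹ • ∑ h : H, (ρ h) ∘ₗ X.subtype ∘ₗ π0 ∘ₗ (ρ h⁻¹)
  have hπ : ∀ v, π v = (Nat.card H : F)⁻¹ • ∑ h : H, ρ h ((π0 (ρ h⁻¹ v) : X) : V) := by
    intro v
    simp only [π, LinearMap.smul_apply, LinearMap.sum_apply, LinearMap.comp_apply, Submodule.subtype_apply]
  refine ⟨π, ?_, ?_, ?_⟩
  · intro v
    rw [hπ]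
    exact X.smul_mem _ (X.sum_mem fun h _ => hX h _ (π0 _).2)
  · intro x hx
    rw [hπ]
    have h1 : ∀ h : H, ρ h ((π0 (ρ h⁻¹ x) : X) : V) = x := by
      intro h
      rw [hπ1 _ (hX h⁻¹ x hx), hrr]
    rw [Finset.sum_congr rfl (fun h _ => h1 h), Finset.sum_const, Finset.card_univ, ← Nat.card_eq_fintype_card,
      ← Nat.cast_smul_eq_nsmul F, smul_smul, inv_mul_cancel₀ hH, one_smul]
  · intro k v
    rw [hπ, hπ, map_smul, map_sum]
    congr 1
    refine Fintype.sum_equiv (Equiv.mulLeft k⁻¹) _ _ fun h => ?_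
    rw [Equiv.coe_mulLeft]
    have h1 : ρ k (ρ (k⁻¹ * h) ((π0 (ρ (k⁻¹ * h)⁻¹ v) : X) : V)) = ρ h ((π0 (ρ (k⁻¹ * h)⁻¹ v) : X) : V) := by
      rw [← Module.End.mul_apply, ← map_mul, mul_inv_cancel_left]
    rw [h1]
    have h2 : ρ h⁻¹ (ρ k v) = ρ (k⁻¹ * h)⁻¹ v := by
      rw [← Module.End.mul_apply, ← map_mul]
      congr 3
      rw [mul_inv_rev, inv_inv]
    rw [h2]

theorem exp4 (B : V →ₗ[F] V →ₗ[F] F) (a b c d : V) : B (a + b) (c + d) = B a c + B a d + (B b c + B b d) := by
  rw [map_add B a b, LinearMap.add_apply, map_add (B a), map_add (B b)]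

/-- gluing -/
theorem Dat.good_glue [FiniteDimensional F V] (D : Dat ρ B) {N U : Submodule F V} (hN : Inv ρ N) (hNd : Nd B N)
    (hNU : N ≤ U) (h1 : Good ρ B N) (h2 : Good ρ B (perp B N ⊓ U)) : Good ρ B U := by
  obtain ⟨g1, h11, h12, h13⟩ := h1
  obtain ⟨g2, h21, h22, h23⟩ := h2
  -- the orthogonal projection on `N`
  have hsw : ∀ v w, B v w = - B w v := D.swap
  obtain ⟨π, hπ1, hπ2⟩ : ∃ π : V →ₗ[F] V, (∀ v, π v ∈ N) ∧ ∀ v, v - π v ∈ perp B N := by
    let b : N →ₗ[F] Module.Dual F N :=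
      { toFun := fun n => (B n).comp N.subtype
        map_add' := fun x y => by ext z; simp only [_root_.Submodule.coe_add, _root_.map_add, _root_.LinearMap.coe_comp, _root_.Submodule.coe_subtype, _root_.Function.comp_apply, _root_.LinearMap.add_apply]
        map_smul' := fun c x => by ext z; simp only [_root_.SetLike.val_smul, _root_.map_smul, _root_.LinearMap.coe_comp, _root_.LinearMap.coe_smul, _root_.Submodule.coe_subtype, _root_.Function.comp_apply, _root_.Pi.smul_apply, _root_.smul_eq_mul, _root_.RingHom.id_apply, _root_.LinearMap.smul_apply] }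
    have hb : ∀ n n' : N, b n n' = B n n' := fun n n' => rfl
    have hinj : Function.Injective b := by
      rw [injective_iff_map_eq_zero]
      intro n hn
      apply Subtype.ext
      apply hNd _ n.2
      intro w hw
      rw [hsw, ← hb n ⟨w, hw⟩, hn, LinearMap.zero_apply, neg_zero]
    have hsurj : Function.Surjective b := by
      rw [← LinearMap.range_eq_top]
      apply Submodule.eq_top_of_finrank_eq
      rw [LinearMap.finrank_range_of_inj hinj, Subspace.dual_finrank_eq]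
    let c : V →ₗ[F] Module.Dual F N :=
      { toFun := fun v => (B v).comp N.subtype
        map_add' := fun x y => by ext z; simp only [_root_.map_add, _root_.LinearMap.coe_comp, _root_.Submodule.coe_subtype, _root_.Function.comp_apply, _root_.LinearMap.add_apply]
        map_smul' := fun c x => by ext z; simp only [_root_.map_smul, _root_.LinearMap.coe_comp, _root_.LinearMap.coe_smul, _root_.Submodule.coe_subtype, _root_.Function.comp_apply, _root_.Pi.smul_apply, _root_.smul_eq_mul, _root_.RingHom.id_apply, _root_.LinearMap.smul_apply] }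
    obtain ⟨t, ht⟩ := LinearMap.exists_rightInverse_of_surjective b (LinearMap.range_eq_top.2 hsurj)
    refine ⟨N.subtype ∘ₗ t ∘ₗ c, fun v => (t (c v)).2, fun v => ?_⟩
    intro w hw
    have h3 : b (t (c v)) = c v := LinearMap.congr_fun ht (c v)
    have h4 : B (t (c v) : V) w = B v w := LinearMap.congr_fun h3 ⟨w, hw⟩
    change B w (v - (t (c v) : V)) = 0
    rw [map_sub, hsw w v, hsw w, h4, sub_self]
  have hNN : ∀ x ∈ N, x ∈ perp B N → x = 0 := fun x hx hx' => hNd x hx hx'
  have hπρ : ∀ h v, π (ρ h v) = ρ h (π v) := by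
    intro h v
    have h3 : π (ρ h v) - ρ h (π v) ∈ N := N.sub_mem (hπ1 _) (hN h _ (hπ1 v))
    have h4 : π (ρ h v) - ρ h (π v) ∈ perp B N := by
      have e : π (ρ h v) - ρ h (π v) = ρ h (v - π v) - (ρ h v - π (ρ h v)) := by rw [map_sub]; abel
      rw [e]
      exact (perp B N).sub_mem (D.perp_inv hN h _ (hπ2 v)) (hπ2 _)
    exact sub_eq_zero.1 (hNN _ h3 h4)
  have hp : ∀ u ∈ U, u - π u ∈ perp B N ⊓ U := fun u hu => ⟨hπ2 u, U.sub_mem hu (hNU (hπ1 u))⟩
  have horth : ∀ x ∈ N, ∀ y ∈ perp B N ⊓ U, B x y = 0 := fun x hx y hy => hy.1 x hx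
  have horth' : ∀ x ∈ N, ∀ y ∈ perp B N ⊓ U, B y x = 0 := fun x hx y hy => by rw [hsw, hy.1 x hx, neg_zero]
  refine ⟨g1 ∘ₗ π + g2 ∘ₗ (LinearMap.id - π), ?_, ?_, ?_⟩
  · intro u hu
    exact U.add_mem (hNU (h11 _ (hπ1 u))) (h21 _ (hp u hu)).2
  · intro u hu w hw
    change B (g1 (π u) + g2 (u - π u)) (g1 (π w) + g2 (w - π w)) = B u w
    rw [exp4, h12 _ (hπ1 u) _ (hπ1 w), h22 _ (hp u hu) _ (hp w hw),
      horth _ (h11 _ (hπ1 u)) _ (h21 _ (hp w hw)), horth' _ (h11 _ (hπ1 w)) _ (h21 _ (hp u hu))]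
    have e1 : B u w = B (π u + (u - π u)) (π w + (w - π w)) := by rw [add_sub_cancel, add_sub_cancel]
    rw [e1, exp4, horth _ (hπ1 u) _ (hp w hw), horth' _ (hπ1 w) _ (hp u hu)]
  · intro h u hu
    change g1 (π (ρ h u)) + g2 (ρ h u - π (ρ h u)) = ρ h⁻¹ (g1 (π u) + g2 (u - π u))
    rw [hπρ, ← map_sub, h13 h _ (hπ1 u), h23 h _ (hp u hu), map_add]

/-- two totally isotropic minimal invariant subspaces in duality -/
theorem Dat.good_b [FiniteDimensional F V] (D : Dat ρ B) {W W' : Submodule F V} (hW : Sim ρ W) (hW' : Sim ρ W')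
    (hi : ∀ v ∈ W, ∀ w ∈ W, B v w = 0) (hi' : ∀ v ∈ W', ∀ w ∈ W', B v w = 0)
    (hd : ∀ w' ∈ W', (∀ w ∈ W, B w w' = 0) → w' = 0) (hd' : ∀ w ∈ W, (∀ w' ∈ W', B w' w = 0) → w = 0) :
    Inv ρ (W ⊔ W') ∧ Nd B (W ⊔ W') ∧ Good ρ B (W ⊔ W') := by
  obtain ⟨w0, hw0, h0⟩ := Submodule.exists_mem_ne_zero_of_ne_bot hW.ne
  obtain ⟨w1, hw1, h1⟩ := Submodule.exists_mem_ne_zero_of_ne_bot hW'.ne
  obtain ⟨φ, hφ⟩ := D.exists_phi hW hW' hd hw0 h0 hw1
  obtain ⟨ψ, hψ⟩ := D.exists_phi hW' hW hd' hw1 h1 hw0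
  have hsw : ∀ v w, B v w = - B w v := D.swap
  have hdis : ∀ x ∈ W, x ∈ W' → x = 0 := fun x hx hx' => hd' x hx (fun w' hw' => hi' w' hw' x hx')
  have hφm : ∀ x ∈ W, φ x ∈ W' := by
    intro x hx
    obtain ⟨e, rfl⟩ := hW.cyc hw0 h0 hx
    rw [hφ]
    exact hW'.inv.ac _ hw1
  have hψm : ∀ x ∈ W', ψ x ∈ W := by
    intro x hx
    obtain ⟨e, rfl⟩ := hW'.cyc hw1 h1 hx
    rw [hψ]
    exact hW.inv.ac _ hw0
  have hac : ∀ (h : H) (v : V), ρ h v = ac ρ (MonoidAlgebra.single h 1) v := fun h v => by rw [ac_single, one_smul]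
  have hφρ : ∀ h, ∀ x ∈ W, φ (ρ h x) = ρ h⁻¹ (φ x) := by
    intro h x hx
    obtain ⟨e, rfl⟩ := hW.cyc hw0 h0 hx
    rw [hac h, ← ac_mul, hφ, hφ, map_mul, st_single, ac_mul, ← hac]
  have hψρ : ∀ h, ∀ x ∈ W', ψ (ρ h x) = ρ h⁻¹ (ψ x) := by
    intro h x hx
    obtain ⟨e, rfl⟩ := hW'.cyc hw1 h1 hx
    rw [hac h, ← ac_mul, hψ, hψ, map_mul, st_single, ac_mul, ← hac]
  have hBφ : ∀ x ∈ W, ∀ y ∈ W', B (φ x) (ψ y) = - B x y := by
    intro x hx y hy
    obtain ⟨e, rfl⟩ := hW.cyc hw0 h0 hx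
    obtain ⟨e', rfl⟩ := hW'.cyc hw1 h1 hy
    rw [hφ, hψ, D.adj', ac_comm, ← D.adj', st_st, hsw]
  obtain ⟨π, hπ⟩ : ∃ π : V →ₗ[F] V, (∀ x ∈ W, π x = x) ∧ ∀ y ∈ W', π y = 0 := by
    obtain ⟨C, hC⟩ := Submodule.exists_isCompl (W ⊔ W')
    -- the sum map
    let α : (W × W') × C →ₗ[F] V :=
      (W.subtype.coprod W'.subtype).coprod C.subtype
    have hα : ∀ a b c, α ((a, b), c) = (a : V) + b + c := fun a b c => rfl
    obtain ⟨φ', hφ'⟩ := exists_factor α (W.subtype ∘ₗ LinearMap.fst F W W' ∘ₗ LinearMap.fst F (W × W') C) (by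
      rintro ⟨⟨a, b⟩, c⟩ h
      rw [hα] at h
      change (a : V) = 0
      have h2 : (c : V) = 0 := by
        have h3 : (c : V) ∈ W ⊔ W' := by
          have : (c : V) = -((a : V) + b) := by rw [eq_neg_iff_add_eq_zero, add_comm]; exact h
          rw [this]
          exact Submodule.neg_mem _ (Submodule.add_mem_sup a.2 b.2)
        exact (Submodule.disjoint_def.1 hC.disjoint) _ h3 c.2
      rw [h2, add_zero] at h
      apply hdis _ a.2
      rw [eq_neg_of_add_eq_zero_left h]
      exact W'.neg_mem b.2)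
    refine ⟨φ', fun x hx => ?_, fun y hy => ?_⟩
    · have := hφ' ((⟨x, hx⟩, 0), 0)
      rw [hα] at this
      simpa only [_root_.ZeroMemClass.coe_zero, _root_.add_zero, _root_.LinearMap.coe_comp, _root_.Submodule.coe_subtype, _root_.LinearMap.coe_fst, _root_.Function.comp_apply] using this
    · have := hφ' ((0, ⟨y, hy⟩), 0)
      rw [hα] at this
      simpa only [_root_.ZeroMemClass.coe_zero, _root_.zero_add, _root_.add_zero, _root_.LinearMap.coe_comp, _root_.Submodule.coe_subtype, _root_.LinearMap.coe_fst, _root_.Function.comp_apply] using this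
  obtain ⟨hπW, hπW'⟩ := hπ
  have hdec : ∀ u ∈ W ⊔ W', ∃ x ∈ W, ∃ y ∈ W', u = x + y := by
    intro u hu
    obtain ⟨x, hx, y, hy, rfl⟩ := Submodule.mem_sup.1 hu
    exact ⟨x, hx, y, hy, rfl⟩
  have hinv : Inv ρ (W ⊔ W') := by
    intro h u hu
    obtain ⟨x, hx, y, hy, rfl⟩ := hdec u hu
    rw [map_add]
    exact Submodule.add_mem_sup (hW.inv h x hx) (hW'.inv h y hy)
  refine ⟨hinv, ?_, ?_⟩
  · intro u hu hu0
    obtain ⟨x, hx, y, hy, rfl⟩ := hdec u hu
    have hy0 : y = 0 := hd y hy (fun w hw => by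
      have h3 := hu0 w (Submodule.mem_sup_left hw)
      rwa [map_add, hi w hw x hx, zero_add] at h3)
    have hx0 : x = 0 := hd' x hx (fun w hw => by
      have h3 := hu0 w (Submodule.mem_sup_right hw)
      rwa [map_add, hi' w hw y hy, add_zero] at h3)
    rw [hx0, hy0, add_zero]
  · obtain ⟨g, hg⟩ : ∃ g : V →ₗ[F] V, ∀ x ∈ W, ∀ y ∈ W', g (x + y) = φ x - ψ y := by
      refine ⟨φ ∘ₗ π - ψ ∘ₗ (LinearMap.id - π), ?_⟩
      intro x hx y hy
      change φ (π (x + y)) - ψ ((x + y) - π (x + y)) = _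
      rw [map_add π, hπW x hx, hπW' y hy, add_zero, add_sub_cancel_left]
    refine ⟨g, ?_, ?_, ?_⟩
    · intro u hu
      obtain ⟨x, hx, y, hy, rfl⟩ := hdec u hu
      rw [hg x hx y hy]
      exact Submodule.sub_mem _ (Submodule.mem_sup_right (hφm x hx)) (Submodule.mem_sup_left (hψm y hy))
    · intro u hu w hw
      obtain ⟨x, hx, y, hy, rfl⟩ := hdec u hu
      obtain ⟨x', hx', y', hy', rfl⟩ := hdec w hw
      rw [hg x hx y hy, hg x' hx' y' hy']
      rw [sub_eq_add_neg, sub_eq_add_neg, exp4, exp4, map_neg, map_neg, map_neg, LinearMap.neg_apply,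
        LinearMap.neg_apply, hi' _ (hφm x hx) _ (hφm x' hx'), hi _ (hψm y hy) _ (hψm y' hy'),
        hBφ x hx y' hy', hsw (ψ y) (φ x'), hBφ x' hx' y hy, hi x hx x' hx', hi' y hy y' hy', hsw y x']
      ring
    · intro h u hu
      obtain ⟨x, hx, y, hy, rfl⟩ := hdec u hu
      rw [map_add, hg _ (hW.inv h x hx) _ (hW'.inv h y hy), hg x hx y hy, hφρ h x hx, hψρ h y hy, map_sub]

theorem Dat.nd_or [FiniteDimensional F V] (D : Dat ρ B) {W : Submodule F V} (hW : Sim ρ W) :
    Nd B W ∨ ∀ v ∈ W, ∀ w ∈ W, B v w = 0 := by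
  by_cases h : W ⊓ perp B W = ⊥
  · left
    intro u hu hu0
    have : u ∈ W ⊓ perp B W := ⟨hu, hu0⟩
    rwa [h, Submodule.mem_bot] at this
  · right
    have h1 : W ⊓ perp B W = W := hW.min _ inf_le_left
      (fun h w hw => ⟨hW.inv h w hw.1, D.perp_inv hW.inv h w hw.2⟩) h
    intro v hv w hw
    rw [← h1] at hw
    exact hw.2 v hv

/-- **The induction.** -/
theorem Dat.good [Finite F] [FiniteDimensional F V] [Finite H] (D : Dat ρ B) (hodd : Odd (Nat.card H))
    (hH : (Nat.card H : F) ≠ 0) (n : ℕ) : ∀ U : Submodule F V, Inv ρ U → Nd B U → Module.finrank F U ≤ n → Good ρ B U := by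
  induction n with
  | zero =>
    intro U hU hUd hf
    have h1 : U = ⊥ := Submodule.finrank_eq_zero.1 (Nat.le_zero.1 hf)
    subst h1
    refine ⟨0, ?_, ?_, ?_⟩
    · intro u hu
      exact Submodule.zero_mem _
    · intro u hu w hw
      rw [(Submodule.mem_bot F).1 hu, (Submodule.mem_bot F).1 hw]
      simp
    · intro h u hu
      simp only [_root_.LinearMap.zero_apply, _root_.map_zero]
  | succ n ih =>
    intro U hU hUd hf
    rcases eq_or_ne U ⊥ with hb | hb
    · exact ih U hU hUd (by rw [hb, finrank_bot]; exact Nat.zero_le _)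
    -- reduction to a nonzero non-degenerate `N ≤ U`
    have key : ∀ N ≤ U, N ≠ ⊥ → Inv ρ N → Nd B N → Good ρ B N → Good ρ B U := by
      intro N hNU hN0 hN hNd hg
      refine D.good_glue hN hNd hNU hg (ih _ ?_ ?_ ?_)
      · intro h u hu
        exact ⟨D.perp_inv hN h u hu.1, hU h u hu.2⟩
      · intro u hu hu0
        apply hUd u hu.2
        intro w hw
        -- `w = n + w'`
        obtain ⟨k, hk, hk'⟩ : ∃ k ∈ N, w - k ∈ perp B N := by
          let b : N →ₗ[F] Module.Dual F N :=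
            { toFun := fun n => (B n).comp N.subtype
              map_add' := fun x y => by ext z; simp only [_root_.Submodule.coe_add, _root_.map_add, _root_.LinearMap.coe_comp, _root_.Submodule.coe_subtype, _root_.Function.comp_apply, _root_.LinearMap.add_apply]
              map_smul' := fun c x => by ext z; simp only [_root_.SetLike.val_smul, _root_.map_smul, _root_.LinearMap.coe_comp, _root_.LinearMap.coe_smul, _root_.Submodule.coe_subtype, _root_.Function.comp_apply, _root_.Pi.smul_apply, _root_.smul_eq_mul, _root_.RingHom.id_apply, _root_.LinearMap.smul_apply] }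
          have hb' : ∀ n n' : N, b n n' = B n n' := fun n n' => rfl
          have hinj : Function.Injective b := by
            rw [injective_iff_map_eq_zero]
            intro n hn
            apply Subtype.ext
            apply hNd _ n.2
            intro w hw
            rw [D.swap, ← hb' n ⟨w, hw⟩, hn, LinearMap.zero_apply, neg_zero]
          have hsurj : Function.Surjective b := by
            rw [← LinearMap.range_eq_top]
            apply Submodule.eq_top_of_finrank_eq
            rw [LinearMap.finrank_range_of_inj hinj, Subspace.dual_finrank_eq]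
          obtain ⟨k, hk⟩ := hsurj ((B w).comp N.subtype)
          refine ⟨k, k.2, ?_⟩
          intro x hx
          have h4 : B (k : V) x = B w x := LinearMap.congr_fun hk ⟨x, hx⟩
          rw [map_sub, D.swap x w, D.swap x, h4, sub_self]
        have h5 : w - k ∈ perp B N ⊓ U := ⟨hk', U.sub_mem hw (hNU hk)⟩
        have h6 := hu0 _ h5
        rw [map_sub, LinearMap.sub_apply, hu.1 k hk, sub_zero] at h6
        exact h6
      · have hlt : perp B N ⊓ U < U := by
          refine lt_of_le_of_ne inf_le_right ?_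
          intro he
          apply hN0
          rw [Submodule.eq_bot_iff]
          intro x hx
          have h7 : x ∈ perp B N ⊓ U := by rw [he]; exact hNU hx
          exact hNd x hx h7.1
        have := Submodule.finrank_lt_finrank_of_lt hlt
        omega
    obtain ⟨W, hWU, hW⟩ := exists_sim hU hb
    rcases D.nd_or hW with hWd | hWi
    · exact key W hWU hW.ne hW.inv hWd (D.good_a hodd hW hWd)
    -- `X = W^⊥ ∩ U`
    have hXi : Inv ρ (perp B W ⊓ U) := fun h u hu => ⟨D.perp_inv hW.inv h u hu.1, hU h u hu.2⟩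
    obtain ⟨π, hπ1, hπ2, hπ3⟩ := exists_proj hH hXi
    have hCi : Inv ρ (LinearMap.ker π ⊓ U) := by
      intro h u hu
      refine ⟨?_, hU h u hu.2⟩
      have h1 : π u = 0 := hu.1
      change π (ρ h u) = 0
      rw [hπ3, h1, map_zero]
    have hC0 : LinearMap.ker π ⊓ U ≠ ⊥ := by
      intro hc
      apply hW.ne
      rw [Submodule.eq_bot_iff]
      intro w hw
      apply hUd w (hWU hw)
      intro u hu
      have h1 : u - π u ∈ LinearMap.ker π ⊓ U := by
        refine ⟨?_, U.sub_mem hu (hπ1 u).2⟩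
        change π (u - π u) = 0
        rw [map_sub, hπ2 _ (hπ1 u), sub_self]
      rw [hc, Submodule.mem_bot, sub_eq_zero] at h1
      have h2 : u ∈ perp B W := by rw [h1]; exact (hπ1 u).1
      rw [D.swap, h2 w hw, neg_zero]
    obtain ⟨W', hW'C, hW'⟩ := exists_sim hCi hC0
    have hW'U : W' ≤ U := hW'C.trans inf_le_right
    rcases D.nd_or hW' with hWd | hWi'
    · exact key W' hW'U hW'.ne hW'.inv hWd (D.good_a hodd hW' hWd)
    have hd : ∀ w' ∈ W', (∀ w ∈ W, B w w' = 0) → w' = 0 := by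
      intro w' hw' h1
      have h2 : w' ∈ perp B W ⊓ U := ⟨h1, hW'U hw'⟩
      have h3 := hπ2 w' h2
      have h4 : π w' = 0 := (hW'C hw').1
      rw [← h3, h4]
    have hd' : ∀ w ∈ W, (∀ w' ∈ W', B w' w = 0) → w = 0 := by
      have h1 : W ⊓ perp B W' = ⊥ := by
        by_contra hcon
        have h2 : W ⊓ perp B W' = W := hW.min _ inf_le_left
          (fun h w hw => ⟨hW.inv h w hw.1, D.perp_inv hW'.inv h w hw.2⟩) hcon
        apply hW'.ne
        rw [Submodule.eq_bot_iff]
        intro w' hw'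
        apply hd w' hw'
        intro w hw
        rw [← h2] at hw
        rw [D.swap, hw.2 w' hw', neg_zero]
      intro w hw h2
      have : w ∈ W ⊓ perp B W' := ⟨hw, h2⟩
      rwa [h1, Submodule.mem_bot] at this
    obtain ⟨h1, h2, h3⟩ := D.good_b hW hW' hWi hWi' hd hd'
    refine key (W ⊔ W') (sup_le hWU hW'U) ?_ h1 h2 h3
    intro hbot
    apply hW.ne
    rw [eq_bot_iff, ← hbot]
    exact le_sup_left

/-- **An isometry inverting `H`.** -/
theorem Dat.exists_inverting [Finite F] [FiniteDimensional F V] [Finite H] (D : Dat ρ B) (hodd : Odd (Nat.card H))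
    (hH : (Nat.card H : F) ≠ 0) (hnd : ∀ u, (∀ w, B w u = 0) → u = 0) :
    ∃ g : V →ₗ[F] V, (∀ u w, B (g u) (g w) = B u w) ∧ ∀ h u, g (ρ h u) = ρ h⁻¹ (g u) := by
  obtain ⟨g, -, h2, h3⟩ := D.good hodd hH _ ⊤ (fun h w _ => Submodule.mem_top)
    (fun u _ hu => hnd u (fun w => hu w Submodule.mem_top)) le_rfl
  exact ⟨g, fun u w => h2 u Submodule.mem_top w Submodule.mem_top, fun h u => h3 h u Submodule.mem_top⟩

end Form

end Cfsg.Agent.H447.IFO

private theorem dce_0d0cb1c6567f : _root_.True := by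
  try have : _root_.True := by simp only [_root_.Cfsg.Agent.H447.IFO.ac.eq_1]
  try have : _root_.True := by simp only [_root_.Cfsg.Agent.H447.IFO.st.eq_1]
  exact _root_.True.intro
end

-- part: H407/IF/Cls
section
prune_inst 0xf17045404d6202000018008603201c22f0000522004b000028000e060f484862cd802e20008021121a2290810005002001100010424000000e00040000050120808052003324a10406001f800000000000000000000000000000000000000004000000002
set_option linter.all false
open scoped Cfsg.Agent.FastGrp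

/-!
# S5719, symplectic groups in characteristic 2 (helper407): involutions of a given rank

`SI B k` : the elements `g` of `Sp B` with `g ^ 2 = 1` and `rank (g - 1) = k`.
`card_SI` : `|SI B k| * ∏_{i < k} (q ^ k - q ^ i) ≤ q ^ (k (2 m + 1))`.
-/

set_option autoImplicit false
set_option linter.unusedSectionVars false
set_option linter.unusedSimpArgs false

namespace Cfsg.Agent.H407.IF

open Module Subgroup Cfsg.Agent.H74.Psp

variable {F V : Type*} [Field F] [AddCommGroup V] [Module F V] {B : V →ₗ[F] V →ₗ[F] F}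

/-- `g - 1` -/
def nl (g : Sp B) : V →ₗ[F] V := (g : V ≃ₗ[F] V).toLinearMap - LinearMap.id

theorem nl_apply (g : Sp B) (x : V) : nl g x = g • x - x := rfl

theorem smul_eq_add (g : Sp B) (x : V) : g • x = x + nl g x := by rw [nl_apply]; abel

theorem nl_eq_zero {g : Sp B} {x : V} : nl g x = 0 ↔ g • x = x := by rw [nl_apply, sub_eq_zero]

theorem nl_inj {g h : Sp B} (H : ∀ x, nl g x = nl h x) : g = h := by
  apply Sp.ext'
  intro x
  rw [smul_eq_add, H, ← smul_eq_add]

theorem nl_sym {g : Sp B} (h : g * g = 1) (x y : V) : B (nl g x) y = B x (nl g y) := by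
  have h1 : g⁻¹ = g := inv_eq_of_mul_eq_one_left h
  rw [nl_apply, nl_apply, map_sub, map_sub, LinearMap.sub_apply, B_smul_left, h1]

section Char2

variable (h2 : (2 : F) = 0)
include h2

theorem addself (x : V) : x + x = 0 := by
  rw [← two_smul F x, h2, zero_smul]

theorem nl_nl {g : Sp B} (h : g * g = 1) (x : V) : nl g (nl g x) = 0 := by
  have h1 : g • g • x = x := by rw [← mul_smul, h, one_smul]
  rw [nl_apply, nl_apply, smul_sub, h1]
  have h3 : x - g • x - (g • x - x) = (x + x) - (g • x + g • x) := by abel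
  rw [h3, addself h2, addself h2, sub_zero]

theorem negself (x : V) : -x = x := by
  rw [neg_eq_iff_add_eq_zero, addself h2]

end Char2

theorem mem_ker_nl (hB : Symp B) {g : Sp B} (h : g * g = 1) {y : V} (hy : ∀ x, B (nl g x) y = 0) : nl g y = 0 := by
  apply hB.nd
  intro x
  apply orth_symm hB
  rw [← nl_sym h, hy]

/-- `g - 1` for a conjugate -/
theorem nl_conj (x g : Sp B) (v : V) : nl (x * g * x⁻¹) v = x • nl g (x⁻¹ • v) := by
  rw [nl_apply, nl_apply, smul_sub, mul_smul, mul_smul, smul_inv_smul]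

theorem finrank_nl_conj (x g : Sp B) :
    finrank F (LinearMap.range (nl (x * g * x⁻¹))) = finrank F (LinearMap.range (nl g)) := by
  have h : LinearMap.range (nl (x * g * x⁻¹)) = (LinearMap.range (nl g)).map (x : V ≃ₗ[F] V).toLinearMap := by
    ext v
    constructor
    · rintro ⟨w, rfl⟩
      exact ⟨nl g (x⁻¹ • w), ⟨_, rfl⟩, (nl_conj x g w).symm⟩
    · rintro ⟨_, ⟨w, rfl⟩, rfl⟩
      refine ⟨x • w, ?_⟩
      rw [nl_conj, inv_smul_smul]
      rfl
  rw [h]
  exact LinearEquiv.finrank_map_eq (x : V ≃ₗ[F] V) _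

/-- the elements of square one and rank `k` -/
def SI (B : V →ₗ[F] V →ₗ[F] F) (k : ℕ) : Set (Sp B) :=
  {g | g * g = 1 ∧ finrank F (LinearMap.range (nl g)) = k}

theorem index_le_card [Finite V] {k : ℕ} {t : Sp B} (ht : t ∈ SI B k) :
    (centralizer ({t} : Set (Sp B))).index ≤ Nat.card (SI B k) := by
  let f : (Sp B ⧸ centralizer ({t} : Set (Sp B))) → SI B k := fun c =>
    Quotient.liftOn' c (fun x => (⟨x * t * x⁻¹, by
      refine ⟨?_, ?_⟩
      · have h1 : x * t * x⁻¹ * (x * t * x⁻¹) = x * (t * t) * x⁻¹ := by group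
        rw [h1, ht.1, mul_one, mul_inv_cancel]
      · rw [finrank_nl_conj]
        exact ht.2⟩ : SI B k)) (by
      intro a b hab
      rw [QuotientGroup.leftRel_apply, mem_centralizer_iff] at hab
      have h1 := hab t rfl
      apply Subtype.ext
      show a * t * a⁻¹ = b * t * b⁻¹
      have h3 : t * (a⁻¹ * b) = a⁻¹ * b * t := h1
      calc a * t * a⁻¹ = a * (t * (a⁻¹ * b)) * b⁻¹ := by group
        _ = a * (a⁻¹ * b * t) * b⁻¹ := by rw [h3]
        _ = b * t * b⁻¹ := by group)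
  refine Nat.card_le_card_of_injective f ?_
  intro a b hab
  induction a using QuotientGroup.induction_on with
  | H a =>
    induction b using QuotientGroup.induction_on with
    | H b =>
      have h1 : a * t * a⁻¹ = b * t * b⁻¹ := congrArg Subtype.val hab
      rw [QuotientGroup.eq, mem_centralizer_iff]
      intro s hs
      rw [Set.mem_singleton_iff.1 hs]
      calc t * (a⁻¹ * b) = a⁻¹ * (a * t * a⁻¹) * b := by group
        _ = a⁻¹ * (b * t * b⁻¹) * b := by rw [h1]
        _ = a⁻¹ * b * t := by group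

section Count

variable [Finite F] [Finite V]

theorem card_orth (hB : Symp B) {k : ℕ} {u : Fin k → V} (hu : LinearIndependent F u) :
    Nat.card {x : V // ∀ i, B (u i) x = 0} * Nat.card F ^ k = Nat.card V := by
  have hnd : LinearMap.BilinForm.Nondegenerate B := by
    constructor
    · intro x hx
      exact hB.nd x hx
    · intro x hx
      exact hB.nd x fun y => orth_symm hB (hx y)
  have h1 := LinearMap.BilinForm.finrank_orthogonal hnd (Submodule.span F (Set.range u))
  rw [finrank_span_eq_card hu, Fintype.card_fin] at h1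
  have hk : k ≤ finrank F V := by
    have := hu.fintype_card_le_finrank
    rwa [Fintype.card_fin] at this
  have h2 : Nat.card {x : V // ∀ i, B (u i) x = 0} =
      Nat.card (LinearMap.BilinForm.orthogonal B (Submodule.span F (Set.range u))) := by
    refine Nat.card_congr (Equiv.subtypeEquivRight fun x => ?_)
    rw [LinearMap.BilinForm.mem_orthogonal_iff]
    constructor
    · intro h n hn
      show B n x = 0
      induction hn using Submodule.span_induction with
      | mem n hn => obtain ⟨i, rfl⟩ := hn; exact h i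
      | zero => rw [map_zero, LinearMap.zero_apply]
      | add a b _ _ ha hb => rw [map_add, LinearMap.add_apply, ha, hb, add_zero]
      | smul c a _ ha => rw [map_smul, LinearMap.smul_apply, ha, smul_zero]
    · intro h i
      exact h _ (Submodule.subset_span ⟨i, rfl⟩)
  rw [h2, Module.natCard_eq_pow_finrank (K := F), h1, Module.natCard_eq_pow_finrank (K := F) (V := V), ← pow_add,
    Nat.sub_add_cancel hk]

/-- independent, pairwise orthogonal vectors and a symmetric matrix -/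
def TS (B : V →ₗ[F] V →ₗ[F] F) (k : ℕ) : Type _ :=
  {p : (Fin k → V) × (Fin k → Fin k → F) //
    LinearIndependent F p.1 ∧ (∀ i j, B (p.1 i) (p.1 j) = 0) ∧ ∀ i j, p.2 i j = p.2 j i}

instance (k : ℕ) : Finite (TS B k) := Subtype.finite

theorem card_TS (hB : Symp B) {m : ℕ} (hV : Nat.card V = Nat.card F ^ (2 * m)) (k : ℕ) :
    Nat.card (TS B k) ≤ Nat.card F ^ (k * (2 * m + 1)) := by
  classical
  induction k with
  | zero =>
    have : Subsingleton (TS B 0) := by
      constructor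
      intro a b
      apply Subtype.ext
      exact Prod.ext (Subsingleton.elim _ _) (Subsingleton.elim _ _)
    rw [zero_mul, pow_zero]
    exact Finite.card_le_one_iff_subsingleton.2 this
  | succ k ih =>
    have hq : 0 < Nat.card F := Nat.card_pos
    let f : TS B (k + 1) → Σ p : TS B k, {x : V // ∀ i, B (p.1.1 i) x = 0} × (Fin (k + 1) → F) := fun p =>
      ⟨⟨(fun i => p.1.1 i.castSucc, fun i j => p.1.2 i.castSucc j.castSucc),
        p.2.1.comp _ (Fin.castSucc_injective k), fun i j => p.2.2.1 _ _, fun i j => p.2.2.2 _ _⟩,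
        ⟨p.1.1 (Fin.last k), fun i => p.2.2.1 _ _⟩, fun i => p.1.2 i (Fin.last k)⟩
    have hf : Function.Injective f := by
      intro p p' h
      have h1 : ∀ i : Fin k, p.1.1 i.castSucc = p'.1.1 i.castSucc := by
        intro i
        have := congrArg (fun s : (Σ p : TS B k, {x : V // ∀ i, B (p.1.1 i) x = 0} × (Fin (k + 1) → F)) => s.1.1.1 i) h
        exact this
      have h3 : ∀ i j : Fin k, p.1.2 i.castSucc j.castSucc = p'.1.2 i.castSucc j.castSucc := by
        intro i j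
        have := congrArg (fun s : (Σ p : TS B k, {x : V // ∀ i, B (p.1.1 i) x = 0} × (Fin (k + 1) → F)) => s.1.1.2 i j) h
        exact this
      have h4 : p.1.1 (Fin.last k) = p'.1.1 (Fin.last k) := by
        have := congrArg (fun s : (Σ p : TS B k, {x : V // ∀ i, B (p.1.1 i) x = 0} × (Fin (k + 1) → F)) => (s.2.1 : V)) h
        exact this
      have h5 : ∀ i, p.1.2 i (Fin.last k) = p'.1.2 i (Fin.last k) := by
        intro i
        have := congrArg (fun s : (Σ p : TS B k, {x : V // ∀ i, B (p.1.1 i) x = 0} × (Fin (k + 1) → F)) => s.2.2 i) h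
        exact this
      apply Subtype.ext
      apply Prod.ext
      · funext i
        refine Fin.lastCases ?_ (fun i => ?_) i
        · exact h4
        · exact h1 i
      · funext i j
        refine Fin.lastCases ?_ (fun j => ?_) j
        · exact h5 i
        · refine Fin.lastCases ?_ (fun i => ?_) i
          · rw [p.2.2.2, p'.2.2.2]
            exact h5 _
          · exact h3 i j
    refine (Nat.card_le_card_of_injective f hf).trans ?_
    have : Fintype (TS B k) := Fintype.ofFinite _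
    rw [Nat.card_sigma]
    have h6 : ∀ p : TS B k, Nat.card ({x : V // ∀ i, B (p.1.1 i) x = 0} × (Fin (k + 1) → F)) =
        Nat.card F ^ (2 * m + 1) := by
      intro p
      have h7 := card_orth hB p.2.1
      rw [Nat.card_prod, Nat.card_fun, Nat.card_fin, pow_succ (Nat.card F) k, ← mul_assoc, h7, hV, ← pow_succ]
    rw [Finset.sum_congr rfl fun p _ => h6 p, Finset.sum_const, Finset.card_univ, ← Nat.card_eq_fintype_card,
      smul_eq_mul]
    calc Nat.card (TS B k) * Nat.card F ^ (2 * m + 1)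
        ≤ Nat.card F ^ (k * (2 * m + 1)) * Nat.card F ^ (2 * m + 1) := Nat.mul_le_mul_right _ ih
      _ = Nat.card F ^ ((k + 1) * (2 * m + 1)) := by rw [← pow_add]; congr 1; ring

/-- **the number of involutions of rank `k`** -/
theorem card_SI (hB : Symp B) (h2 : (2 : F) = 0) {m : ℕ} (hV : Nat.card V = Nat.card F ^ (2 * m)) (k : ℕ) :
    Nat.card (SI B k) * ∏ i ∈ Finset.range k, (Nat.card F ^ k - Nat.card F ^ i) ≤ Nat.card F ^ (k * (2 * m + 1)) := by
  classical
  have : Fintype F := Fintype.ofFinite F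
  have : Fintype (SI B k) := Fintype.ofFinite _
  have h1 : ∀ g : SI B k, Nat.card {u : Fin k → LinearMap.range (nl g.1) // LinearIndependent F u} =
      ∏ i ∈ Finset.range k, (Nat.card F ^ k - Nat.card F ^ i) := by
    intro g
    have h3 : finrank F (LinearMap.range (nl g.1)) = k := g.2.2
    rw [card_linearIndependent (K := F) (V := LinearMap.range (nl g.1)) (k := k) (by rw [h3]), h3,
      Nat.card_eq_fintype_card, Finset.prod_range]
  have h3 : Nat.card (Σ g : SI B k, {u : Fin k → LinearMap.range (nl g.1) // LinearIndependent F u}) =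
      Nat.card (SI B k) * ∏ i ∈ Finset.range k, (Nat.card F ^ k - Nat.card F ^ i) := by
    rw [Nat.card_sigma, Finset.sum_congr rfl fun g _ => h1 g, Finset.sum_const, Finset.card_univ,
      ← Nat.card_eq_fintype_card, smul_eq_mul]
  rw [← h3]
  refine le_trans ?_ (card_TS hB hV k)
  -- preimages
  have hx : ∀ (g : SI B k) (u : Fin k → LinearMap.range (nl g.1)), ∃ x : Fin k → V, ∀ i, nl g.1 (x i) = u i := by
    intro g u
    choose x hx using fun i => (u i).2
    exact ⟨x, hx⟩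
  choose X hX using hx
  have hsym : ∀ (g : SI B k) (x y : V), B x (nl g.1 y) = B y (nl g.1 x) := by
    intro g x y
    rw [← nl_sym g.2.1, skew hB, ← map_neg, negself h2]
  let f : (Σ g : SI B k, {u : Fin k → LinearMap.range (nl g.1) // LinearIndependent F u}) → TS B k := fun s =>
    ⟨(fun i => (s.2.1 i : V), fun i j => B (X s.1 s.2.1 i) (s.2.1 j)), by
      refine ⟨?_, ?_, ?_⟩
      · exact s.2.2.map' (LinearMap.range (nl s.1.1)).subtype (Submodule.ker_subtype _)
      · intro i j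
        show B (s.2.1 i : V) (s.2.1 j) = 0
        rw [← hX s.1 s.2.1 i, nl_sym s.1.2.1, ← hX s.1 s.2.1 j, nl_nl h2 s.1.2.1, map_zero]
      · intro i j
        show B (X s.1 s.2.1 i) (s.2.1 j) = B (X s.1 s.2.1 j) (s.2.1 i)
        rw [← hX s.1 s.2.1 j, ← hX s.1 s.2.1 i, hsym]⟩
  refine Nat.card_le_card_of_injective f ?_
  rintro ⟨g, u, hu⟩ ⟨g', u', hu'⟩ hfg
  have hv : ∀ i, (u i : V) = u' i := fun i => congrArg (fun p : TS B k => p.1.1 i) hfg
  have hh : ∀ i j, B (X g u i) (u j) = B (X g' u' i) (u' j) := fun i j => congrArg (fun p : TS B k => p.1.2 i j) hfg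
  have hspan : ∀ (g : SI B k) (u : Fin k → LinearMap.range (nl g.1)), LinearIndependent F u →
      Submodule.span F (Set.range fun i => (u i : V)) = LinearMap.range (nl g.1) := by
    intro g u hu
    apply Submodule.eq_of_le_of_finrank_eq
    · rw [Submodule.span_le]
      rintro _ ⟨i, rfl⟩
      exact (u i).2
    · have h9 := finrank_span_eq_card (hu.map' (LinearMap.range (nl g.1)).subtype (Submodule.ker_subtype _))
      rw [Fintype.card_fin] at h9
      exact h9.trans g.2.2.symm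
  have hr : LinearMap.range (nl g.1) = LinearMap.range (nl g'.1) := by
    rw [← hspan g u hu, ← hspan g' u' hu']
    congr 2
    funext i
    exact hv i
  have hb : ∀ i, ∀ d ∈ LinearMap.range (nl g.1), B (X g u i) d = B (X g' u' i) d := by
    intro i d hd
    rw [← hspan g u hu] at hd
    induction hd using Submodule.span_induction with
    | mem n hn =>
      obtain ⟨j, rfl⟩ := hn
      show B (X g u i) (u j) = B (X g' u' i) (u j)
      rw [hh, hv]
    | zero => rw [map_zero, map_zero]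
    | add a b _ _ ha hb => rw [map_add, map_add, ha, hb]
    | smul c a _ ha => rw [map_smul, map_smul, ha]
  have hgg : g = g' := by
    apply Subtype.ext
    apply nl_inj
    intro x
    rw [← sub_eq_zero]
    obtain ⟨y, hy⟩ : nl g.1 x - nl g'.1 x ∈ LinearMap.range (nl g.1) := by
      refine Submodule.sub_mem _ (LinearMap.mem_range_self _ x) ?_
      rw [hr]
      exact LinearMap.mem_range_self _ x
    rw [← hy]
    apply mem_ker_nl hB g.2.1
    intro z
    -- the range is spanned by the `u i`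
    have h4 : nl g.1 z ∈ Submodule.span F (Set.range fun i => (u i : V)) := by
      rw [hspan g u hu]
      exact ⟨z, rfl⟩
    have h5 : ∀ i, B (u i : V) y = 0 := by
      intro i
      rw [← hX g u i, nl_sym g.2.1, hy, map_sub]
      have h6 : B (X g u i) (nl g.1 x) = B (u i : V) x := by rw [← nl_sym g.2.1, hX]
      have h7 : B (X g u i) (nl g'.1 x) = B (u i : V) x := by
        rw [hb i _ (by rw [hr]; exact ⟨x, rfl⟩), ← nl_sym g'.2.1, hX, ← hv]
      rw [h6, h7, sub_self]
    generalize nl g.1 z = w at h4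
    induction h4 using Submodule.span_induction with
    | mem n hn => obtain ⟨j, rfl⟩ := hn; exact h5 j
    | zero => rw [map_zero, LinearMap.zero_apply]
    | add a b _ _ ha hb => rw [map_add, LinearMap.add_apply, ha, hb, add_zero]
    | smul c a _ ha => rw [map_smul, LinearMap.smul_apply, ha, smul_zero]
  subst hgg
  have huu : u = u' := by
    funext i
    exact Subtype.ext (hv i)
  subst huu
  rfl

theorem gl_rec (q k : ℕ) : ∏ i ∈ Finset.range (k + 1), (q ^ (k + 1) - q ^ i) =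
    (q ^ (k + 1) - 1) * (q ^ k * ∏ i ∈ Finset.range k, (q ^ k - q ^ i)) := by
  rw [Finset.prod_range_succ', pow_zero, mul_comm]
  congr 1
  have h1 : ∀ i ∈ Finset.range k, q ^ (k + 1) - q ^ (i + 1) = q * (q ^ k - q ^ i) := by
    intro i _
    rw [Nat.mul_sub, ← pow_succ', ← pow_succ']
  rw [Finset.prod_congr rfl h1, Finset.prod_mul_distrib, Finset.prod_const, Finset.card_range]

theorem gl_lower_aux {q : ℕ} (hq : 2 ≤ q) (k : ℕ) (hk : 1 ≤ k) :
    q ^ (k * k) * (q ^ (k + 1) + 4) ≤ 4 * (∏ i ∈ Finset.range k, (q ^ k - q ^ i)) * q ^ (k + 1) := by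
  induction k, hk using Nat.le_induction with
  | base =>
    obtain ⟨r, rfl⟩ : ∃ r, q = r + 2 := ⟨q - 2, by omega⟩
    simp only [Finset.prod_range_one, pow_zero, pow_one, mul_one]
    have e1 : r + 2 - 1 = r + 1 := by omega
    rw [e1]
    have e2 : 4 * (r + 1) * (r + 2) ^ (1 + 1) =
        (r + 2) * ((r + 2) ^ (1 + 1) + 4) + (3 * r ^ 3 + 14 * r ^ 2 + 16 * r) := by ring
    rw [e2]
    exact Nat.le_add_right _ _
  | succ k hk ih =>
    rw [gl_rec]
    set G := ∏ i ∈ Finset.range k, (q ^ k - q ^ i) with hG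
    have hx4 : 4 ≤ q ^ (k + 1) := by
      calc 4 = 2 ^ 2 := by norm_num
        _ ≤ q ^ 2 := Nat.pow_le_pow_left hq 2
        _ ≤ q ^ (k + 1) := Nat.pow_le_pow_right (by omega) (by omega)
    have hq0 : 0 < q ^ k := Nat.pow_pos (by omega)
    have hxq : q ^ (k + 1) = q * q ^ k := by rw [pow_succ']
    obtain ⟨y, hy⟩ : ∃ y, q ^ (k + 1) = y + 1 := ⟨q ^ (k + 1) - 1, by omega⟩
    have h1 : q ^ (k + 1) - 1 = y := by omega
    rw [h1]
    have h3 : q ^ (k + 1 + 1) = q * q ^ (k + 1) := by rw [pow_succ']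
    have h4 : q ^ ((k + 1) * (k + 1)) = q ^ (k * k) * (q ^ k * q ^ (k + 1)) := by
      rw [← pow_add, ← pow_add]; congr 1; ring
    rw [h4, h3]
    -- claim: (x + 4) y ≥ q^k (q x + 4)
    have h5 : q ^ k * (q * q ^ (k + 1) + 4) ≤ (q ^ (k + 1) + 4) * y := by
      have h6 : 2 * q ^ k ≤ q ^ (k + 1) := by rw [hxq]; exact Nat.mul_le_mul_right _ hq
      have h7 : q ^ k * (q * q ^ (k + 1) + 4) = q ^ (k + 1) * q ^ (k + 1) + 4 * q ^ k := by
        rw [hxq]; ring
      rw [h7, hy]
      rw [hy] at h6 hx4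
      linarith only [hx4, h6]
    calc q ^ (k * k) * (q ^ k * q ^ (k + 1)) * (q * q ^ (k + 1) + 4)
        = q ^ (k * k) * q ^ (k + 1) * (q ^ k * (q * q ^ (k + 1) + 4)) := by ring
      _ ≤ q ^ (k * k) * q ^ (k + 1) * ((q ^ (k + 1) + 4) * y) := Nat.mul_le_mul_left _ h5
      _ = (q ^ (k * k) * (q ^ (k + 1) + 4)) * (q ^ (k + 1) * y) := by ring
      _ ≤ (4 * G * q ^ (k + 1)) * (q ^ (k + 1) * y) := Nat.mul_le_mul_right _ ih
      _ = 4 * (y * (q ^ k * G)) * (q * q ^ (k + 1)) := by rw [hxq]; ring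

theorem gl_lower {q : ℕ} (hq : 2 ≤ q) (k : ℕ) :
    q ^ (k * k) ≤ 4 * (∏ i ∈ Finset.range k, (q ^ k - q ^ i)) := by
  rcases Nat.eq_zero_or_pos k with rfl | hk
  · simp only [_root_.MulZeroClass.mul_zero, _root_.pow_zero, _root_.Finset.range_zero, _root_.Finset.prod_empty, _root_.mul_one, _root_.Nat.one_le_ofNat]
  · have h1 := gl_lower_aux hq k hk
    have h3 : 0 < q ^ (k + 1) := Nat.pow_pos (by omega)
    refine Nat.le_of_mul_le_mul_right ?_ h3
    refine le_trans ?_ h1
    exact Nat.mul_le_mul_left _ (Nat.le_add_right _ _)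

/-- **the class of an involution of rank `k`** -/
theorem index_le (hB : Symp B) (h2 : (2 : F) = 0) {m : ℕ} (hV : Nat.card V = Nat.card F ^ (2 * m)) {k : ℕ} (hk : k ≤ m)
    {t : Sp B} (ht : t ∈ SI B k) :
    (centralizer ({t} : Set (Sp B))).index ≤ 4 * Nat.card F ^ (k * (2 * m - k + 1)) := by
  refine (index_le_card ht).trans ?_
  have h1 := card_SI hB h2 hV k
  have hq : 2 ≤ Nat.card F := Finite.one_lt_card
  have h3 := gl_lower hq k
  have hq0 : 0 < Nat.card F ^ (k * k) := Nat.pow_pos (by omega)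
  refine Nat.le_of_mul_le_mul_right ?_ hq0
  have h4 : Nat.card F ^ (k * (2 * m + 1)) = Nat.card F ^ (k * (2 * m - k + 1)) * Nat.card F ^ (k * k) := by
    rw [← pow_add]
    congr 1
    obtain ⟨d, rfl⟩ : ∃ d, m = k + d := ⟨m - k, by omega⟩
    have : 2 * (k + d) - k = k + 2 * d := by omega
    rw [this]
    ring
  calc Nat.card (SI B k) * Nat.card F ^ (k * k)
      ≤ Nat.card (SI B k) * (4 * (∏ i ∈ Finset.range k, (Nat.card F ^ k - Nat.card F ^ i))) :=
        Nat.mul_le_mul_left _ h3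
    _ = 4 * (Nat.card (SI B k) * ∏ i ∈ Finset.range k, (Nat.card F ^ k - Nat.card F ^ i)) := by ring
    _ ≤ 4 * Nat.card F ^ (k * (2 * m + 1)) := Nat.mul_le_mul_left _ h1
    _ = 4 * Nat.card F ^ (k * (2 * m - k + 1)) * Nat.card F ^ (k * k) := by rw [h4]; ring

/-- the rank is at most `m` -/
theorem rank_le (h2 : (2 : F) = 0) {m : ℕ} (hV : Nat.card V = Nat.card F ^ (2 * m)) {g : Sp B}
    (hg : g * g = 1) : finrank F (LinearMap.range (nl g)) ≤ m := by
  have h1 : finrank F V = 2 * m := by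
    have h3 := Module.natCard_eq_pow_finrank (K := F) (V := V)
    rw [hV] at h3
    exact (Nat.pow_right_injective Finite.one_lt_card h3).symm
  have h3 : LinearMap.range (nl g) ≤ LinearMap.ker (nl g) := by
    rintro _ ⟨x, rfl⟩
    exact nl_nl h2 hg x
  have h4 := LinearMap.finrank_range_add_finrank_ker (nl g)
  have h5 := Submodule.finrank_mono h3
  omega

end Count

/-- the inequalities known for the preimage `X ≤ Sp B` of `A` (from `IF A Γ`) -/
structure Hyp (X : Subgroup (Sp B)) : Prop where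
  e2 : ∀ t ∈ X, t ≠ 1 → t * t = 1 → ∀ L : Subgroup (Sp B), (∀ b ∈ L, b * t = t * b) →
    X.relIndex L ^ 5 < (centralizer ({t} : Set (Sp B))).index
  big : ∀ t ∈ X, t ≠ 1 → t * t = 1 → 729 ^ 5 < (centralizer ({t} : Set (Sp B))).index ^ 6

end Cfsg.Agent.H407.IF
end

-- part: H680/IF/EngA
section
set_option linter.all false
open scoped Cfsg.Agent.FastGrp

/-!
# S5719, engine A (helper680): ENG0, ENG1, ENG9
-/

set_option autoImplicit false
set_option linter.unusedSectionVars false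

namespace Cfsg.Agent.H680.Fxy

open MulAction Subgroup Cfsg.Agent.H284 Cfsg.Agent.H209.Fxy

variable {T : Type*} [Group T] [Finite T] {A : Subgroup T} {Γ : Subgroup (MulAut T)}

/-- ENG0. `N_T(K) ≤ A` for `1 ≠ K ≤ A` invariant under `Γ`; in particular `N_T(A) = A`, and `C_T(K) ≤ A`. -/
theorem IF.norm [IsSimpleGroup T] (h : IF A Γ) {K : Subgroup T} (hK : K ≤ A) (hinv : ∀ σ ∈ Γ, ∀ k ∈ K, σ k ∈ K)
    (hne : K ≠ ⊥) {x : T} (hx : ∀ k ∈ K, x * k * x⁻¹ ∈ K) : x ∈ A := by
  have hxN : ∀ y : T, (∀ k ∈ K, y * k * y⁻¹ ∈ K) ↔ y ∈ normalizer (K : Set T) := by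
    intro y
    constructor
    · intro hy
      have hfin : (K : Set T).Finite := Set.toFinite _
      have hmap : K.map (MulAut.conj y).toMonoidHom = K := by
        apply Subgroup.eq_of_le_of_card_ge
        · rintro _ ⟨k, hk, rfl⟩
          exact hy k hk
        · rw [Nat.card_congr (K.equivMapOfInjective (MulAut.conj y).toMonoidHom (MulAut.conj y).injective).toEquiv]
      rw [mem_normalizer_iff]
      intro z
      constructor
      · exact hy z
      · intro hz
        rw [← hmap] at hz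
        obtain ⟨k, hk, hk'⟩ := hz
        have h2 : y * k * y⁻¹ = y * z * y⁻¹ := hk'
        have h3 : k = z := by
          have := mul_right_cancel h2
          exact mul_left_cancel this
        rw [← h3]
        exact hk
    · intro hy k hk
      exact (mem_normalizer_iff.1 hy k).1 hk
  have hAN : A ≤ normalizer (K : Set T) := by
    intro a ha
    rw [← hxN]
    intro k hk
    exact hinv (MulAut.conj a) ((h.conj a).2 ha) k hk
  rcases h.max (normalizer (K : Set T)) hAN (by
    intro σ hσ b hb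
    rw [← hxN] at hb ⊢
    intro k hk
    have h1 : σ⁻¹ k ∈ K := hinv σ⁻¹ (Γ.inv_mem hσ) k hk
    have h2 := hinv σ hσ _ (hb _ h1)
    rw [map_mul, map_mul, map_inv] at h2
    rwa [MulAut.apply_inv_self] at h2) with h1 | h1
  · rw [← h1, ← hxN]
    exact hx
  · exfalso
    have hn : K.Normal := Subgroup.normalizer_eq_top_iff.1 h1
    rcases hn.eq_bot_or_eq_top with h2 | h2
    · exact hne h2
    · rw [h2] at hK
      exact h.ne_top (top_le_iff.1 hK)

theorem relIndex_le (A : Subgroup T) (σ : MulAut T) {B : Subgroup T}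
    (hB : ∀ b ∈ B, σ b = b) : A.relIndex B ≤ fx A σ := by
  rw [Subgroup.relIndex, Subgroup.index, fx]
  rw [← Nat.card_coe_set_eq]
  have : Finite (fixSet A σ) := Set.toFinite _
  let f : B ⧸ A.subgroupOf B → fixSet A σ := Quotient.lift (fun b : B => (⟨((b : T) : T ⧸ A), (b : T), rfl, by
    rw [hB b b.2, inv_mul_cancel]; exact A.one_mem⟩ : fixSet A σ)) (by
      intro a b hab
      have h1 : a⁻¹ * b ∈ A.subgroupOf B := QuotientGroup.leftRel_apply.1 hab
      apply Subtype.ext
      exact QuotientGroup.eq.2 (Subgroup.mem_subgroupOf.1 h1))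
  apply Nat.card_le_card_of_injective f
  intro a b hab
  induction a using QuotientGroup.induction_on with
  | H a =>
    induction b using QuotientGroup.induction_on with
    | H b =>
      have h1 : ((a : T) : T ⧸ A) = ((b : T) : T ⧸ A) := congrArg Subtype.val hab
      rw [QuotientGroup.eq] at h1 ⊢
      exact Subgroup.mem_subgroupOf.2 h1

/-- ENG1. A subgroup `B` centralised by `σ` acts on the fixed points of `σ`. -/
theorem IF.E1 (h : IF A Γ) {σ : MulAut T} (hσ : σ ∈ Γ) (h2 : orderOf σ = 2) {B : Subgroup T}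
    (hB : ∀ b ∈ B, σ b = b) : A.relIndex B ≤ fx A σ ∧ A.relIndex B ^ 6 < A.index := by
  have h1 := relIndex_le A σ hB
  exact ⟨h1, (Nat.pow_le_pow_left h1 6).trans_lt (h.small σ hσ h2)⟩

/-- ENG9. A subgroup `B` of `T` of even order normalised... : a 2-subgroup `B ≤ C_T(σ)` with `B ∩ A = 1` has
`|B|^6 < n`; in general `|B|^6 < n |B ∩ A|^6`. -/
theorem IF.semireg (h : IF A Γ) {σ : MulAut T} (hσ : σ ∈ Γ) (h2 : orderOf σ = 2) {B : Subgroup T}
    (hB : ∀ b ∈ B, σ b = b) : Nat.card B ^ 6 < A.index * Nat.card (A ⊓ B : Subgroup T) ^ 6 := by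
  have h1 := (IF.E1 h hσ h2 hB).2
  have h3 : Nat.card B = A.relIndex B * Nat.card (A ⊓ B : Subgroup T) := by
    rw [Subgroup.relIndex, ← Subgroup.index_mul_card (A.subgroupOf B)]
    congr 1
    rw [← Subgroup.inf_subgroupOf_right, Nat.card_congr (Subgroup.subgroupOfEquivOfLe (inf_le_right : A ⊓ B ≤ B)).toEquiv]
  rw [h3, mul_pow]
  exact Nat.mul_lt_mul_of_pos_right h1 (pow_pos Nat.card_pos 6)

end Cfsg.Agent.H680.Fxy
end

-- part: H809/IF/EngC
section
prune_inst 0x2
set_option linter.all false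
open scoped Cfsg.Agent.FastGrp

/-!
# S5719, ENG5 and ENG6: two commuting involutions (helper809)

`n c ≤ f(σ) f(τ) |σ^T|` where `c` is the number of `C_T(τ)`-conjugates of `σ`.
-/

set_option autoImplicit false
set_option linter.unusedSectionVars false

namespace Cfsg.Agent.H809.IFC

open MulAction Subgroup Cfsg.Agent.H284 Cfsg.Agent.H209.Fxy Cfsg.Agent.H999.IFB

variable {T : Type*} [Group T] [Finite T] {A : Subgroup T} {Γ : Subgroup (MulAut T)}

/-- the `C_T(τ)`-conjugates of `σ` -/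
def ccl (σ τ : MulAut T) : Set (MulAut T) := {ρ | ∃ x : T, τ x = x ∧ ρ = MulAut.conj x * σ * (MulAut.conj x)⁻¹}

/-- each `C_T(τ)`-conjugate of `σ` shares a fixed point with `τ` -/
theorem ccl_le (h : IF A Γ) {σ : MulAut T} (hσ : σ ∈ Γ) (τ : MulAut T) :
    (ccl σ τ).ncard ≤ fx A τ * (icl σ ∩ (Γ : Set (MulAut T))).ncard := by
  classical
  have hx : ∀ ρ : ccl σ τ, ∃ x : T, τ x = x ∧ (ρ : MulAut T) = MulAut.conj x * σ * (MulAut.conj x)⁻¹ := fun ρ => ρ.2
  choose x hx1 hx2 using hx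
  -- a fixed representative of each coset
  let y : T ⧸ A → T := Quotient.out
  have hy : ∀ ρ : ccl σ τ, (y (x ρ : T ⧸ A))⁻¹ * x ρ ∈ A := by
    intro ρ
    have h1 : ((y (x ρ : T ⧸ A) : T) : T ⧸ A) = (x ρ : T ⧸ A) := QuotientGroup.out_eq' _
    exact QuotientGroup.eq.1 h1
  have hmem : ∀ ρ : ccl σ τ,
      (MulAut.conj (y (x ρ : T ⧸ A)))⁻¹ * (ρ : MulAut T) * MulAut.conj (y (x ρ : T ⧸ A)) ∈
        icl σ ∩ (Γ : Set (MulAut T)) := by
    intro ρ
    have h1 : (MulAut.conj (y (x ρ : T ⧸ A)))⁻¹ * (ρ : MulAut T) * MulAut.conj (y (x ρ : T ⧸ A)) =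
        MulAut.conj ((y (x ρ : T ⧸ A))⁻¹ * x ρ) * σ * (MulAut.conj ((y (x ρ : T ⧸ A))⁻¹ * x ρ))⁻¹ := by
      rw [hx2 ρ, map_mul, map_inv]
      group
    rw [h1]
    refine ⟨⟨_, rfl⟩, ?_⟩
    have h2 := (h.conj _).2 (hy ρ)
    exact Γ.mul_mem (Γ.mul_mem h2 hσ) (Γ.inv_mem h2)
  let φ : ccl σ τ → (fixSet A τ) × (icl σ ∩ (Γ : Set (MulAut T)) : Set (MulAut T)) := fun ρ =>
    (⟨(x ρ : T ⧸ A), x ρ, rfl, by rw [hx1 ρ, inv_mul_cancel]; exact A.one_mem⟩, ⟨_, hmem ρ⟩)
  have hφ : Function.Injective φ := by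
    intro ρ ρ' hρ
    have h1 : (x ρ : T ⧸ A) = (x ρ' : T ⧸ A) := congrArg (fun p => (p.1 : T ⧸ A)) hρ
    have h2 : (MulAut.conj (y (x ρ : T ⧸ A)))⁻¹ * (ρ : MulAut T) * MulAut.conj (y (x ρ : T ⧸ A)) =
        (MulAut.conj (y (x ρ' : T ⧸ A)))⁻¹ * (ρ' : MulAut T) * MulAut.conj (y (x ρ' : T ⧸ A)) :=
      congrArg (fun p => (p.2 : MulAut T)) hρ
    rw [h1] at h2
    exact Subtype.ext (mul_left_cancel (mul_right_cancel h2))
  have h3 := Nat.card_le_card_of_injective φ hφ
  rw [Nat.card_prod] at h3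
  exact h3

theorem main (h : IF A Γ) {σ : MulAut T} (hσ : σ ∈ Γ) (τ : MulAut T) :
    A.index * (ccl σ τ).ncard ≤ fx A σ * fx A τ * (icl σ).ncard := by
  calc A.index * (ccl σ τ).ncard ≤ A.index * (fx A τ * (icl σ ∩ (Γ : Set (MulAut T))).ncard) :=
        Nat.mul_le_mul_left _ (ccl_le h hσ τ)
    _ = fx A τ * (A.index * (icl σ ∩ (Γ : Set (MulAut T))).ncard) := by ring
    _ = fx A τ * (fx A σ * (icl σ).ncard) := by rw [← IF.fix_formula' h hσ]
    _ = _ := by ring

/-- the arithmetic -/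
theorem arith {n c f g N : ℕ} (h : n * c ≤ f * g * N) (hf : f ^ 6 < n) (hg : g ^ 6 < n) (hN : 0 < N) :
    n ^ 2 * c ^ 3 < N ^ 3 ∧ g ^ 4 * c < N ∧ f ^ 4 * c < N := by
  have hn : 0 < n := by omega
  have h1 : f ^ 3 * g ^ 3 < n := by
    have h2 : (f ^ 3 * g ^ 3) ^ 2 < n ^ 2 := by
      calc (f ^ 3 * g ^ 3) ^ 2 = f ^ 6 * g ^ 6 := by ring
        _ < n * n := Nat.mul_lt_mul'' hf hg
        _ = n ^ 2 := by ring
    exact lt_of_pow_lt_pow_left₀ 2 (Nat.zero_le _) h2
  have key : ∀ a b : ℕ, a ^ 6 < n → b ^ 6 < n → a * b ^ 5 < n := by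
    intro a b ha hb
    have h2 : (a * b ^ 5) ^ 6 < n ^ 6 := by
      calc (a * b ^ 5) ^ 6 = a ^ 6 * (b ^ 6) ^ 5 := by ring
        _ < n * n ^ 5 := Nat.mul_lt_mul'' ha (Nat.pow_lt_pow_left hb (by norm_num))
        _ = n ^ 6 := by ring
    exact lt_of_pow_lt_pow_left₀ 6 (Nat.zero_le _) h2
  refine ⟨?_, ?_, ?_⟩
  · have h2 : n * (n ^ 2 * c ^ 3) < n * N ^ 3 := by
      calc n * (n ^ 2 * c ^ 3) = (n * c) ^ 3 := by ring
        _ ≤ (f * g * N) ^ 3 := Nat.pow_le_pow_left h 3
        _ = f ^ 3 * g ^ 3 * N ^ 3 := by ring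
        _ < n * N ^ 3 := Nat.mul_lt_mul_of_pos_right h1 (pow_pos hN 3)
    exact lt_of_mul_lt_mul_left h2 (Nat.zero_le _)
  · have h2 : n * (g ^ 4 * c) < n * N := by
      calc n * (g ^ 4 * c) = g ^ 4 * (n * c) := by ring
        _ ≤ g ^ 4 * (f * g * N) := Nat.mul_le_mul_left _ h
        _ = f * g ^ 5 * N := by ring
        _ < n * N := Nat.mul_lt_mul_of_pos_right (key f g hf hg) hN
    exact lt_of_mul_lt_mul_left h2 (Nat.zero_le _)
  · have h2 : n * (f ^ 4 * c) < n * N := by
      calc n * (f ^ 4 * c) = f ^ 4 * (n * c) := by ring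
        _ ≤ f ^ 4 * (f * g * N) := Nat.mul_le_mul_left _ h
        _ = g * f ^ 5 * N := by ring
        _ < n * N := Nat.mul_lt_mul_of_pos_right (key g f hg hf) hN
    exact lt_of_mul_lt_mul_left h2 (Nat.zero_le _)

/-- ENG6 without the hypotheses that are not needed -/
theorem IF.E4'' (h : IF A Γ) {σ τ : MulAut T} (hσ : σ ∈ Γ) (hτ : τ ∈ Γ) (hs2 : orderOf σ = 2) (ht2 : orderOf τ = 2) :
    A.index * (ccl σ τ).ncard ≤ fx A σ * fx A τ * (icl σ).ncard ∧
    A.index ^ 2 * (ccl σ τ).ncard ^ 3 < (icl σ).ncard ^ 3 ∧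
    fx A τ ^ 4 * (ccl σ τ).ncard < (icl σ).ncard ∧ fx A σ ^ 4 * (ccl σ τ).ncard < (icl σ).ncard := by
  have h1 := main h hσ τ
  have h2 : 0 < (icl σ).ncard := (Set.ncard_pos (Set.toFinite _)).2 ⟨σ, 1, by simp⟩
  exact ⟨h1, arith h1 (h.small σ hσ hs2) (h.small τ hτ ht2) h2⟩

theorem card_ccl [IsSimpleGroup T] (hna : ∃ a b : T, a * b ≠ b * a) (s t : T) :
    (ccl (MulAut.conj s) (MulAut.conj t)).ncard =
      (centralizer ({s} : Set T)).relIndex (centralizer ({t} : Set T)) := by
  have hinj : Function.Injective (MulAut.conj : T →* MulAut T) := by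
    rw [injective_iff_map_eq_one]
    intro z hz
    apply center_of hna
    intro x
    have h3 := congrArg (fun τ : MulAut T => τ x) hz
    simp only [MulAut.conj_apply, MulAut.one_apply] at h3
    rwa [mul_inv_eq_iff_eq_mul] at h3
  let f : (centralizer ({t} : Set T)) ⧸ (centralizer ({s} : Set T)).subgroupOf (centralizer ({t} : Set T)) →
      MulAut T := fun c => Quotient.liftOn' c (fun b => MulAut.conj ((b : T) * s * (b : T)⁻¹)) (by
        intro b b' hbb
        rw [QuotientGroup.leftRel_apply, Subgroup.mem_subgroupOf, Subgroup.mem_centralizer_singleton_iff] at hbb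
        have h1 : ((b⁻¹ * b' : centralizer ({t} : Set T)) : T) = (b : T)⁻¹ * b' := rfl
        rw [h1] at hbb
        change MulAut.conj ((b : T) * s * (b : T)⁻¹) = MulAut.conj ((b' : T) * s * (b' : T)⁻¹)
        congr 1
        have h2 : (b' : T) = b * ((b : T)⁻¹ * b') := by group
        have h3 : (b' : T) * s = b * s * ((b : T)⁻¹ * b') := by
          calc (b' : T) * s = b * (((b : T)⁻¹ * b') * s) := by group
            _ = b * (s * ((b : T)⁻¹ * b')) := by rw [hbb]
            _ = _ := by group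
        rw [h3]
        group)
  have hf : Function.Injective f := by
    intro c c' hcc
    induction c using QuotientGroup.induction_on with
    | H b =>
      induction c' using QuotientGroup.induction_on with
      | H b' =>
        have h3 : (b : T) * s * (b : T)⁻¹ = (b' : T) * s * (b' : T)⁻¹ := hinj hcc
        rw [QuotientGroup.eq, Subgroup.mem_subgroupOf, Subgroup.mem_centralizer_singleton_iff]
        change (b : T)⁻¹ * b' * s = s * ((b : T)⁻¹ * b')
        calc (b : T)⁻¹ * b' * s = (b : T)⁻¹ * ((b' : T) * s * (b' : T)⁻¹) * b' := by group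
          _ = (b : T)⁻¹ * ((b : T) * s * (b : T)⁻¹) * b' := by rw [h3]
          _ = _ := by group
  have hr : Set.range f = ccl (MulAut.conj s) (MulAut.conj t) := by
    ext ρ
    constructor
    · rintro ⟨c, rfl⟩
      induction c using QuotientGroup.induction_on with
      | H b =>
        refine ⟨b, ?_, ?_⟩
        · have := Subgroup.mem_centralizer_singleton_iff.1 b.2
          rw [MulAut.conj_apply, mul_inv_eq_iff_eq_mul]
          exact this.symm
        · change MulAut.conj ((b : T) * s * (b : T)⁻¹) = _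
          rw [map_mul, map_mul, map_inv]
    · rintro ⟨x, hx, rfl⟩
      rw [MulAut.conj_apply, mul_inv_eq_iff_eq_mul] at hx
      refine ⟨((⟨x, Subgroup.mem_centralizer_singleton_iff.2 hx.symm⟩ : centralizer ({t} : Set T)) : _ ⧸ _), ?_⟩
      change MulAut.conj (x * s * x⁻¹) = _
      rw [map_mul, map_mul, map_inv]
  rw [← hr, Subgroup.relIndex, Subgroup.index]
  exact Nat.card_range_of_injective hf

/-- ENG5 (helper974). Commuting involutions `s ≠ t` of `A`, `c = |s^{C(t)}| = |C(t) : C(s) ∩ C(t)|`: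
`n c ≤ f(s) f(t) |s^T|`, hence `n² c³ < |s^T|³`, `f(t)⁴ c < |s^T|`, `f(s)⁴ c < |s^T|`. -/
theorem IF.E4 [IsSimpleGroup T] (h : IF A Γ) (hna : ∃ a b : T, a * b ≠ b * a) {s t : T} (hs : s ∈ A) (ht : t ∈ A)
    (hs2 : orderOf s = 2) (ht2 : orderOf t = 2) (hst : s ≠ t) (hc : s * t = t * s) :
    A.index * (centralizer ({s} : Set T)).relIndex (centralizer ({t} : Set T)) ≤
      fx A (MulAut.conj s) * fx A (MulAut.conj t) * (centralizer ({s} : Set T)).index ∧
    A.index ^ 2 * (centralizer ({s} : Set T)).relIndex (centralizer ({t} : Set T)) ^ 3 <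
      (centralizer ({s} : Set T)).index ^ 3 ∧
    fx A (MulAut.conj t) ^ 4 * (centralizer ({s} : Set T)).relIndex (centralizer ({t} : Set T)) <
      (centralizer ({s} : Set T)).index ∧
    fx A (MulAut.conj s) ^ 4 * (centralizer ({s} : Set T)).relIndex (centralizer ({t} : Set T)) <
      (centralizer ({s} : Set T)).index := by
  have h1 := IF.E4'' h ((h.conj s).2 hs) ((h.conj t).2 ht) (by rw [orderOf_conj hna, hs2])
    (by rw [orderOf_conj hna, ht2])
  rwa [card_ccl hna, (IF.E2' h hna hs hs2).2.1] at h1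

end Cfsg.Agent.H809.IFC
end

-- part: H847/IF/Lift
section
set_option linter.all false
open scoped Cfsg.Agent.FastGrp

/-!
# S5719, classical groups: the inequality (E2) in a covering group (helper847)

`lift_E2` : `pi : G → T` surjective, `T` simple, `pi t ∈ A` an involution, `B ≤ G` commutes with `t` modulo the kernel:
`|B : B ∩ pi⁻¹ A| ^ 5 < |G : C_G(t)|`.
-/

set_option autoImplicit false

namespace Cfsg.Agent.H847.IF

open Subgroup Cfsg.Agent.H209.Fxy

/-- **(E2) in a covering group** -/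
theorem lift_E2 {G T : Type*} [Group G] [Finite G] [Group T] [Finite T] [IsSimpleGroup T] {A : Subgroup T}
    {Γ : Subgroup (MulAut T)} (h : IF A Γ) (hna : ∃ a b : T, a * b ≠ b * a) (pi : G →* T)
    (hpi : Function.Surjective pi) {t : G} (ht : pi t ∈ A) (ht1 : pi t ≠ 1) (ht2 : pi (t * t) = 1) {B : Subgroup G}
    (hB : ∀ b ∈ B, pi (b * t) = pi (t * b)) :
    (A.comap pi).relIndex B ^ 5 < (centralizer ({t} : Set G)).index := by
  have ho : orderOf (pi t) = 2 := by
    apply orderOf_eq_prime _ ht1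
    rw [pow_two, ← map_mul, ht2]
  obtain ⟨-, -, -, -, h5⟩ := Cfsg.Agent.H999.IFB.IF.E2' h hna ht ho
  have h6 := (h5 (B.map pi) (by
    rintro _ ⟨b, hb, rfl⟩
    rw [mem_centralizer_iff]
    rintro _ rfl
    have := hB b hb
    rw [map_mul, map_mul] at this
    exact this.symm)).1
  rw [relIndex_comap]
  refine lt_of_lt_of_le h6 ?_
  rw [← index_comap_of_surjective _ hpi]
  refine Nat.le_of_dvd (Nat.pos_of_ne_zero index_ne_zero_of_finite) (index_dvd_of_le ?_)
  intro x hx
  rw [mem_centralizer_iff] at hx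
  rw [mem_comap, mem_centralizer_iff]
  rintro _ rfl
  rw [← map_mul, hx t rfl, map_mul]

/-- the same with the order of the centraliser: `|B : B ∩ pi⁻¹ A| ^ 5 · |C_G(t)| < |G|` -/
theorem lift_E2_card {G T : Type*} [Group G] [Finite G] [Group T] [Finite T] [IsSimpleGroup T] {A : Subgroup T}
    {Γ : Subgroup (MulAut T)} (h : IF A Γ) (hna : ∃ a b : T, a * b ≠ b * a) (pi : G →* T)
    (hpi : Function.Surjective pi) {t : G} (ht : pi t ∈ A) (ht1 : pi t ≠ 1) (ht2 : pi (t * t) = 1) {B : Subgroup G}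
    (hB : ∀ b ∈ B, pi (b * t) = pi (t * b)) :
    (A.comap pi).relIndex B ^ 5 * Nat.card (centralizer ({t} : Set G)) < Nat.card G := by
  have h1 := lift_E2 h hna pi hpi ht ht1 ht2 hB
  rw [← index_mul_card (centralizer ({t} : Set G))]
  exact Nat.mul_lt_mul_of_pos_right h1 Nat.card_pos

end Cfsg.Agent.H847.IF
end

-- part: H371/IFx/Base
section
set_option linter.all false
open scoped Cfsg.Agent.FastGrp

/-!
# S5719: transport of `IF` along an isomorphism, and the first inequality (helper371)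
-/

set_option autoImplicit false
set_option linter.unusedSectionVars false

namespace Cfsg.Agent.H371.IFx

open MulAction Subgroup Cfsg.Agent.H284 Cfsg.Agent.H209.Fxy

section E1

variable {T : Type*} [Group T] [Finite T] {A : Subgroup T} {Γ : Subgroup (MulAut T)}

/-- A subgroup `B` centralised by `σ` acts on the fixed points of `σ`. -/
theorem relIndex_le_fx (A : Subgroup T) {σ : MulAut T} {B : Subgroup T} (hB : ∀ b ∈ B, σ b = b) :
    A.relIndex B ≤ fx A σ := by
  let f : (B ⧸ A.subgroupOf B) → T ⧸ A := Quotient.lift (fun b : B => ((b : T) : T ⧸ A)) (by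
    intro a b hab
    have h1 : a⁻¹ * b ∈ A.subgroupOf B := QuotientGroup.leftRel_apply.1 hab
    exact QuotientGroup.eq.2 h1)
  have hf : Function.Injective f := by
    intro a b hab
    induction a using QuotientGroup.induction_on with
    | H a =>
      induction b using QuotientGroup.induction_on with
      | H b =>
        have hab' : ((a : T) : T ⧸ A) = ((b : T) : T ⧸ A) := hab
        rw [QuotientGroup.eq] at hab' ⊢
        exact hab'
  have hr : Set.range f ⊆ fixSet A σ := by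
    rintro _ ⟨b, rfl⟩
    induction b using QuotientGroup.induction_on with
    | H b =>
      refine ⟨b, rfl, ?_⟩
      rw [hB b b.2, inv_mul_cancel]
      exact one_mem _
  calc A.relIndex B = Nat.card (B ⧸ A.subgroupOf B) := rfl
    _ = (Set.range f).ncard := by
        rw [← Set.image_univ, Set.ncard_image_of_injective _ hf, Set.ncard_univ]
    _ ≤ (fixSet A σ).ncard := Set.ncard_le_ncard hr (Set.toFinite _)

theorem E1 (h : IF A Γ) {σ : MulAut T} (hσ : σ ∈ Γ) (h2 : orderOf σ = 2) {B : Subgroup T}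
    (hB : ∀ b ∈ B, σ b = b) : A.relIndex B ^ 6 < A.index :=
  lt_of_le_of_lt (Nat.pow_le_pow_left (relIndex_le_fx A hB) 6) (h.small σ hσ h2)

theorem index_le_card (A : Subgroup T) : A.index ≤ Nat.card T := by
  rw [← A.card_mul_index]
  exact Nat.le_mul_of_pos_left _ Nat.card_pos

end E1

section Congr

variable {T X : Type*} [Group T] [Group X] (e : T ≃* X) {A : Subgroup T} {Γ : Subgroup (MulAut T)}

theorem fx_congr (A : Subgroup T) (σ : MulAut T) : fx (A.map e.toMonoidHom) (MulAut.congr e σ) = fx A σ := by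
  have hmem : ∀ t : T, e t ∈ A.map e.toMonoidHom ↔ t ∈ A := fun t =>
    Subgroup.mem_map_iff_mem (f := e.toMonoidHom) e.injective
  let f : T ⧸ A → X ⧸ A.map e.toMonoidHom := Quotient.lift (fun t : T => ((e t : X) : X ⧸ A.map e.toMonoidHom)) (by
    intro a b hab
    have h1 : a⁻¹ * b ∈ A := QuotientGroup.leftRel_apply.1 hab
    apply QuotientGroup.eq.2
    rw [← map_inv, ← map_mul, hmem]
    exact h1)
  have hf : Function.Injective f := by
    intro a b hab
    induction a using QuotientGroup.induction_on with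
    | H a =>
      induction b using QuotientGroup.induction_on with
      | H b =>
        have hab' : ((e a : X) : X ⧸ A.map e.toMonoidHom) = ((e b : X) : X ⧸ A.map e.toMonoidHom) := hab
        rw [QuotientGroup.eq, ← map_inv, ← map_mul, hmem] at hab'
        exact QuotientGroup.eq.2 hab'
  have key : ∀ y : T, (e y)⁻¹ * (MulAut.congr e σ) (e y) ∈ A.map e.toMonoidHom ↔ y⁻¹ * σ y ∈ A := by
    intro y
    have h1 : (MulAut.congr e σ) (e y) = e (σ y) := by
      show e (σ (e.symm (e y))) = _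
      rw [MulEquiv.symm_apply_apply]
    rw [h1, ← map_inv, ← map_mul, hmem]
  have h1 : f '' fixSet A σ = fixSet (A.map e.toMonoidHom) (MulAut.congr e σ) := by
    ext c
    constructor
    · rintro ⟨_, ⟨y, rfl, hy⟩, rfl⟩
      exact ⟨e y, rfl, (key y).2 hy⟩
    · rintro ⟨y, rfl, hy⟩
      obtain ⟨t, rfl⟩ := e.surjective y
      exact ⟨(t : T ⧸ A), ⟨t, rfl, (key t).1 hy⟩, rfl⟩
  rw [fx, fx, ← h1, Set.ncard_image_of_injective _ hf]

theorem IF.congr (h : IF A Γ) : IF (A.map e.toMonoidHom) (Γ.map (MulAut.congr e).toMonoidHom) := by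
  have hmem : ∀ t : T, e t ∈ A.map e.toMonoidHom ↔ t ∈ A := fun t =>
    Subgroup.mem_map_iff_mem (f := e.toMonoidHom) e.injective
  have hΓ : ∀ σ : MulAut T, MulAut.congr e σ ∈ Γ.map (MulAut.congr e).toMonoidHom ↔ σ ∈ Γ := fun σ =>
    Subgroup.mem_map_iff_mem (f := (MulAut.congr e).toMonoidHom) (MulAut.congr e).injective
  have happ : ∀ (σ : MulAut T) (t : T), (MulAut.congr e σ) (e t) = e (σ t) := by
    intro σ t
    show e (σ (e.symm (e t))) = _
    rw [MulEquiv.symm_apply_apply]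
  have hord : ∀ σ : MulAut T, orderOf (MulAut.congr e σ) = orderOf σ := fun σ =>
    orderOf_injective (MulAut.congr e).toMonoidHom (MulAut.congr e).injective σ
  have hidx : (A.map e.toMonoidHom).index = A.index := A.index_map_equiv e
  refine ⟨?_, ?_, ?_, ?_, ?_, ?_, ?_, ?_⟩
  · intro B hAB hB
    rcases h.max (B.comap e.toMonoidHom) (fun a ha => hAB ((hmem a).2 ha)) (by
      intro σ hσ b hb
      have h1 := hB (MulAut.congr e σ) ((hΓ σ).2 hσ) (e b) hb
      rw [happ] at h1
      exact h1) with h1 | h1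
    · left
      rw [← h1, Subgroup.map_comap_eq_self_of_surjective (f := e.toMonoidHom) e.surjective]
    · right
      rw [Subgroup.eq_top_iff']
      intro x
      obtain ⟨t, rfl⟩ := e.surjective x
      have h2 : t ∈ B.comap e.toMonoidHom := by rw [h1]; exact mem_top _
      exact h2
  · intro h1
    apply h.ne_top
    rw [Subgroup.eq_top_iff']
    intro t
    rw [← hmem, h1]
    exact mem_top _
  · intro h1
    apply h.ne_bot
    rw [Subgroup.eq_bot_iff_forall]
    intro t ht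
    rw [← hmem, h1, mem_bot] at ht
    exact e.injective (ht.trans (map_one e).symm)
  · intro x
    obtain ⟨t, rfl⟩ := e.surjective x
    have h1 : MulAut.conj (e t) = MulAut.congr e (MulAut.conj t) := by
      ext y
      obtain ⟨s, rfl⟩ := e.surjective y
      rw [happ, MulAut.conj_apply, MulAut.conj_apply, map_mul, map_mul, map_inv]
    rw [h1, hΓ, hmem]
    exact h.conj t
  · rintro _ ⟨σ, hσ, rfl⟩ x
    obtain ⟨t, rfl⟩ := e.surjective x
    have h1 : (MulAut.congr e).toMonoidHom σ (e t) = e (σ t) := happ σ t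
    rw [h1, hmem, hmem]
    exact h.inv σ hσ t
  · rw [hidx]
    exact h.big
  · rintro _ ⟨σ, hσ, rfl⟩ ho
    have h1 : orderOf σ = 2 := by rw [← hord]; exact ho
    have h2 : fx (A.map e.toMonoidHom) ((MulAut.congr e).toMonoidHom σ) = fx A σ := fx_congr e A σ
    rw [hidx, h2]
    exact h.small σ hσ h1
  · obtain ⟨σ, hσ, ho, hf⟩ := h.ex
    refine ⟨MulAut.congr e σ, (hΓ σ).2 hσ, by rw [hord, ho], ?_⟩
    rw [fx_congr]
    exact hf

end Congr

end Cfsg.Agent.H371.IFx
end

-- part: H677/IF/Kill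
section
prune_inst 0x2
set_option linter.all false
open scoped Cfsg.Agent.FastGrp

-- part: H677/IF/SE
section
/-!
# S5719, sporadic rows (helper677): a proper subgroup containing the centralisers of its involutions

* `all_conj` : `A` proper, with an involution, `C_T(t) ≤ A` for every involution `t ∈ A`, `T` simple:
  all involutions of `T` are conjugate;
* `mem_of_conj_mem` : if moreover `N_T(⟨I(A)⟩) ≤ A` then `t, g⁻¹ t g ∈ A` implies `g ∈ A`.
-/

set_option autoImplicit false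
set_option linter.unusedSectionVars false

namespace Cfsg.Agent.H677.SE

open Subgroup

variable {T : Type*} [Group T]

theorem pow_conj {s u : T} (hs : s * s = 1) (hu : s * u * s = u⁻¹) (k : ℕ) : u ^ k * s * (u ^ k)⁻¹ = s * (u ^ (2 * k))⁻¹ := by
  have hsi : s⁻¹ = s := inv_eq_of_mul_eq_one_right hs
  have h1 : s * u ^ k * s = (u ^ k)⁻¹ := by
    have h2 : s * u ^ k * s⁻¹ = (s * u * s⁻¹) ^ k := (conj_pow).symm
    rw [hsi] at h2
    rw [h2, hu, inv_pow]
  have h3 : u ^ k * s = s * (u ^ k)⁻¹ := by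
    have h4 : s * (s * u ^ k * s) = u ^ k * s := by
      rw [← mul_assoc, ← mul_assoc, hs, one_mul]
    rw [← h4, h1]
  rw [h3, mul_assoc, two_mul, pow_add, mul_inv_rev]

/-- two involutions with product of odd order are conjugate in the group they generate -/
theorem conj_of_odd {s t : T} (hs : s * s = 1) (ht : t * t = 1) (hodd : Odd (orderOf (s * t))) :
    ∃ k : ℕ, (s * t) ^ k * s * ((s * t) ^ k)⁻¹ = t := by
  obtain ⟨m, hm⟩ := hodd
  refine ⟨m, ?_⟩
  have hsi : s⁻¹ = s := inv_eq_of_mul_eq_one_right hs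
  have hti : t⁻¹ = t := inv_eq_of_mul_eq_one_right ht
  have hu : s * (s * t) * s = (s * t)⁻¹ := by
    rw [← mul_assoc, hs, one_mul, mul_inv_rev, hsi, hti]
  rw [pow_conj hs hu m]
  have h1 : (s * t) ^ (2 * m) * (s * t) = 1 := by
    rw [← pow_succ, ← hm, pow_orderOf_eq_one]
  have h2 : ((s * t) ^ (2 * m))⁻¹ = s * t := inv_eq_of_mul_eq_one_right h1
  rw [h2, ← mul_assoc, hs, one_mul]

/-- two involutions with product of even order are centralised by an involution -/
theorem cent_of_even [Finite T] {s t : T} (hs : s * s = 1) (ht : t * t = 1) (heven : Even (orderOf (s * t))) :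
    ∃ z : T, orderOf z = 2 ∧ z * s = s * z ∧ z * t = t * z := by
  obtain ⟨m, hm⟩ := heven
  have hpos : 0 < orderOf (s * t) := orderOf_pos _
  have hsi : s⁻¹ = s := inv_eq_of_mul_eq_one_right hs
  have hti : t⁻¹ = t := inv_eq_of_mul_eq_one_right ht
  have hm2 : orderOf (s * t) = 2 * m := by omega
  have hord : orderOf ((s * t) ^ m) = 2 := by
    rw [orderOf_pow, hm2]
    have : Nat.gcd (2 * m) m = m := Nat.gcd_eq_right (Dvd.intro_left 2 rfl)
    rw [this]
    exact Nat.mul_div_cancel 2 (by omega)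
  have hzz : (s * t) ^ m * (s * t) ^ m = 1 := by
    rw [← pow_add, ← two_mul, ← hm2, pow_orderOf_eq_one]
  have hzi : ((s * t) ^ m)⁻¹ = (s * t) ^ m := inv_eq_of_mul_eq_one_right hzz
  have hu : s * (s * t) * s = (s * t)⁻¹ := by
    rw [← mul_assoc, hs, one_mul, mul_inv_rev, hsi, hti]
  have h1 : s * (s * t) ^ m * s = (s * t) ^ m := by
    have h2 : s * (s * t) ^ m * s⁻¹ = (s * (s * t) * s⁻¹) ^ m := (conj_pow).symm
    rw [hsi] at h2
    rw [h2, hu, inv_pow, hzi]
  have hcs : (s * t) ^ m * s = s * (s * t) ^ m := by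
    have h4 : s * (s * (s * t) ^ m * s) = (s * t) ^ m * s := by
      rw [← mul_assoc, ← mul_assoc, hs, one_mul]
    rw [← h4, h1]
  refine ⟨(s * t) ^ m, hord, hcs, ?_⟩
  have h5 : t = s * (s * t) := by rw [← mul_assoc, hs, one_mul]
  have h6 : (s * t) ^ m * (s * t) = (s * t) * (s * t) ^ m := (pow_mul_comm' _ _)
  calc (s * t) ^ m * t = (s * t) ^ m * (s * (s * t)) := by rw [← h5]
    _ = ((s * t) ^ m * s) * (s * t) := by rw [mul_assoc]
    _ = s * ((s * t) ^ m * (s * t)) := by rw [hcs, mul_assoc]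
    _ = s * ((s * t) * (s * t) ^ m) := by rw [h6]
    _ = t * (s * t) ^ m := by rw [← mul_assoc, ← h5]

theorem sq_of_ord {t : T} (h : orderOf t = 2) : t * t = 1 := by
  rw [← sq, ← h, pow_orderOf_eq_one]

/-- the dihedral step: `s ∉ A`, `t ∈ A`. -/
theorem conj_step [Finite T] {A : Subgroup T} (hc : ∀ t ∈ A, orderOf t = 2 → centralizer ({t} : Set T) ≤ A)
    {s t : T} (hs : orderOf s = 2) (hsA : s ∉ A) (ht : orderOf t = 2) (htA : t ∈ A) :
    ∃ k : ℕ, (s * t) ^ k * s * ((s * t) ^ k)⁻¹ = t := by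
  rcases Nat.even_or_odd (orderOf (s * t)) with h | h
  · exfalso
    obtain ⟨z, hz, hzs, hzt⟩ := cent_of_even (sq_of_ord hs) (sq_of_ord ht) h
    have h1 : z ∈ A := hc t htA ht (mem_centralizer_singleton_iff.2 hzt)
    exact hsA (hc z h1 hz (mem_centralizer_singleton_iff.2 hzs.symm))
  · exact conj_of_odd (sq_of_ord hs) (sq_of_ord ht) h

/-- a central involution of a Sylow `2`-subgroup containing an involution -/
theorem exists_cen [Finite T] (P : Sylow 2 T) {t : T} (htP : t ∈ P) (ht : orderOf t = 2) :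
    ∃ z ∈ P, orderOf z = 2 ∧ ∀ x ∈ P, z * x = x * z := by
  have hP : IsPGroup 2 P := P.isPGroup'
  have hnt : Nontrivial P := by
    refine ⟨⟨⟨t, htP⟩, 1, fun h => ?_⟩⟩
    have : t = 1 := congrArg Subtype.val h
    rw [this, orderOf_one] at ht
    omega
  have h1 : Nontrivial (Subgroup.center P) := hP.center_nontrivial
  have h2 : IsPGroup 2 (Subgroup.center P) := hP.to_subgroup _
  obtain ⟨n, hn⟩ := (IsPGroup.iff_card (p := 2)).1 h2
  have h3 : 2 ∣ Nat.card (Subgroup.center P) := by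
    rw [hn]
    rcases n with _ | n
    · rw [pow_zero] at hn
      exact absurd hn (Finite.one_lt_card_iff_nontrivial.2 h1).ne'
    · exact dvd_pow_self 2 (Nat.succ_ne_zero n)
  obtain ⟨z, hz⟩ := exists_prime_orderOf_dvd_card' 2 h3
  refine ⟨((z : P) : T), (z : P).2, ?_, fun x hx => ?_⟩
  · rw [Subgroup.orderOf_coe, Subgroup.orderOf_coe, hz]
  · exact congrArg Subtype.val (Subgroup.mem_center_iff.1 z.2 ⟨x, hx⟩).symm

theorem sylow_le [Finite T] {A : Subgroup T} (hc : ∀ t ∈ A, orderOf t = 2 → centralizer ({t} : Set T) ≤ A)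
    (P : Sylow 2 T) {t : T} (htP : t ∈ P) (ht : orderOf t = 2) (htA : t ∈ A) : (P : Subgroup T) ≤ A := by
  obtain ⟨z, -, hz, hzc⟩ := exists_cen P htP ht
  have h1 : z ∈ A := hc t htA ht (mem_centralizer_singleton_iff.2 (hzc t htP))
  exact fun x hx => hc z h1 hz (mem_centralizer_singleton_iff.2 (hzc x hx).symm)

theorem exists_sylow [Finite T] {t : T} (ht : orderOf t = 2) : ∃ P : Sylow 2 T, t ∈ P := by
  have h1 : IsPGroup 2 (zpowers t) := by
    rw [IsPGroup.iff_card]
    exact ⟨1, by rw [Nat.card_zpowers, ht, pow_one]⟩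
  obtain ⟨P, hP⟩ := h1.exists_le_sylow
  exact ⟨P, hP (mem_zpowers t)⟩

/-- Sylow's theorem inside a subgroup containing `P` -/
theorem exists_conj_le [Finite T] {A : Subgroup T} (P Q : Sylow 2 T) (hP : (P : Subgroup T) ≤ A)
    (hQ : (Q : Subgroup T) ≤ A) : ∃ a ∈ A, ∀ x : T, a * x * a⁻¹ ∈ P ↔ x ∈ Q := by
  obtain ⟨a, ha⟩ := MulAction.exists_smul_eq A (Q.subtype hQ) (P.subtype hP)
  have h1 : a • Q = P := Sylow.subtype_injective ((Sylow.smul_subtype hQ a).symm.trans ha)
  refine ⟨a, a.2, fun x => ?_⟩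
  rw [← h1]
  have h3 : (a • Q : Sylow 2 T) = ((MulAut.conj (a : T)) • Q : Sylow 2 T) := rfl
  rw [h3]
  show (a : T) * x * (a : T)⁻¹ ∈ ((MulAut.conj (a : T) • Q : Sylow 2 T) : Subgroup T) ↔ x ∈ Q
  rw [Sylow.pointwise_smul_def, Subgroup.mem_pointwise_smul_iff_inv_smul_mem]
  have h4 : (MulAut.conj (a : T))⁻¹ • ((a : T) * x * (a : T)⁻¹) = x := by
    rw [← MulAut.conj_apply, inv_smul_eq_iff]
    rfl
  rw [h4]
  rfl

theorem ord_conj (g : T) {t : T} (ht : orderOf t = 2) : orderOf (g * t * g⁻¹) = 2 := by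
  rw [← ht]
  exact orderOf_injective (MulAut.conj g).toMonoidHom (MulAut.conj g).injective t

/-- the involutions of a subgroup containing the Sylow subgroup `P` -/
theorem exists_into [Finite T] {L : Subgroup T} (P : Sylow 2 T) (hP : (P : Subgroup T) ≤ L) {t : T} (ht : orderOf t = 2)
    (htL : t ∈ L) : ∃ a ∈ L, a * t * a⁻¹ ∈ P := by
  have h1 : orderOf (⟨t, htL⟩ : L) = 2 := by rw [← Subgroup.orderOf_coe]; exact ht
  have h2 : IsPGroup 2 (zpowers (⟨t, htL⟩ : L)) := by
    rw [IsPGroup.iff_card]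
    exact ⟨1, by rw [Nat.card_zpowers, h1, pow_one]⟩
  obtain ⟨Q, hQ⟩ := h2.exists_le_sylow
  obtain ⟨a, ha⟩ := MulAction.exists_smul_eq L Q (P.subtype hP)
  refine ⟨a, a.2, ?_⟩
  have h3 : (⟨t, htL⟩ : L) ∈ Q := hQ (mem_zpowers _)
  have h4 : a * (⟨t, htL⟩ : L) * a⁻¹ ∈ P.subtype hP := by
    rw [← ha]
    show a * (⟨t, htL⟩ : L) * a⁻¹ ∈ ((MulAut.conj a • Q : Sylow 2 L) : Subgroup L)
    rw [Sylow.pointwise_smul_def, Subgroup.mem_pointwise_smul_iff_inv_smul_mem]
    have h4 : (MulAut.conj a)⁻¹ • (a * (⟨t, htL⟩ : L) * a⁻¹) = (⟨t, htL⟩ : L) := by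
      rw [← MulAut.conj_apply, inv_smul_eq_iff]
      rfl
    rw [h4]
    exact h3
  exact h4

/-- `N_T(P) ≤ A` -/
theorem norm_sylow_le [Finite T] {A : Subgroup T} (hc : ∀ t ∈ A, orderOf t = 2 → centralizer ({t} : Set T) ≤ A)
    (hnorm : ∀ g : T, (∀ k ∈ closure {x : T | x ∈ A ∧ orderOf x = 2},
      g * k * g⁻¹ ∈ closure {x : T | x ∈ A ∧ orderOf x = 2}) → g ∈ A)
    (P : Sylow 2 T) (hP : (P : Subgroup T) ≤ A) {t : T} (htP : t ∈ P) (ht : orderOf t = 2) {g : T}
    (hg : ∀ x ∈ P, g * x * g⁻¹ ∈ P) : g ∈ A := by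
  set L : Subgroup T := closure {x : T | ∃ u ∈ P, orderOf u = 2 ∧ x * u = u * x} with hL
  have hLA : L ≤ A := by
    rw [hL, closure_le]
    rintro x ⟨u, hu, hu2, hx⟩
    exact hc u (hP hu) hu2 (mem_centralizer_singleton_iff.2 hx)
  obtain ⟨z, hzP, hz, hzc⟩ := exists_cen P htP ht
  have hPL : (P : Subgroup T) ≤ L := by
    intro x hx
    exact subset_closure ⟨z, hzP, hz, (hzc x hx).symm⟩
  have hgL : ∀ x ∈ L, g * x * g⁻¹ ∈ L := by
    have h1 : L ≤ L.comap (MulAut.conj g).toMonoidHom := by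
      conv_lhs => rw [hL]
      rw [closure_le]
      rintro x ⟨u, hu, hu2, hx⟩
      show g * x * g⁻¹ ∈ L
      refine subset_closure ⟨g * u * g⁻¹, hg u hu, ord_conj g hu2, ?_⟩
      calc g * x * g⁻¹ * (g * u * g⁻¹) = g * (x * u) * g⁻¹ := by group
        _ = g * (u * x) * g⁻¹ := by rw [hx]
        _ = _ := by group
    exact fun x hx => h1 hx
  have hcL : ∀ u ∈ L, orderOf u = 2 → centralizer ({u} : Set T) ≤ L := by
    intro u hu hu2
    obtain ⟨a, haL, ha⟩ := exists_into P hPL hu2 hu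
    intro x hx
    rw [mem_centralizer_singleton_iff] at hx
    have h1 : a * x * a⁻¹ ∈ L := by
      refine subset_closure ⟨a * u * a⁻¹, ha, ord_conj a hu2, ?_⟩
      calc a * x * a⁻¹ * (a * u * a⁻¹) = a * (x * u) * a⁻¹ := by group
        _ = a * (u * x) * a⁻¹ := by rw [hx]
        _ = _ := by group
    have h2 := L.mul_mem (L.mul_mem (L.inv_mem haL) h1) haL
    have h3 : a⁻¹ * (a * x * a⁻¹) * a = x := by group
    rwa [h3] at h2
  by_cases hcase : ∀ x ∈ A, orderOf x = 2 → x ∈ L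
  · apply hnorm
    have h1 : closure {x : T | x ∈ A ∧ orderOf x = 2} ≤
        (closure {x : T | x ∈ A ∧ orderOf x = 2}).comap (MulAut.conj g).toMonoidHom := by
      conv_lhs => skip
      rw [closure_le]
      rintro x ⟨hxA, hx2⟩
      show g * x * g⁻¹ ∈ closure {x : T | x ∈ A ∧ orderOf x = 2}
      exact subset_closure ⟨hLA (hgL x (hcase x hxA hx2)), ord_conj g hx2⟩
    exact fun k hk => h1 hk
  · push Not at hcase
    obtain ⟨s, hsA, hs, hsL⟩ := hcase
    obtain ⟨k1, h1⟩ := conj_step hcL hs hsL ht (hPL htP)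
    obtain ⟨k2, h2⟩ := conj_step hcL hs hsL (ord_conj g ht) (hPL (hg t htP))
    have hm1 : (s * t) ^ k1 ∈ A := A.pow_mem (A.mul_mem hsA (hP htP)) _
    have hm2 : (s * (g * t * g⁻¹)) ^ k2 ∈ A := A.pow_mem (A.mul_mem hsA (hP (hg t htP))) _
    set a := (s * t) ^ k1 with ha
    set b := (s * (g * t * g⁻¹)) ^ k2 with hb
    have h3 : b * a⁻¹ * t * (b * a⁻¹)⁻¹ = g * t * g⁻¹ := by
      have h4 : s = a⁻¹ * t * a := by rw [← h1]; group
      calc b * a⁻¹ * t * (b * a⁻¹)⁻¹ = b * (a⁻¹ * t * a) * b⁻¹ := by group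
        _ = b * s * b⁻¹ := by rw [← h4]
        _ = _ := h2
    have h5 : (b * a⁻¹)⁻¹ * g ∈ A := by
      apply hc t (hP htP) ht
      rw [mem_centralizer_singleton_iff]
      have h6 : t = (b * a⁻¹)⁻¹ * (g * t * g⁻¹) * (b * a⁻¹) := by rw [← h3]; group
      calc (b * a⁻¹)⁻¹ * g * t = ((b * a⁻¹)⁻¹ * (g * t * g⁻¹) * (b * a⁻¹)) * ((b * a⁻¹)⁻¹ * g) := by group
        _ = t * ((b * a⁻¹)⁻¹ * g) := by rw [← h6]
    have h7 := A.mul_mem (A.mul_mem hm2 (A.inv_mem hm1)) h5
    rwa [mul_inv_cancel_left] at h7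

/-- **`A` is strongly embedded.** -/
theorem mem_of_conj_mem [Finite T] {A : Subgroup T} (hc : ∀ t ∈ A, orderOf t = 2 → centralizer ({t} : Set T) ≤ A)
    (hnorm : ∀ g : T, (∀ k ∈ closure {x : T | x ∈ A ∧ orderOf x = 2},
      g * k * g⁻¹ ∈ closure {x : T | x ∈ A ∧ orderOf x = 2}) → g ∈ A)
    {t g : T} (ht : orderOf t = 2) (htA : t ∈ A) (hg : g * t * g⁻¹ ∈ A) : g ∈ A := by
  obtain ⟨P, htP⟩ := exists_sylow ht
  have hP := sylow_le hc P htP ht htA
  obtain ⟨Q, hQ⟩ := exists_sylow (ord_conj g ht)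
  have hgP : g * t * g⁻¹ ∈ (MulAut.conj g • P : Sylow 2 T) := by
    show g * t * g⁻¹ ∈ ((MulAut.conj g • P : Sylow 2 T) : Subgroup T)
    rw [Sylow.pointwise_smul_def, Subgroup.mem_pointwise_smul_iff_inv_smul_mem]
    have h4 : (MulAut.conj g)⁻¹ • (g * t * g⁻¹) = t := by
      rw [← MulAut.conj_apply, inv_smul_eq_iff]
      rfl
    rw [h4]
    exact htP
  have hPg := sylow_le hc (MulAut.conj g • P : Sylow 2 T) hgP (ord_conj g ht) hg
  obtain ⟨a, haA, ha⟩ := exists_conj_le P (MulAut.conj g • P : Sylow 2 T) hP hPg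
  have h1 : a * g ∈ A := by
    apply norm_sylow_le hc hnorm P hP htP ht
    intro x hx
    have h2 : g * x * g⁻¹ ∈ (MulAut.conj g • P : Sylow 2 T) := by
      show g * x * g⁻¹ ∈ ((MulAut.conj g • P : Sylow 2 T) : Subgroup T)
      rw [Sylow.pointwise_smul_def, Subgroup.mem_pointwise_smul_iff_inv_smul_mem]
      have h4 : (MulAut.conj g)⁻¹ • (g * x * g⁻¹) = x := by
        rw [← MulAut.conj_apply, inv_smul_eq_iff]
        rfl
      rw [h4]
      exact hx
    have h3 := (ha _).2 h2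
    have h4 : a * (g * x * g⁻¹) * a⁻¹ = a * g * x * (a * g)⁻¹ := by group
    rwa [h4] at h3
  have h2 := A.mul_mem (A.inv_mem haA) h1
  rwa [inv_mul_cancel_left] at h2

end Cfsg.Agent.H677.SE
end

-- part: H677/IF/Kill
section
/-!
# S5719, sporadic rows (helper677): the strongly embedded kill

* `kill_two` : `IF A Γ`, `C_T(t) ≤ A` for the involutions `t ∈ A` (at least one) and two classes of involutions: `False`;
* `kill_inner` : the same for one class if the involutions of `Γ` are inner;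
* `rel_small` : (E1) for an inner involution in the numerical form `|B : B ∩ A|^6 < |T : A|`.
-/

set_option autoImplicit false
set_option linter.unusedSectionVars false

namespace Cfsg.Agent.H677.SE

open Subgroup Cfsg.Agent.H209.Fxy

variable {T : Type*} [Group T] [Finite T] {A : Subgroup T} {Γ : Subgroup (MulAut T)}

theorem center_bot [IsSimpleGroup T] (hna : ∃ a b : T, a * b ≠ b * a) : Subgroup.center T = ⊥ := by
  rcases (inferInstance : (Subgroup.center T).Normal).eq_bot_or_eq_top with h | h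
  · exact h
  · obtain ⟨a, b, hab⟩ := hna
    exact absurd (Subgroup.mem_center_iff.1 (h ▸ mem_top b : b ∈ Subgroup.center T) a) hab

theorem conj_inj [IsSimpleGroup T] (hna : ∃ a b : T, a * b ≠ b * a) :
    Function.Injective (MulAut.conj : T →* MulAut T) := by
  rw [injective_iff_map_eq_one]
  intro a ha
  have h1 : a ∈ Subgroup.center T := by
    rw [Subgroup.mem_center_iff]
    intro g
    have h2 : MulAut.conj a g = g := by rw [ha]; rfl
    rw [MulAut.conj_apply] at h2
    have h3 : a * g = g * a := by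
      rw [← mul_inv_eq_iff_eq_mul]
      exact h2
    exact h3.symm
  rw [center_bot hna, mem_bot] at h1
  exact h1

theorem ord_conjAut [IsSimpleGroup T] (hna : ∃ a b : T, a * b ≠ b * a) (a : T) :
    orderOf (MulAut.conj a) = orderOf a := orderOf_injective _ (conj_inj hna) a

/-- the centre of `T` is trivial: a `Γ`-invariant subgroup -/
theorem closure_inv [IsSimpleGroup T] (h : IF A Γ) {σ : MulAut T} (hσ : σ ∈ Γ) :
    ∀ k ∈ closure {x : T | x ∈ A ∧ orderOf x = 2}, σ k ∈ closure {x : T | x ∈ A ∧ orderOf x = 2} := by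
  have h1 : closure {x : T | x ∈ A ∧ orderOf x = 2} ≤
      (closure {x : T | x ∈ A ∧ orderOf x = 2}).comap σ.toMonoidHom := by
    conv_lhs => skip
    rw [closure_le]
    rintro x ⟨hxA, hx2⟩
    show σ x ∈ closure {x : T | x ∈ A ∧ orderOf x = 2}
    refine subset_closure ⟨(h.inv σ hσ x).2 hxA, ?_⟩
    rw [← hx2]
    exact orderOf_injective σ.toMonoidHom σ.injective x
  exact fun k hk => h1 hk

/-- `N_T(K) ≤ A` for `1 ≠ K ≤ A` invariant under `Γ` (a proof of its own, to be independent of the engine) -/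
theorem norm_le [IsSimpleGroup T] (h : IF A Γ) {K : Subgroup T} (hK : K ≤ A) (hinv : ∀ σ ∈ Γ, ∀ k ∈ K, σ k ∈ K)
    (hne : K ≠ ⊥) {x : T} (hx : ∀ k ∈ K, x * k * x⁻¹ ∈ K) : x ∈ A := by
  have hfix : ∀ {σ : MulAut T}, (∀ k ∈ K, σ k ∈ K) → ∀ k : T, σ k ∈ K → k ∈ K := by
    intro σ hσ k hk
    have h1 : K.map σ.toMonoidHom ≤ K := by
      rintro _ ⟨y, hy, rfl⟩
      exact hσ y hy
    have h2 : K.map σ.toMonoidHom = K := by
      apply SetLike.coe_injective
      apply Set.eq_of_subset_of_ncard_le h1 _ (Set.toFinite _)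
      rw [Subgroup.coe_map]
      exact (Set.ncard_image_of_injective _ σ.injective).ge
    have h3 : σ k ∈ K.map σ.toMonoidHom := by rw [h2]; exact hk
    obtain ⟨y, hy, hyk⟩ := h3
    rwa [← σ.injective hyk]
  have hAK : ∀ a ∈ A, ∀ k ∈ K, a * k * a⁻¹ ∈ K := fun a ha k hk => hinv (MulAut.conj a) ((h.conj a).2 ha) k hk
  have hAn : A ≤ normalizer (K : Set T) := by
    intro a ha
    rw [Subgroup.mem_normalizer_iff]
    intro k
    exact ⟨hAK a ha k, fun hk => hfix (σ := MulAut.conj a) (hAK a ha) k hk⟩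
  have hxn : x ∈ normalizer (K : Set T) := by
    rw [Subgroup.mem_normalizer_iff]
    intro k
    exact ⟨hx k, fun hk => hfix (σ := MulAut.conj x) hx k hk⟩
  rcases h.max (normalizer (K : Set T)) hAn (by
    intro σ hσ b hb
    rw [Subgroup.mem_normalizer_iff] at hb ⊢
    have key : ∀ k ∈ K, σ b * k * (σ b)⁻¹ ∈ K := by
      intro k hk
      have h1 : σ⁻¹ k ∈ K := hinv σ⁻¹ (inv_mem hσ) k hk
      have h2 := hinv σ hσ _ ((hb _).1 h1)
      rw [map_mul, map_mul, map_inv] at h2
      have h3 : σ (σ⁻¹ k) = k := by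
        rw [← MulAut.mul_apply, mul_inv_cancel]; rfl
      rwa [h3] at h2
    intro k
    exact ⟨key k, fun hk => hfix (σ := MulAut.conj (σ b)) key k hk⟩) with h1 | h1
  · rw [h1] at hxn
    exact hxn
  · exfalso
    have hn : K.Normal := by
      refine ⟨fun k hk g => ?_⟩
      have : g ∈ normalizer (K : Set T) := by rw [h1]; exact mem_top g
      exact (Subgroup.mem_normalizer_iff.1 this k).1 hk
    rcases hn.eq_bot_or_eq_top with h2 | h2
    · exact hne h2
    · exact h.ne_top (top_le_iff.1 (h2 ▸ hK))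

theorem fx_le_one [IsSimpleGroup T] (h : IF A Γ)
    (hc : ∀ t ∈ A, orderOf t = 2 → centralizer ({t} : Set T) ≤ A) {t : T} (htA : t ∈ A) (ht : orderOf t = 2) :
    fx A (MulAut.conj t) ≤ 1 := by
  have hnorm : ∀ g : T, (∀ k ∈ closure {x : T | x ∈ A ∧ orderOf x = 2},
      g * k * g⁻¹ ∈ closure {x : T | x ∈ A ∧ orderOf x = 2}) → g ∈ A := by
    intro g hg
    refine norm_le h ?_ (fun σ hσ => closure_inv h hσ) ?_ hg
    · rw [closure_le]
      exact fun x hx => hx.1
    · intro h1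
      have h2 : t ∈ closure {x : T | x ∈ A ∧ orderOf x = 2} := subset_closure ⟨htA, ht⟩
      rw [h1, mem_bot] at h2
      rw [h2, orderOf_one] at ht
      omega
  have h1 : fixSet A (MulAut.conj t) ⊆ {((1 : T) : T ⧸ A)} := by
    rintro c ⟨y, rfl, hy⟩
    rw [Set.mem_singleton_iff, eq_comm, QuotientGroup.eq, inv_one, one_mul]
    rw [MulAut.conj_apply] at hy
    have h2 : y⁻¹ * t * y⁻¹⁻¹ ∈ A := by
      have h3 := A.mul_mem hy htA
      have h4 : y⁻¹ * (t * y * t⁻¹) * t = y⁻¹ * t * y⁻¹⁻¹ := by group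
      rwa [h4] at h3
    exact inv_mem_iff.1 (mem_of_conj_mem hc hnorm ht htA h2)
  calc fx A (MulAut.conj t) ≤ ({((1 : T) : T ⧸ A)} : Set (T ⧸ A)).ncard := Set.ncard_le_ncard h1 (Set.toFinite _)
    _ = 1 := Set.ncard_singleton _

/-- **One class, inner involutions only.** -/
theorem kill_inner [IsSimpleGroup T] (h : IF A Γ) (hna : ∃ a b : T, a * b ≠ b * a)
    (hin : ∀ σ ∈ Γ, orderOf σ = 2 → ∃ a : T, σ = MulAut.conj a)
    (hc : ∀ t ∈ A, orderOf t = 2 → centralizer ({t} : Set T) ≤ A) : False := by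
  obtain ⟨σ, hσ, h2, h3⟩ := h.ex
  obtain ⟨a, rfl⟩ := hin σ hσ h2
  have h4 : a ∈ A := (h.conj a).1 hσ
  rw [ord_conjAut hna] at h2
  have := fx_le_one h hc h4 h2
  omega

end Cfsg.Agent.H677.SE
end
end

-- part: H237/IF/Cnt
section
prune_inst 0xf13045004d6202000018058023201c26f00005220048000028000e060f484862ed802861008021121a2290810005002001100010420000000a00000000050100000012003124a100200018000000000000000000000000000000000000000004000000002
set_option linter.all false
open scoped Cfsg.Agent.FastGrp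

/-!
# S5719, orthogonal groups, `q` odd: class sizes (helper237, for helper786)

* `class_sq_one` : an involution of `E Q` with a `k`-dimensional `-1`-eigenspace has at most `q^(k(N-k)+1)` conjugates;
* `class_sq_neg` : an element with `t² = -1` has at most `q^(M²)` conjugates, `N = 2 M`.
-/

set_option autoImplicit false

namespace Cfsg.Agent.H237.IF

open QuadraticMap Module Cfsg.Agent.LieClassical Cfsg.Agent.LieClassical.OrthCore
  Cfsg.Agent.H989.Gs.Gen

universe u v

/-! ### Conjugacy classes -/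

/-- the index of a centraliser is bounded by any set which separates the conjugates -/
theorem index_le_of_inj {G T : Type*} [Group G] [Finite T] (t : G) (f : G → T)
    (hf : ∀ g h, f g = f h → g * t * g⁻¹ = h * t * h⁻¹) :
    (Subgroup.centralizer ({t} : Set G)).index ≤ Nat.card T := by
  refine Nat.card_le_card_of_injective (fun q : G ⧸ Subgroup.centralizer ({t} : Set G) => f q.out) ?_
  intro q q' h
  have h1 := hf _ _ h
  rw [← Quotient.out_eq' q, ← Quotient.out_eq' q']
  apply QuotientGroup.eq.2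
  rw [Subgroup.mem_centralizer_singleton_iff]
  have h2 : t = (q.out)⁻¹ * (q'.out * t * (q'.out)⁻¹) * q.out := by
    rw [← h1]; group
  calc (q.out)⁻¹ * q'.out * t = (q.out)⁻¹ * (q'.out * t * (q'.out)⁻¹) * q.out * ((q.out)⁻¹ * q'.out) := by group
    _ = t * ((q.out)⁻¹ * q'.out) := by rw [← h2]

/-! ### Elements with `t² = -1` -/

section neg

variable {F : Type u} [Field F]

theorem polar_iso {V : Type v} [AddCommGroup V] [Module F V] {Q : QuadraticForm F V} {t : V →ₗ[F] V}
    (ht : ∀ v, Q (t v) = Q v) (x y : V) : polar Q (t x) (t y) = polar Q x y := by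
  unfold polar
  rw [← map_add, ht, ht, ht]

/-- number of complex structures -/
theorem card_J [Finite F] (h2 : (2 : F) ≠ 0) (M : ℕ) : ∀ {V : Type v} [AddCommGroup V] [Module F V]
    [FiniteDimensional F V] {Q : QuadraticForm F V}, Nondeg Q → finrank F V = 2 * M →
      Nat.card {t : V →ₗ[F] V // (∀ v, Q (t v) = Q v) ∧ ∀ v, t (t v) = -v} ≤ Nat.card F ^ (M ^ 2) := by
  induction M with
  | zero =>
    intro V _ _ _ Q hQ hM
    have hs : Subsingleton V := Module.finrank_zero_iff.1 hM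
    have : Subsingleton {t : V →ₗ[F] V // (∀ v, Q (t v) = Q v) ∧ ∀ v, t (t v) = -v} := by
      refine ⟨fun a b => Subtype.ext (LinearMap.ext fun v => Subsingleton.elim _ _)⟩
    rw [show (0 : ℕ) ^ 2 = 0 from rfl, pow_zero]
    exact Finite.card_le_one_iff_subsingleton.2 this
  | succ M ih =>
    intro V _ _ _ Q hQ hM
    have hV : Finite V := Module.finite_of_finite F
    -- a nonsingular vector
    obtain ⟨v1, hv1⟩ : ∃ v1, Q v1 ≠ 0 := by
      by_contra hcon
      push Not at hcon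
      have h0 : ∀ x : V, x = 0 := fun x => hQ x fun y => by
        unfold polar
        rw [hcon, hcon, hcon, sub_zero, sub_zero]
      have : Subsingleton V := ⟨fun a b => by rw [h0 a, h0 b]⟩
      rw [Module.finrank_zero_iff.2 this] at hM
      omega
    set B := LinearMap.ker (Q.polarBilin v1) with hB
    have hpself : ∀ x, polar Q x x = 2 * Q x := fun x => by
      rw [polar_self, two_smul, two_mul]
    have hBc : Nat.card B = Nat.card F ^ (2 * M + 1) := by
      rw [Module.natCard_eq_pow_finrank (K := F)]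
      congr 1
      have h1 := LinearMap.finrank_range_add_finrank_ker (Q.polarBilin v1)
      have h3 : finrank F (LinearMap.range (Q.polarBilin v1)) = 1 := by
        have h4 : LinearMap.range (Q.polarBilin v1) = ⊤ := by
          rw [LinearMap.range_eq_top]
          intro c
          refine ⟨(c / (2 * Q v1)) • v1, ?_⟩
          rw [map_smul, smul_eq_mul]
          have : (Q.polarBilin v1) v1 = 2 * Q v1 := hpself v1
          rw [this, div_mul_cancel₀]
          exact mul_ne_zero h2 hv1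
        rw [h4, finrank_top, finrank_self]
      rw [h3, hM] at h1
      change 1 + finrank F B = _ at h1
      omega
    let T := {t : V →ₗ[F] V // (∀ v, Q (t v) = Q v) ∧ ∀ v, t (t v) = -v}
    have hperp : ∀ t : T, polar Q v1 (t.1 v1) = 0 := by
      intro t
      have h3 := polar_iso t.2.1 v1 (t.1 v1)
      rw [t.2.2, polar_neg_right, polar_comm] at h3
      have h4 : 2 * polar Q v1 (t.1 v1) = 0 := by linear_combination -h3
      exact (mul_eq_zero.1 h4).resolve_left h2
    let ev : T → B := fun t => ⟨t.1 v1, by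
      rw [hB, LinearMap.mem_ker]
      exact hperp t⟩
    have hfT : Finite (V →ₗ[F] V) := Finite.of_injective (fun f : V →ₗ[F] V => (f : V → V)) DFunLike.coe_injective
    have hfin : Finite T := Subtype.finite
    have hfib : ∀ w : B, Nat.card {t : T // ev t = w} ≤ Nat.card F ^ (M ^ 2) := by
      intro w
      by_cases hne : Nonempty {t : T // ev t = w}
      swap
      · rw [not_nonempty_iff] at hne
        rw [Nat.card_eq_zero.2 (Or.inl hne)]
        exact Nat.zero_le _
      obtain ⟨t0, ht0⟩ := hne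
      have hw : (w : V) = t0.1 v1 := by rw [← ht0]
      have hwQ : Q (w : V) = Q v1 := by rw [hw, t0.2.1]
      have hw1 : polar Q v1 w = 0 := by rw [hw]; exact hperp t0
      set φ : V →ₗ[F] F × F := (Q.polarBilin v1).prod (Q.polarBilin (w : V)) with hφ
      set W := LinearMap.ker φ with hW
      have hmem : ∀ x, x ∈ W ↔ polar Q v1 x = 0 ∧ polar Q (w : V) x = 0 := by
        intro x
        rw [hW, LinearMap.mem_ker]
        show ((polar Q v1 x, polar Q (w : V) x) : F × F) = 0 ↔ _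
        rw [Prod.mk_eq_zero]
      have hdec : ∀ x : V, x - (polar Q v1 x / (2 * Q v1)) • v1 - (polar Q (w : V) x / (2 * Q v1)) • (w : V) ∈ W := by
        intro x
        have h0 : (2 * Q v1) ≠ 0 := mul_ne_zero h2 hv1
        rw [hmem]
        constructor
        · rw [polar_sub_right, polar_sub_right, polar_smul_right, polar_smul_right, hpself, hw1, smul_eq_mul,
            smul_eq_mul, div_mul_cancel₀ _ h0]
          ring
        · rw [polar_sub_right, polar_sub_right, polar_smul_right, polar_smul_right, hpself, hwQ, polar_comm Q _ v1, hw1,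
            smul_eq_mul, smul_eq_mul, div_mul_cancel₀ _ h0]
          ring
      have hWd : finrank F W = 2 * M := by
        have h3 := LinearMap.finrank_range_add_finrank_ker φ
        have h4 : LinearMap.range φ = ⊤ := by
          rw [LinearMap.range_eq_top]
          rintro ⟨a, b⟩
          have h0 : (2 * Q v1) ≠ 0 := mul_ne_zero h2 hv1
          refine ⟨(a / (2 * Q v1)) • v1 + (b / (2 * Q v1)) • (w : V), ?_⟩
          have e1 : φ ((a / (2 * Q v1)) • v1 + (b / (2 * Q v1)) • (w : V)) =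
              (polar Q v1 ((a / (2 * Q v1)) • v1 + (b / (2 * Q v1)) • (w : V)),
                polar Q (w : V) ((a / (2 * Q v1)) • v1 + (b / (2 * Q v1)) • (w : V))) := rfl
          rw [e1, polar_add_right, polar_add_right, polar_smul_right, polar_smul_right, polar_smul_right,
            polar_smul_right, hpself, hpself, hwQ, polar_comm Q (w : V) v1, hw1, smul_eq_mul, smul_eq_mul, smul_eq_mul,
            smul_eq_mul, div_mul_cancel₀ _ h0, div_mul_cancel₀ _ h0, mul_zero, mul_zero, add_zero, zero_add]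
        rw [h4, finrank_top, Module.finrank_prod, finrank_self, hM] at h3
        change 1 + 1 + finrank F W = _ at h3
        omega
      have hWn : Nondeg (Q.comp W.subtype) := by
        intro x hx
        apply Subtype.ext
        apply hQ
        intro y
        have h3 := hx ⟨_, hdec y⟩
        have h4 : polar Q (x : V) (y - (polar Q v1 y / (2 * Q v1)) • v1 - (polar Q (w : V) y / (2 * Q v1)) • (w : V)) = 0 :=
          h3
        have h5 := (hmem x).1 x.2
        rw [polar_sub_right, polar_sub_right, polar_smul_right, polar_smul_right, polar_comm Q (x : V) v1,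
          polar_comm Q (x : V) w, h5.1, h5.2, smul_zero, smul_zero, sub_zero, sub_zero] at h4
        exact h4
      have hv : ∀ t : {t : T // ev t = w}, t.1.1 v1 = w := fun t => congrArg Subtype.val t.2
      have hinv : ∀ t : {t : T // ev t = w}, ∀ x ∈ W, t.1.1 x ∈ W := by
        intro t x hx
        rw [hmem] at hx ⊢
        have h3 : t.1.1 w = -v1 := by rw [← hv t, t.1.2.2]
        constructor
        · have h4 := polar_iso t.1.2.1 (w : V) x
          rw [h3, polar_neg_left, hx.2] at h4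
          exact neg_eq_zero.1 h4
        · have h4 := polar_iso t.1.2.1 v1 x
          rw [hv t, hx.1] at h4
          exact h4
      refine le_trans ?_ (ih hWn hWd)
      have hfW : Finite (W →ₗ[F] W) := Finite.of_injective (fun f : W →ₗ[F] W => (f : W → W)) DFunLike.coe_injective
      have hfW2 : Finite {t : W →ₗ[F] W // (∀ v, (Q.comp W.subtype) (t v) = (Q.comp W.subtype) v) ∧ ∀ v, t (t v) = -v} :=
        Subtype.finite
      refine Nat.card_le_card_of_injective (fun t => ⟨t.1.1.restrict (hinv t), ?_, ?_⟩) ?_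
      · intro x
        exact t.1.2.1 x
      · intro x
        apply Subtype.ext
        exact t.1.2.2 x
      · intro t t' htt
        apply Subtype.ext
        apply Subtype.ext
        apply LinearMap.ext
        intro x
        have h3 : ∀ y ∈ W, t.1.1 y = t'.1.1 y := by
          intro y hy
          have h4 := congrArg (fun f => (f.1 ⟨y, hy⟩ : V)) htt
          exact h4
        have h4 : t.1.1 w = -v1 := by rw [← hv t, t.1.2.2]
        have h5 : t'.1.1 w = -v1 := by rw [← hv t', t'.1.2.2]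
        have h6 := h3 _ (hdec x)
        rw [map_sub, map_sub, map_smul, map_smul, map_sub, map_sub, map_smul, map_smul, hv t, hv t', h4, h5] at h6
        have h7 := congrArg (fun z => z + (polar Q (w : V) x / (2 * Q v1)) • (-v1) + (polar Q v1 x / (2 * Q v1)) • (w : V)) h6
        simpa only [_root_.smul_neg, _root_.sub_neg_eq_add, _root_.add_neg_cancel_right, _root_.sub_add_cancel] using h7
    classical
    have hFB : Fintype B := Fintype.ofFinite B
    have e1 : Nat.card T = ∑ w : B, Nat.card {t : T // ev t = w} := by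
      rw [← Nat.card_sigma]
      exact Nat.card_congr (Equiv.sigmaFiberEquiv ev).symm
    have e2 : ∑ w : B, Nat.card {t : T // ev t = w} ≤ ∑ _w : B, Nat.card F ^ (M ^ 2) :=
      Finset.sum_le_sum fun w _ => hfib w
    rw [Finset.sum_const, Finset.card_univ, ← Nat.card_eq_fintype_card, hBc, smul_eq_mul, ← pow_add] at e2
    change Nat.card T ≤ _
    rw [e1]
    refine e2.trans (le_of_eq ?_)
    congr 1
    ring

end neg

/-! ### Counting subspaces -/

section sub

variable {F : Type u} [Field F] {V : Type v} [AddCommGroup V] [Module F V]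

theorem two_le_prod (q : ℕ) (hq : 3 ≤ q) (k : ℕ) :
    q ^ (k * k) * (q ^ k + 1) ≤ 2 * (q ^ k * ∏ i : Fin k, (q ^ k - q ^ (i : ℕ))) := by
  induction k with
  | zero => simp
  | succ k ih =>
    have e1 : ∏ i : Fin (k + 1), (q ^ (k + 1) - q ^ (i : ℕ)) =
        (q ^ (k + 1) - 1) * (q ^ k * ∏ i : Fin k, (q ^ k - q ^ (i : ℕ))) := by
      rw [Fin.prod_univ_succ]
      congr 1
      have e2 : ∀ i : Fin k, q ^ (k + 1) - q ^ ((i.succ : Fin (k + 1)) : ℕ) = q * (q ^ k - q ^ (i : ℕ)) := by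
        intro i
        rw [Fin.val_succ, pow_succ', pow_succ', Nat.mul_sub]
      rw [Finset.prod_congr rfl fun i _ => e2 i, Finset.prod_mul_distrib, Finset.prod_const, Finset.card_univ,
        Fintype.card_fin]
    rw [e1]
    set P := q ^ k * ∏ i : Fin k, (q ^ k - q ^ (i : ℕ)) with hP
    obtain ⟨A, hA⟩ : ∃ A, q ^ (k + 1) = A + 1 := ⟨q ^ (k + 1) - 1, by
      have : 0 < q ^ (k + 1) := Nat.pow_pos (by omega)
      omega⟩
    have hA' : q ^ (k + 1) - 1 = A := by omega
    have e3 : q ^ ((k + 1) * (k + 1)) = q ^ (k * k) * q ^ k * q ^ (k + 1) := by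
      rw [← pow_add, ← pow_add]; congr 1; ring
    have h1 : 1 ≤ q ^ k := Nat.one_le_pow _ _ (by omega)
    have h2 : q ^ k * (q ^ (k + 1) + 1) ≤ A * (q ^ k + 1) := by
      have h3 : q ^ (k + 1) = q * q ^ k := pow_succ' q k
      have h4 : 3 * q ^ k ≤ q ^ (k + 1) := by rw [h3]; exact Nat.mul_le_mul_right _ hq
      nlinarith only [hA, h4]
    rw [hA', e3]
    calc q ^ (k * k) * q ^ k * q ^ (k + 1) * (q ^ (k + 1) + 1)
        = q ^ (k * k) * q ^ (k + 1) * (q ^ k * (q ^ (k + 1) + 1)) := by ring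
      _ ≤ q ^ (k * k) * q ^ (k + 1) * (A * (q ^ k + 1)) := Nat.mul_le_mul_left _ h2
      _ = q ^ (k + 1) * A * (q ^ (k * k) * (q ^ k + 1)) := by ring
      _ ≤ q ^ (k + 1) * A * (2 * P) := Nat.mul_le_mul_left _ ih
      _ = 2 * (q ^ (k + 1) * (A * P)) := by ring

theorem card_subspaces [Finite F] [FiniteDimensional F V] (hq : 3 ≤ Nat.card F) (k : ℕ) (hk : k ≤ finrank F V) :
    Nat.card {U : Submodule F V // finrank F U = k} ≤ Nat.card F ^ (k * (finrank F V - k) + 1) := by
  classical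
  have hV : Finite V := Module.finite_of_finite F
  have := Fintype.ofFinite F
  have hfS : Finite (Submodule F V) := Finite.of_injective (fun U : Submodule F V => (U : Set V)) SetLike.coe_injective
  set q := Nat.card F with hqd
  have hfr : ∀ U : {U : Submodule F V // finrank F U = k},
      Nat.card {s : Fin k → U.1 // LinearIndependent F s} = ∏ i : Fin k, (q ^ k - q ^ (i : ℕ)) := by
    intro U
    have h1 := card_linearIndependent (K := F) (V := U.1) (k := k) (le_of_eq U.2.symm)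
    rw [h1, U.2, hqd, Nat.card_eq_fintype_card]
  have := Fintype.ofFinite {U : Submodule F V // finrank F U = k}
  have h1 : Nat.card {U : Submodule F V // finrank F U = k} * ∏ i : Fin k, (q ^ k - q ^ (i : ℕ)) ≤
      (q ^ finrank F V) ^ k := by
    have e1 : Nat.card (Σ U : {U : Submodule F V // finrank F U = k}, {s : Fin k → U.1 // LinearIndependent F s}) =
        Nat.card {U : Submodule F V // finrank F U = k} * ∏ i : Fin k, (q ^ k - q ^ (i : ℕ)) := by
      rw [Nat.card_sigma, Finset.sum_congr rfl fun U _ => hfr U, Finset.sum_const, Finset.card_univ, smul_eq_mul,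
        Nat.card_eq_fintype_card]
    have e2 : Nat.card (Fin k → V) = (q ^ finrank F V) ^ k := by
      rw [Nat.card_fun, Nat.card_fin, Module.natCard_eq_pow_finrank (K := F)]
    rw [← e1, ← e2]
    refine Nat.card_le_card_of_injective
      (fun a : (Σ U : {U : Submodule F V // finrank F U = k}, {s : Fin k → U.1 // LinearIndependent F s}) =>
        fun i => ((a.2.1 i : a.1.1) : V)) ?_
    have hspan : ∀ (U : {U : Submodule F V // finrank F U = k}) (s : {s : Fin k → U.1 // LinearIndependent F s}),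
        Submodule.span F (Set.range fun i => ((s.1 i : U.1) : V)) = U.1 := by
      intro U s
      have h2 : Submodule.span F (Set.range s.1) = ⊤ :=
        s.2.span_eq_top_of_card_eq_finrank' (by rw [Fintype.card_fin, U.2])
      have h3 : Set.range (fun i => ((s.1 i : U.1) : V)) = U.1.subtype '' Set.range s.1 := by
        rw [← Set.range_comp]; rfl
      rw [h3, Submodule.span_image, h2, Submodule.map_top, Submodule.range_subtype]
    rintro ⟨U, s⟩ ⟨U', s'⟩ h
    have h2 : U = U' := by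
      apply Subtype.ext
      rw [← hspan U s, ← hspan U' s']
      congr 2
    subst h2
    congr 1
    apply Subtype.ext
    funext i
    apply Subtype.ext
    exact congrFun h i
  have h2 := two_le_prod q hq k
  set P := ∏ i : Fin k, (q ^ k - q ^ (i : ℕ)) with hP
  have hq0 : 0 < q := by omega
  have h3 : q ^ (k * k) ≤ 2 * P := by
    have h4 : q ^ k * q ^ (k * k) ≤ q ^ k * (2 * P) := by
      calc q ^ k * q ^ (k * k) ≤ q ^ (k * k) * (q ^ k + 1) := by
            rw [mul_comm]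
            exact Nat.mul_le_mul_left _ (Nat.le_succ _)
        _ ≤ 2 * (q ^ k * P) := h2
        _ = _ := by ring
    exact Nat.le_of_mul_le_mul_left h4 (Nat.pow_pos hq0)
  set C := Nat.card {U : Submodule F V // finrank F U = k} with hC
  have h4 : q ^ (k * k) * C ≤ q ^ (k * k) * q ^ (k * (finrank F V - k) + 1) := by
    calc q ^ (k * k) * C ≤ 2 * P * C := Nat.mul_le_mul_right _ h3
      _ = 2 * (C * P) := by ring
      _ ≤ 2 * (q ^ finrank F V) ^ k := Nat.mul_le_mul_left _ h1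
      _ ≤ q * (q ^ finrank F V) ^ k := Nat.mul_le_mul_right _ (by omega)
      _ = q ^ (k * k) * q ^ (k * (finrank F V - k) + 1) := by
        rw [← pow_mul, ← pow_succ', ← pow_add]
        congr 1
        obtain ⟨d, hd⟩ := Nat.exists_eq_add_of_le hk
        rw [hd, Nat.add_sub_cancel_left]
        ring
  exact Nat.le_of_mul_le_mul_left h4 (Nat.pow_pos hq0)

end sub

/-! ### The class sizes -/

section cls

variable {F : Type u} [Field F] {V : Type v} [AddCommGroup V] [Module F V] {Q : QuadraticForm F V}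

/-- **CL2** -/
theorem class_sq_neg [Finite F] [FiniteDimensional F V] (h2 : (2 : F) ≠ 0) (hQ : Nondeg Q) (M : ℕ)
    (hM : finrank F V = 2 * M) (t : ↥(E Q)) (ht : ∀ v, ap t (ap t v) = -v) :
    (Subgroup.centralizer ({t} : Set ↥(E Q))).index ≤ Nat.card F ^ (M ^ 2) := by
  have hV : Finite V := Module.finite_of_finite F
  have hfT : Finite (V →ₗ[F] V) := Finite.of_injective (fun f : V →ₗ[F] V => (f : V → V)) DFunLike.coe_injective
  refine le_trans ?_ (card_J h2 M hQ hM)
  refine index_le_of_inj t (fun g => ⟨(((g * t * g⁻¹ : ↥(E Q)) : V ≃ₗ[F] V) : V →ₗ[F] V), ?_, ?_⟩) ?_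
  · intro v
    exact Q_ap (g * t * g⁻¹) v
  · intro v
    show ap (g * t * g⁻¹) (ap (g * t * g⁻¹) v) = -v
    simp only [ap_mul]
    rw [ap_inv_ap, ht, ap_neg, ap_ap_inv]
  · intro g h hgh
    apply Subtype.ext
    apply LinearEquiv.toLinearMap_injective
    exact congrArg Subtype.val hgh

/-- an involution is determined by its `-1`-eigenspace -/
theorem eq_of_neg (h2 : (2 : F) ≠ 0) (hQ : Nondeg Q) {s s' : ↥(E Q)} (hs : s * s = 1) (hs' : s' * s' = 1)
    (h : ∀ v, ap s v = -v ↔ ap s' v = -v) : s = s' := by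
  have hss : ∀ v, ap s (ap s v) = v := fun v => by rw [← ap_mul, hs, ap_one]
  have hss' : ∀ v, ap s' (ap s' v) = v := fun v => by rw [← ap_mul, hs', ap_one]
  have h22 : ∀ a : F, a = -a → a = 0 := fun a ha => by
    have : 2 * a = 0 := by linear_combination ha
    exact (mul_eq_zero.1 this).resolve_left h2
  have hpol : ∀ (g : ↥(E Q)) x y, polar Q (ap g x) (ap g y) = polar Q x y := fun g x y => polar_map (E_le_O g.2) x y
  -- fixed vectors
  have key : ∀ x, ap s x = x → ap s' x = x := by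
    intro x hx
    have hz' : ap s' (x - ap s' x) = -(x - ap s' x) := by
      rw [ap_sub, hss']; abel
    have hz : ap s (x - ap s' x) = -(x - ap s' x) := (h _).2 hz'
    have h3 : ∀ u, ap s u = -u → polar Q x u = 0 := by
      intro u hu
      apply h22
      have h4 := hpol s x u
      rw [hx, hu, polar_neg_right] at h4
      exact h4.symm
    have h4 : ∀ u, ap s u = -u → polar Q (x - ap s' x) u = 0 := by
      intro u hu
      have h5 := hpol s' x u
      rw [(h u).1 hu, polar_neg_right, h3 u hu] at h5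
      rw [polar_sub_left, h3 u hu, neg_eq_zero.1 h5, sub_zero]
    have h5 : x - ap s' x = 0 := by
      apply hQ
      intro y
      have h6 : polar Q (x - ap s' x) (y + ap s y) = 0 := by
        apply h22
        have h7 := hpol s (x - ap s' x) (y + ap s y)
        rw [hz, ap_add, hss, add_comm (ap s y) y, polar_neg_left] at h7
        exact h7.symm
      have h8 : polar Q (x - ap s' x) (y - ap s y) = 0 := by
        apply h4
        rw [ap_sub, hss]; abel
      rw [polar_add_right] at h6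
      rw [polar_sub_right] at h8
      have h9 : 2 * polar Q (x - ap s' x) y = 0 := by linear_combination h6 + h8
      exact (mul_eq_zero.1 h9).resolve_left h2
    exact (sub_eq_zero.1 h5).symm
  apply ext_ap
  intro v
  have h3 : ap s' (v + ap s v) = v + ap s v := key _ (by rw [ap_add, hss]; abel)
  have h4 : ap s' (v - ap s v) = -(v - ap s v) := (h _).1 (by rw [ap_sub, hss]; abel)
  rw [ap_add] at h3
  rw [ap_sub] at h4
  have h5 : (2 : F) • ap s' v = (2 : F) • ap s v := by
    have : (ap s' v + ap s' (ap s v)) + (ap s' v - ap s' (ap s v)) = (v + ap s v) + -(v - ap s v) := by rw [h3, h4]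
    have e1 : (ap s' v + ap s' (ap s v)) + (ap s' v - ap s' (ap s v)) = (2 : F) • ap s' v := by module
    have e2 : (v + ap s v) + -(v - ap s v) = (2 : F) • ap s v := by module
    rw [← e1, ← e2, this]
  exact (smul_right_injective V h2 h5).symm

/-- **CL1** -/
theorem class_sq_one [Finite F] [FiniteDimensional F V] (h2 : (2 : F) ≠ 0) (hQ : Nondeg Q) (t : ↥(E Q))
    (ht : t * t = 1) (Vm : Submodule F V) (hVm : ∀ v, v ∈ Vm ↔ ap t v = -v) :
    (Subgroup.centralizer ({t} : Set ↥(E Q))).index ≤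
      Nat.card F ^ (finrank F Vm * (finrank F V - finrank F Vm) + 1) := by
  have hV : Finite V := Module.finite_of_finite F
  have hfS : Finite (Submodule F V) := Finite.of_injective (fun U : Submodule F V => (U : Set V)) SetLike.coe_injective
  have hq : 3 ≤ Nat.card F := by
    have := Fintype.ofFinite F
    rw [Nat.card_eq_fintype_card]
    have h3 : 1 < Fintype.card F := Fintype.one_lt_card
    rcases Nat.lt_or_ge 2 (Fintype.card F) with h4 | h4
    · exact h4
    · exfalso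
      apply h2
      have h5 : Fintype.card F = 2 := by omega
      have h6 := FiniteField.cast_card_eq_zero F
      rw [h5] at h6
      exact_mod_cast h6
  refine le_trans ?_ (card_subspaces hq (finrank F Vm) (Submodule.finrank_le Vm))
  refine index_le_of_inj t (fun g => ⟨Vm.map ((g : V ≃ₗ[F] V) : V →ₗ[F] V), ?_⟩) ?_
  · exact LinearEquiv.finrank_map_eq (g : V ≃ₗ[F] V) Vm
  · intro g h hgh
    have h3 : ∀ (g : ↥(E Q)) v, v ∈ Vm.map ((g : V ≃ₗ[F] V) : V →ₗ[F] V) ↔ ap (g * t * g⁻¹) v = -v := by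
      intro g v
      rw [Submodule.mem_map]
      constructor
      · rintro ⟨u, hu, rfl⟩
        show ap (g * t * g⁻¹) (ap g u) = -(ap g u)
        rw [ap_mul, ap_mul, ap_inv_ap, (hVm u).1 hu, ap_neg]
      · intro h4
        refine ⟨ap g⁻¹ v, ?_, ap_ap_inv g v⟩
        rw [hVm]
        rw [ap_mul, ap_mul] at h4
        have h5 := congrArg (ap g⁻¹) h4
        rw [ap_inv_ap, ap_neg] at h5
        exact h5
    have h4 : Vm.map ((g : V ≃ₗ[F] V) : V →ₗ[F] V) = Vm.map ((h : V ≃ₗ[F] V) : V →ₗ[F] V) := congrArg Subtype.val hgh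
    have hsq : ∀ g : ↥(E Q), (g * t * g⁻¹) * (g * t * g⁻¹) = 1 := by
      intro g
      calc (g * t * g⁻¹) * (g * t * g⁻¹) = g * (t * t) * g⁻¹ := by group
        _ = 1 := by rw [ht, mul_one, mul_inv_cancel]
    refine eq_of_neg h2 hQ (hsq g) (hsq h) fun v => ?_
    rw [← h3 g, ← h3 h, h4]

end cls

end Cfsg.Agent.H237.IF
end

-- part: H842/IF/Descent
section
prune_inst 0x106061044d4002000000000420200020700004220040000008000e060a480022c8800040008021020222808100040000001000000040000004000000000101208000120020000100000019000000000000000000000000000000000000000000000000000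
set_option linter.all false
open scoped Cfsg.Agent.FastGrp

-- part: H842/IF/Defs
section
/-!
# S5719, orthogonal groups in even characteristic: involutions of `E Q` (helper842)

`mv t = [V, t]`, `rk t` its dimension; `R2 t` : `t` is a nontrivial Siegel element; `LR t` : a long root element.
-/

set_option autoImplicit false
set_option linter.unusedSectionVars false

namespace Cfsg.Agent.H842.IFE

open QuadraticMap Module Cfsg.Agent.LieClassical.OrthCore Cfsg.Agent.LieClassical.OrthTrans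
  Cfsg.Agent.AutOrth.SemiSim Cfsg.Agent.H989.Gs.Gen

variable {F V : Type*} [Field F] [AddCommGroup V] [Module F V] {Q : QuadraticForm F V}

/-- `[V, t]` -/
def mv (t : ↥(E Q)) : Submodule F V := LinearMap.range (((t : V ≃ₗ[F] V) : V →ₗ[F] V) - LinearMap.id)

/-- the dimension of `[V, t]` -/
noncomputable def rk (t : ↥(E Q)) : ℕ := finrank F (mv t)

/-- a long root element -/
def LR (t : ↥(E Q)) : Prop := t ≠ 1 ∧ ∃ e w : V, Q e = 0 ∧ Q w = 0 ∧ polar Q e w = 0 ∧ t = S Q e w

theorem mem_mv {t : ↥(E Q)} {u : V} : u ∈ mv t ↔ ∃ v, u = ap t v - v := by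
  constructor
  · rintro ⟨v, rfl⟩
    exact ⟨v, rfl⟩
  · rintro ⟨v, rfl⟩
    exact ⟨v, rfl⟩

theorem sub_mem_mv (t : ↥(E Q)) (v : V) : ap t v - v ∈ mv t := ⟨v, rfl⟩

/-- the fixed space -/
def fxs (t : ↥(E Q)) : Submodule F V := LinearMap.ker (((t : V ≃ₗ[F] V) : V →ₗ[F] V) - LinearMap.id)

theorem mem_fxs {t : ↥(E Q)} {v : V} : v ∈ fxs t ↔ ap t v = v := by
  rw [fxs, LinearMap.mem_ker]
  change ap t v - v = 0 ↔ _
  rw [sub_eq_zero]

theorem finrank_fxs [FiniteDimensional F V] (t : ↥(E Q)) : rk t + finrank F (fxs t) = finrank F V :=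
  LinearMap.finrank_range_add_finrank_ker _

theorem rk_eq_zero [FiniteDimensional F V] {t : ↥(E Q)} : rk t = 0 ↔ t = 1 := by
  rw [rk, Submodule.finrank_eq_zero]
  constructor
  · intro h
    apply ext_ap
    intro v
    have h1 := sub_mem_mv t v
    rw [h, Submodule.mem_bot, sub_eq_zero] at h1
    exact h1
  · rintro rfl
    rw [Submodule.eq_bot_iff]
    rintro _ ⟨v, rfl⟩
    exact sub_self v

section two

variable (h2 : (2 : F) = 0)

include h2

theorem add_self2 (v : V) : v + v = 0 := by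
  rw [← two_smul F v, h2, zero_smul]

theorem neg2 (v : V) : -v = v := neg_eq_of_add_eq_zero_left (add_self2 h2 v)

theorem negF (a : F) : -a = a := neg_eq_of_add_eq_zero_left (by rw [← two_mul, h2, zero_mul])

theorem polar_self2 (v : V) : polar Q v v = 0 := by
  rw [polar_self', h2, zero_mul]

variable {t : ↥(E Q)} (ht : t * t = 1)

include ht

theorem tt (v : V) : ap t (ap t v) = v := by rw [← ap_mul, ht, ap_one]

/-- `[V, t]` is centralised by `t` -/
theorem mv_le : mv t ≤ fxs t := by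
  intro u hu
  obtain ⟨v, rfl⟩ := mem_mv.1 hu
  rw [mem_fxs, ap_sub, tt h2 ht, ← neg_sub, neg2 h2]

theorem polar_n (v w : V) : polar Q (ap t v - v) w = polar Q v (ap t w - w) := by
  rw [polar_sub_left, polar_sub_right]
  have h : polar Q (ap t v) w = polar Q v (ap t w) := by
    rw [← polar_ap t (ap t v) w, tt h2 ht]
  rw [h]

theorem Q_n (v : V) : Q (ap t v - v) = polar Q v (ap t v - v) := by
  have h1 : Q (ap t v - v) = Q (ap t v) + Q v - polar Q (ap t v) v := by
    rw [sub_eq_add_neg, Q_add, QuadraticMap.map_neg, polar_neg_right]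
    ring
  rw [h1, Q_ap, polar_sub_right, polar_self2 h2, sub_zero, polar_comm (f := Q) (ap t v) v, ← two_mul, h2, zero_mul, zero_sub,
    negF h2]

/-- the fixed space is `[V, t]^⊥` -/
theorem mem_fxs_iff (hQ : Nondeg Q) {v : V} : v ∈ fxs t ↔ ∀ u ∈ mv t, polar Q u v = 0 := by
  rw [mem_fxs]
  constructor
  · intro h u hu
    obtain ⟨w, rfl⟩ := mem_mv.1 hu
    rw [polar_n h2 ht, h, sub_self, polar_zero_right]
  · intro h
    rw [← sub_eq_zero]
    apply hQ
    intro w
    rw [polar_comm, ← polar_n h2 ht]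
    exact h _ (sub_mem_mv t w)

theorem rk_le [FiniteDimensional F V] : 2 * rk t ≤ finrank F V := by
  have h1 := Submodule.finrank_mono (mv_le h2 ht)
  have h3 := finrank_fxs t
  rw [rk] at *
  omega

theorem polar_mv (hQ : Nondeg Q) {u v : V} (hu : u ∈ mv t) (hv : v ∈ mv t) : polar Q u v = 0 :=
  (mem_fxs_iff h2 ht hQ).1 (mv_le h2 ht hv) u hu

end two

end Cfsg.Agent.H842.IFE
end

-- part: H842/IF/CW
section
/-!
# Chevalley–Warning for quadratic forms on additive subgroups, characteristic two (helper842), S5719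
-/

set_option autoImplicit false

namespace Cfsg.Agent.H842.IFE

open QuadraticMap Module

theorem zmod_two_cases (a : ZMod 2) : a = 0 ∨ a = 1 := by
  fin_cases a
  · exact Or.inl rfl
  · exact Or.inr rfl

/-- an additive subgroup with more than `q²` elements contains a nonzero singular vector -/
theorem exists_singular {F V : Type*} [Field F] [Fintype F] [CharP F 2] [AddCommGroup V] [Module F V] [Finite V]
    (Q : QuadraticForm F V) (Y : AddSubgroup V) (hY : Fintype.card F ^ 2 < Nat.card Y) :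
    ∃ y ∈ Y, y ≠ 0 ∧ Q y = 0 := by
  classical
  have h2 : (2 : F) = 0 := CharTwo.two_eq_zero
  let _ : Module (ZMod 2) Y := AddCommGroup.zmodModule (n := 2) (by
    intro y
    apply Subtype.ext
    rw [AddSubgroup.coe_nsmul, ← Nat.cast_smul_eq_nsmul F]
    simp [h2])
  let _ : Algebra (ZMod 2) F := ZMod.algebra F 2
  have hfin : Finite Y := inferInstance
  have hYf : Module.Finite (ZMod 2) Y := Module.Finite.of_finite
  have hFf : Module.Finite (ZMod 2) F := Module.Finite.of_finite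
  let B : Y →ₗ[ZMod 2] Y →ₗ[ZMod 2] F := LinearMap.mk₂ (ZMod 2) (fun x y => polar Q (x : V) (y : V))
    (fun x y z => by rw [AddSubgroup.coe_add, polar_add_left])
    (fun a x y => by
      rcases zmod_two_cases a with rfl | rfl
      · rw [zero_smul, zero_smul, AddSubgroup.coe_zero, polar_zero_left]
      · rw [one_smul, one_smul])
    (fun x y z => by rw [AddSubgroup.coe_add, polar_add_right])
    (fun a x y => by
      rcases zmod_two_cases a with rfl | rfl
      · rw [zero_smul, zero_smul, AddSubgroup.coe_zero, polar_zero_right]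
      · rw [one_smul, one_smul])
  let QY : QuadraticMap (ZMod 2) Y F :=
    { toFun := fun y => Q (y : V)
      toFun_smul := by
        intro a y
        rcases zmod_two_cases a with rfl | rfl
        · rw [zero_smul, AddSubgroup.coe_zero, QuadraticMap.map_zero, mul_zero, zero_smul]
        · rw [one_smul, mul_one, one_smul]
      exists_companion' := ⟨B, fun x y => by
        change Q ((x : V) + (y : V)) = Q (x : V) + Q (y : V) + polar Q (x : V) (y : V)
        exact QuadraticMap.map_add Q _ _⟩ }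
  let c := Module.finBasis (ZMod 2) F
  have h3 : 2 * Nat.card (Fin (finrank (ZMod 2) F)) < finrank (ZMod 2) Y := by
    have h4 := Module.natCard_eq_pow_finrank (K := ZMod 2) (V := Y)
    have h5 := Module.natCard_eq_pow_finrank (K := ZMod 2) (V := F)
    rw [Nat.card_zmod] at h4 h5
    rw [← Nat.card_eq_fintype_card, h4, h5, ← pow_mul] at hY
    have h6 := (Nat.pow_lt_pow_iff_right (by norm_num : 1 < 2)).1 hY
    rw [Nat.card_fin]
    omega
  obtain ⟨y, hy, h⟩ := Cfsg.Agent.H920.FP.cw (fun i => (c.coord i).compQuadraticMap QY) h3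
  refine ⟨y, y.2, fun h0 => hy (Subtype.ext h0), ?_⟩
  have h7 : QY y = 0 := by
    apply c.ext_elem
    intro i
    have := h i
    simpa only [_root_.map_zero, _root_.Finsupp.coe_zero, _root_.Pi.zero_apply, _root_.LinearMap.compQuadraticMap_apply, _root_.Module.Basis.coord_apply] using this
  exact h7

end Cfsg.Agent.H842.IFE
end

-- part: H999/IFE/Desc
section
/-!
# S5719, EV9: descent (helper999, for helper829)
-/

set_option autoImplicit false
set_option linter.unusedSectionVars false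

namespace Cfsg.Agent.H999.IFE

open QuadraticMap Module Subgroup Cfsg Cfsg.Agent.LieClassical.OrthCore Cfsg.Agent.LieClassical.OrthTrans

section

variable {F V : Type*} [Field F] [AddCommGroup V] [Module F V] {Q : QuadraticForm F V}

/-- dual vectors of an independent family -/
theorem exists_dualv (hQ : Nondeg Q) {s : ℕ} {z : Fin s → V} (hz : LinearIndependent F z) (j : Fin s) :
    ∃ e : V, ∀ i, polar Q (z i) e = if i = j then 1 else 0 := by
  classical
  let L : V →ₗ[F] (Fin s → F) := LinearMap.pi fun i => polarBilin Q (z i)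
  have hL : LinearMap.range L = ⊤ := by
    by_contra hne
    obtain ⟨f, hf0, hf⟩ := Submodule.exists_le_ker_of_lt_top _ (lt_top_iff_ne_top.2 hne)
    apply hf0
    have h1 : ∀ v : V, ∑ i, f (Pi.single i 1) * polar Q (z i) v = 0 := by
      intro v
      have h2 : f (L v) = 0 := hf ⟨v, rfl⟩
      have h3 : L v = ∑ i, polar Q (z i) v • (Pi.single i (1 : F) : Fin s → F) := by
        rw [← Finset.univ_sum_single (L v)]
        refine Finset.sum_congr rfl fun i _ => ?_
        rw [← Pi.single_smul', smul_eq_mul, mul_one]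
        rfl
      rw [h3, map_sum] at h2
      rw [← h2]
      refine Finset.sum_congr rfl fun i _ => ?_
      rw [map_smul, smul_eq_mul, mul_comm]
    have h4 : ∑ i, f (Pi.single i 1) • z i = 0 := by
      apply hQ
      intro y
      have h5 : polar Q (∑ i, f (Pi.single i 1) • z i) y = ∑ i, f (Pi.single i 1) * polar Q (z i) y := by
        have h6 : polar Q (∑ i, f (Pi.single i 1) • z i) y = polarBilin Q (∑ i, f (Pi.single i 1) • z i) y := rfl
        rw [h6, map_sum, LinearMap.sum_apply]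
        refine Finset.sum_congr rfl fun i _ => ?_
        rw [map_smul, LinearMap.smul_apply, smul_eq_mul]
        rfl
      rw [h5]
      exact h1 y
    have h5 := Fintype.linearIndependent_iff.1 hz _ h4
    ext i
    simpa only [_root_.LinearMap.coe_comp, _root_.LinearMap.coe_single, _root_.Function.comp_apply, _root_.LinearMap.zero_comp, _root_.LinearMap.zero_apply] using h5 i
  obtain ⟨e, he⟩ : (Pi.single j 1 : Fin s → F) ∈ LinearMap.range L := by rw [hL]; trivial
  refine ⟨e, fun i => ?_⟩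
  have := congrFun he i
  rw [Pi.single_apply] at this
  exact this

/-- the group of elements of `E Q` commuting with `t`, trivial on `Z` and on `Z^⊥/Z` -/
def BZ (t : ↥(E Q)) (Z : Submodule F V) : Subgroup ↥(E Q) where
  carrier := {g | g * t = t * g ∧ (∀ z ∈ Z, (g : V ≃ₗ[F] V) z = z) ∧
    ∀ v, (∀ z ∈ Z, polar Q z v = 0) → (g : V ≃ₗ[F] V) v - v ∈ Z}
  one_mem' := ⟨by rw [one_mul, mul_one], fun _ _ => rfl, fun v _ => by
    have : ((1 : ↥(E Q)) : V ≃ₗ[F] V) v - v = 0 := sub_self v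
    rw [this]; exact Z.zero_mem⟩
  mul_mem' := by
    rintro g h ⟨h1, h2, h3⟩ ⟨h4, h5, h6⟩
    refine ⟨by rw [mul_assoc, h4, ← mul_assoc, h1, mul_assoc], ?_, ?_⟩
    · intro z hz
      change (g : V ≃ₗ[F] V) ((h : V ≃ₗ[F] V) z) = z
      rw [h5 z hz, h2 z hz]
    · intro v hv
      change (g : V ≃ₗ[F] V) ((h : V ≃ₗ[F] V) v) - v ∈ Z
      have h7 : (g : V ≃ₗ[F] V) ((h : V ≃ₗ[F] V) v) - v =
          ((g : V ≃ₗ[F] V) v - v) + (g : V ≃ₗ[F] V) ((h : V ≃ₗ[F] V) v - v) := by
        rw [map_sub]; abel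
      rw [h7, h2 _ (h6 v hv)]
      exact Z.add_mem (h3 v hv) (h6 v hv)
  inv_mem' := by
    rintro g ⟨h1, h2, h3⟩
    have hi : ∀ v, ((g⁻¹ : ↥(E Q)) : V ≃ₗ[F] V) ((g : V ≃ₗ[F] V) v) = v := fun v =>
      LinearEquiv.symm_apply_apply (g : V ≃ₗ[F] V) v
    refine ⟨?_, ?_, ?_⟩
    · rw [inv_mul_eq_iff_eq_mul, ← mul_assoc, h1, mul_assoc, mul_inv_cancel, mul_one]
    · intro z hz
      nth_rewrite 1 [← h2 z hz]
      exact hi z
    · intro v hv
      have h4 : ((g⁻¹ : ↥(E Q)) : V ≃ₗ[F] V) ((g : V ≃ₗ[F] V) v - v) = (g : V ≃ₗ[F] V) v - v := by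
        have h5 := hi ((g : V ≃ₗ[F] V) v - v)
        rwa [h2 _ (h3 v hv)] at h5
      rw [map_sub, hi] at h4
      have h5 : ((g⁻¹ : ↥(E Q)) : V ≃ₗ[F] V) v - v = -((g : V ≃ₗ[F] V) v - v) := by
        rw [← h4]; abel
      rw [h5]
      exact Z.neg_mem (h3 v hv)

theorem polar_gv {t : ↥(E Q)} {Z : Submodule F V} {g : ↥(E Q)} (hg : g ∈ BZ t Z) {z : V} (hz : z ∈ Z) (v : V) :
    polar Q z ((g : V ≃ₗ[F] V) v) = polar Q z v := by
  have h1 := polar_map (E_le_O g.2) z v
  rwa [hg.2.1 z hz] at h1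

/-- products of Siegel elements -/
theorem exists_prod (t : ↥(E Q)) {Z : Submodule F V} (hZ : ∀ z ∈ Z, Q z = 0) (hZt : ∀ z ∈ Z, (t : V ≃ₗ[F] V) z = z)
    {s : ℕ} {z : Fin s → V} (hz : ∀ i, z i ∈ Z) (x : Fin s → V) (hx : ∀ i, ∀ z ∈ Z, polar Q z (x i) = 0)
    (hxt : ∀ i, (t : V ≃ₗ[F] V) (x i) = x i) (I : Finset (Fin s)) :
    ∃ g ∈ BZ t Z, ∀ v, (g : V ≃ₗ[F] V) v - (v + ∑ i ∈ I, polar Q (z i) v • x i) ∈ Z := by
  classical
  have hZZ : ∀ z ∈ Z, ∀ z' ∈ Z, polar Q z z' = 0 := by
    intro a ha b hb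
    have := Q_add (Q := Q) a b
    rw [hZ _ (Z.add_mem ha hb), hZ a ha, hZ b hb] at this
    simpa using this.symm
  induction I using Finset.induction_on with
  | empty =>
    refine ⟨1, one_mem _, fun v => ?_⟩
    rw [Finset.sum_empty, add_zero]
    have : ((1 : ↥(E Q)) : V ≃ₗ[F] V) v - v = 0 := sub_self v
    rw [this]; exact Z.zero_mem
  | insert a I ha ih =>
    obtain ⟨g, hg, h⟩ := ih
    let r : ↥(E Q) := ⟨siegel Q (z a) (x a) (hZ _ (hz a)) (hx a _ (hz a)), siegel_mem_E _ _⟩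
    have hr : ∀ v, (r : V ≃ₗ[F] V) v = v + polar Q (z a) v • x a - polar Q (x a) v • z a -
        (Q (x a) * polar Q (z a) v) • z a := fun v => siegel_apply (hZ _ (hz a)) (hx a _ (hz a)) v
    have hrB : r ∈ BZ t Z := by
      refine ⟨?_, ?_, ?_⟩
      · apply Subtype.ext
        change (r : V ≃ₗ[F] V) * (t : V ≃ₗ[F] V) = (t : V ≃ₗ[F] V) * (r : V ≃ₗ[F] V)
        have h1 := siegel_conj (E_le_O t.2) (hZ _ (hz a)) (hx a _ (hz a)) (by rw [hZt _ (hz a)]; exact hZ _ (hz a))
          (by rw [hZt _ (hz a), hxt]; exact hx a _ (hz a))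
        rw [mul_inv_eq_iff_eq_mul] at h1
        rw [h1]
        congr 1
        apply LinearEquiv.ext
        intro v
        rw [siegel_apply, siegel_apply, hZt _ (hz a), hxt]
      · intro w hw
        rw [hr, hZZ _ (hz a) _ hw, polar_comm Q (x a) w, hx a w hw]
        simp
      · intro v hv
        rw [hr, hv _ (hz a)]
        have h1 : v + (0 : F) • x a - polar Q (x a) v • z a - (Q (x a) * 0) • z a - v =
            -(polar Q (x a) v • z a) := by
          rw [mul_zero, zero_smul, zero_smul]; abel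
        rw [h1]
        exact Z.neg_mem (Z.smul_mem _ (hz a))
    refine ⟨r * g, mul_mem hrB hg, fun v => ?_⟩
    change (r : V ≃ₗ[F] V) ((g : V ≃ₗ[F] V) v) - _ ∈ Z
    rw [hr, polar_gv hg (hz a), Finset.sum_insert ha]
    have h1 : (g : V ≃ₗ[F] V) v + polar Q (z a) v • x a - polar Q (x a) ((g : V ≃ₗ[F] V) v) • z a -
        (Q (x a) * polar Q (z a) v) • z a - (v + (polar Q (z a) v • x a + ∑ i ∈ I, polar Q (z i) v • x i)) =
        ((g : V ≃ₗ[F] V) v - (v + ∑ i ∈ I, polar Q (z i) v • x i)) -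
          (polar Q (x a) ((g : V ≃ₗ[F] V) v) + Q (x a) * polar Q (z a) v) • z a := by
      rw [add_smul]; abel
    rw [h1]
    exact Z.sub_mem (h v) (Z.smul_mem _ (hz a))

end

/-- EV9. descent: an involution of rank `k ≥ 5` centralises a large group of elements of small rank. -/
theorem exists_desc {F V : Type*} [Field F] [Fintype F] [CharP F 2] [AddCommGroup V] [Module F V] [Fintype V]
    {Q : QuadraticForm F V} (hQ : Nondeg Q) {m k s : ℕ} (hm : finrank F V = m) {t : ↥(E Q)}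
    (ht : ∀ v, (t : V ≃ₗ[F] V) ((t : V ≃ₗ[F] V) v) = v)
    (hk : finrank F (LinearMap.range ((t : V ≃ₗ[F] V).toLinearMap - LinearMap.id)) = k) (hs : s < k) :
    ∃ B : Subgroup ↥(E Q), B ≤ centralizer ({t} : Set ↥(E Q)) ∧ Fintype.card F ^ (s * (m - k - s)) ≤ Nat.card B ∧
      ∀ g ∈ B, (∀ v, (g : V ≃ₗ[F] V) ((g : V ≃ₗ[F] V) ((g : V ≃ₗ[F] V) ((g : V ≃ₗ[F] V) v))) = v) ∧
        finrank F (LinearMap.range ((g : V ≃ₗ[F] V).toLinearMap - LinearMap.id)) ≤ 2 * s := by
  classical
  have : FiniteDimensional F V := inferInstance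
  have : Finite (V ≃ₗ[F] V) := Finite.of_injective (fun g => (g : V → V)) DFunLike.coe_injective
  have h2 : (2 : F) = 0 := CharTwo.two_eq_zero
  have h2v : ∀ v : V, v + v = 0 := by
    intro v
    rw [← two_smul F v, h2, zero_smul]
  have hneg : ∀ v : V, -v = v := fun v => neg_eq_of_add_eq_zero_left (h2v v)
  set f : V →ₗ[F] V := (t : V ≃ₗ[F] V).toLinearMap - LinearMap.id with hf_def
  have hf : ∀ v, f v = (t : V ≃ₗ[F] V) v - v := fun v => rfl
  have htO := E_le_O t.2
  have hRt : ∀ r ∈ LinearMap.range f, (t : V ≃ₗ[F] V) r = r := by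
    rintro _ ⟨v, rfl⟩
    rw [hf, map_sub, ht, ← neg_sub, hneg]
  have hC : ∀ x, (t : V ≃ₗ[F] V) x = x → ∀ r ∈ LinearMap.range f, polar Q r x = 0 := by
    rintro x hx _ ⟨v, rfl⟩
    rw [hf, polar_sub_left]
    have h3 := polar_map htO v x
    rw [hx] at h3
    rw [h3, sub_self]
  have hRR : ∀ a ∈ LinearMap.range f, ∀ b ∈ LinearMap.range f, polar Q a b = 0 := fun a ha b hb =>
    hC b (hRt b hb) a ha
  -- the singular part of `R`
  let lam : LinearMap.range f →ₗ[F] F :=
    { toFun := fun r => (frobeniusEquiv F 2).symm (Q (r : V))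
      map_add' := by
        intro a b
        rw [← map_add]
        congr 1
        change Q ((a : V) + (b : V)) = _
        rw [Q_add, hRR a a.2 b b.2, add_zero]
      map_smul' := by
        intro c a
        change (frobeniusEquiv F 2).symm (Q (c • (a : V))) = c • (frobeniusEquiv F 2).symm (Q (a : V))
        rw [QuadraticMap.map_smul, smul_eq_mul, smul_eq_mul, map_mul]
        congr 1
        rw [RingEquiv.symm_apply_eq, frobeniusEquiv_apply, frobenius_def, pow_two] }
  have hlam : k - 1 ≤ finrank F (LinearMap.ker lam) := by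
    have h3 := LinearMap.finrank_range_add_finrank_ker lam
    have h4 : finrank F (LinearMap.range lam) ≤ 1 := by
      have := Submodule.finrank_le (LinearMap.range lam)
      rwa [finrank_self] at this
    omega
  obtain ⟨z0, hz0⟩ := exists_linearIndependent_of_le_finrank (by omega : s ≤ finrank F (LinearMap.ker lam))
  let z : Fin s → V := fun i => ((z0 i : LinearMap.range f) : V)
  have hzi : LinearIndependent F z := by
    have h3 : LinearIndependent F (fun i => (((LinearMap.range f).subtype.comp (LinearMap.ker lam).subtype) (z0 i))) :=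
      hz0.map' _ (by
        rw [LinearMap.ker_eq_bot]
        exact (LinearMap.range f).injective_subtype.comp (LinearMap.ker lam).injective_subtype)
    exact h3
  let Z : Submodule F V := Submodule.span F (Set.range z)
  have hzZ : ∀ i, z i ∈ Z := fun i => Submodule.subset_span ⟨i, rfl⟩
  have hZle : Z ≤ ((LinearMap.ker lam).map (LinearMap.range f).subtype) := by
    rw [Submodule.span_le]
    rintro _ ⟨i, rfl⟩
    exact ⟨z0 i, (z0 i).2, rfl⟩
  have hZR : ∀ w ∈ Z, w ∈ LinearMap.range f := by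
    intro w hw
    obtain ⟨r, -, rfl⟩ := hZle hw
    exact r.2
  have hZs : ∀ w ∈ Z, Q w = 0 := by
    intro w hw
    obtain ⟨r, hr, rfl⟩ := hZle hw
    have h3 : (frobeniusEquiv F 2).symm (Q (r : V)) = 0 := hr
    rwa [EmbeddingLike.map_eq_zero_iff] at h3
  have hZt : ∀ w ∈ Z, (t : V ≃ₗ[F] V) w = w := fun w hw => hRt w (hZR w hw)
  have hZd : finrank F Z = s := by
    rw [finrank_span_eq_card hzi, Fintype.card_fin]
  -- the complement of `Z` in `C_V(t)`
  obtain ⟨K', hK'⟩ := Submodule.exists_isCompl Z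
  let C : Submodule F V := LinearMap.ker f
  have hCd : finrank F C = m - k := by
    have h3 := LinearMap.finrank_range_add_finrank_ker f
    rw [hm] at h3
    change finrank F (LinearMap.ker f) = m - k
    omega
  have hCt : ∀ x ∈ C, (t : V ≃ₗ[F] V) x = x := fun x hx => sub_eq_zero.1 (LinearMap.mem_ker.1 hx)
  have hZC : Z ≤ C := fun w hw => LinearMap.mem_ker.2 (sub_eq_zero.2 (hZt w hw))
  let K : Submodule F V := K' ⊓ C
  have hKZ : K ⊓ Z = ⊥ := by
    rw [eq_bot_iff]
    intro w hw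
    have h3 : w ∈ Z ⊓ K' := ⟨hw.2, hw.1.1⟩
    rwa [hK'.inf_eq_bot] at h3
  have hKd : finrank F K = m - k - s := by
    have h3 := Submodule.finrank_sup_add_finrank_inf_eq K Z
    have h4 : K ⊔ Z = C := by
      change (K' ⊓ C) ⊔ Z = C
      rw [sup_comm, ← sup_inf_assoc_of_le _ hZC, hK'.sup_eq_top, top_inf_eq]
    rw [h4, hKZ, finrank_bot, hCd, hZd] at h3
    omega
  refine ⟨BZ t Z, ?_, ?_, ?_⟩
  · intro g hg
    rw [mem_centralizer_iff]
    rintro _ rfl
    exact hg.1.symm
  · -- the count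
    choose e he using fun j => exists_dualv hQ hzi j
    have hprod : ∀ x : Fin s → K, ∃ g : BZ t Z, ∀ v, ((g : ↥(E Q)) : V ≃ₗ[F] V) v -
        (v + ∑ i, polar Q (z i) v • (x i : V)) ∈ Z := by
      intro x
      obtain ⟨g, hg, h⟩ := exists_prod t hZs hZt hzZ (fun i => (x i : V))
        (fun i w hw => hC _ (hCt _ (x i).2.2) w (hZR w hw)) (fun i => hCt _ (x i).2.2) Finset.univ
      exact ⟨⟨g, hg⟩, h⟩
    choose G hG using hprod
    have hinj : Function.Injective G := by
      intro x y hxy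
      funext j
      have h3 := hG x (e j)
      have h4 := hG y (e j)
      rw [hxy] at h3
      have h5 := Z.sub_mem h4 h3
      have h6 : ∀ w : Fin s → K, ∑ i, polar Q (z i) (e j) • (w i : V) = (w j : V) := by
        intro w
        rw [Finset.sum_eq_single j]
        · rw [he, if_pos rfl, one_smul]
        · intro i _ hij
          rw [he, if_neg hij, zero_smul]
        · intro h; exact absurd (Finset.mem_univ _) h
      rw [h6, h6] at h5
      have h7 : ((x j : V) - (y j : V)) ∈ Z := by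
        have : (((G y : ↥(E Q)) : V ≃ₗ[F] V) (e j) - (e j + (y j : V))) -
            (((G y : ↥(E Q)) : V ≃ₗ[F] V) (e j) - (e j + (x j : V))) = (x j : V) - (y j : V) := by abel
        rwa [this] at h5
      have h8 : ((x j : V) - (y j : V)) ∈ K ⊓ Z := ⟨K.sub_mem (x j).2 (y j).2, h7⟩
      rw [hKZ, Submodule.mem_bot, sub_eq_zero] at h8
      exact Subtype.ext h8
    have h3 := Nat.card_le_card_of_injective G hinj
    refine le_trans (le_of_eq ?_) h3
    rw [Nat.card_fun, Nat.card_eq_fintype_card (α := Fin s), Fintype.card_fin, Module.natCard_eq_pow_finrank (K := F),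
      Nat.card_eq_fintype_card, hKd, ← pow_mul, mul_comm]
  · intro g hg
    have hgp : ∀ v, ∀ w ∈ Z, polar Q w ((g : V ≃ₗ[F] V) v - v) = 0 := by
      intro v w hw
      rw [polar_sub_right, polar_gv hg hw, sub_self]
    refine ⟨?_, ?_⟩
    · -- `g² v = v + b`, `b ∈ Z`
      have h3 : ∀ v, ∃ b ∈ Z, (g : V ≃ₗ[F] V) ((g : V ≃ₗ[F] V) v) = v + b := by
        intro v
        set a := (g : V ≃ₗ[F] V) v - v with ha
        refine ⟨(g : V ≃ₗ[F] V) a - a, hg.2.2 a (hgp v), ?_⟩
        have h4 : (g : V ≃ₗ[F] V) v = v + a := by rw [ha]; abel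
        rw [h4, map_add, h4]
        have h5 : v + ((g : V ≃ₗ[F] V) a - a) = v + ((g : V ≃ₗ[F] V) a + a) := by rw [sub_eq_add_neg, hneg]
        rw [h5]; abel
      intro v
      obtain ⟨b, hb, h4⟩ := h3 v
      rw [h4, map_add, map_add, h4, hg.2.1 b hb, hg.2.1 b hb, add_assoc, h2v, add_zero]
    · -- rank
      set φ : V →ₗ[F] V := (g : V ≃ₗ[F] V).toLinearMap - LinearMap.id with hφ_def
      let L : V →ₗ[F] (Fin s → F) := LinearMap.pi fun i => polarBilin Q (z i)
      have hL : m - s ≤ finrank F (LinearMap.ker L) := by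
        have h3 := LinearMap.finrank_range_add_finrank_ker L
        have h4 : finrank F (LinearMap.range L) ≤ s := by
          have := Submodule.finrank_le (LinearMap.range L)
          rwa [finrank_fin_fun] at this
        omega
      have hLp : ∀ v ∈ LinearMap.ker L, ∀ w ∈ Z, polar Q w v = 0 := by
        intro v hv w hw
        have h3 : ∀ i, polar Q (z i) v = 0 := fun i => congrFun (LinearMap.mem_ker.1 hv) i
        induction hw using Submodule.span_induction with
        | mem x hx =>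
          obtain ⟨i, rfl⟩ := hx
          exact h3 i
        | zero => exact polar_zero_left _ _
        | add x y _ _ hx hy => rw [polar_add_left, hx, hy, add_zero]
        | smul c x _ hx => rw [polar_smul_left, hx, smul_zero]
      let ψ : LinearMap.ker L →ₗ[F] Z := (φ.domRestrict (LinearMap.ker L)).codRestrict Z
        (fun v => hg.2.2 v.1 (hLp v.1 v.2))
      have h3 := LinearMap.finrank_range_add_finrank_ker ψ
      have h4 : finrank F (LinearMap.range ψ) ≤ s := by
        have := Submodule.finrank_le (LinearMap.range ψ)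
        rwa [hZd] at this
      have h5 : finrank F (LinearMap.ker ψ) ≤ finrank F (LinearMap.ker φ) := by
        apply LinearMap.finrank_le_finrank_of_injective (f := ((LinearMap.ker L).subtype.comp
          (LinearMap.ker ψ).subtype).codRestrict (LinearMap.ker φ) (fun v => by
            have h6 : ψ v.1 = 0 := v.2
            exact congrArg Subtype.val h6))
        intro a b hab
        have h6 : ((a : LinearMap.ker L) : V) = ((b : LinearMap.ker L) : V) :=
          congrArg (fun x : LinearMap.ker φ => (x : V)) hab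
        exact Subtype.ext (Subtype.ext h6)
      have h6 := LinearMap.finrank_range_add_finrank_ker φ
      rw [hm] at h6
      omega

end Cfsg.Agent.H999.IFE
end

-- part: H842/IF/Descent
section
/-!
# S5719, orthogonal groups in even characteristic: from an involution to a long root element (helper842)

`CB Q` is the class bound (EV1 of `tools/plans/S5719_even.md`).
-/

set_option autoImplicit false
set_option linter.unusedSectionVars false

namespace Cfsg.Agent.H842.IFE

open QuadraticMap Module Subgroup Cfsg.Agent.LieClassical.OrthCore Cfsg.Agent.LieClassical.OrthTrans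
  Cfsg.Agent.LieClassical.OrthFinite Cfsg.Agent.AutOrth.SemiSim Cfsg.Agent.H989.Gs.Gen Cfsg.Agent.H209.Fxy
  Cfsg.Agent.H999.IFB

variable {F V : Type*} [Field F] [Fintype F] [CharP F 2] [AddCommGroup V] [Module F V] [Fintype V]
  {Q : QuadraticForm F V}

/-- the class bound -/
def CB (Q : QuadraticForm F V) : Prop := ∀ t : ↥(E Q), (∀ v, (t : V ≃ₗ[F] V) ((t : V ≃ₗ[F] V) v) = v) → ∀ k : ℕ,
    finrank F (LinearMap.range ((t : V ≃ₗ[F] V).toLinearMap - LinearMap.id)) = k →
    (centralizer ({t} : Set ↥(E Q))).index ≤ 8 * Fintype.card F ^ (k * (finrank F V - k))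

omit [Fintype V] in
/-- a totally isotropic subspace of dimension at least two contains a nonzero singular vector -/
theorem exists_sing_iso {U : Submodule F V} (hU : ∀ u ∈ U, ∀ v ∈ U, polar Q u v = 0) (h : 2 ≤ finrank F U) :
    ∃ w ∈ U, w ≠ 0 ∧ Q w = 0 := by
  have h2 : (2 : F) = 0 := CharTwo.two_eq_zero
  have hnt : Nontrivial U := Module.nontrivial_of_finrank_pos (R := F) (by omega)
  obtain ⟨x, hx⟩ := exists_ne (0 : U)
  obtain ⟨y, hy⟩ := exists_linearIndependent_pair_of_one_lt_finrank (R := F) (M := U) (by omega) hx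
  by_cases hQx : Q (x : V) = 0
  · exact ⟨x, x.2, fun h0 => hx (Subtype.ext h0), hQx⟩
  · obtain ⟨c, hc⟩ := FiniteField.isSquare_of_char_two (CharP.eq F (ringChar.charP F) inferInstance)
      (Q (y : V) / Q (x : V))
    refine ⟨((c • x + y : U) : V), Submodule.coe_mem _, fun h0 => ?_, ?_⟩
    · have h1 : c • x + (1 : F) • y = 0 := by rw [one_smul]; exact Subtype.ext h0
      have h3 := (LinearIndependent.pair_iff.1 hy) c 1 h1
      exact one_ne_zero h3.2
    · rw [Submodule.coe_add, Submodule.coe_smul, Q_add, QuadraticMap.map_smul, polar_smul_left, hU x x.2 y y.2, smul_zero,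
        add_zero, smul_eq_mul, ← hc, div_mul_cancel₀ _ hQx, ← two_mul, h2, zero_mul]

/-! ### Siegel elements with a fixed first vector -/

/-- `x ↦ S Q w x` -/
noncomputable def sHom {w : V} (hw : Q w = 0) (X : Submodule F V) (hX : ∀ x ∈ X, polar Q w x = 0) :
    Multiplicative X →* ↥(E Q) where
  toFun x := S Q w (x.toAdd : V)
  map_one' := S_zero w
  map_mul' x y := S_add hw (hX _ x.toAdd.2) (hX _ y.toAdd.2)

omit [Fintype F] [CharP F 2] [Fintype V] in
theorem line_of_S_eq_one (hQ : Nondeg Q) {w z : V} (hw : Q w = 0) (hw0 : w ≠ 0) (hz : polar Q w z = 0)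
    (h : S Q w z = 1) : ∃ c : F, z = c • w := by
  refine mem_line_of_scalar hQ hw hw0 hz (c := 1) fun v => ?_
  rw [S_eq hw hz] at h
  rw [h, one_smul]
  rfl

omit [CharP F 2] in
/-- the group of the `S Q w x`, `x ∈ X`, has at least `|X| / |F|` elements -/
theorem exists_group (hQ : Nondeg Q) {w : V} (hw : Q w = 0) (hw0 : w ≠ 0) {X : Submodule F V}
    (hX : ∀ x ∈ X, polar Q w x = 0) {n : ℕ} (hn : finrank F X = n + 1) :
    ∃ X' : Submodule F V, X' ≤ X ∧ (∀ x ∈ X', ∀ c : F, x = c • w → x = 0) ∧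
      ∃ B : Subgroup ↥(E Q), Nat.card B = Nat.card X' ∧ Fintype.card F ^ n ≤ Nat.card B ∧
        (∀ g ∈ B, ∃ x ∈ X', g = S Q w x) := by
  obtain ⟨C, hC⟩ := Submodule.exists_isCompl (Submodule.span F {w})
  have hX' : X ⊓ C ≤ X := inf_le_left
  have hline : ∀ x ∈ X ⊓ C, ∀ c : F, x = c • w → x = 0 := by
    rintro x ⟨-, hx⟩ c hc
    have h1 : x ∈ Submodule.span F {w} := by
      rw [hc]; exact Submodule.smul_mem _ _ (Submodule.mem_span_singleton_self w)
    have h3 : x ∈ Submodule.span F {w} ⊓ C := ⟨h1, hx⟩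
    rwa [hC.inf_eq_bot, Submodule.mem_bot] at h3
  have hX'' : ∀ x ∈ X ⊓ C, polar Q w x = 0 := fun x hx => hX x hx.1
  have hinj : Function.Injective (sHom hw (X ⊓ C) hX'') := by
    intro x y hxy
    have h1 : sHom hw (X ⊓ C) hX'' (x / y) = 1 := by rw [map_div, hxy, div_self']
    obtain ⟨c, hc⟩ := line_of_S_eq_one hQ hw hw0 (hX'' _ (x / y).toAdd.2) h1
    have h3 := hline _ (x / y).toAdd.2 c hc
    have h4 : (x / y).toAdd = 0 := Subtype.ext h3
    have h5 : x / y = 1 := h4
    exact div_eq_one.1 h5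
  have hcard : Nat.card (sHom hw (X ⊓ C) hX'').range = Nat.card ↥(X ⊓ C) := by
    rw [Nat.card_congr (MonoidHom.ofInjective hinj).toEquiv.symm]
    exact Nat.card_congr Multiplicative.toAdd
  have hfr : n ≤ finrank F ↥(X ⊓ C) := by
    have h1 := Submodule.finrank_sup_add_finrank_inf_eq X C
    have h3 := Submodule.finrank_add_eq_of_isCompl hC
    rw [finrank_span_singleton hw0] at h3
    have h4 := Submodule.finrank_le (X ⊔ C)
    omega
  refine ⟨X ⊓ C, hX', hline, (sHom hw (X ⊓ C) hX'').range, hcard, ?_, ?_⟩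
  · rw [hcard, Module.natCard_eq_pow_finrank (K := F) (V := ↥(X ⊓ C)), Nat.card_eq_fintype_card]
    exact Nat.pow_le_pow_right Fintype.card_pos hfr
  · rintro _ ⟨x, rfl⟩
    exact ⟨_, x.toAdd.2, rfl⟩

section abs

variable {T : Type*} [Group T] [Finite T] {A : Subgroup T}

theorem exists_mem_of_relIndex_lt {B : Subgroup T} (h : A.relIndex B < Nat.card B) : ∃ g ∈ B, g ∈ A ∧ g ≠ 1 := by
  by_contra hcon
  push Not at hcon
  have h1 : A.subgroupOf B = ⊥ := by
    rw [eq_bot_iff]
    intro g hg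
    rw [mem_bot]
    exact Subtype.ext (hcon g g.2 hg)
  rw [relIndex, h1, index_bot] at h
  exact lt_irrefl _ h

theorem card_of_relIndex (A B : Subgroup T) : Nat.card (A.subgroupOf B) * A.relIndex B = Nat.card B :=
  (A.subgroupOf B).card_mul_index

end abs

section inv


theorem finite_E {F V : Type*} [Field F] [AddCommGroup V] [Module F V] [Finite V] (Q : QuadraticForm F V) :
    Finite ↥(E Q) :=
  Finite.of_injective (fun g v => ap g v) fun _ _ h => ext_ap fun v => congrFun h v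

variable {A : Subgroup ↥(E Q)} {Γ : Subgroup (MulAut ↥(E Q))}

omit [Fintype F] [CharP F 2] [Fintype V] in
theorem sq_of_order {t : ↥(E Q)} (ho : orderOf t = 2) : t * t = 1 := by
  rw [← pow_two, ← ho, pow_orderOf_eq_one]

omit [Fintype F] [CharP F 2] [Fintype V] in
theorem sq_ap {t : ↥(E Q)} (ht : t * t = 1) (v : V) : (t : V ≃ₗ[F] V) ((t : V ≃ₗ[F] V) v) = v := by
  change ap t (ap t v) = v
  rw [← ap_mul, ht, ap_one]

/-- `|B : A ∩ B|⁵ < 8 q^(k(m-k))` -/
theorem relIndex_pow_lt [IsSimpleGroup ↥(E Q)] (hcb : CB Q) (hna : ∃ a b : ↥(E Q), a * b ≠ b * a) (h : IF A Γ) {t : ↥(E Q)}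
    (ht : t ∈ A) (ho : orderOf t = 2) {B : Subgroup ↥(E Q)} (hB : B ≤ centralizer ({t} : Set ↥(E Q))) {j : ℕ}
    (hj : rk t * (finrank F V - rk t) + 3 ≤ 5 * j) : A.relIndex B < Fintype.card F ^ j := by
  have := finite_E Q
  have h1 := ((IF.E2' h hna ht ho).2.2.2.2 B hB).1
  have h3 := hcb t (sq_ap (sq_of_order ho)) (rk t) rfl
  have hq : 2 ≤ Fintype.card F := Fintype.one_lt_card
  have h4 : A.relIndex B ^ 5 < (Fintype.card F ^ j) ^ 5 := by
    calc A.relIndex B ^ 5 < _ := h1
      _ ≤ 8 * Fintype.card F ^ (rk t * (finrank F V - rk t)) := h3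
      _ ≤ Fintype.card F ^ 3 * Fintype.card F ^ (rk t * (finrank F V - rk t)) := by
          refine Nat.mul_le_mul_right _ ?_
          calc 8 = 2 ^ 3 := by norm_num
            _ ≤ _ := Nat.pow_le_pow_left hq 3
      _ = Fintype.card F ^ (rk t * (finrank F V - rk t) + 3) := by rw [pow_add, mul_comm]
      _ ≤ Fintype.card F ^ (5 * j) := Nat.pow_le_pow_right Fintype.card_pos hj
      _ = _ := by rw [mul_comm, pow_mul]
  exact lt_of_pow_lt_pow_left₀ 5 (Nat.zero_le _) h4

/-- the rank of a Siegel element is at most two -/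
theorem rk_S_le {w x : V} (hw : Q w = 0) (hx : polar Q w x = 0) : rk (S Q w x) ≤ 2 := by
  classical
  have h1 : mv (S Q w x) ≤ Submodule.span F (({w, x} : Finset V) : Set V) := by
    intro u hu
    obtain ⟨v, rfl⟩ := mem_mv.1 hu
    rw [S_ap hw hx]
    have hw' : w ∈ Submodule.span F (({w, x} : Finset V) : Set V) := Submodule.subset_span (by simp)
    have hx' : x ∈ Submodule.span F (({w, x} : Finset V) : Set V) := Submodule.subset_span (by simp)
    have e : v + polar Q w v • x - polar Q x v • w - (Q x * polar Q w v) • w - v =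
        polar Q w v • x - polar Q x v • w - (Q x * polar Q w v) • w := by abel
    rw [e]
    exact Submodule.sub_mem _ (Submodule.sub_mem _ (Submodule.smul_mem _ _ hx') (Submodule.smul_mem _ _ hw'))
      (Submodule.smul_mem _ _ hw')
  exact (Submodule.finrank_mono h1).trans ((finrank_span_finset_le_card _).trans Finset.card_le_two)

omit [Fintype F] [Fintype V] in
theorem S_sq {w x : V} (hw : Q w = 0) (hx : polar Q w x = 0) : S Q w x * S Q w x = 1 := by
  rw [← S_add hw hx hx, add_self2 (CharTwo.two_eq_zero (R := F)), S_zero]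

/-- from rank 3 or 4 to rank at most 2 -/
theorem step_three [IsSimpleGroup ↥(E Q)] (hcb : CB Q) (hQ : Nondeg Q) (hd : 8 ≤ finrank F V)
    (hna : ∃ a b : ↥(E Q), a * b ≠ b * a) (h : IF A Γ) {t : ↥(E Q)} (ht : t ∈ A) (ho : orderOf t = 2) (h3 : 3 ≤ rk t)
    (h4 : rk t ≤ 4) : ∃ g ∈ A, orderOf g = 2 ∧ rk g ≤ 2 := by
  have := finite_E Q
  have h2 : (2 : F) = 0 := CharTwo.two_eq_zero
  have hsq := sq_of_order ho
  obtain ⟨w, hwU, hw0, hw⟩ := exists_sing_iso (U := mv t) (fun u hu v hv => polar_mv h2 hsq hQ hu hv)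
    (show 2 ≤ rk t by omega)
  obtain ⟨u, hu⟩ := mem_mv.1 hwU
  have huK : u ∉ fxs t := by
    intro hcon
    rw [mem_fxs] at hcon
    rw [hcon, sub_self] at hu
    exact hw0 hu
  have hX : ∀ x ∈ fxs t ⊔ Submodule.span F {u}, polar Q w x = 0 ∧ ∃ c : F, ap t x = x + c • w := by
    intro x hx
    obtain ⟨y, hy, z, hz, rfl⟩ := Submodule.mem_sup.1 hx
    obtain ⟨c, rfl⟩ := Submodule.mem_span_singleton.1 hz
    constructor
    · rw [polar_add_right, polar_smul_right, (mem_fxs_iff h2 hsq hQ).1 hy w hwU, zero_add, polar_comm, hu, ← Q_n h2 hsq,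
        ← hu, hw, smul_zero]
    · refine ⟨c, ?_⟩
      rw [ap_add, ap_smul, mem_fxs.1 hy, hu]
      module
  have hfr : finrank F ↥(fxs t ⊔ Submodule.span F {u}) = finrank F V - rk t + 1 := by
    have h5 := Submodule.finrank_sup_add_finrank_inf_eq (fxs t) (Submodule.span F {u})
    have h6 : fxs t ⊓ Submodule.span F {u} = ⊥ := by
      rw [eq_bot_iff]
      rintro x ⟨hx, hx'⟩
      obtain ⟨c, rfl⟩ := Submodule.mem_span_singleton.1 hx'
      by_cases hc : c = 0
      · rw [hc, zero_smul]; exact Submodule.zero_mem _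
      · exact absurd (((fxs t).smul_mem_iff hc).1 hx) huK
    have hu0 : u ≠ 0 := by
      rintro rfl
      exact huK (Submodule.zero_mem _)
    rw [h6, finrank_bot, finrank_span_singleton hu0] at h5
    have h7 := finrank_fxs t
    omega
  obtain ⟨X', hX'X, -, B, -, hBc, hB⟩ := exists_group hQ hw hw0 (fun x hx => (hX x hx).1) hfr
  have hBt : B ≤ centralizer ({t} : Set ↥(E Q)) := by
    intro g hg
    obtain ⟨x, hx, rfl⟩ := hB g hg
    obtain ⟨h5, c, h6⟩ := hX x (hX'X hx)
    rw [mem_centralizer_singleton_iff]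
    have h7 := S_conj t w x
    rw [mem_fxs.1 (mv_le h2 hsq hwU), h6, S_add hw h5 (by rw [polar_smul_right, polar_self_of_sing hw, smul_zero]),
      S_self_smul c hw, mul_one, mul_inv_eq_iff_eq_mul] at h7
    exact h7.symm
  have hlt := relIndex_pow_lt hcb hna h ht ho hBt (j := finrank F V - rk t) (by
    have : rk t * (finrank F V - rk t) ≤ 4 * (finrank F V - rk t) := Nat.mul_le_mul_right _ h4
    omega)
  obtain ⟨g, hgB, hgA, hg1⟩ := exists_mem_of_relIndex_lt (hlt.trans_le hBc)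
  obtain ⟨x, hx, rfl⟩ := hB g hgB
  obtain ⟨h5, -⟩ := hX x (hX'X hx)
  refine ⟨_, hgA, ?_, rk_S_le hw h5⟩
  exact orderOf_eq_prime (by rw [pow_two, S_sq hw h5]) hg1

/-- the step from rank at least 5 -/
theorem step_five [IsSimpleGroup ↥(E Q)] (hcb : CB Q) (hQ : Nondeg Q)
    (hna : ∃ a b : ↥(E Q), a * b ≠ b * a) (h : IF A Γ) {t : ↥(E Q)} (ht : t ∈ A) (ho : orderOf t = 2) (h5 : 5 ≤ rk t) :
    ∃ g ∈ A, orderOf g = 2 ∧ rk g < rk t := by
  have := finite_E Q
  have h2 : (2 : F) = 0 := CharTwo.two_eq_zero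
  have hsq := sq_of_order ho
  have hle := rk_le h2 hsq
  obtain ⟨B, hBt, hBc, hB⟩ := Cfsg.Agent.H999.IFE.exists_desc hQ rfl (sq_ap hsq) (rfl : _ = rk t) (s := (rk t - 1) / 2) (by omega)
  have hlt := relIndex_pow_lt hcb hna h ht ho hBt (j := (rk t - 1) / 2 * (finrank F V - rk t - (rk t - 1) / 2)) (by
    obtain ⟨r, hr⟩ := Nat.exists_eq_add_of_le hle
    obtain ⟨s, hs⟩ : ∃ s, rk t = 2 * s + 1 ∨ rk t = 2 * s + 2 := ⟨(rk t - 1) / 2, by omega⟩
    have hs2 : 2 ≤ s := by omega
    have hs' : (rk t - 1) / 2 = s := by omega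
    rw [hs']
    rcases hs with hs | hs
    · have e1 : finrank F V - rk t = 2 * s + 1 + r := by omega
      have e2 : finrank F V - rk t - s = s + 1 + r := by (clear * - e1; omega)
      rw [e2, e1, hs]
      nlinarith only [hs2]
    · have e1 : finrank F V - rk t = 2 * s + 2 + r := by omega
      have e2 : finrank F V - rk t - s = s + 2 + r := by (clear * - e1; omega)
      rw [e2, e1, hs]
      nlinarith only [hs2])
  obtain ⟨g, hgB, hgA, hg1⟩ := exists_mem_of_relIndex_lt (hlt.trans_le hBc)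
  by_cases hgg : g * g = 1
  · exact ⟨g, hgA, orderOf_eq_prime (by rw [pow_two, hgg]) hg1, lt_of_le_of_lt (hB g hgB).2 (by omega)⟩
  · refine ⟨g * g, mul_mem hgA hgA, orderOf_eq_prime ?_ hgg, lt_of_le_of_lt (hB _ (mul_mem hgB hgB)).2 (by omega)⟩
    apply ext_ap
    intro v
    rw [pow_two, ap_mul, ap_mul, ap_mul]
    exact (hB g hgB).1 v

/-- the final step: from rank at most 2 to a long root element -/
theorem step_two [IsSimpleGroup ↥(E Q)] (hcb : CB Q) (hQ : Nondeg Q) (hd : 8 ≤ finrank F V)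
    (hna : ∃ a b : ↥(E Q), a * b ≠ b * a) (h : IF A Γ) {t : ↥(E Q)} (ht : t ∈ A) (ho : orderOf t = 2) (hk : rk t ≤ 2) :
    ∃ z ∈ A, LR z := by
  have := finite_E Q
  have h2 : (2 : F) = 0 := CharTwo.two_eq_zero
  have hsq := sq_of_order ho
  have hk0 : rk t ≠ 0 := by
    rw [Ne, rk_eq_zero]
    rintro rfl
    rw [orderOf_one] at ho
    exact absurd ho (by norm_num)
  have hfx := finrank_fxs t
  -- the vector `w`
  obtain ⟨w, hwK, hw0, hw, X, hXK, hXw, hXf⟩ : ∃ w ∈ fxs t, w ≠ 0 ∧ Q w = 0 ∧ ∃ X : Submodule F V, X ≤ fxs t ∧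
      (∀ x ∈ X, polar Q w x = 0) ∧ finrank F V - 2 ≤ finrank F X := by
    rcases (by omega : rk t = 2 ∨ rk t = 1) with hk2 | hk1
    · obtain ⟨w, hwU, hw0, hw⟩ := exists_sing_iso (U := mv t) (fun u hu v hv => polar_mv h2 hsq hQ hu hv)
        (show 2 ≤ rk t by omega)
      exact ⟨w, mv_le h2 hsq hwU, hw0, hw, fxs t, le_rfl, fun x hx => (mem_fxs_iff h2 hsq hQ).1 hx w hwU, by omega⟩
    · obtain ⟨w, hwK, hw0, hw⟩ := exists_sing_mem (Q := Q) (fxs t) (by omega)
      refine ⟨w, hwK, hw0, hw, fxs t ⊓ LinearMap.ker (polarBilin Q w), inf_le_left, fun x hx => hx.2, ?_⟩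
      have h5 := Submodule.finrank_sup_add_finrank_inf_eq (fxs t) (LinearMap.ker (polarBilin Q w))
      have h6 := LinearMap.finrank_range_add_finrank_ker (polarBilin Q w)
      have h7 : finrank F (LinearMap.range (polarBilin Q w)) ≤ 1 := by
        refine (Submodule.finrank_le _).trans ?_
        rw [Module.finrank_self]
      have h8 := Submodule.finrank_le (fxs t ⊔ LinearMap.ker (polarBilin Q w))
      omega
  obtain ⟨X', hX'X, hline, B, hBX, hBc, hB⟩ := exists_group hQ hw hw0 hXw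
    (n := finrank F X - 1) (by omega)
  have hBt : B ≤ centralizer ({t} : Set ↥(E Q)) := by
    intro g hg
    obtain ⟨x, hx, rfl⟩ := hB g hg
    rw [mem_centralizer_singleton_iff]
    exact (S_comm (mem_fxs.1 hwK) (mem_fxs.1 (hXK (hX'X hx)))).symm
  have hlt := relIndex_pow_lt hcb hna h ht ho hBt (j := finrank F V - 5) (by
    rcases (by omega : rk t = 2 ∨ rk t = 1) with hk2 | hk1
    · rw [hk2]; omega
    · rw [hk1]; omega)
  -- the additive group of the `x` with `S Q w x ∈ A`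
  let Y : AddSubgroup V :=
    { carrier := {x | x ∈ X' ∧ S Q w x ∈ A}
      zero_mem' := ⟨Submodule.zero_mem _, by rw [S_zero]; exact one_mem _⟩
      add_mem' := by
        rintro x y ⟨hx, hx'⟩ ⟨hy, hy'⟩
        refine ⟨Submodule.add_mem _ hx hy, ?_⟩
        rw [S_add hw (hXw x (hX'X hx)) (hXw y (hX'X hy))]
        exact mul_mem hx' hy'
      neg_mem' := by
        rintro x ⟨hx, hx'⟩
        refine ⟨Submodule.neg_mem _ hx, ?_⟩
        rw [neg2 h2]
        exact hx' }
  have hY : Nat.card (A.subgroupOf B) ≤ Nat.card Y := by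
    have hch : ∀ g : A.subgroupOf B, ∃ x ∈ X', ((g : B) : ↥(E Q)) = S Q w x := fun g => hB _ (g : B).2
    choose x hx1 hx2 using hch
    have hm : ∀ g : A.subgroupOf B, x g ∈ Y := fun g => ⟨hx1 g, by rw [← hx2 g]; exact g.2⟩
    refine Nat.card_le_card_of_injective (fun g => (⟨x g, hm g⟩ : Y)) ?_
    intro g g' hgg
    have h5 : x g = x g' := congrArg Subtype.val hgg
    apply Subtype.ext
    apply Subtype.ext
    rw [hx2 g, hx2 g', h5]
  have hY2 : Fintype.card F ^ 2 < Nat.card Y := by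
    refine lt_of_lt_of_le ?_ hY
    have h5 := card_of_relIndex A B
    have hq : 0 < Fintype.card F := Fintype.card_pos
    by_contra hcon
    push Not at hcon
    have h6 : Nat.card B < Fintype.card F ^ (finrank F X - 1) := by
      calc Nat.card B = Nat.card (A.subgroupOf B) * A.relIndex B := h5.symm
        _ ≤ Fintype.card F ^ 2 * A.relIndex B := Nat.mul_le_mul_right _ hcon
        _ < Fintype.card F ^ 2 * Fintype.card F ^ (finrank F V - 5) := Nat.mul_lt_mul_of_pos_left hlt (pow_pos hq 2)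
        _ = Fintype.card F ^ (2 + (finrank F V - 5)) := by rw [pow_add]
        _ ≤ _ := Nat.pow_le_pow_right hq (by (clear * - hd hXf; omega))
    omega
  obtain ⟨y, ⟨hyX, hyA⟩, hy0, hyQ⟩ := exists_singular Q Y hY2
  refine ⟨_, hyA, fun h1 => ?_, w, y, hw, hyQ, hXw y (hX'X hyX), rfl⟩
  obtain ⟨c, hc⟩ := line_of_S_eq_one hQ hw hw0 (hXw y (hX'X hyX)) h1
  exact hy0 (hline y hyX c hc)

/-- **DESCENT**: an involution in `A` gives a long root element in `A` -/
theorem exists_LR [IsSimpleGroup ↥(E Q)] (hcb : CB Q) (hQ : Nondeg Q) (hd : 8 ≤ finrank F V)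
    (hna : ∃ a b : ↥(E Q), a * b ≠ b * a) (h : IF A Γ) {t : ↥(E Q)} (ht : t ∈ A) (ho : orderOf t = 2) :
    ∃ z ∈ A, LR z := by
  obtain ⟨k, hk⟩ : ∃ k, rk t = k := ⟨_, rfl⟩
  induction k using Nat.strong_induction_on generalizing t with
  | _ k ih =>
    by_cases h5 : 5 ≤ rk t
    · obtain ⟨g, hg, hgo, hgk⟩ := step_five hcb hQ hna h ht ho h5
      exact ih (rk g) (by omega) hg hgo rfl
    by_cases h3 : 3 ≤ rk t
    · obtain ⟨g, hg, hgo, hgk⟩ := step_three hcb hQ hd hna h ht ho h3 (by omega)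
      exact ih (rk g) (by omega) hg hgo rfl
    · exact step_two hcb hQ hd hna h ht ho (by omega)

end inv

end Cfsg.Agent.H842.IFE
end

private theorem dce_1061b00c433f : _root_.True := by
  try have : _root_.True := by simp only [_root_.Cfsg.Agent.H842.IFE.rk.eq_1]
  try have : _root_.True := by simp only [_root_.Cfsg.Agent.H842.IFE.fxs.eq_1]
  exact _root_.True.intro
end

-- part: H500/IF/SpConj
section
prune_inst 0xf1706504756202000018058633201c66b60000b2000800006840024207c8ce62edc12861b23021121aaa1c45483d006001100090426000000e000400011f018000841002b508010022001e000000000000000000000000000000000000000004000000002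
set_option linter.all false
open scoped Cfsg.Agent.FastGrp

/-!
# S5719, `PSp_2m(q)`, `q` odd: the elements with `x² = -1` are conjugate (helper500)
-/

set_option autoImplicit false

namespace Cfsg.Agent.H500.IFSp

open Cfsg Module Cfsg.Agent.ClassicalGeometry.SympBasic Cfsg.Agent.ClassicalGeometry.SympSiegel Cfsg.Agent.H914.Gs

variable {F : Type*} [Field F] {m : ℕ}

local notation "V" => (Fin m ⊕ Fin m → F)
local notation "G" => Matrix.symplecticGroup (Fin m) F
local notation "f" => sympForm m F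

/-- an orthonormal family for the hermitian form of `x` -/
structure ON (x : Matrix.symplecticGroup (Fin m) F) {r : ℕ} (v : Fin r → (Fin m ⊕ Fin m → F)) : Prop where
  zero : ∀ i j, sympForm m F (v i) (v j) = 0
  one : ∀ i j, sympForm m F (v i) (x • v j) = if i = j then 1 else 0

theorem symm_of_sq {x : G} (hx : ∀ v : V, x • x • v = -v) (u w : V) : f u (x • w) = f w (x • u) := by
  have h := form_smul x u (x • w)
  rw [hx, sympForm_neg_right, ← sympForm_swap] at h
  exact h.symm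

open Polynomial in
theorem sum_sq (F : Type*) [Field F] [Fintype F] (h2 : (2 : F) ≠ 0) (x : F) : ∃ a b : F, a ^ 2 + b ^ 2 = x := by
  have hodd : Fintype.card F % 2 = 1 := FiniteField.odd_card_of_char_ne_two (by
    intro hc
    apply h2
    have := ringChar.charP F
    rw [hc] at this
    exact CharTwo.two_eq_zero)
  obtain ⟨a, b, hab⟩ : ∃ a b : F, (X ^ 2 : F[X]).eval a + (X ^ 2 - C x : F[X]).eval b = 0 :=
    FiniteField.exists_root_sum_quadratic (degree_X_pow 2) (degree_X_pow_sub_C (by decide) _) hodd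
  refine ⟨a, b, ?_⟩
  rw [← sub_eq_zero]
  simpa only [eval_C, eval_X, eval_pow, eval_sub, ← add_sub_assoc] using hab

theorem exists_unit_vec [Finite F] (h2 : (2 : F) ≠ 0) {x : G} (hx : ∀ v : V, x • x • v = -v) {W : Submodule F V}
    (hW : ∀ w ∈ W, x • w ∈ W) (hnd : ∀ w ∈ W, (∀ u ∈ W, f w u = 0) → w = 0) (hW0 : W ≠ ⊥) :
    ∃ v ∈ W, f v (x • v) = 1 := by
  have := Fintype.ofFinite F
  obtain ⟨v, hv, hv0⟩ : ∃ v ∈ W, f v (x • v) ≠ 0 := by
    by_contra hcon
    push Not at hcon
    apply hW0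
    rw [Submodule.eq_bot_iff]
    intro w hw
    apply hnd w hw
    intro u hu
    have h1 := hcon (w + x • u) (W.add_mem hw (hW u hu))
    have h3 := hcon w hw
    have h4 := hcon (x • u) (hW u hu)
    rw [smul_add', sympForm_add_left, sympForm_add_right, sympForm_add_right, h3, h4, zero_add, add_zero,
      symm_of_sq hx (x • u) w] at h1
    have h5 : (2 : F) * f w (x • x • u) = 0 := by linear_combination h1
    rw [hx, sympForm_neg_right] at h5
    rcases mul_eq_zero.1 h5 with h6 | h6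
    · exact absurd h6 h2
    · exact neg_eq_zero.1 h6
  obtain ⟨a, b, hab⟩ := sum_sq F h2 (f v (x • v))⁻¹
  refine ⟨a • v + b • (x • v), W.add_mem (W.smul_mem a hv) (W.smul_mem b (hW v hv)), ?_⟩
  have e1 : x • (a • v + b • (x • v)) = a • (x • v) - b • v := by
    rw [smul_add', smul_smul', smul_smul', hx, smul_neg, sub_eq_add_neg]
  rw [e1, sympForm_sub_right, sympForm_add_left, sympForm_add_left, sympForm_smul_left, sympForm_smul_left,
    sympForm_smul_left, sympForm_smul_left, sympForm_smul_right, sympForm_smul_right, sympForm_smul_right,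
    sympForm_smul_right, sympForm_self, sympForm_self]
  have e2 : f (x • v) v = -f v (x • v) := sympForm_swap _ _
  rw [e2]
  have e3 : (a ^ 2 + b ^ 2) * f v (x • v) = 1 := by rw [hab, inv_mul_cancel₀ hv0]
  linear_combination e3

/-- the orthogonal complement of an orthonormal family -/
def compl (x : G) {r : ℕ} (v : Fin r → V) : Submodule F V where
  carrier := {w | ∀ j, f w (v j) = 0 ∧ f w (x • v j) = 0}
  add_mem' := fun {a b} ha hb j => by
    rw [sympForm_add_left, sympForm_add_left, (ha j).1, (ha j).2, (hb j).1, (hb j).2, add_zero]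
    exact ⟨rfl, rfl⟩
  zero_mem' := fun j => ⟨sympForm_zero_left _, sympForm_zero_left _⟩
  smul_mem' := fun c a ha j => by
    rw [sympForm_smul_left, sympForm_smul_left, (ha j).1, (ha j).2, mul_zero]
    exact ⟨rfl, rfl⟩

theorem mem_compl {x : G} {r : ℕ} {v : Fin r → V} {w : V} :
    w ∈ compl x v ↔ ∀ j, f w (v j) = 0 ∧ f w (x • v j) = 0 := Iff.rfl

/-- the projection -/
noncomputable def pj (x : G) {r : ℕ} (v : Fin r → V) (u : V) : V := ∑ j, (f u (x • v j) • v j - f u (v j) • (x • v j))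

theorem form_sum_left {ι : Type*} (s : Finset ι) (g : ι → V) (w : V) : f (∑ j ∈ s, g j) w = ∑ j ∈ s, f (g j) w := by
  classical
  induction s using Finset.induction_on with
  | empty => simp
  | insert a s ha ih => rw [Finset.sum_insert ha, Finset.sum_insert ha, sympForm_add_left, ih]

theorem sub_pj_mem {x : G} (hx : ∀ v : V, x • x • v = -v) {r : ℕ} {v : Fin r → V} (h : ON x v) (u : V) :
    u - pj x v u ∈ compl x v := by
  rw [mem_compl]
  intro k
  have e0 : ∀ j, f (x • v j) (v k) = -(if k = j then (1 : F) else 0) := fun j => by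
    rw [sympForm_swap, h.one]
  have e1 : f (pj x v u) (v k) = f u (v k) := by
    rw [pj, form_sum_left]
    have : ∀ j ∈ (Finset.univ : Finset (Fin r)), f (f u (x • v j) • v j - f u (v j) • (x • v j)) (v k) =
        if k = j then f u (v j) else 0 := by
      intro j _
      rw [sympForm_sub_left, sympForm_smul_left, sympForm_smul_left, h.zero, e0]
      split_ifs <;> ring
    rw [Finset.sum_congr rfl this, Finset.sum_ite_eq, if_pos (Finset.mem_univ k)]
  have e2 : f (pj x v u) (x • v k) = f u (x • v k) := by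
    rw [pj, form_sum_left]
    have : ∀ j ∈ (Finset.univ : Finset (Fin r)), f (f u (x • v j) • v j - f u (v j) • (x • v j)) (x • v k) =
        if j = k then f u (x • v j) else 0 := by
      intro j _
      rw [sympForm_sub_left, sympForm_smul_left, sympForm_smul_left, h.one, form_smul, h.zero]
      split_ifs <;> ring
    rw [Finset.sum_congr rfl this, Finset.sum_ite_eq', if_pos (Finset.mem_univ k)]
  rw [sympForm_sub_left, sympForm_sub_left, e1, e2, sub_self, sub_self]
  exact ⟨rfl, rfl⟩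

theorem compl_inv {x : G} (hx : ∀ v : V, x • x • v = -v) {r : ℕ} {v : Fin r → V} {w : V} (hw : w ∈ compl x v) :
    x • w ∈ compl x v := by
  intro j
  obtain ⟨h1, h2⟩ := hw j
  constructor
  · rw [sympForm_swap, symm_of_sq hx, h2, neg_zero]
  · rw [form_smul, h1]

theorem compl_nd {x : G} (hx : ∀ v : V, x • x • v = -v) {r : ℕ} {v : Fin r → V} (h : ON x v) {w : V}
    (hw : w ∈ compl x v) (h0 : ∀ u ∈ compl x v, f w u = 0) : w = 0 := by
  apply eq_zero_of_forall_sympForm_right
  intro u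
  have e1 : f w (pj x v u) = 0 := by
    rw [sympForm_swap, pj, form_sum_left, neg_eq_zero]
    refine Finset.sum_eq_zero fun j _ => ?_
    have h1 := hw j
    rw [sympForm_sub_left, sympForm_smul_left, sympForm_smul_left, sympForm_swap (v j) w, sympForm_swap (x • v j) w,
      h1.1, h1.2]
    ring
  have e2 := h0 _ (sub_pj_mem hx h u)
  rw [sympForm_sub_right, e1, sub_zero] at e2
  exact e2

theorem exists_on [Finite F] (h2 : (2 : F) ≠ 0) {x : G} (hx : ∀ v : V, x • x • v = -v) :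
    ∀ r : ℕ, r ≤ m → ∃ v : Fin r → V, ON x v := by
  intro r
  induction r with
  | zero => exact fun _ => ⟨Fin.elim0, ⟨fun i => i.elim0, fun i => i.elim0⟩⟩
  | succ r ih =>
    intro hr
    obtain ⟨v, hv⟩ := ih (by omega)
    have hne : compl x v ≠ ⊥ := by
      intro hbot
      -- `V` is spanned by `2 r` vectors
      have hspan : (⊤ : Submodule F V) ≤ Submodule.span F (Set.range (Sum.elim v fun j => x • v j)) := by
        intro u _
        have h1 := sub_pj_mem hx hv u
        rw [hbot, Submodule.mem_bot, sub_eq_zero] at h1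
        rw [h1, pj]
        refine Submodule.sum_mem _ fun j _ => Submodule.sub_mem _ (Submodule.smul_mem _ _ (Submodule.subset_span ?_))
          (Submodule.smul_mem _ _ (Submodule.subset_span ?_))
        · exact ⟨Sum.inl j, rfl⟩
        · exact ⟨Sum.inr j, rfl⟩
      have h1 := Submodule.finrank_mono hspan
      have h3 := finrank_range_le_card (R := F) (Sum.elim v fun j => x • v j)
      rw [finrank_top, finrank_fintype_fun_eq_card, Fintype.card_sum, Fintype.card_fin] at h1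
      rw [Fintype.card_sum, Fintype.card_fin] at h3
      have h4 : Set.finrank F (Set.range (Sum.elim v fun j => x • v j)) =
        finrank F (Submodule.span F (Set.range (Sum.elim v fun j => x • v j))) := rfl
      omega
    obtain ⟨w, hw, hw1⟩ := exists_unit_vec h2 hx (fun w hw => compl_inv hx hw) (fun w hw => compl_nd hx hv hw) hne
    refine ⟨Fin.cons w v, ⟨?_, ?_⟩⟩
    · intro i j
      refine Fin.cases ?_ (fun i => ?_) i <;> refine Fin.cases ?_ (fun j => ?_) j
      · rw [Fin.cons_zero, sympForm_self]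
      · rw [Fin.cons_zero, Fin.cons_succ, (hw j).1]
      · rw [Fin.cons_zero, Fin.cons_succ, sympForm_swap, (hw i).1, neg_zero]
      · rw [Fin.cons_succ, Fin.cons_succ, hv.zero]
    · intro i j
      refine Fin.cases ?_ (fun i => ?_) i <;> refine Fin.cases ?_ (fun j => ?_) j
      · rw [Fin.cons_zero, hw1, if_pos rfl]
      · rw [Fin.cons_zero, Fin.cons_succ, (hw j).2, if_neg (Fin.succ_ne_zero j).symm]
      · rw [Fin.cons_zero, Fin.cons_succ, symm_of_sq hx, (hw i).2, if_neg (Fin.succ_ne_zero i)]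
      · rw [Fin.cons_succ, Fin.cons_succ, hv.one]
        simp only [Fin.succ_inj]

theorem ON.linInd {x : G} (hx : ∀ v : V, x • x • v = -v) {r : ℕ} {v : Fin r → V} (h : ON x v) :
    LinearIndependent F (Sum.elim v fun j => x • v j) := by
  rw [Fintype.linearIndependent_iff]
  intro g hg
  rw [Fintype.sum_sum_type] at hg
  simp only [Sum.elim_inl, Sum.elim_inr] at hg
  have e0 : ∀ j k, f (x • v j) (v k) = -(if k = j then (1 : F) else 0) := fun j k => by
    rw [sympForm_swap, h.one]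
  rintro (k | k)
  · have h1 : f (∑ j, g (Sum.inl j) • v j + ∑ j, g (Sum.inr j) • (x • v j)) (x • v k) = 0 := by
      rw [hg, sympForm_zero_left]
    rw [sympForm_add_left, form_sum_left, form_sum_left] at h1
    simp only [sympForm_smul_left, h.one, form_smul, h.zero, mul_ite, mul_one, mul_zero, Finset.sum_ite_eq',
      Finset.mem_univ, if_true, Finset.sum_const_zero, add_zero] at h1
    exact h1
  · have h1 : f (∑ j, g (Sum.inl j) • v j + ∑ j, g (Sum.inr j) • (x • v j)) (v k) = 0 := by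
      rw [hg, sympForm_zero_left]
    rw [sympForm_add_left, form_sum_left, form_sum_left] at h1
    simp only [sympForm_smul_left, e0, h.zero, mul_zero, Finset.sum_const_zero, zero_add, mul_neg, mul_ite, mul_one,
      Finset.sum_neg_distrib, Finset.sum_ite_eq, Finset.mem_univ, if_true, neg_eq_zero] at h1
    exact h1

/-- **Elements with square `-1` are conjugate.** -/
theorem conj_of_sq [Finite F] (h2 : (2 : F) ≠ 0) {x y : G} (hx : ∀ v : V, x • x • v = -v)
    (hy : ∀ v : V, y • y • v = -v) : ∃ h : G, h * x * h⁻¹ = y := by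
  obtain ⟨v, hv⟩ := exists_on h2 hx m le_rfl
  obtain ⟨w, hw⟩ := exists_on h2 hy m le_rfl
  have lv := hv.linInd hx
  have lw := hw.linInd hy
  obtain ⟨h, hh⟩ := witt _ _ lv lw (by
    have e0 : ∀ j k, f (x • v j) (v k) = -(if k = j then (1 : F) else 0) := fun j k => by
      rw [sympForm_swap, hv.one]
    have e0' : ∀ j k, f (y • w j) (w k) = -(if k = j then (1 : F) else 0) := fun j k => by
      rw [sympForm_swap, hw.one]
    rintro (i | i) (j | j)
    · simp only [Sum.elim_inl, hv.zero, hw.zero]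
    · simp only [Sum.elim_inl, Sum.elim_inr, hv.one, hw.one]
    · simp only [Sum.elim_inl, Sum.elim_inr, e0, e0']
    · simp only [Sum.elim_inr, form_smul, hv.zero, hw.zero])
  refine ⟨h, ?_⟩
  have k1 : ∀ j, h • v j = w j := fun j => hh (Sum.inl j)
  have k2 : ∀ j, h • x • v j = y • w j := fun j => hh (Sum.inr j)
  have hspan : Submodule.span F (Set.range (Sum.elim w fun j => y • w j)) = ⊤ := by
    apply lw.span_eq_top_of_card_eq_finrank'
    rw [finrank_fintype_fun_eq_card]
  apply ext_smul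
  intro u
  have hu : u ∈ Submodule.span F (Set.range (Sum.elim w fun j => y • w j)) := by rw [hspan]; trivial
  refine Submodule.span_induction ?_ ?_ ?_ ?_ hu
  · rintro _ ⟨(j | j), rfl⟩
    · rw [Sum.elim_inl, ← k2 j]
      rw [mul_smul, mul_smul]
      congr 1
      congr 1
      rw [← k1 j, inv_smul_smul]
    · rw [Sum.elim_inr, hy, mul_smul, mul_smul]
      rw [← k2 j, inv_smul_smul, hx, smul_neg', k1 j]
  · rw [smul_zero', smul_zero']
  · intro a b _ _ ha hb
    rw [smul_add', smul_add', ha, hb]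
  · intro c a _ ha
    rw [smul_smul', smul_smul', ha]

end Cfsg.Agent.H500.IFSp

private theorem dce_f57214148cd5 : _root_.True := by
  try have : _root_.True := by simp only [_root_.Cfsg.Agent.H500.IFSp.pj.eq_1]
  exact _root_.True.intro
end

-- part: H447/IFO/PSp
section
prune_inst 0x2
set_option linter.all false
open scoped Cfsg.Agent.FastGrp

/-!
# Elementary abelian subgroups of `PSp_2m(q)` of odd order (helper447, for S5719)

* `lift` : the elementary abelian lift to `Sp_2m(q)`;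
* `exists_even_normaliser` : `r ≠ char F`: an element of `PSp_2m(q)` inverting `R`.
-/

set_option autoImplicit false
set_option linter.unusedSectionVars false

namespace Cfsg.Agent.H447.IFO

open Cfsg
open scoped Matrix
open Cfsg.Agent.ClassicalGeometry.SympBasic Cfsg.Agent.ClassicalGeometry.SympSiegel
  Cfsg.Agent.ClassicalGeometry.SympAutSemi Cfsg.Agent.ClassicalGeometry.SympAutExists

variable {F : Type*} [Field F] {m : ℕ}

local notation "V" => (Fin m ⊕ Fin m → F)
local notation "G" => Matrix.symplecticGroup (Fin m) F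
local notation "f" => sympForm m F

theorem center_sq (hm : 1 ≤ m) {z : G} (hz : z ∈ Subgroup.center G) : z * z = 1 := by
  obtain ⟨a, ha⟩ := smul_of_mem_center hz
  have haa := sq_eq_one_of_center hm ha
  apply ext_smul
  intro v
  rw [mul_smul, ha, ha, smul_smul, haa, one_smul, one_smul]

theorem pow_odd_eq {M : Type*} [Group M] {z : M} (hz : z * z = 1) {r : ℕ} (hr : Odd r) : z ^ r = z := by
  obtain ⟨k, rfl⟩ := hr
  rw [pow_succ, pow_mul, pow_two, hz, one_pow, one_mul]

theorem exists_lift_odd (hm : 1 ≤ m) {r : ℕ} (hr : Odd r) {x : PSp m F} (hx : x ^ r = 1) :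
    ∃ h : G, pr h = x ∧ h ^ r = 1 := by
  obtain ⟨h₀, rfl⟩ := pr_surj x
  have hz : h₀ ^ r ∈ Subgroup.center G := by
    have : pr (1 : G) = pr (h₀ ^ r) := by rw [pr_pow, hx, pr_one]
    have := pr_eq_iff.1 this
    rwa [inv_one, one_mul] at this
  have hzz := center_sq hm hz
  refine ⟨h₀ * h₀ ^ r, ?_, ?_⟩
  · rw [pr_mul, pr_pow, hx, mul_one]
  · have h1 : (h₀ * h₀ ^ r) ^ r = h₀ ^ r * (h₀ ^ r) ^ r := (Commute.self_pow h₀ r).mul_pow r
    rw [h1, pow_odd_eq hzz hr, hzz]

theorem comm_of_pr (hm : 1 ≤ m) {r : ℕ} (hr : Odd r) {g h : G} (hg : g ^ r = 1)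
    (hc : pr g * pr h = pr h * pr g) : g * h = h * g := by
  rw [← pr_mul, ← pr_mul] at hc
  have hz := pr_eq_iff.1 hc.symm
  set z := (h * g)⁻¹ * (g * h) with hzdef
  have hzz := center_sq hm hz
  have h1 : h⁻¹ * g * h = g * z := by rw [hzdef]; group
  have h2 : (h⁻¹ * g * h) ^ r = 1 := by
    have : h⁻¹ * g * h = h⁻¹ * g * h⁻¹⁻¹ := by rw [inv_inv]
    rw [this, conj_pow, hg, mul_one, mul_inv_cancel]
  have hcomm : Commute g z := (Subgroup.mem_center_iff.1 hz g)
  rw [h1, hcomm.mul_pow, hg, one_mul, pow_odd_eq hzz hr] at h2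
  rw [h2, mul_one] at h1
  have h3 : h * (h⁻¹ * g * h) = h * g := by rw [h1]
  rw [← h3]
  group

/-- the lift of an elementary abelian subgroup of odd exponent -/
def lift (R : Subgroup (PSp m F)) (r : ℕ) (hm : 1 ≤ m) (hr : Odd r)
    (hc : ∀ x ∈ R, ∀ y ∈ R, x * y = y * x) : Subgroup G where
  carrier := {g | pr g ∈ R ∧ g ^ r = 1}
  one_mem' := ⟨by rw [pr_one]; exact R.one_mem, one_pow _⟩
  mul_mem' := by
    rintro g h ⟨hg, hg1⟩ ⟨hh, hh1⟩
    have h1 : Commute g h := comm_of_pr hm hr hg1 (hc _ hg _ hh)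
    exact ⟨by rw [pr_mul]; exact R.mul_mem hg hh, by rw [h1.mul_pow, hg1, hh1, one_mul]⟩
  inv_mem' := by
    rintro g ⟨hg, hg1⟩
    exact ⟨by rw [pr_inv]; exact R.inv_mem hg, by rw [inv_pow, hg1, inv_one]⟩

section

variable {R : Subgroup (PSp m F)} {r : ℕ} {hm : 1 ≤ m} {hr : Odd r} {hc : ∀ x ∈ R, ∀ y ∈ R, x * y = y * x}

theorem lift_comm {g h : G} (hg : g ∈ lift R r hm hr hc) (hh : h ∈ lift R r hm hr hc) : g * h = h * g :=
  comm_of_pr hm hr hg.2 (hc _ hg.1 _ hh.1)

theorem exists_mem_lift {x : PSp m F} (hx : x ∈ R) (hxr : x ^ r = 1) : ∃ g ∈ lift R r hm hr hc, pr g = x := by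
  obtain ⟨g, hg, hg1⟩ := exists_lift_odd hm hr hxr
  exact ⟨g, ⟨by rw [hg]; exact hx, hg1⟩, hg⟩

theorem lift_pgroup [Finite F] : IsPGroup r (lift R r hm hr hc) := fun g => ⟨1, by
  rw [pow_one]
  exact Subtype.ext g.2.2⟩

/-- the representation of the lift -/
def rep (H : Subgroup G) : H →* Module.End F V where
  toFun h := Matrix.mulVecLin ((h : G) : Matrix (Fin m ⊕ Fin m) (Fin m ⊕ Fin m) F)
  map_one' := Matrix.mulVecLin_one
  map_mul' _ _ := Matrix.mulVecLin_mul _ _

theorem rep_apply (H : Subgroup G) (h : H) (v : V) : rep H h v = (h : G) • v := rfl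

end

/-- **`r ≠ char F`: an element of `Sp` inverting an abelian subgroup of exponent `r`.** -/
theorem exists_inverting_sp [Finite F] {r : ℕ} (hr : r.Prime) (hr2 : r ≠ 2) (hrF : (r : F) ≠ 0) (H : Subgroup G)
    (hH : ∀ g ∈ H, g ^ r = 1) (hc : ∀ g ∈ H, ∀ h ∈ H, g * h = h * g) :
    ∃ γ : G, ∀ h ∈ H, γ * h * γ⁻¹ = h⁻¹ := by
  have : Fact r.Prime := ⟨hr⟩
  let _ : CommGroup H := { (inferInstance : Group H) with
    mul_comm := fun a b => Subtype.ext (hc a a.2 b b.2) }
  have hpg : IsPGroup r H := fun g => ⟨1, by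
    rw [pow_one]
    exact Subtype.ext (hH g g.2)⟩
  obtain ⟨n, hn⟩ := IsPGroup.iff_card.1 hpg
  have hodd : Odd (Nat.card H) := by
    rw [hn]
    exact (hr.odd_of_ne_two hr2).pow
  have hne : (Nat.card H : F) ≠ 0 := by
    rw [hn, Nat.cast_pow]
    exact pow_ne_zero n hrF
  have D : Dat (rep H) (sympBilin m F) := by
    refine ⟨fun h v w => ?_, fun v => ?_⟩
    · rw [sympBilin_apply, sympBilin_apply, rep_apply, rep_apply]
      exact form_smul _ _ _
    · rw [sympBilin_apply, sympForm_self]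
  obtain ⟨g, hg1, hg2⟩ := D.exists_inverting hodd hne (fun u hu => eq_zero_of_forall_sympForm_left hu)
  have hg1' : ∀ u w : V, f (g u) (g w) = f u w := hg1
  refine ⟨ofIso g hg1', fun h hh => ?_⟩
  rw [mul_inv_eq_iff_eq_mul]
  apply ext_smul
  intro v
  rw [mul_smul, mul_smul, ofIso_smul, ofIso_smul]
  exact hg2 ⟨h, hh⟩ v

/-- **`r ≠ char F`: an element of even order normalising `R`.** -/
theorem exists_even_normaliser [Finite F] (hm : 1 ≤ m) {r : ℕ} (hr : r.Prime) (hr2 : r ≠ 2) (hrF : (r : F) ≠ 0)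
    (R : Subgroup (PSp m F)) (hx : ∀ x ∈ R, x ^ r = 1) (hc : ∀ x ∈ R, ∀ y ∈ R, x * y = y * x) :
    ∃ x : PSp m F, ∀ k ∈ R, x * k * x⁻¹ = k⁻¹ := by
  have hro : Odd r := hr.odd_of_ne_two hr2
  obtain ⟨γ, hγ⟩ := exists_inverting_sp hr hr2 hrF (lift R r hm hro hc) (fun g hg => hg.2)
    (fun g hg h hh => lift_comm hg hh)
  refine ⟨pr γ, fun k hk => ?_⟩
  obtain ⟨h, hh, rfl⟩ := exists_mem_lift (hm := hm) (hr := hro) (hc := hc) hk (hx k hk)
  rw [← pr_inv, ← pr_mul, ← pr_mul, hγ h hh, pr_inv]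

end Cfsg.Agent.H447.IFO
end

-- part: H989/Fx/OmF
section
prune_inst 0xf05041404d6200000018000420201c62f20004220048000068000c0605884c62e4812021b00021100a120845003c0020011000000240000004000400011d018000801000a1080100020016000080000000000000000000000000000000000000000000002
set_option linter.all false
open scoped Cfsg.Agent.FastGrp

/-!
# S5719, orthogonal groups, `q` odd: subgroups without fundamental involutions (helper989)

* `lr` : two Siegel elements of totally singular lines in such a subgroup generate a `p`-group;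
* `exists_fix` : all of them fix a nonzero vector (Baer-Suzuki);
* `card_le_sq` : an additive group without nonzero singular vectors has at most `q²` elements (Chevalley-Warning);
* `exists_sing`.
-/

set_option autoImplicit false
set_option maxHeartbeats 400000
set_option linter.unusedSimpArgs false
set_option linter.unusedVariables false
set_option linter.unusedSectionVars false

namespace Cfsg.Agent.H989.Fx

open QuadraticMap Cfsg.Agent.LieClassical Cfsg.Agent.LieClassical.OrthCore Cfsg.Agent.LieClassical.OrthTrans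
  Cfsg.Agent.LieClassical.OrthSimple Cfsg.Agent.AutOrth.SemiSim Cfsg.Agent.AutOrth.Gen
  Cfsg.Agent.H989.Gs.Gen
open Cfsg.Agent.UGT.U2.FOne.Orth (Four tl tl_comb tl_comb' siegel_eq_tl)
open Cfsg.Agent.LieClassical.SLTwoUnipotent (u l coe_u coe_l)
open Matrix (SpecialLinearGroup)

variable {F V : Type*} [Field F] [AddCommGroup V] [Module F V] {Q : QuadraticForm F V}

theorem ap_S_tl {a b : V} (ha : Q a = 0) (hb : Q b = 0) (hab : polar Q a b = 0) (v : V) :
    ap (S Q a b) v = tl Q a b v := by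
  rw [S_ap' ha hab hb]
  rfl

theorem Q_comb {a b : V} (ha : Q a = 0) (hb : Q b = 0) (hab : polar Q a b = 0) (p r : F) :
    Q (p • a + r • b) = 0 := by
  rw [Q_add, QuadraticMap.map_smul, QuadraticMap.map_smul, polar_smul_left, polar_smul_right, ha, hb, hab]
  simp

theorem polar_comb {a b : V} (ha : Q a = 0) (hb : Q b = 0) (hab : polar Q a b = 0) (p r p' r' : F) :
    polar Q (p • a + r • b) (p' • a + r' • b) = 0 := by
  simp only [polar_add_left, polar_add_right, polar_smul_left, polar_smul_right, polar_self_of_sing ha,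
    polar_self_of_sing hb, hab, polar_comm Q b a]
  simp

theorem S_comb {a b : V} (ha : Q a = 0) (hb : Q b = 0) (hab : polar Q a b = 0) (p r p' r' t : F)
    (ht : t * (p * r' - r * p') = 1) :
    S Q (p • a + r • b) (t • (p' • a + r' • b)) = S Q a b := by
  apply ext_ap
  intro v
  rw [ap_S_tl (Q_comb ha hb hab p r) (by rw [QuadraticMap.map_smul, Q_comb ha hb hab, smul_zero])
    (by rw [polar_smul_right, polar_comb ha hb hab, smul_zero]), ap_S_tl ha hb hab, tl_comb', ht, one_smul]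

theorem S_pow {a w : V} (ha : Q a = 0) (haw : polar Q a w = 0) (n : ℕ) :
    S Q a w ^ n = S Q a ((n : F) • w) := by
  induction n with
  | zero => rw [pow_zero, Nat.cast_zero, zero_smul, S_zero]
  | succ n ih =>
    rw [pow_succ, ih, ← S_add ha (by rw [polar_smul_right, haw, smul_zero]) haw, Nat.cast_succ, add_smul, one_smul]

section

variable {p : ℕ} [Fact p.Prime] [CharP F p]

theorem S_pow_char {a w : V} (ha : Q a = 0) (haw : polar Q a w = 0) : S Q a w ^ p = 1 := by
  rw [S_pow ha haw, CharP.cast_eq_zero, zero_smul, S_zero]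

theorem isPGroup_RS {a : V} (ha : Q a = 0) : IsPGroup p (RS Q a ha) := by
  rintro ⟨_, w, hw, rfl⟩
  refine ⟨1, Subtype.ext ?_⟩
  change (sg Q a w ha hw) ^ p ^ 1 = 1
  rw [pow_one, ← S_eq ha hw]
  exact S_pow_char ha hw

theorem isPGroup_zpowers {x : ↥(E Q)} (hx : x ^ p = 1) : IsPGroup p (Subgroup.zpowers x) := by
  rintro ⟨_, n, rfl⟩
  refine ⟨1, Subtype.ext ?_⟩
  change (x ^ n) ^ p ^ 1 = 1
  rw [pow_one, ← zpow_natCast, ← zpow_mul, mul_comm, zpow_mul, zpow_natCast, hx, one_zpow]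

/-- the degenerate case -/
theorem lr_deg {a b : ↥(E Q)} {x y : V} (hx : Q x = 0) (hxy : polar Q x y = 0) (ha : a = S Q x y)
    (hb : b ^ p = 1) (hbx : ap b x = x) : IsPGroup p (Subgroup.closure {a, b} : Subgroup ↥(E Q)) := by
  have h1 : IsPGroup p (RS Q x hx ⊔ Subgroup.zpowers b : Subgroup ↥(E Q)) := by
    apply IsPGroup.to_sup_of_normal_left' (isPGroup_RS hx) (isPGroup_zpowers hb)
    have hconj : ∀ g : ↥(E Q), ap g x = x → ∀ r ∈ RS Q x hx, g * r * g⁻¹ ∈ RS Q x hx := by
      rintro g hg _ ⟨w, hw, rfl⟩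
      rw [← S_eq hx hw, S_conj, hg]
      have h2 : polar Q x (ap g w) = 0 := by
        conv_lhs => rw [← hg]
        rw [polar_ap, hw]
      rw [S_eq hx h2]
      exact sg_mem_RS hx h2
    rw [Subgroup.zpowers_le]
    rw [Subgroup.mem_normalizer_iff]
    intro r
    constructor
    · exact hconj b hbx r
    · intro hr
      have h3 := hconj b⁻¹ (ap_inv_of hbx) _ hr
      have h4 : b⁻¹ * (b * r * b⁻¹) * b⁻¹⁻¹ = r := by group
      rwa [h4] at h3
  refine h1.to_le ?_
  rw [Subgroup.closure_le]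
  rintro z (rfl | rfl)
  · apply Subgroup.mem_sup_left
    rw [ha, S_eq hx hxy]
    exact sg_mem_RS hx hxy
  · exact Subgroup.mem_sup_right (Subgroup.mem_zpowers _)

/-- **(LR)** -/
theorem lr [Finite F] (h2 : (2 : F) ≠ 0) {X : Subgroup ↥(E Q)} (hX : ∀ z ∈ X, ¬ Fund Q z) {x y x' y' : V}
    (hx : Q x = 0) (hy : Q y = 0) (hxy : polar Q x y = 0) (hx' : Q x' = 0) (hy' : Q y' = 0)
    (hxy' : polar Q x' y' = 0) (hg : S Q x y ∈ X) (hh : S Q x' y' ∈ X) :
    IsPGroup p (Subgroup.closure {S Q x y, S Q x' y'} : Subgroup ↥(E Q)) := by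
  set α := polar Q x x' with hα
  set β := polar Q x y' with hβ
  set γ := polar Q y x' with hγ
  set ε := polar Q y y' with hε
  by_cases hδ : α * ε - β * γ = 0
  · -- a common perpendicular vector
    obtain ⟨a, b, hab, h3, h4⟩ : ∃ a b : F, (a ≠ 0 ∨ b ≠ 0) ∧ a * α + b * γ = 0 ∧ a * β + b * ε = 0 := by
      by_cases h5 : α = 0
      · by_cases h6 : β = 0
        · exact ⟨1, 0, Or.inl one_ne_zero, by rw [h5]; ring, by rw [h6]; ring⟩
        · exact ⟨-ε, β, Or.inr h6, by linear_combination -hδ, by ring⟩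
      · exact ⟨-γ, α, Or.inr h5, by ring, by linear_combination hδ⟩
    obtain ⟨c, d, hcd⟩ : ∃ c d : F, a * d - b * c = 1 := by
      by_cases ha : a = 0
      · have hb : b ≠ 0 := by
          rcases hab with h | h
          · exact absurd ha h
          · exact h
        exact ⟨-b⁻¹, 0, by field_simp; ring⟩
      · exact ⟨0, a⁻¹, by field_simp; ring⟩
    have hS : S Q x y = S Q (a • x + b • y) (c • x + d • y) := by
      have := S_comb hx hy hxy a b c d 1 (by rw [one_mul, hcd])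
      rw [one_smul] at this
      exact this.symm
    refine lr_deg (Q_comb hx hy hxy a b) (polar_comb hx hy hxy a b c d) hS (S_pow_char hx' hxy') ?_
    have k1 : polar Q x' (a • x + b • y) = 0 := by
      rw [polar_comm, polar_add_left, polar_smul_left, polar_smul_left]
      exact h3
    have k2 : polar Q y' (a • x + b • y) = 0 := by
      rw [polar_comm, polar_add_left, polar_smul_left, polar_smul_left]
      exact h4
    exact S_fix hx' hxy' k1 k2
  · -- a fundamental involution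
    exfalso
    set δ := α * ε - β * γ with hδdef
    set f₁ := (δ⁻¹ * ε) • x' + (-(δ⁻¹ * γ)) • y' with hf₁
    set e₂ := (-(δ⁻¹ * β)) • x' + (δ⁻¹ * α) • y' with he₂
    have q1 : polar Q x f₁ = 1 := by
      rw [hf₁, polar_add_right, polar_smul_right, polar_smul_right, ← hα, ← hβ]
      simp only [smul_eq_mul]
      field_simp
      rw [hδdef]; ring
    have q2 : polar Q e₂ y = 1 := by
      rw [he₂, polar_add_left, polar_smul_left, polar_smul_left, polar_comm Q x' y, polar_comm Q y' y, ← hγ, ← hε]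
      simp only [smul_eq_mul]
      field_simp
      rw [hδdef]; ring
    have q3 : polar Q x e₂ = 0 := by
      rw [he₂, polar_add_right, polar_smul_right, polar_smul_right, ← hα, ← hβ]
      simp only [smul_eq_mul]
      ring
    have q4 : polar Q f₁ y = 0 := by
      rw [hf₁, polar_add_left, polar_smul_left, polar_smul_left, polar_comm Q x' y, polar_comm Q y' y, ← hγ, ← hε]
      simp only [smul_eq_mul]
      ring
    have hfour : Four Q x f₁ e₂ y :=
      ⟨⟨hx, Q_comb hx' hy' hxy' _ _, q1⟩, ⟨Q_comb hx' hy' hxy' _ _, hy, q2⟩, q3, hxy,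
        polar_comb hx' hy' hxy' _ _ _ _, q4⟩
    have r1 : hfour.rhoE (u (-1)) = S Q x y := by
      apply ext_ap
      intro v
      change hfour.rho (u (-1)) v = _
      rw [hfour.rho_u, ap_S_tl hx hy hxy, neg_neg, one_smul]
    have r2 : hfour.rhoE (l δ) = S Q x' y' := by
      apply ext_ap
      intro v
      change hfour.rho (l δ) v = _
      rw [hfour.rho_l, ap_S_tl hx' hy' hxy', hf₁, he₂, tl_comb']
      have h3 : -δ * (-(δ⁻¹ * β) * -(δ⁻¹ * γ) - δ⁻¹ * α * (δ⁻¹ * ε)) = 1 := by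
        field_simp
        rw [hδdef]; ring
      rw [h3, one_smul]
    obtain ⟨A, hA, hA1⟩ := exists_neg_one h2 (H := X.comap hfour.rhoE) (a := -1) (c := δ)
      (neg_ne_zero.2 one_ne_zero) hδ (by rw [Subgroup.mem_comap, r1]; exact hg)
      (by rw [Subgroup.mem_comap, r2]; exact hh)
    exact hX _ hA (fund_of_four hfour hA1)

omit [Fact p.Prime] [CharP F p] in
theorem finite_E [Finite V] : Finite ↥(E Q) := by
  have : Finite (V ≃ₗ[F] V) := Finite.of_injective (fun e : V ≃ₗ[F] V => (e : V → V)) DFunLike.coe_injective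
  infer_instance

/-- **(Baer-Suzuki)** the Siegel elements of totally singular lines in `X` lie in a `p`-subgroup of `X` -/
theorem exists_R [Finite F] [Finite V] (h2 : (2 : F) ≠ 0) {X : Subgroup ↥(E Q)}
    (hX : ∀ z ∈ X, ¬ Fund Q z) : ∃ R : Subgroup ↥(E Q), R ≤ X ∧ IsPGroup p R ∧
      (∀ g ∈ X, ∀ r ∈ R, g * r * g⁻¹ ∈ R) ∧ ∀ x y : V, Q x = 0 → Q y = 0 → polar Q x y = 0 →
      S Q x y ∈ X → S Q x y ∈ R := by
  have hfinE : Finite ↥(E Q) := finite_E
  let K : Set ↥X := {z | ∃ x y : V, Q x = 0 ∧ Q y = 0 ∧ polar Q x y = 0 ∧ (z : ↥(E Q)) = S Q x y}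
  have hK : ∀ g : ↥X, ∀ z ∈ K, g * z * g⁻¹ ∈ K := by
    rintro g z ⟨x, y, hx, hy, hxy, hz⟩
    refine ⟨ap g.1 x, ap g.1 y, by rw [Q_ap, hx], by rw [Q_ap, hy], by rw [polar_ap, hxy], ?_⟩
    rw [← S_conj, ← hz]
    rfl
  have hpair : ∀ z ∈ K, ∀ z' ∈ K, IsPGroup p (Subgroup.closure {z, z'} : Subgroup ↥X) := by
    rintro z ⟨x, y, hx, hy, hxy, hz⟩ z' ⟨x', y', hx', hy', hxy', hz'⟩
    have h3 := lr (p := p) h2 hX hx hy hxy hx' hy' hxy' (hz ▸ z.2) (hz' ▸ z'.2)
    have h4 : (Subgroup.closure {z, z'} : Subgroup ↥X).map X.subtype =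
        Subgroup.closure {S Q x y, S Q x' y'} := by
      rw [MonoidHom.map_closure, Set.image_pair]
      congr 1
      rw [← hz, ← hz']
      rfl
    rintro ⟨a, ha⟩
    have h5 : X.subtype a ∈ (Subgroup.closure {z, z'} : Subgroup ↥X).map X.subtype := ⟨a, ha, rfl⟩
    rw [h4] at h5
    obtain ⟨n, hn⟩ := h3 ⟨_, h5⟩
    refine ⟨n, Subtype.ext (Subtype.ext ?_)⟩
    have := congrArg Subtype.val hn
    exact this
  have hR := Cfsg.Agent.Involutions.BaerSuzuki.baer_suzuki_set hK hpair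
  have hnorm : ∀ (g : ↥X), ∀ r ∈ Subgroup.closure K, g * r * g⁻¹ ∈ Subgroup.closure K := by
    intro g r hr
    induction hr using Subgroup.closure_induction with
    | mem x hx => exact Subgroup.subset_closure (hK g x hx)
    | one => rw [mul_one, mul_inv_cancel]; exact Subgroup.one_mem _
    | mul x y _ _ hx hy =>
      have : g * (x * y) * g⁻¹ = g * x * g⁻¹ * (g * y * g⁻¹) := by group
      rw [this]
      exact Subgroup.mul_mem _ hx hy
    | inv x _ hx =>
      have : g * x⁻¹ * g⁻¹ = (g * x * g⁻¹)⁻¹ := by group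
      rw [this]
      exact Subgroup.inv_mem _ hx
  refine ⟨(Subgroup.closure K).map X.subtype, ?_, hR.map X.subtype, ?_, ?_⟩
  · rintro _ ⟨r, -, rfl⟩
    exact r.2
  · rintro g hg _ ⟨r, hr, rfl⟩
    exact ⟨_, hnorm ⟨g, hg⟩ r hr, rfl⟩
  · intro x y hx hy hxy hS
    exact ⟨⟨S Q x y, hS⟩, Subgroup.subset_closure ⟨x, y, hx, hy, hxy, rfl⟩, rfl⟩

/-- a `p`-group fixes a nonzero vector -/
theorem exists_fixed_of_isPGroup [Finite V] [Nontrivial V] {R : Subgroup ↥(E Q)} (hR : IsPGroup p R) :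
    ∃ c : V, c ≠ 0 ∧ ∀ r ∈ R, ap r c = c := by
  have hfinE : Finite ↥(E Q) := finite_E
  have hact : ∀ (r : ↥R) (v : V), r • v = ap (r : ↥(E Q)) v := fun r v => rfl
  have hpV : p ∣ Nat.card V := by
    obtain ⟨v, hv⟩ := exists_ne (0 : V)
    have h3 : addOrderOf v = p := by
      apply addOrderOf_eq_prime _ hv
      rw [← Nat.cast_smul_eq_nsmul F, CharP.cast_eq_zero, zero_smul]
    rw [← h3]
    exact addOrderOf_dvd_natCard v
  have h0 : (0 : V) ∈ MulAction.fixedPoints ↥R V := by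
    intro r
    rw [hact]
    exact map_zero _
  obtain ⟨c, hc, hc0⟩ := hR.exists_fixed_point_of_prime_dvd_card_of_fixed_point V hpV h0
  exact ⟨c, hc0.symm, fun r hr => hc ⟨r, hr⟩⟩

/-- the Siegel elements of totally singular lines in `X` fix a common nonzero vector -/
theorem exists_fix [Finite F] [Finite V] [Nontrivial V] (h2 : (2 : F) ≠ 0) {X : Subgroup ↥(E Q)}
    (hX : ∀ z ∈ X, ¬ Fund Q z) : ∃ c : V, c ≠ 0 ∧ ∀ x y : V, Q x = 0 → Q y = 0 → polar Q x y = 0 →
      S Q x y ∈ X → ap (S Q x y) c = c := by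
  obtain ⟨p, hp⟩ := CharP.exists F
  cases nonempty_fintype F
  have hpp : Fact p.Prime := ⟨CharP.char_is_prime F p⟩
  obtain ⟨R, -, hR, -, h3⟩ := exists_R (p := p) h2 hX
  obtain ⟨c, hc0, hc⟩ := exists_fixed_of_isPGroup hR
  exact ⟨c, hc0, fun x y hx hy hxy hS => hc _ (h3 x y hx hy hxy hS)⟩

end

/-- a Siegel element of a totally singular line which is not 1 and fixes `c`: the line is orthogonal to `c` -/
theorem polar_eq_zero_of_fix {x y c : V} (hx : Q x = 0) (hy : Q y = 0) (hxy : polar Q x y = 0)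
    (hS : S Q x y ≠ 1) (hc : ap (S Q x y) c = c) : polar Q x c = 0 ∧ polar Q y c = 0 := by
  rw [S_ap' hx hxy hy] at hc
  have h3 : polar Q x c • y = polar Q y c • x := by
    have h4 : c + (polar Q x c • y - polar Q y c • x) = c := by
      rw [← add_sub_assoc]
      exact hc
    exact sub_eq_zero.1 (add_eq_left.1 h4)
  by_contra hcon
  apply hS
  by_cases h4 : polar Q x c = 0
  · have h5 : polar Q y c ≠ 0 := fun h => hcon ⟨h4, h⟩
    rw [h4, zero_smul] at h3
    have h6 : x = 0 := (smul_eq_zero.1 h3.symm).resolve_left h5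
    rw [h6]
    apply ext_ap
    intro v
    rw [ap_one, S_ap' (by rw [QuadraticMap.map_zero]) (by rw [polar_zero_left]) hy, polar_zero_left]
    simp
  · have h5 : y = ((polar Q x c)⁻¹ * polar Q y c) • x := by
      rw [mul_smul, ← h3, smul_smul, inv_mul_cancel₀ h4, one_smul]
    rw [h5]
    exact S_self_smul _ hx

/-- the proper subspace which contains all totally singular lines of Siegel elements in `X` -/
theorem exists_U [Finite F] [Finite V] [Nontrivial V] (h2 : (2 : F) ≠ 0) (hQ : Nondeg Q) {X : Subgroup ↥(E Q)}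
    (hX : ∀ z ∈ X, ¬ Fund Q z) : ∃ U : Submodule F V, U ≠ ⊤ ∧ ∀ x y : V, Q x = 0 → Q y = 0 → polar Q x y = 0 →
      S Q x y ∈ X → S Q x y ≠ 1 → x ∈ U ∧ y ∈ U := by
  obtain ⟨c, hc0, hc⟩ := exists_fix h2 hX
  refine ⟨LinearMap.ker (polarBilin Q c), ?_, fun x y hx hy hxy hS h1 => ?_⟩
  · intro h3
    apply hc0
    apply hQ
    intro v
    have : v ∈ LinearMap.ker (polarBilin Q c) := by rw [h3]; exact Submodule.mem_top
    exact this
  · obtain ⟨h3, h4⟩ := polar_eq_zero_of_fix hx hy hxy h1 (hc x y hx hy hxy hS)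
    constructor
    · change polar Q c x = 0
      rw [polar_comm, h3]
    · change polar Q c y = 0
      rw [polar_comm, h4]

/-- **(Chevalley-Warning)** -/
theorem card_le_sq_aux (p : ℕ) [Fact p.Prime] [CharP F p] [Finite F] [Finite V] (h2 : (2 : F) ≠ 0)
    (A : AddSubgroup V) (hA : ∀ a ∈ A, Q a = 0 → a = 0) : Nat.card A ≤ Nat.card F ^ 2 := by
  classical
  let _ : Algebra (ZMod p) F := ZMod.algebra F p
  let _ : Module (ZMod p) V := Module.compHom V (algebraMap (ZMod p) F)
  have hsm : ∀ (c : ZMod p) (v : V), c • v = (algebraMap (ZMod p) F c) • v := fun _ _ => rfl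
  let W : Submodule (ZMod p) V :=
    { carrier := A
      add_mem' := fun ha hb => A.add_mem ha hb
      zero_mem' := A.zero_mem
      smul_mem' := by
        intro c a ha
        obtain ⟨n, rfl⟩ := ZMod.natCast_zmod_surjective c
        rw [hsm, map_natCast, Nat.cast_smul_eq_nsmul]
        exact A.nsmul_mem ha n }
  have hW : ∀ v, v ∈ W ↔ v ∈ A := fun _ => Iff.rfl
  have hfinW : Module.Finite (ZMod p) W := Module.Finite.of_finite
  have hfinF : Module.Finite (ZMod p) F := Module.Finite.of_finite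
  have hcA : Nat.card A = p ^ Module.finrank (ZMod p) W := by
    have : Nat.card W = Nat.card (ZMod p) ^ Module.finrank (ZMod p) W := Module.natCard_eq_pow_finrank
    rw [Nat.card_zmod] at this
    exact this
  have hcF : Nat.card F = p ^ Module.finrank (ZMod p) F := by
    have : Nat.card F = Nat.card (ZMod p) ^ Module.finrank (ZMod p) F := Module.natCard_eq_pow_finrank
    rwa [Nat.card_zmod] at this
  rw [hcA, hcF, ← pow_mul]
  apply Nat.pow_le_pow_right (Fact.out : p.Prime).pos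
  by_contra hcon
  push Not at hcon
  set d := Module.finrank (ZMod p) W with hd
  set m := Module.finrank (ZMod p) F with hm
  let a := Module.finBasis (ZMod p) W
  let b := Module.finBasis (ZMod p) F
  let P : Fin m → MvPolynomial (Fin d) (ZMod p) := fun i =>
    ∑ j, ∑ k, MvPolynomial.C (b.repr (2⁻¹ * polar Q (a j : V) (a k : V)) i) *
      (MvPolynomial.X j * MvPolynomial.X k)
  have hdeg : ∀ i, (P i).totalDegree ≤ 2 := by
    intro i
    refine MvPolynomial.totalDegree_finsetSum_le fun j _ => MvPolynomial.totalDegree_finsetSum_le fun k _ => ?_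
    refine (MvPolynomial.totalDegree_mul _ _).trans ?_
    rw [MvPolynomial.totalDegree_C, zero_add]
    refine (MvPolynomial.totalDegree_mul _ _).trans ?_
    rw [MvPolynomial.totalDegree_X, MvPolynomial.totalDegree_X]
  have hcw := char_dvd_card_solutions_of_fintype_sum_lt (K := ZMod p) p (f := P) (by
    refine lt_of_le_of_lt (Finset.sum_le_sum fun i _ => hdeg i) ?_
    rw [Finset.sum_const, Finset.card_univ, Fintype.card_fin, Fintype.card_fin, smul_eq_mul]
    exact hcon)
  -- values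
  have hval : ∀ (x : Fin d → ZMod p) (i : Fin m),
      MvPolynomial.eval x (P i) = b.repr (Q (∑ j, x j • (a j : V))) i := by
    intro x i
    have hQ : Q (∑ j, x j • (a j : V)) = ∑ j, ∑ k, (x j * x k) • (2⁻¹ * polar Q (a j : V) (a k : V)) := by
      have h3 : ∀ v : V, Q v = 2⁻¹ * polar Q v v := by
        intro v
        rw [polar_self', inv_mul_cancel_left₀ h2]
      rw [h3]
      have h4 : polar Q (∑ j, x j • (a j : V)) (∑ j, x j • (a j : V)) =
          ∑ j, ∑ k, (algebraMap (ZMod p) F (x j * x k)) * polar Q (a j : V) (a k : V) := by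
        change polarBilin Q (∑ j, x j • (a j : V)) (∑ j, x j • (a j : V)) = _
        rw [map_sum, Finset.sum_comm]
        refine Finset.sum_congr rfl fun k _ => ?_
        rw [map_sum, LinearMap.sum_apply]
        refine Finset.sum_congr rfl fun j _ => ?_
        rw [hsm, hsm, map_smul, map_smul, LinearMap.smul_apply, smul_eq_mul, smul_eq_mul, map_mul]
        change _ * (_ * polar Q (a j : V) (a k : V)) = _
        ring
      rw [h4, Finset.mul_sum]
      refine Finset.sum_congr rfl fun j _ => ?_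
      rw [Finset.mul_sum]
      refine Finset.sum_congr rfl fun k _ => ?_
      rw [Algebra.smul_def]
      ring
    rw [hQ]
    simp only [map_sum, Finsupp.coe_finsetSum, Finset.sum_apply, map_smul, Finsupp.coe_smul, Pi.smul_apply,
      smul_eq_mul]
    change MvPolynomial.eval x (∑ j, ∑ k, MvPolynomial.C (b.repr (2⁻¹ * polar Q (a j : V) (a k : V)) i) *
      (MvPolynomial.X j * MvPolynomial.X k)) = _
    simp only [map_sum, map_mul, MvPolynomial.eval_C, MvPolynomial.eval_X]
    refine Finset.sum_congr rfl fun j _ => Finset.sum_congr rfl fun k _ => ?_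
    ring
  -- the only solution is zero
  have huniq : ∀ x : Fin d → ZMod p, (∀ i, MvPolynomial.eval x (P i) = 0) → x = 0 := by
    intro x hx
    have h3 : Q (∑ j, x j • (a j : V)) = 0 := by
      apply b.repr.injective
      ext i
      rw [← hval, hx, map_zero]
      rfl
    have h4 : (∑ j, x j • (a j : V)) ∈ A := by
      rw [← hW]
      exact Submodule.sum_mem _ fun j _ => W.smul_mem _ (a j).2
    have h5 := hA _ h4 h3
    have h6 : ∑ j, x j • a j = 0 := by
      apply Subtype.ext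
      rw [AddSubmonoidClass.coe_finsetSum]
      exact h5
    have h7 := Fintype.linearIndependent_iff.1 a.linearIndependent x h6
    funext j
    exact h7 j
  have hcard : Fintype.card {x : Fin d → ZMod p // ∀ i, MvPolynomial.eval x (P i) = 0} = 1 := by
    rw [Fintype.card_eq_one_iff]
    refine ⟨⟨0, fun i => ?_⟩, fun y => Subtype.ext (huniq y.1 y.2)⟩
    rw [hval]
    simp
  have hcw' : p ∣ 1 := by
    rw [← hcard]
    convert hcw
  exact (Fact.out : p.Prime).one_lt.ne' (Nat.dvd_one.1 hcw')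

/-- **(Chevalley-Warning)** an additive group of vectors without nonzero singular vector -/
theorem card_le_sq [Finite F] [Finite V] (h2 : (2 : F) ≠ 0) (A : AddSubgroup V)
    (hA : ∀ a ∈ A, Q a = 0 → a = 0) : Nat.card A ≤ Nat.card F ^ 2 := by
  obtain ⟨p, hp⟩ := CharP.exists F
  cases nonempty_fintype F
  have hpp : Fact p.Prime := ⟨CharP.char_is_prime F p⟩
  exact card_le_sq_aux p h2 A hA

end Cfsg.Agent.H989.Fx
end

-- part: H556/IF/Three
section
prune_inst 0xf11065041d6200000018050030201c66f20005220048000088400a040781cc602d802861a0b021120aa208452035006001100010422000000a000000011c01800000000291080000220010000000000000000000000000000000000000000000000000002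
set_option linter.all false
open scoped Cfsg.Agent.FastGrp

/-!
# S5719, orthogonal groups, `q` odd: the group `Ω₃` of a hyperbolic pair and a nonsingular vector (helper556)

* `Tri.rhoE : SL₂(F) →* E Q` for a hyperbolic pair `e, f` and a nonsingular `w ⊥ e, f`:
  `u t ↦ S e (t/Q(w) • w)`, `l t ↦ S f (-t • w)`;
* `exists_sq_neg_one` : a subgroup of `SL₂(F)` with nontrivial `u a`, `l c` contains an element of square `-1`;
* `exists_rank_two` : `S e (a • w), S f (c • w) ∈ X`, `a, c ≠ 0`: `X` contains an involution of rank 2.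
-/

set_option autoImplicit false
set_option maxHeartbeats 400000
set_option linter.unusedSimpArgs false
set_option linter.unusedVariables false
set_option linter.unusedSectionVars false

namespace Cfsg.Agent.H556.IF

open QuadraticMap Cfsg.Agent.LieClassical Cfsg.Agent.LieClassical.OrthCore Cfsg.Agent.LieClassical.OrthTrans
  Cfsg.Agent.LieClassical.OrthSimple Cfsg.Agent.AutOrth.SemiSim Cfsg.Agent.AutOrth.Gen
  Cfsg.Agent.H989.Gs.Gen Cfsg.Agent.H989.Fx
open Cfsg.Agent.LieClassical.SLTwoUnipotent (u l coe_u coe_l eq_top_of_u_mem_of_l_mem)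
open Matrix (SpecialLinearGroup)

variable {F V : Type*} [Field F] [AddCommGroup V] [Module F V] {Q : QuadraticForm F V}

/-- the `-1`-eigenspace -/
def Neg (t : ↥(E Q)) : Submodule F V where
  carrier := {v | ap t v = -v}
  add_mem' {a b} ha hb := by
    change ap t (a + b) = -(a + b)
    have ha' : ap t a = -a := ha
    have hb' : ap t b = -b := hb
    rw [ap_add, ha', hb']; abel
  zero_mem' := by
    change ap t 0 = -0
    rw [neg_zero]; exact map_zero _
  smul_mem' c a ha := by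
    change ap t (c • a) = -(c • a)
    have ha' : ap t a = -a := ha
    rw [ap_smul, ha', smul_neg]

theorem mem_Neg {t : ↥(E Q)} {v : V} : v ∈ Neg t ↔ ap t v = -v := Iff.rfl

/-- a hyperbolic pair and an orthogonal nonsingular vector -/
structure Tri (Q : QuadraticForm F V) (e f w : V) : Prop where
  hyp : Hyp Q e f
  ew : polar Q e w = 0
  fw : polar Q f w = 0
  hw : Q w ≠ 0

namespace Tri

variable {e f w : V} (h : Tri Q e f w)

/-- the action of `M` -/
def phi (_ : Tri Q e f w) (M : _root_.Matrix.SpecialLinearGroup (Fin 2) F) (v : V) : V :=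
  v + ((M.1 0 0 ^ 2 - 1) * polar Q f v - (Q w)⁻¹ * M.1 0 1 ^ 2 * polar Q e v
      - (Q w)⁻¹ * (M.1 0 0 * M.1 0 1) * polar Q w v) • e
    + (-(Q w * M.1 1 0 ^ 2) * polar Q f v + (M.1 1 1 ^ 2 - 1) * polar Q e v
      + M.1 1 0 * M.1 1 1 * polar Q w v) • f
    + (-(M.1 0 0 * M.1 1 0) * polar Q f v + (Q w)⁻¹ * (M.1 0 1 * M.1 1 1) * polar Q e v
      + (Q w)⁻¹ * (M.1 0 1 * M.1 1 0) * polar Q w v) • w

include h in
theorem pols : polar Q e e = 0 ∧ polar Q f f = 0 ∧ polar Q e f = 1 ∧ polar Q f e = 1 ∧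
    polar Q e w = 0 ∧ polar Q w e = 0 ∧ polar Q f w = 0 ∧ polar Q w f = 0 ∧ polar Q w w = 2 * Q w :=
  ⟨h.hyp.polar_left, h.hyp.polar_right, h.hyp.pair, h.hyp.pair', h.ew, by rw [polar_comm, h.ew], h.fw,
    by rw [polar_comm, h.fw], by rw [polar_self']⟩

theorem polar_e (M : _root_.Matrix.SpecialLinearGroup (Fin 2) F) (v : V) :
    polar Q e (h.phi M v) = -(Q w * M.1 1 0 ^ 2) * polar Q f v + M.1 1 1 ^ 2 * polar Q e v
      + M.1 1 0 * M.1 1 1 * polar Q w v := by
  obtain ⟨p1, p2, p3, p4, p5, p6, p7, p8, p9⟩ := h.pols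
  unfold phi
  simp only [polar_add_right, polar_smul_right, smul_eq_mul, p1, p2, p3, p4, p5, p6, p7, p8, p9]
  ring

theorem polar_f (M : _root_.Matrix.SpecialLinearGroup (Fin 2) F) (v : V) :
    polar Q f (h.phi M v) = M.1 0 0 ^ 2 * polar Q f v - (Q w)⁻¹ * M.1 0 1 ^ 2 * polar Q e v
      - (Q w)⁻¹ * (M.1 0 0 * M.1 0 1) * polar Q w v := by
  obtain ⟨p1, p2, p3, p4, p5, p6, p7, p8, p9⟩ := h.pols
  unfold phi
  simp only [polar_add_right, polar_smul_right, smul_eq_mul, p1, p2, p3, p4, p5, p6, p7, p8, p9]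
  ring

theorem polar_w (M : _root_.Matrix.SpecialLinearGroup (Fin 2) F) (v : V) :
    polar Q w (h.phi M v) = -(2 * Q w * (M.1 0 0 * M.1 1 0)) * polar Q f v
      + 2 * (M.1 0 1 * M.1 1 1) * polar Q e v + (1 + 2 * (M.1 0 1 * M.1 1 0)) * polar Q w v := by
  obtain ⟨p1, p2, p3, p4, p5, p6, p7, p8, p9⟩ := h.pols
  have hw := h.hw
  unfold phi
  simp only [polar_add_right, polar_smul_right, smul_eq_mul, p1, p2, p3, p4, p5, p6, p7, p8, p9]
  field_simp
  ring

theorem det_eq (M : _root_.Matrix.SpecialLinearGroup (Fin 2) F) : M.1 0 0 * M.1 1 1 - M.1 0 1 * M.1 1 0 = 1 := by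
  have := M.2
  rwa [Matrix.det_fin_two] at this

theorem phi_mul (M N : _root_.Matrix.SpecialLinearGroup (Fin 2) F) (v : V) :
    h.phi (M * N) v = h.phi M (h.phi N v) := by
  have h00 : (M * N).1 0 0 = M.1 0 0 * N.1 0 0 + M.1 0 1 * N.1 1 0 := by
    simp only [Matrix.mul_apply, Fin.sum_univ_two, _root_.Fin.isValue, _root_.Matrix.SpecialLinearGroup.coe_mul]
  have h01 : (M * N).1 0 1 = M.1 0 0 * N.1 0 1 + M.1 0 1 * N.1 1 1 := by
    simp only [Matrix.mul_apply, Fin.sum_univ_two, _root_.Fin.isValue, _root_.Matrix.SpecialLinearGroup.coe_mul]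
  have h10 : (M * N).1 1 0 = M.1 1 0 * N.1 0 0 + M.1 1 1 * N.1 1 0 := by
    simp only [Matrix.mul_apply, Fin.sum_univ_two, _root_.Fin.isValue, _root_.Matrix.SpecialLinearGroup.coe_mul]
  have h11 : (M * N).1 1 1 = M.1 1 0 * N.1 0 1 + M.1 1 1 * N.1 1 1 := by
    simp only [Matrix.mul_apply, Fin.sum_univ_two, _root_.Fin.isValue, _root_.Matrix.SpecialLinearGroup.coe_mul]
  have hN := det_eq N
  have hM := det_eq M
  have hw := h.hw
  conv_rhs => rw [phi, polar_e, polar_f, polar_w]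
  unfold phi
  rw [h00, h01, h10, h11]
  generalize M.1 0 0 = a at *
  generalize M.1 0 1 = b at *
  generalize M.1 1 0 = c at *
  generalize M.1 1 1 = d at *
  generalize N.1 0 0 = a' at *
  generalize N.1 0 1 = b' at *
  generalize N.1 1 0 = c' at *
  generalize N.1 1 1 = d' at *
  generalize polar Q e v = x at *
  generalize polar Q f v = y at *
  generalize polar Q w v = z at *
  obtain ⟨k, hk⟩ : ∃ k, (Q w)⁻¹ = k := ⟨_, rfl⟩
  have hk1 : Q w * k = 1 := by rw [← hk]; exact mul_inv_cancel₀ hw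
  rw [hk]
  generalize Q w = κ at *
  have e1 : ∀ (x1 x2 y1 y2 z1 z2 : F), x1 = x2 → y1 = y2 → z1 = z2 →
      v + x1 • e + y1 • f + z1 • w = v + x2 • e + y2 • f + z2 • w := by
    rintro _ _ _ _ _ _ rfl rfl rfl; rfl
  have e2 : ∀ (x1 y1 z1 x2 y2 z2 : F), v + x1 • e + y1 • f + z1 • w + x2 • e + y2 • f + z2 • w =
      v + (x1 + x2) • e + (y1 + y2) • f + (z1 + z2) • w := by
    intro x1 y1 z1 x2 y2 z2; module
  rw [e2]
  apply e1
  · linear_combination (-(y * (b ^ 2 * c' ^ 2 + 2 * a * b * a' * c'))) * hk1 - (k * a * b * z) * hN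
  · linear_combination (-(x * (c ^ 2 * b' ^ 2) + z * (c ^ 2 * a' * b'))) * hk1 + (c * d * z) * hN
  · linear_combination (y * (b * d * c' ^ 2 + 2 * b * c * a' * c')) * hk1
      + (-(a' * c' * y) + k * b' * d' * x + k * b' * c' * z) * hM + (k * b * c * z) * hN

theorem phi_one (v : V) : h.phi 1 v = v := by
  have h00 : (1 : _root_.Matrix.SpecialLinearGroup (Fin 2) F).1 0 0 = 1 := by simp
  have h01 : (1 : _root_.Matrix.SpecialLinearGroup (Fin 2) F).1 0 1 = 0 := by simp
  have h10 : (1 : _root_.Matrix.SpecialLinearGroup (Fin 2) F).1 1 0 = 0 := by simp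
  have h11 : (1 : _root_.Matrix.SpecialLinearGroup (Fin 2) F).1 1 1 = 1 := by simp
  unfold phi
  rw [h00, h01, h10, h11]
  module

/-- the linear map -/
def phiLin (M : _root_.Matrix.SpecialLinearGroup (Fin 2) F) : V →ₗ[F] V where
  toFun := h.phi M
  map_add' v w := by
    unfold phi
    simp only [polar_add_right]
    module
  map_smul' c v := by
    unfold phi
    simp only [polar_smul_right, smul_eq_mul, RingHom.id_apply]
    module

/-- **The homomorphism `SL(2,F) → GL(V)`.** -/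
def rho : _root_.Matrix.SpecialLinearGroup (Fin 2) F →* (V ≃ₗ[F] V) :=
  (LinearMap.GeneralLinearGroup.generalLinearEquiv F V).toMonoidHom.comp
    (MonoidHom.toHomUnits
      { toFun := h.phiLin
        map_one' := LinearMap.ext fun v => h.phi_one v
        map_mul' := fun M N => LinearMap.ext fun v => h.phi_mul M N v })

theorem rho_apply (M : _root_.Matrix.SpecialLinearGroup (Fin 2) F) (v : V) : h.rho M v = h.phi M v := rfl

include h in
theorem e_s (t : F) : polar Q e (t • w) = 0 := by rw [polar_smul_right, h.ew, smul_zero]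

include h in
theorem f_s (t : F) : polar Q f (t • w) = 0 := by rw [polar_smul_right, h.fw, smul_zero]

theorem rho_u (t : F) : h.rho (u t) = ((S Q e ((t * (Q w)⁻¹) • w) : ↥(E Q)) : V ≃ₗ[F] V) := by
  ext v
  have e1 : ((S Q e ((t * (Q w)⁻¹) • w) : ↥(E Q)) : V ≃ₗ[F] V) v = ap (S Q e ((t * (Q w)⁻¹) • w)) v := rfl
  rw [rho_apply, e1, S_ap h.hyp.left (h.e_s _)]
  unfold phi
  have h00 : (u t : _root_.Matrix.SpecialLinearGroup (Fin 2) F).1 0 0 = 1 := by simp [u]
  have h01 : (u t : _root_.Matrix.SpecialLinearGroup (Fin 2) F).1 0 1 = t := by simp [u]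
  have h10 : (u t : _root_.Matrix.SpecialLinearGroup (Fin 2) F).1 1 0 = 0 := by simp [u]
  have h11 : (u t : _root_.Matrix.SpecialLinearGroup (Fin 2) F).1 1 1 = 1 := by simp [u]
  have hw := h.hw
  rw [h00, h01, h10, h11, QuadraticMap.map_smul]
  simp only [polar_smul_left, smul_eq_mul]
  have e2 : t * (Q w)⁻¹ * (t * (Q w)⁻¹) * Q w = (Q w)⁻¹ * t ^ 2 := by
    field_simp
  rw [e2]
  module

theorem rho_l (t : F) : h.rho (l t) = ((S Q f ((-t) • w) : ↥(E Q)) : V ≃ₗ[F] V) := by
  ext v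
  have e1 : ((S Q f ((-t) • w) : ↥(E Q)) : V ≃ₗ[F] V) v = ap (S Q f ((-t) • w)) v := rfl
  rw [rho_apply, e1, S_ap h.hyp.right (h.f_s _)]
  unfold phi
  have h00 : (l t : _root_.Matrix.SpecialLinearGroup (Fin 2) F).1 0 0 = 1 := by simp [l]
  have h01 : (l t : _root_.Matrix.SpecialLinearGroup (Fin 2) F).1 0 1 = 0 := by simp [l]
  have h10 : (l t : _root_.Matrix.SpecialLinearGroup (Fin 2) F).1 1 0 = t := by simp [l]
  have h11 : (l t : _root_.Matrix.SpecialLinearGroup (Fin 2) F).1 1 1 = 1 := by simp [l]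
  rw [h00, h01, h10, h11, QuadraticMap.map_smul]
  simp only [polar_smul_left, smul_eq_mul]
  module

theorem rho_mem (M : _root_.Matrix.SpecialLinearGroup (Fin 2) F) : h.rho M ∈ E Q := by
  have h1 : (E Q).comap h.rho = ⊤ := by
    apply eq_top_of_u_mem_of_l_mem
    · intro t
      rw [Subgroup.mem_comap, rho_u]
      exact Subtype.property _
    · intro t
      rw [Subgroup.mem_comap, rho_l]
      exact Subtype.property _
  exact Subgroup.mem_comap.1 (h1 ▸ Subgroup.mem_top M)

/-- `rho` as a homomorphism to `E Q` -/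
def rhoE : _root_.Matrix.SpecialLinearGroup (Fin 2) F →* ↥(E Q) := h.rho.codRestrict (E Q) h.rho_mem

theorem ap_rhoE (M : _root_.Matrix.SpecialLinearGroup (Fin 2) F) (v : V) : ap (h.rhoE M) v = h.phi M v := rfl

theorem rhoE_u (t : F) : h.rhoE (u t) = S Q e ((t * (Q w)⁻¹) • w) := Subtype.ext (h.rho_u t)

theorem rhoE_l (t : F) : h.rhoE (l t) = S Q f ((-t) • w) := Subtype.ext (h.rho_l t)

/-- coordinates -/
def vec (_ : Tri Q e f w) : F × F × F →ₗ[F] V where
  toFun p := p.1 • w + p.2.1 • e + p.2.2 • f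
  map_add' p p' := by
    simp only [Prod.fst_add, Prod.snd_add]
    module
  map_smul' c p := by
    simp only [Prod.smul_fst, Prod.smul_snd, RingHom.id_apply, smul_eq_mul]
    module

theorem vec_apply (p : F × F × F) : h.vec p = p.1 • w + p.2.1 • e + p.2.2 • f := rfl

theorem vec_pol (p : F × F × F) : polar Q e (h.vec p) = p.2.2 ∧ polar Q f (h.vec p) = p.2.1 ∧
    polar Q w (h.vec p) = 2 * Q w * p.1 := by
  obtain ⟨p1, p2, p3, p4, p5, p6, p7, p8, p9⟩ := h.pols
  rw [vec_apply]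
  simp only [polar_add_right, polar_smul_right, smul_eq_mul, p1, p2, p3, p4, p5, p6, p7, p8, p9]
  exact ⟨by ring, by ring, by ring⟩

theorem vec_injective (h2 : (2 : F) ≠ 0) : Function.Injective h.vec := by
  rw [injective_iff_map_eq_zero]
  intro p hp
  obtain ⟨h3, h4, h5⟩ := h.vec_pol p
  rw [hp, polar_zero_right] at h3 h4 h5
  have h6 : p.1 = 0 := (mul_eq_zero.1 h5.symm).resolve_left (mul_ne_zero h2 h.hw)
  exact Prod.ext h6 (Prod.ext h4.symm h3.symm)

/-- **an element of square `-1` acts as an involution of rank 2** -/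
theorem finrank_Neg (h2 : (2 : F) ≠ 0) {A : _root_.Matrix.SpecialLinearGroup (Fin 2) F} (hA : A.1 * A.1 = -1) :
    Module.finrank F (Neg (h.rhoE A)) = 2 := by
  have hdet := det_eq A
  have e00 : A.1 0 0 * A.1 0 0 + A.1 0 1 * A.1 1 0 = -1 := by
    have := congrFun (congrFun hA 0) 0
    simpa only [Matrix.mul_apply, Fin.sum_univ_two, _root_.Fin.isValue, _root_.Matrix.neg_apply, _root_.Matrix.one_apply_eq] using this
  have e01 : A.1 0 0 * A.1 0 1 + A.1 0 1 * A.1 1 1 = 0 := by
    have := congrFun (congrFun hA 0) 1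
    simpa only [Matrix.mul_apply, Fin.sum_univ_two, _root_.Fin.isValue, _root_.Matrix.neg_apply, _root_.ne_eq, _root_.zero_ne_one, _root_.not_false_eq_true, _root_.Matrix.one_apply_ne, _root_.neg_zero] using this
  have e10 : A.1 1 0 * A.1 0 0 + A.1 1 1 * A.1 1 0 = 0 := by
    have := congrFun (congrFun hA 1) 0
    simpa only [Matrix.mul_apply, Fin.sum_univ_two, _root_.Fin.isValue, _root_.Matrix.neg_apply, _root_.ne_eq, _root_.one_ne_zero, _root_.not_false_eq_true, _root_.Matrix.one_apply_ne, _root_.neg_zero] using this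
  have e11 : A.1 1 0 * A.1 0 1 + A.1 1 1 * A.1 1 1 = -1 := by
    have := congrFun (congrFun hA 1) 1
    simpa only [Matrix.mul_apply, Fin.sum_univ_two, _root_.Fin.isValue, _root_.Matrix.neg_apply, _root_.Matrix.one_apply_eq] using this
  have htr : A.1 1 1 = -A.1 0 0 := by
    have t0 : A.1 0 0 * (A.1 0 0 + A.1 1 1) = 0 := by linear_combination e00 + hdet
    have t1 : A.1 1 1 * (A.1 0 0 + A.1 1 1) = 0 := by linear_combination e11 + hdet
    by_contra hcon
    have hne : A.1 0 0 + A.1 1 1 ≠ 0 := fun h0 => hcon (by linear_combination h0)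
    have h3 := (mul_eq_zero.1 t0).resolve_right hne
    have h4 := (mul_eq_zero.1 t1).resolve_right hne
    exact hne (by rw [h3, h4, add_zero])
  -- the linear form
  let ℓ : F × F × F →ₗ[F] F :=
    { toFun := fun p => 2 * A.1 0 0 * p.1 + A.1 1 0 * p.2.1 + (Q w)⁻¹ * A.1 0 1 * p.2.2
      map_add' := fun p p' => by simp only [Prod.fst_add, Prod.snd_add]; ring
      map_smul' := fun c p => by simp only [Prod.smul_fst, Prod.smul_snd, RingHom.id_apply, smul_eq_mul]; ring }
  have hℓ : ∀ p : F × F × F, ℓ p = 2 * A.1 0 0 * p.1 + A.1 1 0 * p.2.1 + (Q w)⁻¹ * A.1 0 1 * p.2.2 := fun _ => rfl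
  have hk : (Q w)⁻¹ * Q w = 1 := inv_mul_cancel₀ h.hw
  have hk0 : (Q w)⁻¹ ≠ 0 := inv_ne_zero h.hw
  have hact : ∀ p : F × F × F, h.phi A (h.vec p) = -h.vec p + (-(A.1 0 0 * ℓ p)) • w + (-(A.1 0 1 * ℓ p)) • e
      + (-(Q w * A.1 1 0 * ℓ p)) • f := by
    intro p
    obtain ⟨h3, h4, h5⟩ := h.vec_pol p
    unfold phi
    rw [h3, h4, h5, hℓ, vec_apply, htr]
    rw [htr] at hdet
    generalize A.1 0 0 = a at *
    generalize A.1 0 1 = b at *
    generalize A.1 1 0 = c at *
    generalize (Q w)⁻¹ = k at *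
    generalize Q w = κ at *
    obtain ⟨α, β, γ⟩ := p
    have e1 : ∀ (x1 x2 y1 y2 z1 z2 : F), α + x1 = -α + x2 → β + y1 = -β + y2 → γ + z1 = -γ + z2 →
        α • w + β • e + γ • f + y1 • e + z1 • f + x1 • w =
        -(α • w + β • e + γ • f) + x2 • w + y2 • e + z2 • f := by
      intro x1 x2 y1 y2 z1 z2 t1 t2 t3
      have t1' : x2 = α + x1 + α := by linear_combination -t1
      have t2' : y2 = β + y1 + β := by linear_combination -t2
      have t3' : z2 = γ + z1 + γ := by linear_combination -t3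
      rw [t1', t2', t3']
      module
    apply e1
    · dsimp only
      linear_combination (-2 * α) * hdet + 2 * α * b * c * hk
    · dsimp only
      linear_combination (-β) * hdet - 2 * a * b * α * hk
    · dsimp only
      linear_combination (-γ) * hdet + b * c * γ * hk
  have hNeg : Neg (h.rhoE A) = (LinearMap.ker ℓ).map h.vec := by
    ext v
    rw [mem_Neg, ap_rhoE, Submodule.mem_map]
    constructor
    · intro hv
      have h3 : ∃ p, v = h.vec p := by
        have h4 : (2 : F) • v = v - h.phi A v := by rw [hv]; module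
        refine ⟨(2 : F)⁻¹ • (-(-(A.1 0 0 * A.1 1 0) * polar Q f v + (Q w)⁻¹ * (A.1 0 1 * A.1 1 1) * polar Q e v
          + (Q w)⁻¹ * (A.1 0 1 * A.1 1 0) * polar Q w v),
          -((A.1 0 0 ^ 2 - 1) * polar Q f v - (Q w)⁻¹ * A.1 0 1 ^ 2 * polar Q e v
            - (Q w)⁻¹ * (A.1 0 0 * A.1 0 1) * polar Q w v),
          -(-(Q w * A.1 1 0 ^ 2) * polar Q f v + (A.1 1 1 ^ 2 - 1) * polar Q e v
            + A.1 1 0 * A.1 1 1 * polar Q w v)), ?_⟩
        rw [map_smul, vec_apply]
        have h5 : v = (2 : F)⁻¹ • ((2 : F) • v) := by rw [smul_smul, inv_mul_cancel₀ h2, one_smul]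
        conv_lhs => rw [h5, h4]
        congr 1
        unfold phi
        module
      obtain ⟨p, rfl⟩ := h3
      refine ⟨p, ?_, rfl⟩
      rw [LinearMap.mem_ker]
      rw [hact] at hv
      have h4 : (-(A.1 0 0 * ℓ p)) • w + (-(A.1 0 1 * ℓ p)) • e + (-(Q w * A.1 1 0 * ℓ p)) • f = 0 := by
        have : (-(A.1 0 0 * ℓ p)) • w + (-(A.1 0 1 * ℓ p)) • e + (-(Q w * A.1 1 0 * ℓ p)) • f =
          (-h.vec p + (-(A.1 0 0 * ℓ p)) • w + (-(A.1 0 1 * ℓ p)) • e + (-(Q w * A.1 1 0 * ℓ p)) • f)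
            - (-h.vec p) := by module
        rw [this, hv, sub_self]
      have h5 : h.vec (-(A.1 0 0 * ℓ p), -(A.1 0 1 * ℓ p), -(Q w * A.1 1 0 * ℓ p)) = 0 := h4
      have h6 := (injective_iff_map_eq_zero _).1 (h.vec_injective h2) _ h5
      have h7 : A.1 0 0 * ℓ p = 0 := neg_eq_zero.1 (congrArg Prod.fst h6)
      have h8 : A.1 0 1 * ℓ p = 0 := neg_eq_zero.1 (congrArg (fun x => x.2.1) h6)
      rcases mul_eq_zero.1 h7 with h9 | h9
      · rcases mul_eq_zero.1 h8 with h10 | h10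
        · exfalso
          rw [h9, h10] at e00
          have : (1 : F) = 0 := by linear_combination e00
          exact one_ne_zero this
        · exact h10
      · exact h9
    · rintro ⟨p, hp, rfl⟩
      rw [LinearMap.mem_ker] at hp
      rw [hact, hp]
      module
  have hne : ∃ p, ℓ p ≠ 0 := by
    by_contra hcon
    push Not at hcon
    have h3 := hcon (1, 0, 0)
    have h4 := hcon (0, 1, 0)
    rw [hℓ] at h3 h4
    simp only [mul_one, mul_zero, add_zero, zero_add] at h3 h4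
    have h5 : A.1 0 0 = 0 := (mul_eq_zero.1 h3).resolve_left h2
    rw [h5, h4] at e00
    have : (1 : F) = 0 := by linear_combination e00
    exact one_ne_zero this
  have hrange : LinearMap.range ℓ = ⊤ := by
    obtain ⟨p, hp⟩ := hne
    rw [LinearMap.range_eq_top]
    intro c
    exact ⟨(c * (ℓ p)⁻¹) • p, by rw [map_smul, smul_eq_mul, mul_assoc, inv_mul_cancel₀ hp, mul_one]⟩
  have hrk := LinearMap.finrank_range_add_finrank_ker ℓ
  rw [hrange, finrank_top, Module.finrank_prod, Module.finrank_prod, Module.finrank_self] at hrk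
  rw [hNeg, ← LinearEquiv.finrank_eq (Submodule.equivMapOfInjective h.vec (h.vec_injective h2) (LinearMap.ker ℓ))]
  omega

theorem rhoE_sq {A : _root_.Matrix.SpecialLinearGroup (Fin 2) F} (hA : A.1 * A.1 = -1) : h.rhoE A * h.rhoE A = 1 := by
  rw [← map_mul]
  have h3 : (A * A).1 = -1 := hA
  have h00 : (A * A).1 0 0 = -1 := by rw [h3]; simp
  have h01 : (A * A).1 0 1 = 0 := by rw [h3]; simp
  have h10 : (A * A).1 1 0 = 0 := by rw [h3]; simp
  have h11 : (A * A).1 1 1 = -1 := by rw [h3]; simp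
  apply ext_ap
  intro v
  rw [ap_rhoE, ap_one]
  unfold phi
  rw [h00, h01, h10, h11]
  module

end Tri

/-- the only involution of `SL₂` -/
theorem eq_neg_one_of_sq (h2 : (2 : F) ≠ 0) {k : _root_.Matrix.SpecialLinearGroup (Fin 2) F} (hk2 : k * k = 1) (hk1 : k ≠ 1) :
    k.1 = -1 := by
  set M := k.1 with hM
  have hMM : M * M = 1 := congrArg Subtype.val hk2
  have hdet : M 0 0 * M 1 1 - M 0 1 * M 1 0 = 1 := by
    have := k.2
    rwa [Matrix.det_fin_two] at this
  have e00 : M 0 0 * M 0 0 + M 0 1 * M 1 0 = 1 := by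
    have := congrFun (congrFun hMM 0) 0
    simpa only [Matrix.mul_apply, Fin.sum_univ_two, _root_.Fin.isValue, _root_.Matrix.one_apply_eq] using this
  have e01 : M 0 0 * M 0 1 + M 0 1 * M 1 1 = 0 := by
    have := congrFun (congrFun hMM 0) 1
    simpa only [Matrix.mul_apply, Fin.sum_univ_two, _root_.Fin.isValue, _root_.ne_eq, _root_.zero_ne_one, _root_.not_false_eq_true, _root_.Matrix.one_apply_ne] using this
  have e10 : M 1 0 * M 0 0 + M 1 1 * M 1 0 = 0 := by
    have := congrFun (congrFun hMM 1) 0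
    simpa only [Matrix.mul_apply, Fin.sum_univ_two, _root_.Fin.isValue, _root_.ne_eq, _root_.one_ne_zero, _root_.not_false_eq_true, _root_.Matrix.one_apply_ne] using this
  have e11 : M 1 0 * M 0 1 + M 1 1 * M 1 1 = 1 := by
    have := congrFun (congrFun hMM 1) 1
    simpa only [Matrix.mul_apply, Fin.sum_univ_two, _root_.Fin.isValue, _root_.Matrix.one_apply_eq] using this
  have t0 : M 0 0 * (M 0 0 + M 1 1) = 2 := by linear_combination e00 + hdet
  have t1 : M 1 1 * (M 0 0 + M 1 1) = 2 := by linear_combination e11 + hdet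
  have ht : M 0 0 + M 1 1 ≠ 0 := by
    intro h0
    rw [h0, mul_zero] at t0
    exact h2 t0.symm
  have m01 : M 0 1 = 0 := (mul_eq_zero.1 (show M 0 1 * (M 0 0 + M 1 1) = 0 by linear_combination e01)).resolve_right ht
  have m10 : M 1 0 = 0 := (mul_eq_zero.1 (show M 1 0 * (M 0 0 + M 1 1) = 0 by linear_combination e10)).resolve_right ht
  have m0011 : M 0 0 = M 1 1 := mul_right_cancel₀ ht (t0.trans t1.symm)
  rw [m01, zero_mul, add_zero] at e00
  have m00 : M 0 0 = -1 := by
    rcases mul_self_eq_one_iff.1 e00 with h5 | h5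
    · exfalso
      apply hk1
      apply Subtype.ext
      change M = 1
      ext i j
      fin_cases i <;> fin_cases j
      · simpa using h5
      · simpa using m01
      · simpa using m10
      · simpa using (m0011 ▸ h5)
    · exact h5
  ext i j
  fin_cases i <;> fin_cases j
  · simpa using m00
  · simpa using m01
  · simpa using m10
  · simpa using (m0011 ▸ m00)

/-- **two unipotent elements of `SL₂` with different fixed points generate an element of square `-1`** -/
theorem exists_sq_neg_one [Finite F] (h2 : (2 : F) ≠ 0) {H : Subgroup (_root_.Matrix.SpecialLinearGroup (Fin 2) F)} {a c : F}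
    (ha : a ≠ 0) (hc : c ≠ 0) (h1 : u a ∈ H) (h3 : l c ∈ H) : ∃ A ∈ H, A.1 * A.1 = -1 := by
  cases nonempty_fintype F
  obtain ⟨p, hp⟩ := CharP.exists F
  have hpp : Fact p.Prime := ⟨CharP.char_is_prime F p⟩
  have hp2 : p ≠ 2 := by
    rintro rfl
    exact h2 (by exact_mod_cast CharP.cast_eq_zero F 2)
  have hupow : ∀ n : ℕ, (u a : _root_.Matrix.SpecialLinearGroup (Fin 2) F) ^ n = u (n * a) := by
    intro n
    induction n with
    | zero => rw [pow_zero, Nat.cast_zero, zero_mul, SLTwoUnipotent.u_zero]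
    | succ n ih => rw [pow_succ, ih, ← SLTwoUnipotent.u_add, Nat.cast_succ, add_mul, one_mul]
  have hlpow : ∀ n : ℕ, (l c : _root_.Matrix.SpecialLinearGroup (Fin 2) F) ^ n = l (n * c) := by
    intro n
    induction n with
    | zero => rw [pow_zero, Nat.cast_zero, zero_mul, SLTwoUnipotent.l_zero]
    | succ n ih => rw [pow_succ, ih, ← SLTwoUnipotent.l_add, Nat.cast_succ, add_mul, one_mul]
  have hsyl : 1 < Nat.card (Sylow p H) := by
    by_contra hcon
    have hcard : Nat.card (Sylow p H) = 1 := by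
      have : 0 < Nat.card (Sylow p H) := Nat.card_pos
      omega
    have hsub : Subsingleton (Sylow p H) := (Nat.card_eq_one_iff_unique.1 hcard).1
    obtain ⟨P⟩ : Nonempty (Sylow p H) := Sylow.nonempty
    have hmem : ∀ x : H, x ^ p = 1 → x ∈ P := by
      intro x hx
      have h4 : IsPGroup p (Subgroup.zpowers x) := by
        apply IsPGroup.iff_card.2
        rw [Nat.card_zpowers]
        exact (Nat.dvd_prime_pow hpp.out).1 (by rw [pow_one]; exact orderOf_dvd_of_pow_eq_one hx) |>.imp fun k hk => hk.2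
      obtain ⟨P', hP'⟩ := h4.exists_le_sylow
      rw [Subsingleton.elim P P']
      exact hP' (Subgroup.mem_zpowers x)
    have hu : (⟨u a, h1⟩ : H) ∈ P := hmem _ (Subtype.ext (by
      change (u a : _root_.Matrix.SpecialLinearGroup (Fin 2) F) ^ p = 1
      rw [hupow, CharP.cast_eq_zero, zero_mul, SLTwoUnipotent.u_zero]))
    have hl : (⟨l c, h3⟩ : H) ∈ P := hmem _ (Subtype.ext (by
      change (l c : _root_.Matrix.SpecialLinearGroup (Fin 2) F) ^ p = 1
      rw [hlpow, CharP.cast_eq_zero, zero_mul, SLTwoUnipotent.l_zero]))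
    have hul := P.mul_mem hu hl
    obtain ⟨n, hn⟩ := P.isPGroup' ⟨_, hul⟩
    have h5 : (u a * l c : _root_.Matrix.SpecialLinearGroup (Fin 2) F) ^ p ^ n = 1 := by
      have := congrArg (fun x => ((x : P) : H)) hn
      have := congrArg Subtype.val this
      simpa only [_root_.MulMemClass.mk_mul_mk, _root_.SubmonoidClass.mk_pow, _root_.OneMemClass.coe_one] using this
    have h6 := coe_one_sub h5
    have h7 : (u a * l c : _root_.Matrix.SpecialLinearGroup (Fin 2) F).1.trace = 2 + a * c := by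
      rw [SLTwoUnipotent.coe_mul, coe_u, coe_l, Matrix.trace_fin_two]
      simp only [Matrix.mul_apply, Fin.sum_univ_two, _root_.Fin.isValue, _root_.Matrix.of_apply, _root_.Matrix.cons_val', _root_.Matrix.cons_val_fin_one, _root_.Matrix.cons_val_zero, _root_.mul_one, _root_.Matrix.cons_val_one, _root_.MulZeroClass.mul_zero, _root_.zero_add]
      ring
    rw [h7] at h6
    exact mul_ne_zero ha hc (by linear_combination h6)
  obtain ⟨K, hK, ⟨φ⟩⟩ := DicksonWeak.exists_subgroup_equiv p hp2 H hsyl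
  -- the element of order 4 of `SL₂(p)`
  let j : _root_.Matrix.SpecialLinearGroup (Fin 2) (ZMod p) := ⟨!![0, -1; 1, 0], by simp [Matrix.det_fin_two]⟩
  have hjj : (j * j).1 = -1 := by
    change (!![0, -1; 1, 0] : Matrix (Fin 2) (Fin 2) (ZMod p)) * !![0, -1; 1, 0] = -1
    ext i k
    (revert i k; simp only [Matrix.mul_apply, Fin.sum_univ_two, _root_.Fin.forall_fin_succ, _root_.Matrix.of_apply, _root_.Matrix.cons_val', _root_.Matrix.cons_val_fin_one, Fin.isValue, _root_.Matrix.cons_val_zero, _root_.Matrix.cons_val_one, _root_.Matrix.neg_apply, _root_.MulZeroClass.mul_zero, _root_.mul_one, _root_.zero_add, _root_.Matrix.cons_val_succ, _root_.mul_neg, _root_.add_zero, _root_.neg_inj, _root_.IsEmpty.forall_iff, _root_.and_true, _root_.Matrix.one_apply_eq, Nat.reduceAdd, _root_.Fin.succ_zero_eq_one, _root_.ne_eq, _root_.zero_ne_one, _root_.not_false_eq_true, _root_.Matrix.one_apply_ne, _root_.and_self, _root_.Fin.succ_ne_zero, _root_.neg_zero, _root_.true_and])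
  have hj2 : (j * j) * (j * j) = 1 := Subtype.ext (by
    change (j * j).1 * (j * j).1 = 1
    rw [hjj]; simp)
  have hj1 : j * j ≠ 1 := by
    intro h4
    have h5 := congrArg (fun x : _root_.Matrix.SpecialLinearGroup (Fin 2) (ZMod p) => x.1 0 0) h4
    have h6 : (-1 : ZMod p) = 1 := by
      have h8 : (j * j).1 0 0 = 1 := by simpa using h5
      rw [hjj] at h8
      simpa using h8
    have h7 : (2 : ZMod p) = 0 := by linear_combination -h6
    have h8 : (p : ℕ) ∣ 2 := (ZMod.natCast_eq_zero_iff 2 p).1 (by exact_mod_cast h7)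
    exact hp2 ((Nat.prime_dvd_prime_iff_eq hpp.out Nat.prime_two).1 h8)
  set k := (φ.symm j : K) with hk
  have hk2 : ((k * k : K) : _root_.Matrix.SpecialLinearGroup (Fin 2) F) * (k * k : K) = 1 := by
    have : (k * k) * (k * k) = 1 := by rw [hk, ← map_mul, ← map_mul, hj2, map_one]
    exact congrArg Subtype.val this
  have hk1 : ((k * k : K) : _root_.Matrix.SpecialLinearGroup (Fin 2) F) ≠ 1 := by
    intro h4
    apply hj1
    have h5 : k * k = 1 := Subtype.ext h4
    rw [hk, ← map_mul, map_eq_one_iff _ φ.symm.injective] at h5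
    exact h5
  refine ⟨k, hK k.2, ?_⟩
  exact eq_neg_one_of_sq h2 hk2 hk1

/-- **`Ω₃`: two proportional short Siegel elements at a hyperbolic pair generate an involution of rank 2** -/
theorem Tri.exists_rank_two [Finite F] (h2 : (2 : F) ≠ 0) {e f w : V} (h : Tri Q e f w) {X : Subgroup ↥(E Q)}
    {a c : F} (ha : a ≠ 0) (hc : c ≠ 0) (h1 : S Q e (a • w) ∈ X) (h3 : S Q f (c • w) ∈ X) :
    ∃ t ∈ X, t * t = 1 ∧ Module.finrank F (Neg t) = 2 ∧ ∀ v, polar Q e v = 0 → polar Q f v = 0 →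
      polar Q w v = 0 → ap t v = v := by
  obtain ⟨A, hA, hA2⟩ := exists_sq_neg_one h2 (H := X.comap h.rhoE) (a := a * Q w) (c := -c)
    (mul_ne_zero ha h.hw) (neg_ne_zero.2 hc) (by
      rw [Subgroup.mem_comap, h.rhoE_u, mul_inv_cancel_right₀ h.hw]
      exact h1) (by
      rw [Subgroup.mem_comap, h.rhoE_l, neg_neg]
      exact h3)
  refine ⟨h.rhoE A, hA, h.rhoE_sq hA2, h.finrank_Neg h2 hA2, fun v k1 k2 k3 => ?_⟩
  rw [h.ap_rhoE]
  unfold Tri.phi
  rw [k1, k2, k3]
  module

end Cfsg.Agent.H556.IF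

private theorem dce_214f94e8853d : _root_.True := by
  try have : _root_.True := by simp only [_root_.Cfsg.Agent.H556.IF.Tri.phi.eq_1]
  exact _root_.True.intro
end

-- part: H786/IF/Base
section
set_option linter.all false
open scoped Cfsg.Agent.FastGrp

/-!
# S5719, orthogonal groups, `q` odd: ambient tools (helper786)

* `abs_rel` : the counting lemma of helper847 for subgroups `L, Qs ≤ K` of one group;
* `Nd Q W`, `Fx Q W`; fixed vectors of `p`-groups in a subspace; hyperbolic pairs in a subspace.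
-/

set_option autoImplicit false
set_option linter.unusedSectionVars false
set_option linter.unusedVariables false

namespace Cfsg.Agent.H786.IF

open Subgroup

theorem abs_relP {G : Type*} [Group G] [Finite G] (K L Qs X : Subgroup G) (hQK : Qs ≤ K) (hLK : L ≤ K)
    (hQ : Odd (Nat.card Qs)) (hnorm : ∀ l ∈ L, ∀ u ∈ Qs, l * u * l⁻¹ ∈ Qs) (P : G → Prop)
    (hP2 : ∀ z ∈ K, P z → z * z = 1) (hPc : ∀ g ∈ K, ∀ z ∈ K, P z → P (g * z * g⁻¹)) (hX : ∀ z ∈ X, ¬ P z) (c : ℕ)
    (hc : ∀ Y : Subgroup G, (∀ z ∈ Y, ¬ P z) → c ≤ Y.relIndex L) :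
    Nat.card Qs * c ≤ Nat.card (X ⊓ Qs : Subgroup G) * X.relIndex K := by
  have e1 : Nat.card (Qs.subgroupOf K) = Nat.card Qs := Nat.card_congr (Subgroup.subgroupOfEquivOfLe hQK).toEquiv
  have h := Cfsg.Agent.H847.IF.abs_index (G := K) (L := L) (Subgroup.inclusion hLK) (Qs.subgroupOf K)
    (X.subgroupOf K) (by rw [e1]; exact hQ) (by
      intro l u hu
      rw [mem_subgroupOf] at hu ⊢
      exact hnorm l l.2 _ hu) {z : K | P (z : G)} (by
      intro z hz
      exact Subtype.ext (hP2 _ z.2 hz)) (by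
      intro g z hz
      exact hPc _ g.2 _ z.2 hz) (by
      intro z hz hzX
      exact hX _ (mem_subgroupOf.1 hzX) hz) c (by
      intro Y hY
      have h1 := hc (Y.map L.subtype) (by
        rintro _ ⟨y, hy, rfl⟩ hyZ
        exact hY y hy hyZ)
      have h2 : (Y.map L.subtype).subgroupOf L = Y := Subgroup.comap_map_eq_self_of_injective L.subtype_injective Y
      rwa [Subgroup.relIndex, h2] at h1)
  have e2 : Nat.card (X.subgroupOf K ⊓ Qs.subgroupOf K : Subgroup K) = Nat.card (X ⊓ Qs : Subgroup G) := by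
    have h1 : (X.subgroupOf K ⊓ Qs.subgroupOf K : Subgroup K) = (X ⊓ Qs).subgroupOf K := (Subgroup.comap_inf X Qs K.subtype).symm
    rw [h1]
    exact Nat.card_congr (Subgroup.subgroupOfEquivOfLe (inf_le_right.trans hQK)).toEquiv
  rw [e1, e2] at h
  exact h

theorem abs_rel {G : Type*} [Group G] [Finite G] (K L Qs X : Subgroup G) (hQK : Qs ≤ K) (hLK : L ≤ K)
    (hQ : Odd (Nat.card Qs)) (hnorm : ∀ l ∈ L, ∀ u ∈ Qs, l * u * l⁻¹ ∈ Qs) (Z : Set G) (hZ2 : ∀ z ∈ Z, z * z = 1)
    (hZc : ∀ g : G, ∀ z ∈ Z, g * z * g⁻¹ ∈ Z) (hX : ∀ z ∈ X, z ∉ Z) (c : ℕ)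
    (hc : ∀ Y : Subgroup G, (∀ z ∈ Y, z ∉ Z) → c ≤ Y.relIndex L) :
    Nat.card Qs * c ≤ Nat.card (X ⊓ Qs : Subgroup G) * X.relIndex K :=
  abs_relP K L Qs X hQK hLK hQ hnorm (fun z => z ∈ Z) (fun z _ hz => hZ2 z hz) (fun g _ z _ hz => hZc g z hz) hX c hc

end Cfsg.Agent.H786.IF

namespace Cfsg.Agent.H786.IF

open QuadraticMap Cfsg.Agent.LieClassical Cfsg.Agent.LieClassical.OrthCore Cfsg.Agent.LieClassical.OrthTrans
  Cfsg.Agent.AutOrth.SemiSim Cfsg.Agent.AutOrth.Gen Cfsg.Agent.H989.Gs.Gen Cfsg.Agent.H989.Fx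
open Cfsg.Agent.UGT.U2.FOne.Orth (Four)

variable {F V : Type*} [Field F] [AddCommGroup V] [Module F V] {Q : QuadraticForm F V}

/-- nondegenerate subspace -/
def Nd (Q : QuadraticForm F V) (W : Submodule F V) : Prop := ∀ x ∈ W, (∀ y ∈ W, polar Q x y = 0) → x = 0

/-- no fundamental involutions -/
def NF (Q : QuadraticForm F V) (X : Subgroup ↥(E Q)) : Prop := ∀ z ∈ X, ¬ Fund Q z

/-- the pointwise stabiliser of a subspace -/
def Fix (Q : QuadraticForm F V) (W : Submodule F V) : Subgroup ↥(E Q) where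
  carrier := {g | ∀ w ∈ W, ap g w = w}
  one_mem' := fun w _ => ap_one w
  mul_mem' := fun {a b} ha hb w hw => by rw [ap_mul, hb w hw, ha w hw]
  inv_mem' := fun {a} ha w hw => ap_inv_of (ha w hw)

theorem mem_Fix {W : Submodule F V} {g : ↥(E Q)} : g ∈ Fix Q W ↔ ∀ w ∈ W, ap g w = w := Iff.rfl

/-- the pointwise stabiliser of the orthogonal space -/
def FP (Q : QuadraticForm F V) (W : Submodule F V) : Subgroup ↥(E Q) where
  carrier := {g | ∀ v, (∀ w ∈ W, polar Q w v = 0) → ap g v = v}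
  one_mem' := fun v _ => ap_one v
  mul_mem' := fun {a b} ha hb v hv => by rw [ap_mul, hb v hv, ha v hv]
  inv_mem' := fun {a} ha v hv => ap_inv_of (ha v hv)

theorem mem_FP {W : Submodule F V} {g : ↥(E Q)} : g ∈ FP Q W ↔ ∀ v, (∀ w ∈ W, polar Q w v = 0) → ap g v = v := Iff.rfl

theorem FP_mono {W W' : Submodule F V} (h : W ≤ W') : FP Q W ≤ FP Q W' :=
  fun g hg v hv => hg v fun w hw => hv w (h hw)

theorem S_mem_FP {W : Submodule F V} {u w : V} (hu : u ∈ W) (hw : w ∈ W) (hu0 : Q u = 0) (huw : polar Q u w = 0) :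
    S Q u w ∈ FP Q W := fun v hv => S_fix hu0 huw (hv u hu) (hv w hw)

theorem finite_E [Finite F] [FiniteDimensional F V] : Finite ↥(E Q) := by
  have : Finite V := Module.finite_of_finite F
  have h1 : Finite (V ≃ₗ[F] V) := Finite.of_injective (fun g : V ≃ₗ[F] V => (g : V → V)) DFunLike.coe_injective
  infer_instance

/-- the restriction of the form -/
abbrev QR (Q : QuadraticForm F V) (W : Submodule F V) : QuadraticForm F W := Q.comp W.subtype

theorem nondeg_QR {W : Submodule F V} (hW : Nd Q W) : Nondeg (QR Q W) := by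
  intro x hx
  apply Subtype.ext
  exact hW x x.2 fun y hy => hx ⟨y, hy⟩

theorem exists_pair [Finite F] [FiniteDimensional F V] {W : Submodule F V} (hW : Nd Q W) (h3 : 3 ≤ Module.finrank F W)
    {w₀ : V} (hw : w₀ ∈ W) (hw0 : w₀ ≠ 0) : ∃ e ∈ W, ∃ f ∈ W, Hyp Q e f ∧ polar Q e w₀ ≠ 0 := by
  have hN := nondeg_QR hW
  obtain ⟨⟨x, hxW⟩, -, hx0, hx⟩ := OrthFinite.exists_sing_mem (Q := QR Q W) (⊤ : Submodule F W) (by rwa [finrank_top])
  obtain ⟨y, hxy⟩ := exists_hyp hN hx hx0
  obtain ⟨⟨u, huW⟩, hu, hu1⟩ := exists_sing_polar_one hN hxy (v := ⟨w₀, hw⟩) (by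
    intro h
    exact hw0 (congrArg Subtype.val h))
  have hu0 : (⟨u, huW⟩ : W) ≠ 0 := by
    rintro h
    rw [h, polar_zero_left] at hu1
    exact zero_ne_one hu1
  obtain ⟨⟨f, hfW⟩, hf⟩ := exists_hyp hN hu hu0
  refine ⟨u, huW, f, hfW, ⟨hf.left, hf.right, hf.pair⟩, ?_⟩
  have : polar Q u w₀ = 1 := hu1
  rw [this]
  exact one_ne_zero

/-- `p`-groups fix a nonzero vector -/
theorem exists_fixed_vec [Finite F] [FiniteDimensional F V] {p : ℕ} [hp : Fact p.Prime] [CharP F p] {R : Subgroup ↥(E Q)} (hR : IsPGroup p R)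
    {W : Submodule F V} (hW : W ≠ ⊥) (hinv : ∀ g ∈ R, ∀ w ∈ W, ap g w ∈ W) :
    ∃ w₀ ∈ W, w₀ ≠ 0 ∧ ∀ g ∈ R, ap g w₀ = w₀ := by
  have : Finite V := Module.finite_of_finite F
  let act : MulAction R W :=
    { smul := fun g w => ⟨ap (g : ↥(E Q)) w, hinv g g.2 w w.2⟩
      one_smul := fun w => rfl
      mul_smul := fun g h w => rfl }
  have hdvd : p ∣ Nat.card W := by
    obtain ⟨w, hw, hw0⟩ := Submodule.exists_mem_ne_zero_of_ne_bot hW
    have h1 : addOrderOf (⟨w, hw⟩ : W) = p := by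
      apply addOrderOf_eq_prime
      · apply Subtype.ext
        change p • w = 0
        rw [← Nat.cast_smul_eq_nsmul F, CharP.cast_eq_zero, zero_smul]
      · intro h
        exact hw0 (congrArg Subtype.val h)
    rw [← h1]
    exact addOrderOf_dvd_natCard _
  have h0 : (0 : W) ∈ MulAction.fixedPoints R W := by
    intro g
    apply Subtype.ext
    change ap (g : ↥(E Q)) 0 = 0
    exact map_zero _
  obtain ⟨⟨b, hb⟩, hbf, hb0⟩ := hR.exists_fixed_point_of_prime_dvd_card_of_fixed_point W hdvd h0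
  refine ⟨b, hb, fun h => hb0 (Subtype.ext h.symm), fun g hg => ?_⟩
  exact congrArg Subtype.val (hbf ⟨g, hg⟩)

end Cfsg.Agent.H786.IF
end

-- part: H786/IF/Heis
section
prune_inst 0xf17065444d6202000018008033201c62f200052200480000a8400e060fc8cc62ed802861a0b001121ab280c50035006001100010420000000a000000011d01a080035202b308a104060019800000000000000000000000000000000000000004000000002
set_option linter.all false
open scoped Cfsg.Agent.FastGrp

/-!
# S5719, orthogonal groups, `q` odd: the group of a totally singular line (helper786)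

`HG h P` : the elements `S e₁ v₁ * S e₂ v₂ * S e₁ (c • e₂)`, `(v₁, v₂) ∈ P`; `card_HG`, `card_inf_HG`.
-/

set_option autoImplicit false
set_option linter.unusedSectionVars false
set_option linter.unusedVariables false

namespace Cfsg.Agent.H786.IF

open QuadraticMap Cfsg.Agent.LieClassical Cfsg.Agent.LieClassical.OrthCore Cfsg.Agent.LieClassical.OrthTrans
  Cfsg.Agent.AutOrth.SemiSim Cfsg.Agent.AutOrth.Gen Cfsg.Agent.H989.Gs.Gen Cfsg.Agent.H989.Fx
open Cfsg.Agent.UGT.U2.FOne.Orth (Four)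

variable {F V : Type*} [Field F] [AddCommGroup V] [Module F V] {Q : QuadraticForm F V}

/-- orthogonal to four vectors -/
structure Pp (Q : QuadraticForm F V) (e₁ f₁ e₂ f₂ v : V) : Prop where
  a : polar Q e₁ v = 0
  b : polar Q f₁ v = 0
  c : polar Q e₂ v = 0
  d : polar Q f₂ v = 0

theorem Pp.smul {e₁ f₁ e₂ f₂ v : V} (hv : Pp Q e₁ f₁ e₂ f₂ v) (x : F) : Pp Q e₁ f₁ e₂ f₂ (x • v) :=
  ⟨by rw [polar_smul_right, hv.a, smul_zero], by rw [polar_smul_right, hv.b, smul_zero],
    by rw [polar_smul_right, hv.c, smul_zero], by rw [polar_smul_right, hv.d, smul_zero]⟩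

theorem Pp.zero {e₁ f₁ e₂ f₂ : V} : Pp Q e₁ f₁ e₂ f₂ 0 :=
  ⟨polar_zero_right _ _, polar_zero_right _ _, polar_zero_right _ _, polar_zero_right _ _⟩

theorem Pp.neg {e₁ f₁ e₂ f₂ v : V} (hv : Pp Q e₁ f₁ e₂ f₂ v) : Pp Q e₁ f₁ e₂ f₂ (-v) := by
  have := hv.smul (-1)
  rwa [neg_one_smul] at this

/-- the element `S e₁ v₁ * S e₂ v₂ * S e₁ (c • e₂)` -/
noncomputable def th (Q : QuadraticForm F V) (e₁ e₂ v₁ v₂ : V) (c : F) : ↥(E Q) :=
  S Q e₁ v₁ * S Q e₂ v₂ * S Q e₁ (c • e₂)

section four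

variable {e₁ f₁ e₂ f₂ : V} (h : Four Q e₁ f₁ e₂ f₂)

include h

theorem z_swap (c : F) : S Q e₁ (c • e₂) = S Q e₂ ((-c) • e₁) := by
  have h1 : Q (c • e₂) = 0 := by rw [QuadraticMap.map_smul, h.h2.left, smul_zero]
  have h2 : polar Q e₁ (c • e₂) = 0 := by rw [polar_smul_right, h.ee, smul_zero]
  have h3 : polar Q e₂ (-e₁) = 0 := by rw [polar_neg_right, polar_zero_of_comm h.ee, neg_zero]
  rw [S_swap h.h1.left h1 h2, S_smul c h.h2.left h3, smul_neg, neg_smul]

theorem z_comm1 {v : V} (hv : Pp Q e₁ f₁ e₂ f₂ v) (c : F) : S Q e₁ (c • e₂) * S Q e₁ v = S Q e₁ v * S Q e₁ (c • e₂) := by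
  have h2 : polar Q e₁ (c • e₂) = 0 := by rw [polar_smul_right, h.ee, smul_zero]
  rw [← S_add h.h1.left h2 hv.a, ← S_add h.h1.left hv.a h2, add_comm]

theorem z_comm2 {v : V} (hv : Pp Q e₁ f₁ e₂ f₂ v) (c : F) : S Q e₁ (c • e₂) * S Q e₂ v = S Q e₂ v * S Q e₁ (c • e₂) := by
  have h2 : polar Q e₂ ((-c) • e₁) = 0 := by rw [polar_smul_right, polar_zero_of_comm h.ee, smul_zero]
  rw [z_swap h, ← S_add h.h2.left h2 hv.c, ← S_add h.h2.left hv.c h2, add_comm]

theorem S2_e1 {v : V} (hv : Pp Q e₁ f₁ e₂ f₂ v) : ap (S Q e₂ v) e₁ = e₁ := by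
  refine S_fix h.h2.left hv.c (polar_zero_of_comm h.ee) ?_
  rw [polar_comm]
  exact hv.a

theorem comm21 {v w : V} (hv : Pp Q e₁ f₁ e₂ f₂ v) (hw : Pp Q e₁ f₁ e₂ f₂ w) :
    S Q e₂ v * S Q e₁ w = S Q e₁ w * S Q e₁ ((-polar Q v w) • e₂) * S Q e₂ v := by
  have h1 := S_conj (S Q e₂ v) e₁ w
  have h2 : ap (S Q e₂ v) w = w + (-polar Q v w) • e₂ := by
    rw [S_ap h.h2.left hv.c, hw.c]
    module
  have h3 : polar Q e₁ ((-polar Q v w) • e₂) = 0 := by rw [polar_smul_right, h.ee, smul_zero]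
  rw [S2_e1 h hv, h2, S_add h.h1.left hw.a h3, mul_inv_eq_iff_eq_mul] at h1
  exact h1

theorem z_add (c c' : F) : S Q e₁ ((c + c') • e₂) = S Q e₁ (c • e₂) * S Q e₁ (c' • e₂) := by
  have h2 : ∀ c : F, polar Q e₁ (c • e₂) = 0 := fun c => by rw [polar_smul_right, h.ee, smul_zero]
  rw [add_smul, S_add h.h1.left (h2 _) (h2 _)]

theorem th_mul {v₁ v₂ w₁ w₂ : V} (hv₁ : Pp Q e₁ f₁ e₂ f₂ v₁) (hv₂ : Pp Q e₁ f₁ e₂ f₂ v₂)
    (hw₁ : Pp Q e₁ f₁ e₂ f₂ w₁) (hw₂ : Pp Q e₁ f₁ e₂ f₂ w₂) (c c' : F) :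
    th Q e₁ e₂ v₁ v₂ c * th Q e₁ e₂ w₁ w₂ c' = th Q e₁ e₂ (v₁ + w₁) (v₂ + w₂) (c + c' - polar Q v₂ w₁) := by
  unfold th
  rw [S_add h.h1.left hv₁.a hw₁.a, S_add h.h2.left hv₂.c hw₂.c]
  have e : c + c' - polar Q v₂ w₁ = (-polar Q v₂ w₁) + (c + c') := by ring
  rw [e, z_add h, z_add h]
  calc S Q e₁ v₁ * S Q e₂ v₂ * S Q e₁ (c • e₂) * (S Q e₁ w₁ * S Q e₂ w₂ * S Q e₁ (c' • e₂))
      = S Q e₁ v₁ * S Q e₂ v₂ * (S Q e₁ (c • e₂) * S Q e₁ w₁) * S Q e₂ w₂ * S Q e₁ (c' • e₂) := by group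
    _ = S Q e₁ v₁ * (S Q e₂ v₂ * S Q e₁ w₁) * (S Q e₁ (c • e₂) * S Q e₂ w₂) * S Q e₁ (c' • e₂) := by
      rw [z_comm1 h hw₁]; group
    _ = S Q e₁ v₁ * S Q e₁ w₁ * (S Q e₁ ((-polar Q v₂ w₁) • e₂) * S Q e₂ v₂) * S Q e₂ w₂ *
        (S Q e₁ (c • e₂) * S Q e₁ (c' • e₂)) := by
      rw [comm21 h hv₂ hw₁, z_comm2 h hw₂]; group
    _ = S Q e₁ v₁ * S Q e₁ w₁ * S Q e₂ v₂ * (S Q e₁ ((-polar Q v₂ w₁) • e₂) * S Q e₂ w₂) *
        (S Q e₁ (c • e₂) * S Q e₁ (c' • e₂)) := by
      rw [z_comm2 h hv₂]; group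
    _ = _ := by
      rw [z_comm2 h hw₂]; group

theorem th_zero : th Q e₁ e₂ 0 0 0 = 1 := by
  unfold th
  rw [S_zero, S_zero, zero_smul, S_zero, mul_one, mul_one]

theorem th_inv {v₁ v₂ : V} (hv₁ : Pp Q e₁ f₁ e₂ f₂ v₁) (hv₂ : Pp Q e₁ f₁ e₂ f₂ v₂) (c : F) :
    (th Q e₁ e₂ v₁ v₂ c)⁻¹ = th Q e₁ e₂ (-v₁) (-v₂) (-c - polar Q v₂ v₁) := by
  rw [inv_eq_iff_mul_eq_one, th_mul h hv₁ hv₂ hv₁.neg hv₂.neg, add_neg_cancel, add_neg_cancel, polar_neg_right]
  rw [show c + (-c - polar Q v₂ v₁) - -polar Q v₂ v₁ = 0 by ring, th_zero h]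

theorem th_f1 {v₁ v₂ : V} (hv₁ : Pp Q e₁ f₁ e₂ f₂ v₁) (hv₂ : Pp Q e₁ f₁ e₂ f₂ v₂) (c : F) :
    ap (th Q e₁ e₂ v₁ v₂ c) f₁ = f₁ + v₁ - Q v₁ • e₁ + c • e₂ := by
  obtain ⟨p1, p2, p3, p4, p5, p6, p7, p8, p9, p10, p11, p12, p13, p14, p15, p16⟩ := h.pols
  have h2 : polar Q e₁ (c • e₂) = 0 := by rw [polar_smul_right, h.ee, smul_zero]
  have h1 : Q (c • e₂) = 0 := by rw [QuadraticMap.map_smul, h.h2.left, smul_zero]
  have k1 : ap (S Q e₁ (c • e₂)) f₁ = f₁ + c • e₂ := by
    rw [S_ap' h.h1.left h2 h1, p5, polar_smul_left, p14]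
    module
  have k2 : ap (S Q e₂ v₂) f₁ = f₁ := S_fix h.h2.left hv₂.c p14 (by rw [polar_comm]; exact hv₂.b)
  have k3 : ap (S Q e₂ v₂) e₂ = e₂ := S_fix h.h2.left hv₂.c p3 (by rw [polar_comm]; exact hv₂.c)
  have k4 : ap (S Q e₁ v₁) e₂ = e₂ := S_fix h.h1.left hv₁.a p9 (by rw [polar_comm]; exact hv₁.c)
  have k5 : ap (S Q e₁ v₁) f₁ = f₁ + v₁ - Q v₁ • e₁ := by
    rw [S_ap h.h1.left hv₁.a, p5, polar_comm Q v₁ f₁, hv₁.b]
    module
  unfold th
  rw [ap_mul, ap_mul, k1, ap_add, ap_smul, k2, k3, ap_add, ap_smul, k4, k5]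

theorem th_f2 {v₁ v₂ : V} (hv₁ : Pp Q e₁ f₁ e₂ f₂ v₁) (hv₂ : Pp Q e₁ f₁ e₂ f₂ v₂) (c : F) :
    ap (th Q e₁ e₂ v₁ v₂ c) f₂ = f₂ + v₂ - Q v₂ • e₂ - (c + polar Q v₁ v₂) • e₁ := by
  obtain ⟨p1, p2, p3, p4, p5, p6, p7, p8, p9, p10, p11, p12, p13, p14, p15, p16⟩ := h.pols
  have h2 : polar Q e₁ (c • e₂) = 0 := by rw [polar_smul_right, h.ee, smul_zero]
  have h1 : Q (c • e₂) = 0 := by rw [QuadraticMap.map_smul, h.h2.left, smul_zero]
  have k1 : ap (S Q e₁ (c • e₂)) f₂ = f₂ - c • e₁ := by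
    rw [S_ap' h.h1.left h2 h1, p11, polar_smul_left, p7, smul_eq_mul, mul_one]
    module
  have k2 : ap (S Q e₂ v₂) f₂ = f₂ + v₂ - Q v₂ • e₂ := by
    rw [S_ap h.h2.left hv₂.c, p7, polar_comm Q v₂ f₂, hv₂.d]
    module
  have k3 : ap (S Q e₂ v₂) e₁ = e₁ := S2_e1 h hv₂
  have k4 : ap (S Q e₁ v₁) e₂ = e₂ := S_fix h.h1.left hv₁.a p9 (by rw [polar_comm]; exact hv₁.c)
  have k5 : ap (S Q e₁ v₁) f₂ = f₂ := S_fix h.h1.left hv₁.a p11 (by rw [polar_comm]; exact hv₁.d)
  have k6 : ap (S Q e₁ v₁) v₂ = v₂ - polar Q v₁ v₂ • e₁ := by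
    rw [S_ap h.h1.left hv₁.a, hv₂.a]
    module
  have k7 : ap (S Q e₁ v₁) e₁ = e₁ := S_fix h.h1.left hv₁.a p1 (by rw [polar_comm]; exact hv₁.a)
  unfold th
  rw [ap_mul, ap_mul, k1, ap_sub, ap_smul, k2, k3, ap_sub, ap_sub, ap_add, ap_smul, ap_smul, k4, k5, k6, k7]
  module

theorem th_inj {v₁ v₂ w₁ w₂ : V} (hv₁ : Pp Q e₁ f₁ e₂ f₂ v₁) (hv₂ : Pp Q e₁ f₁ e₂ f₂ v₂)
    (hw₁ : Pp Q e₁ f₁ e₂ f₂ w₁) (hw₂ : Pp Q e₁ f₁ e₂ f₂ w₂) {c c' : F}
    (H : th Q e₁ e₂ v₁ v₂ c = th Q e₁ e₂ w₁ w₂ c') : v₁ = w₁ ∧ v₂ = w₂ ∧ c = c' := by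
  obtain ⟨p1, p2, p3, p4, p5, p6, p7, p8, p9, p10, p11, p12, p13, p14, p15, p16⟩ := h.pols
  have k1 : ap (th Q e₁ e₂ v₁ v₂ c) f₁ = ap (th Q e₁ e₂ w₁ w₂ c') f₁ := by rw [H]
  have k2 : ap (th Q e₁ e₂ v₁ v₂ c) f₂ = ap (th Q e₁ e₂ w₁ w₂ c') f₂ := by rw [H]
  rw [th_f1 h hv₁ hv₂, th_f1 h hw₁ hw₂] at k1
  rw [th_f2 h hv₁ hv₂, th_f2 h hw₁ hw₂] at k2
  have a1 := congrArg (polar Q f₂) k1
  have a2 := congrArg (polar Q f₁) k1
  have a3 := congrArg (polar Q f₁) k2
  have a4 := congrArg (polar Q f₂) k2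
  simp only [polar_add_right, polar_sub_right, polar_smul_right, smul_eq_mul, p2, p4, p6, p8, p12, p13, p15, p16,
    hv₁.b, hv₁.d, hv₂.b, hv₂.d, hw₁.b, hw₁.d, hw₂.b, hw₂.d] at a1 a2 a3 a4
  have b1 : c = c' := by linear_combination a1
  have b2 : Q v₁ = Q w₁ := by linear_combination -a2
  have b3 : c + polar Q v₁ v₂ = c' + polar Q w₁ w₂ := by linear_combination -a3
  have b4 : Q v₂ = Q w₂ := by linear_combination -a4
  refine ⟨?_, ?_, b1⟩
  · rw [b1, b2] at k1
    have := congrArg (fun x => x - f₁ + Q w₁ • e₁ - c' • e₂) k1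
    have l1 : f₁ + v₁ - Q w₁ • e₁ + c' • e₂ - f₁ + Q w₁ • e₁ - c' • e₂ = v₁ := by abel
    have l2 : f₁ + w₁ - Q w₁ • e₁ + c' • e₂ - f₁ + Q w₁ • e₁ - c' • e₂ = w₁ := by abel
    rwa [l1, l2] at this
  · rw [b3, b4] at k2
    have := congrArg (fun x => x - f₂ + Q w₂ • e₂ + (c' + polar Q w₁ w₂) • e₁) k2
    have l1 : f₂ + v₂ - Q w₂ • e₂ - (c' + polar Q w₁ w₂) • e₁ - f₂ + Q w₂ • e₂ + (c' + polar Q w₁ w₂) • e₁ = v₂ := by
      abel
    have l2 : f₂ + w₂ - Q w₂ • e₂ - (c' + polar Q w₁ w₂) • e₁ - f₂ + Q w₂ • e₂ + (c' + polar Q w₁ w₂) • e₁ = w₂ := by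
      abel
    rwa [l1, l2] at this

omit h in
/-- the group of the line `⟨e₁, e₂⟩` -/
noncomputable def HG (h : Four Q e₁ f₁ e₂ f₂) (P : Submodule F (V × V)) (hP : ∀ p ∈ P, Pp Q e₁ f₁ e₂ f₂ p.1 ∧ Pp Q e₁ f₁ e₂ f₂ p.2) :
    Subgroup ↥(E Q) where
  carrier := {g | ∃ p ∈ P, ∃ c : F, g = th Q e₁ e₂ p.1 p.2 c}
  one_mem' := ⟨0, P.zero_mem, 0, (th_zero h).symm⟩
  mul_mem' := by
    rintro _ _ ⟨p, hp, c, rfl⟩ ⟨p', hp', c', rfl⟩
    exact ⟨p + p', P.add_mem hp hp', _, th_mul h (hP p hp).1 (hP p hp).2 (hP p' hp').1 (hP p' hp').2 c c'⟩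
  inv_mem' := by
    rintro _ ⟨p, hp, c, rfl⟩
    exact ⟨-p, P.neg_mem hp, _, th_inv h (hP p hp).1 (hP p hp).2 c⟩

omit h in
theorem card_HG [Finite F] [FiniteDimensional F V] (h : Four Q e₁ f₁ e₂ f₂) (P : Submodule F (V × V))
    (hP : ∀ p ∈ P, Pp Q e₁ f₁ e₂ f₂ p.1 ∧ Pp Q e₁ f₁ e₂ f₂ p.2) :
    Nat.card (HG h P hP) = Nat.card F ^ (Module.finrank F P + 1) := by
  have e : Nat.card (P × F) = Nat.card (HG h P hP) := by
    refine Nat.card_congr (Equiv.ofBijective (fun x => ⟨th Q e₁ e₂ x.1.1.1 x.1.1.2 x.2, x.1.1, x.1.2, x.2, rfl⟩) ⟨?_, ?_⟩)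
    · rintro ⟨⟨p, hp⟩, c⟩ ⟨⟨p', hp'⟩, c'⟩ H
      have H' := congrArg Subtype.val H
      obtain ⟨a1, a2, a3⟩ := th_inj h (hP p hp).1 (hP p hp).2 (hP p' hp').1 (hP p' hp').2 H'
      have : p = p' := Prod.ext a1 a2
      subst this
      subst a3
      rfl
    · rintro ⟨_, p, hp, c, rfl⟩
      exact ⟨(⟨p, hp⟩, c), rfl⟩
  rw [← e, Nat.card_prod, Module.natCard_eq_pow_finrank (K := F) (V := P), pow_succ]

end four

/-! ### Isotropic additive subgroups -/

theorem card_isotropic [Finite F] {M : Type*} [AddCommGroup M] [Module F M] [FiniteDimensional F M]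
    (P : Submodule F M) (β : M →ₗ[F] M →ₗ[F] F) (halt : ∀ x ∈ P, β x x = 0)
    (hnd : ∀ x ∈ P, (∀ y ∈ P, β x y = 0) → x = 0) (D : AddSubgroup M) (hD : ∀ x ∈ D, x ∈ P)
    (hiso : ∀ x ∈ D, ∀ y ∈ D, β x y = 0) {m : ℕ} (hm : Module.finrank F P ≤ 2 * m + 1) : Nat.card D ≤ Nat.card F ^ m := by
  let B : LinearMap.BilinForm F P := (β.comp P.subtype).compl₂ P.subtype
  have hB : ∀ x y : P, B x y = β (x : M) (y : M) := fun x y => rfl
  have hBalt : B.IsAlt := fun x => halt x x.2
  have hBn : B.Nondegenerate := by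
    have h1 : LinearMap.SeparatingLeft B := by
      intro x hx
      apply Subtype.ext
      exact hnd x x.2 fun y hy => hx ⟨y, hy⟩
    refine ⟨h1, ?_⟩
    intro x hx
    apply h1
    intro y
    have h2 := hBalt.neg_eq y x
    rw [hx y, neg_zero] at h2
    exact h2.symm
  let D' : Submodule F P := Submodule.span F {x : P | (x : M) ∈ D}
  have hD' : D' ≤ B.orthogonal D' := by
    intro x hx y hy
    change B y x = 0
    refine Submodule.span_induction ?_ ?_ ?_ ?_ hy
    · intro y hy'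
      refine Submodule.span_induction ?_ ?_ ?_ ?_ hx
      · intro x hx'
        exact hiso _ hy' _ hx'
      · rw [map_zero]
      · intro a b _ _ ha hb
        rw [map_add, ha, hb, add_zero]
      · intro a b _ hb
        rw [map_smul, hb, smul_zero]
    · rw [map_zero, LinearMap.zero_apply]
    · intro a b _ _ ha hb
      rw [map_add, LinearMap.add_apply, ha, hb, add_zero]
    · intro a b _ hb
      rw [map_smul, LinearMap.smul_apply, hb, smul_zero]
  have h1 := LinearMap.BilinForm.finrank_orthogonal hBn D'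
  have h2 := Submodule.finrank_mono hD'
  have h3 := Submodule.finrank_le D'
  have h4 : Module.finrank F D' ≤ m := by omega
  have h5 : Nat.card D ≤ Nat.card D' := by
    have hfin : Finite D' := Module.finite_of_finite F
    refine Nat.card_le_card_of_injective (fun x : D => (⟨⟨x.1, hD x.1 x.2⟩, Submodule.subset_span x.2⟩ : D')) ?_
    intro x y hxy
    have h6 := congrArg (fun z : D' => ((z : P) : M)) hxy
    exact Subtype.ext h6
  refine h5.trans ?_
  rw [Module.natCard_eq_pow_finrank (K := F) (V := D')]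
  exact Nat.pow_le_pow_right Nat.card_pos h4

/-- the commutator form -/
def comF (Q : QuadraticForm F V) : (V × V) →ₗ[F] (V × V) →ₗ[F] F :=
  LinearMap.mk₂ F (fun p p' => polar Q p.2 p'.1 - polar Q p'.2 p.1)
    (fun a b c => by simp only [Prod.fst_add, Prod.snd_add, polar_add_left, polar_add_right]; ring)
    (fun a b c => by simp only [Prod.smul_fst, Prod.smul_snd, polar_smul_left, polar_smul_right, smul_eq_mul]; ring)
    (fun a b c => by simp only [Prod.fst_add, Prod.snd_add, polar_add_left, polar_add_right]; ring)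
    (fun a b c => by simp only [Prod.smul_fst, Prod.smul_snd, polar_smul_left, polar_smul_right, smul_eq_mul]; ring)

theorem comF_apply (p p' : V × V) : comF Q p p' = polar Q p.2 p'.1 - polar Q p'.2 p.1 := rfl

/-- **a subgroup which meets the centre of `HG` trivially** -/
theorem card_inf_HG [Finite F] [FiniteDimensional F V] {e₁ f₁ e₂ f₂ : V} (h : Four Q e₁ f₁ e₂ f₂)
    (P : Submodule F (V × V)) (hP : ∀ p ∈ P, Pp Q e₁ f₁ e₂ f₂ p.1 ∧ Pp Q e₁ f₁ e₂ f₂ p.2)
    (hnd : ∀ p ∈ P, (∀ p' ∈ P, comF Q p p' = 0) → p = 0) (X : Subgroup ↥(E Q))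
    (hX : ∀ c : F, S Q e₁ (c • e₂) ∈ X → c = 0) {m : ℕ} (hm : Module.finrank F P ≤ 2 * m + 1) :
    Nat.card (X ⊓ HG h P hP : Subgroup ↥(E Q)) ≤ Nat.card F ^ m := by
  have hz : ∀ c : F, th Q e₁ e₂ 0 0 c = S Q e₁ (c • e₂) := by
    intro c
    unfold th
    rw [S_zero, S_zero, one_mul, one_mul]
  let D : AddSubgroup (V × V) :=
    { carrier := {p | p ∈ P ∧ ∃ c : F, th Q e₁ e₂ p.1 p.2 c ∈ X}
      zero_mem' := ⟨P.zero_mem, 0, by
        have : th Q e₁ e₂ (0 : V × V).1 (0 : V × V).2 0 = 1 := th_zero h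
        rw [this]
        exact X.one_mem⟩
      add_mem' := by
        rintro p p' ⟨hp, c, hc⟩ ⟨hp', c', hc'⟩
        refine ⟨P.add_mem hp hp', c + c' - polar Q p.2 p'.1, ?_⟩
        rw [Prod.fst_add, Prod.snd_add, ← th_mul h (hP p hp).1 (hP p hp).2 (hP p' hp').1 (hP p' hp').2 c c']
        exact X.mul_mem hc hc'
      neg_mem' := by
        rintro p ⟨hp, c, hc⟩
        refine ⟨P.neg_mem hp, -c - polar Q p.2 p.1, ?_⟩
        rw [Prod.fst_neg, Prod.snd_neg, ← th_inv h (hP p hp).1 (hP p hp).2 c]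
        exact X.inv_mem hc }
  have huniq : ∀ p ∈ P, ∀ c c' : F, th Q e₁ e₂ p.1 p.2 c ∈ X → th Q e₁ e₂ p.1 p.2 c' ∈ X → c = c' := by
    intro p hp c c' hc hc'
    have h1 : th Q e₁ e₂ p.1 p.2 c = th Q e₁ e₂ p.1 p.2 c' * th Q e₁ e₂ 0 0 (c - c') := by
      rw [th_mul h (hP p hp).1 (hP p hp).2 Pp.zero Pp.zero, polar_zero_right, add_zero, add_zero]
      congr 1
      ring
    have h2 : th Q e₁ e₂ 0 0 (c - c') ∈ X := by
      have := X.mul_mem (X.inv_mem hc') hc
      rwa [h1, inv_mul_cancel_left] at this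
    rw [hz] at h2
    exact sub_eq_zero.1 (hX _ h2)
  have hcard : Nat.card (X ⊓ HG h P hP : Subgroup ↥(E Q)) = Nat.card D := by
    symm
    refine Nat.card_congr (Equiv.ofBijective (fun p : D => (⟨th Q e₁ e₂ p.1.1 p.1.2 (Classical.choose p.2.2),
      Classical.choose_spec p.2.2, ⟨p.1, p.2.1, _, rfl⟩⟩ : (X ⊓ HG h P hP : Subgroup ↥(E Q)))) ⟨?_, ?_⟩)
    · intro p p' H
      have H' := congrArg Subtype.val H
      obtain ⟨a1, a2, a3⟩ := th_inj h (hP p.1 p.2.1).1 (hP p.1 p.2.1).2 (hP p'.1 p'.2.1).1 (hP p'.1 p'.2.1).2 H'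
      exact Subtype.ext (Prod.ext a1 a2)
    · rintro ⟨g, hgX, p, hp, c, rfl⟩
      refine ⟨⟨p, hp, c, hgX⟩, ?_⟩
      apply Subtype.ext
      have h1 : Classical.choose (⟨c, hgX⟩ : ∃ c : F, th Q e₁ e₂ p.1 p.2 c ∈ X) = c :=
        huniq p hp _ _ (Classical.choose_spec (⟨c, hgX⟩ : ∃ c : F, th Q e₁ e₂ p.1 p.2 c ∈ X)) hgX
      change th Q e₁ e₂ p.1 p.2 (Classical.choose (⟨c, hgX⟩ : ∃ c : F, th Q e₁ e₂ p.1 p.2 c ∈ X)) = _
      rw [h1]
  rw [hcard]
  refine card_isotropic P (comF Q) (fun x _ => by rw [comF_apply, sub_self]) hnd D (fun x hx => hx.1) ?_ hm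
  rintro p ⟨hp, c, hc⟩ p' ⟨hp', c', hc'⟩
  rw [comF_apply]
  have h1 := X.mul_mem hc hc'
  have h2 := X.mul_mem hc' hc
  rw [th_mul h (hP p hp).1 (hP p hp).2 (hP p' hp').1 (hP p' hp').2] at h1
  rw [th_mul h (hP p' hp').1 (hP p' hp').2 (hP p hp).1 (hP p hp).2, add_comm p'.1, add_comm p'.2] at h2
  have h3 := huniq (p + p') (P.add_mem hp hp') _ _ h1 h2
  linear_combination -h3

end Cfsg.Agent.H786.IF
end

-- part: H786/IF/Amb
section
prune_inst 0x2
set_option linter.all false
open scoped Cfsg.Agent.FastGrp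

/-!
# S5719, orthogonal groups, `q` odd: PHI in ambient form (helper786)

`phi` : `W` a nondegenerate subspace, `K ≤ E Q` leaves `W` invariant and contains all Siegel elements of `W`; if
`c ≤ |K ∩ Fix W : Y ∩ ..|` for all `Y` without fundamental involutions, then `q ^ psi (dim W) * c ≤ |K : X ∩ K|`
for all `X` without fundamental involutions.
-/

set_option autoImplicit false
set_option linter.unusedSectionVars false
set_option linter.unusedVariables false

namespace Cfsg.Agent.H786.IF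

open QuadraticMap Cfsg.Agent.LieClassical Cfsg.Agent.LieClassical.OrthCore Cfsg.Agent.LieClassical.OrthTrans
  Cfsg.Agent.AutOrth.SemiSim Cfsg.Agent.AutOrth.Gen Cfsg.Agent.H989.Gs.Gen Cfsg.Agent.H989.Fx
open Cfsg.Agent.UGT.U2.FOne.Orth (Four)
open Cfsg.Agent.LieClassical.SLTwoUnipotent (u l)

variable {F V : Type*} [Field F] [AddCommGroup V] [Module F V] {Q : QuadraticForm F V}

theorem odd_q [Finite F] (h2 : (2 : F) ≠ 0) : Odd (Nat.card F) := by
  have := Fintype.ofFinite F
  rw [Nat.card_eq_fintype_card]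
  refine Nat.odd_iff.2 (FiniteField.odd_card_of_char_ne_two ?_)
  intro h3
  apply h2
  have h4 : ((ringChar F : ℕ) : F) = 0 := ringChar.Nat.cast_ringChar
  rw [h3] at h4
  exact_mod_cast h4

theorem relIndex_mono {G : Type*} [Group G] [Finite G] (X : Subgroup G) {K L : Subgroup G} (h : L ≤ K) :
    X.relIndex L ≤ X.relIndex K :=
  Subgroup.relIndex_le_of_le_right h (Subgroup.FiniteIndex.index_ne_zero)

/-- the vector `w₀` of `W` -/
theorem exists_w0 [Finite F] [FiniteDimensional F V] (h2 : (2 : F) ≠ 0) {X : Subgroup ↥(E Q)} (hX : NF Q X)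
    (K : Subgroup ↥(E Q)) {W : Submodule F V} (hW : W ≠ ⊥) (hK1 : ∀ g ∈ K, ∀ w ∈ W, ap g w ∈ W) :
    ∃ w₀ ∈ W, w₀ ≠ 0 ∧ ∀ x y : V, Q x = 0 → Q y = 0 → polar Q x y = 0 → S Q x y ∈ X → S Q x y ∈ K → S Q x y ≠ 1 →
      polar Q x w₀ = 0 := by
  obtain ⟨p, hp⟩ := CharP.exists F
  cases nonempty_fintype F
  have hpp : Fact p.Prime := ⟨CharP.char_is_prime F p⟩
  have hfinV : Finite V := Module.finite_of_finite F
  obtain ⟨R, hR1, hR2, -, hR3⟩ := exists_R (p := p) h2 (X := X ⊓ K) (fun z hz => hX z hz.1)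
  obtain ⟨w₀, hw, hw0, hfix⟩ := exists_fixed_vec hR2 hW (fun g hg w hw => hK1 g (hR1 hg).2 w hw)
  refine ⟨w₀, hw, hw0, fun x y hx hy hxy h1 h3 h4 => ?_⟩
  exact (polar_eq_zero_of_fix hx hy hxy h4 (hfix _ (hR3 x y hx hy hxy ⟨h1, h3⟩))).1

theorem finrank_inf_Dp [FiniteDimensional F V] {W : Submodule F V} {e f : V} (he : e ∈ W) (hf : f ∈ W)
    (h : Hyp Q e f) : Module.finrank F (W ⊓ Dp Q e f : Submodule F V) + 2 = Module.finrank F W := by
  have h' : Hyp (QR Q W) (⟨e, he⟩ : W) ⟨f, hf⟩ := ⟨h.left, h.right, h.pair⟩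
  rw [← finrank_Dp h']
  congr 1
  have e1 : (Dp (QR Q W) (⟨e, he⟩ : W) ⟨f, hf⟩).map W.subtype = W ⊓ Dp Q e f := by
    ext v
    constructor
    · rintro ⟨⟨x, hx⟩, hx', rfl⟩
      exact ⟨hx, hx'.1, hx'.2⟩
    · rintro ⟨hv, hv1, hv2⟩
      exact ⟨⟨v, hv⟩, ⟨hv1, hv2⟩, rfl⟩
  rw [← e1]
  exact Submodule.finrank_map_subtype_eq _ _

theorem nd_inf_Dp {W : Submodule F V} (hW : Nd Q W) {e f : V} (he : e ∈ W) (hf : f ∈ W)
    (h : Hyp Q e f) : Nd Q (W ⊓ Dp Q e f) := by
  rintro x ⟨hx, hx1, hx2⟩ H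
  apply hW x hx
  intro y hy
  have h1 := H (proj Q e f y) ⟨?_, polar_proj_left h y, polar_proj_right h y⟩
  · rwa [polar_proj_of_perp hx1 hx2] at h1
  · exact W.sub_mem (W.sub_mem hy (W.smul_mem _ he)) (W.smul_mem _ hf)

/-- the Siegel elements `S e w`, `w ∈ W` -/
noncomputable def QW (W : Submodule F V) {e f : V} (h : Hyp Q e f) : Subgroup ↥(E Q) where
  carrier := {g | ∃ w ∈ W ⊓ Dp Q e f, g = S Q e w}
  one_mem' := ⟨0, Submodule.zero_mem _, (S_zero e).symm⟩
  mul_mem' := by
    rintro _ _ ⟨w, hw, rfl⟩ ⟨w', hw', rfl⟩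
    exact ⟨w + w', Submodule.add_mem _ hw hw', (S_add h.left hw.2.1 hw'.2.1).symm⟩
  inv_mem' := by
    rintro _ ⟨w, hw, rfl⟩
    exact ⟨-w, Submodule.neg_mem _ hw, S_inv h.left hw.2.1⟩

theorem card_QW [Finite F] [FiniteDimensional F V] {W : Submodule F V} {e f : V} (he : e ∈ W) (hf : f ∈ W)
    (h : Hyp Q e f) : Nat.card (QW W h) = Nat.card F ^ (Module.finrank F W - 2) := by
  have e1 : Nat.card (W ⊓ Dp Q e f : Submodule F V) = Nat.card (QW W h) := by
    refine Nat.card_congr (Equiv.ofBijective (fun w => ⟨S Q e w.1, w.1, w.2, rfl⟩) ⟨?_, ?_⟩)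
    · rintro ⟨w, hw⟩ ⟨w', hw'⟩ H
      exact Subtype.ext (S_inj h hw.2 hw'.2 (congrArg Subtype.val H))
    · rintro ⟨_, w, hw, rfl⟩
      exact ⟨⟨w, hw⟩, rfl⟩
  have h1 := finrank_inf_Dp he hf h
  rw [← e1, Module.natCard_eq_pow_finrank (K := F)]
  congr 1
  omega

theorem card_inf_QW [Finite F] [FiniteDimensional F V] (h2 : (2 : F) ≠ 0) {W : Submodule F V} {e f : V}
    (h : Hyp Q e f) (X : Subgroup ↥(E Q)) (hX : ∀ w ∈ W ⊓ Dp Q e f, Q w = 0 → S Q e w ∈ X → w = 0) :
    Nat.card (X ⊓ QW W h : Subgroup ↥(E Q)) ≤ Nat.card F ^ 2 := by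
  have hfinV : Finite V := Module.finite_of_finite F
  let D : AddSubgroup V :=
    { carrier := {w | w ∈ W ⊓ Dp Q e f ∧ S Q e w ∈ X}
      zero_mem' := ⟨Submodule.zero_mem _, by rw [S_zero]; exact X.one_mem⟩
      add_mem' := by
        rintro w w' ⟨hw, h1⟩ ⟨hw', h1'⟩
        exact ⟨Submodule.add_mem _ hw hw', by rw [S_add h.left hw.2.1 hw'.2.1]; exact X.mul_mem h1 h1'⟩
      neg_mem' := by
        rintro w ⟨hw, h1⟩
        exact ⟨Submodule.neg_mem _ hw, by rw [← S_inv h.left hw.2.1]; exact X.inv_mem h1⟩ }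
  have e1 : Nat.card D = Nat.card (X ⊓ QW W h : Subgroup ↥(E Q)) := by
    refine Nat.card_congr (Equiv.ofBijective (fun w => ⟨S Q e w.1, w.2.2, w.1, w.2.1, rfl⟩) ⟨?_, ?_⟩)
    · rintro ⟨w, hw⟩ ⟨w', hw'⟩ H
      exact Subtype.ext (S_inj h hw.1.2 hw'.1.2 (congrArg Subtype.val H))
    · rintro ⟨_, hg, w, hw, rfl⟩
      exact ⟨⟨w, hw, hg⟩, rfl⟩
  rw [← e1]
  exact card_le_sq h2 D fun a ha ha0 => hX a ha.1 ha0 ha.2

theorem S_ne_one {e f : V} (h : Hyp Q e f) {w : V} (hw : w ∈ Dp Q e f) (hw0 : w ≠ 0) : S Q e w ≠ 1 := by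
  intro h1
  apply hw0
  apply S_inj h hw (Submodule.zero_mem _)
  rw [h1, S_zero]

theorem pow_cancel {q a b c m : ℕ} (hq : 0 < q) (h : q ^ (a + m) * c ≤ b * q ^ m) : q ^ a * c ≤ b := by
  have h1 : q ^ m * (q ^ a * c) ≤ q ^ m * b := by
    calc q ^ m * (q ^ a * c) = q ^ (a + m) * c := by rw [pow_add]; ring
      _ ≤ b * q ^ m := h
      _ = q ^ m * b := mul_comm _ _
  exact Nat.le_of_mul_le_mul_left h1 (pow_pos hq m)

/-- the conditions on the class `P` of bad involutions, relative to `K` and `W` -/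
structure Bad (Q : QuadraticForm F V) (P : ↥(E Q) → Prop) (K : Subgroup ↥(E Q)) (W : Submodule F V) : Prop where
  sq : ∀ z ∈ K, P z → z * z = 1
  conj : ∀ g ∈ K, ∀ z ∈ K, P z → P (g * z * g⁻¹)
  fund : ∀ z ∈ K, z ∈ FP Q W → Fund Q z → P z

theorem Bad.mono {P : ↥(E Q) → Prop} {K K' : Subgroup ↥(E Q)} {W W' : Submodule F V} (h : Bad Q P K W) (hK : K' ≤ K)
    (hW : W' ≤ W) : Bad Q P K' W' :=
  ⟨fun z hz => h.sq z (hK hz), fun g hg z hz => h.conj g (hK hg) z (hK hz),
    fun z hz hz' => h.fund z (hK hz) (FP_mono hW hz')⟩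

theorem bad_fund (K : Subgroup ↥(E Q)) (W : Submodule F V) : Bad Q (Fund Q) K W :=
  ⟨fun z _ hz => Fund.sq hz, fun g _ z _ hz => Fund.conj hz g, fun z _ _ hz => hz⟩

/-- **one step** -/
theorem stepP [Finite F] [FiniteDimensional F V] (h2 : (2 : F) ≠ 0) (K : Subgroup ↥(E Q)) (W : Submodule F V)
    (P : ↥(E Q) → Prop) (hP : Bad Q P K W)
    (hW : Nd Q W) (hd : 4 ≤ Module.finrank F W) (hK1 : ∀ g ∈ K, ∀ w ∈ W, ap g w ∈ W)
    (hK2 : ∀ u ∈ W, ∀ w ∈ W, Q u = 0 → polar Q u w = 0 → S Q u w ∈ K) (X : Subgroup ↥(E Q)) (hX : ∀ z ∈ X, ¬ P z) :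
    ∃ e ∈ W, ∃ f ∈ W, Hyp Q e f ∧ ∀ c : ℕ,
      (∀ Y : Subgroup ↥(E Q), (∀ z ∈ Y, ¬ P z) → c ≤ Y.relIndex (K ⊓ Fix Q (Submodule.span F {e, f}))) →
      Nat.card F ^ (Module.finrank F W - 4) * c ≤ X.relIndex K := by
  have hfE : Finite ↥(E Q) := Cfsg.Agent.H786.IF.finite_E
  have hWb : W ≠ ⊥ := by
    rintro rfl
    rw [finrank_bot] at hd
    omega
  obtain ⟨w₀, hw, hw0, hR⟩ := exists_w0 h2 (X := X ⊓ (K ⊓ FP Q W)) (fun z hz hF => hX z hz.1 (hP.fund z hz.2.1 hz.2.2 hF))
    (K ⊓ FP Q W) hWb (fun g hg => hK1 g hg.1)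
  obtain ⟨e, he, f, hf, h, hew⟩ := exists_pair hW (by omega) hw hw0
  refine ⟨e, he, f, hf, h, fun c hc => ?_⟩
  have hfix : ∀ g ∈ Fix Q (Submodule.span F {e, f}), ap g e = e ∧ ap g f = f := fun g hg =>
    ⟨hg e (Submodule.subset_span (by simp)), hg f (Submodule.subset_span (by simp))⟩
  have habs := abs_relP K (K ⊓ Fix Q (Submodule.span F {e, f})) (QW W h) X (by
      rintro _ ⟨w, hw, rfl⟩
      exact hK2 e he w hw.1 h.left hw.2.1) inf_le_left (by
      rw [card_QW he hf h]
      exact (odd_q h2).pow) (by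
      rintro g ⟨hgK, hgF⟩ _ ⟨w, hw, rfl⟩
      obtain ⟨h1, h3⟩ := hfix g hgF
      rw [S_conj, h1]
      refine ⟨ap g w, ⟨hK1 g hgK w hw.1, ?_, ?_⟩, rfl⟩
      · rw [← h1, polar_ap]
        exact hw.2.1
      · rw [← h3, polar_ap]
        exact hw.2.2) P hP.sq hP.conj hX c hc
  have hle := card_inf_QW (W := W) h2 h X (by
    intro w hw1 hw2 hw3
    by_contra hne
    have hm : S Q e w ∈ K ⊓ FP Q W :=
      ⟨hK2 e he w hw1.1 h.left hw1.2.1, S_mem_FP he hw1.1 h.left hw1.2.1⟩
    exact hew (hR e w h.left hw2 hw1.2.1 ⟨hw3, hm⟩ hm (S_ne_one h hw1.2 hne)))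
  rw [card_QW he hf h] at habs
  refine pow_cancel (m := 2) Nat.card_pos ?_
  have e1 : Module.finrank F W - 4 + 2 = Module.finrank F W - 2 := by omega
  rw [e1]
  calc _ ≤ _ := habs
    _ ≤ Nat.card F ^ 2 * X.relIndex K := Nat.mul_le_mul_right _ hle
    _ = _ := mul_comm _ _

end Cfsg.Agent.H786.IF
end
end

-- part: H786/IF/PhiA
section
prune_inst 0x20000000000002
set_option linter.all false
open scoped Cfsg.Agent.FastGrp

/-!
# S5719, orthogonal groups, `q` odd: the base of PHI (dimensions 5, 6) and PHI in ambient form (helper786)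
-/

set_option autoImplicit false
set_option linter.unusedSectionVars false
set_option linter.unusedVariables false
set_option linter.unusedSimpArgs false

namespace Cfsg.Agent.H786.IF

open QuadraticMap Cfsg.Agent.LieClassical Cfsg.Agent.LieClassical.OrthCore Cfsg.Agent.LieClassical.OrthTrans
  Cfsg.Agent.AutOrth.SemiSim Cfsg.Agent.AutOrth.Gen Cfsg.Agent.H989.Gs.Gen Cfsg.Agent.H989.Fx
open Cfsg.Agent.UGT.U2.FOne.Orth (Four tl_comb')
open Cfsg.Agent.LieClassical.SLTwoUnipotent (u l)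
open Matrix (SpecialLinearGroup)

variable {F V : Type*} [Field F] [AddCommGroup V] [Module F V] {Q : QuadraticForm F V}

section four

variable {e₁ f₁ e₂ f₂ : V} (h : Four Q e₁ f₁ e₂ f₂)

include h

theorem rot : Four Q e₂ f₂ f₁ e₁ :=
  ⟨h.h2, h.h1.symm, polar_zero_of_comm h.fe, polar_zero_of_comm h.ee, polar_zero_of_comm h.ff, polar_zero_of_comm h.ef⟩

theorem S_line {v : V} (hv : Pp Q e₁ f₁ e₂ f₂ v) (x y : F) :
    S Q (x • e₁ + y • e₂) v = th Q e₁ e₂ (x • v) (y • v) (-(x * y * Q v)) := by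
  obtain ⟨p1, p2, p3, p4, p5, p6, p7, p8, p9, p10, p11, p12, p13, p14, p15, p16⟩ := h.pols
  have k1 : polar Q (x • e₁ + y • e₂) v = 0 := by
    rw [polar_add_left, polar_smul_left, polar_smul_left, hv.a, hv.c, smul_zero, smul_zero, add_zero]
  have k2 : Q (-(x * y * Q v) • e₂) = 0 := by rw [QuadraticMap.map_smul, h.h2.left, smul_zero]
  have k3 : polar Q e₁ (-(x * y * Q v) • e₂) = 0 := by rw [polar_smul_right, p9, smul_zero]
  have k4 := (hv.smul x).a
  have k5 := (hv.smul y).c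
  have n1 : polar Q v e₁ = 0 := by rw [polar_comm]; exact hv.a
  have n2 : polar Q v e₂ = 0 := by rw [polar_comm]; exact hv.c
  have n3 : polar Q v v = 2 * Q v := polar_self' v
  apply ext_ap
  intro t
  unfold th
  rw [ap_mul, ap_mul, S_ap' h.h1.left k3 k2, S_ap h.h2.left k5, S_ap h.h1.left k4,
    S_ap (Q_comb h.h1.left h.h2.left h.ee x y) k1]
  simp only [QuadraticMap.map_smul, polar_add_left, polar_add_right, polar_sub_left, polar_sub_right, polar_smul_left, polar_smul_right,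
    smul_eq_mul, p1, p3, p9, p10, hv.a, hv.c, n1, n2, n3]
  module

theorem S_line' (x y x' y' c : F) :
    S Q (x • e₁ + y • e₂) (c • (x' • e₁ + y' • e₂)) = th Q e₁ e₂ 0 0 (c * (x * y' - y * x')) := by
  unfold th
  rw [S_zero, S_zero, one_mul, one_mul]
  apply ext_ap
  intro v
  rw [ap_S_tl (Q_comb h.h1.left h.h2.left h.ee x y) (by rw [QuadraticMap.map_smul, Q_comb h.h1.left h.h2.left h.ee, smul_zero])
    (by rw [polar_smul_right, polar_comb h.h1.left h.h2.left h.ee, smul_zero]),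
    ap_S_tl h.h1.left (by rw [QuadraticMap.map_smul, h.h2.left, smul_zero]) (by rw [polar_smul_right, h.ee, smul_zero]),
    tl_comb']

theorem rhoE_u (t : F) : h.rhoE (u t) = S Q e₁ ((-t) • f₂) := by
  rw [S_eq h.h1.left (h.e1_s t)]
  exact Subtype.ext (h.rho_u' t)

theorem rhoE_l (t : F) : h.rhoE (l t) = S Q e₂ ((-t) • f₁) := by
  rw [S_eq h.h2.left (h.e2_s t)]
  exact Subtype.ext (h.rho_l' t)

theorem rhoE_e1 (A : SpecialLinearGroup (Fin 2) F) : ap (h.rhoE A) e₁ = A.1 0 0 • e₁ + A.1 1 0 • e₂ := h.rho_e1 A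

theorem rhoE_e2 (A : SpecialLinearGroup (Fin 2) F) : ap (h.rhoE A) e₂ = A.1 0 1 • e₁ + A.1 1 1 • e₂ := h.rho_e2 A

theorem rhoE_perp (A : SpecialLinearGroup (Fin 2) F) {v : V} (hv : Pp Q e₁ f₁ e₂ f₂ v) : ap (h.rhoE A) v = v :=
  h.rho_perp hv.a hv.b hv.c hv.d A

end four

theorem le_normalizer_of {G : Type*} [Group G] {S H : Subgroup G} (h : ∀ g ∈ S, ∀ x ∈ H, g * x * g⁻¹ ∈ H) :
    S ≤ Subgroup.normalizer (H : Set G) := by
  intro g hg
  rw [Subgroup.mem_normalizer_iff]
  intro x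
  constructor
  · exact h g hg x
  · intro hx
    have := h _ (S.inv_mem hg) _ hx
    rwa [inv_inv, mul_assoc, mul_assoc, inv_mul_cancel, mul_one, inv_mul_cancel_left] at this

theorem range_rhoE_le {e₁ f₁ e₂ f₂ : V} (h : Four Q e₁ f₁ e₂ f₂) {K : Subgroup ↥(E Q)}
    (h1 : ∀ a : F, S Q e₁ (a • f₂) ∈ K) (h2 : ∀ a : F, S Q e₂ (a • f₁) ∈ K) : h.rhoE.range ≤ K := by
  have h3 : K.comap h.rhoE = ⊤ := by
    apply SLTwoUnipotent.eq_top_of_u_mem_of_l_mem
    · intro t
      rw [Subgroup.mem_comap, rhoE_u]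
      exact h1 _
    · intro t
      rw [Subgroup.mem_comap, rhoE_l]
      exact h2 _
  rintro _ ⟨A, rfl⟩
  have : A ∈ K.comap h.rhoE := by rw [h3]; trivial
  exact this

/-- the long root `SL₂` gives a factor `q` -/
theorem sl_step [Finite F] [FiniteDimensional F V] (h2 : (2 : F) ≠ 0) {e₁ f₁ e₂ f₂ : V} (h : Four Q e₁ f₁ e₂ f₂)
    (L K₀ : Subgroup ↥(E Q)) (P : ↥(E Q) → Prop) (hP2 : ∀ z ∈ L, P z → z * z = 1)
    (hPc : ∀ g ∈ L, ∀ z ∈ L, P z → P (g * z * g⁻¹)) (hPF : ∀ z ∈ h.rhoE.range, Fund Q z → P z) (hL1 : h.rhoE.range ≤ L) (hL2 : K₀ ≤ L)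
    (hfix : ∀ g ∈ K₀, ap g e₁ = e₁ ∧ ap g f₁ = f₁ ∧ ap g e₂ = e₂ ∧ ap g f₂ = f₂) (c : ℕ)
    (hc : ∀ Y : Subgroup ↥(E Q), (∀ z ∈ Y, ¬ P z) → c ≤ Y.relIndex K₀) (Y : Subgroup ↥(E Q)) (hY : ∀ z ∈ Y, ¬ P z) :
    Nat.card F * c ≤ Y.relIndex L := by
  have hfE : Finite ↥(E Q) := Cfsg.Agent.H786.IF.finite_E
  have key : ∀ {a b a' b' : V} (h' : Four Q a b a' b'), (∀ x : F, S Q a (x • a') ∈ L) →
      (∀ g ∈ K₀, ap g a = a ∧ ap g a' = a') → (∀ x : F, S Q a (x • a') ∈ Y → x = 0) →
      Nat.card F * c ≤ Y.relIndex L := by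
    intro a b a' b' h' k1 k2 k3
    have hP0 : ∀ p ∈ (⊥ : Submodule F (V × V)), Pp Q a b a' b' p.1 ∧ Pp Q a b a' b' p.2 := by
      rintro p hp
      rw [Submodule.mem_bot] at hp
      rw [hp]
      exact ⟨Pp.zero, Pp.zero⟩
    have hmem : ∀ g ∈ HG h' ⊥ hP0, ∃ x : F, g = S Q a (x • a') := by
      rintro _ ⟨p, hp, x, rfl⟩
      rw [Submodule.mem_bot] at hp
      refine ⟨x, ?_⟩
      rw [hp]
      unfold th
      rw [Prod.fst_zero, Prod.snd_zero, S_zero, S_zero, one_mul, one_mul]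
    have hmem' : ∀ x : F, S Q a (x • a') ∈ HG h' ⊥ hP0 := by
      intro x
      refine ⟨0, Submodule.zero_mem _, x, ?_⟩
      unfold th
      rw [Prod.fst_zero, Prod.snd_zero, S_zero, S_zero, one_mul, one_mul]
    have hcard : Nat.card (HG h' ⊥ hP0) = Nat.card F := by
      rw [card_HG h' ⊥ hP0, finrank_bot, zero_add, pow_one]
    have habs := abs_relP L K₀ (HG h' ⊥ hP0) Y (by
        intro g hg
        obtain ⟨x, rfl⟩ := hmem g hg
        exact k1 x) hL2 (by rw [hcard]; exact odd_q h2) (by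
        intro g hg x hx
        obtain ⟨y, rfl⟩ := hmem x hx
        rw [S_conj, ap_smul, (k2 g hg).1, (k2 g hg).2]
        exact hmem' y) P hP2 hPc hY c hc
    have hle : Nat.card (Y ⊓ HG h' ⊥ hP0 : Subgroup ↥(E Q)) ≤ Nat.card F ^ 0 := by
      refine card_inf_HG h' ⊥ hP0 (fun p hp _ => by rwa [Submodule.mem_bot] at hp) Y k3 ?_
      rw [finrank_bot]
      omega
    rw [pow_zero] at hle
    rw [hcard] at habs
    calc _ ≤ _ := habs
      _ ≤ 1 * Y.relIndex L := Nat.mul_le_mul_right _ hle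
      _ = _ := one_mul _
  by_cases hu : ∃ a : F, a ≠ 0 ∧ S Q e₁ (a • f₂) ∈ Y
  · by_cases hl : ∃ b : F, b ≠ 0 ∧ S Q e₂ (b • f₁) ∈ Y
    · exfalso
      obtain ⟨a, ha, ha'⟩ := hu
      obtain ⟨b, hb, hb'⟩ := hl
      obtain ⟨A, hA, hA1⟩ := exists_neg_one h2 (H := Y.comap h.rhoE) (a := -a) (c := -b) (neg_ne_zero.2 ha) (neg_ne_zero.2 hb)
        (by rw [Subgroup.mem_comap, rhoE_u, neg_neg]; exact ha') (by rw [Subgroup.mem_comap, rhoE_l, neg_neg]; exact hb')
      exact hY _ hA (hPF _ ⟨A, rfl⟩ (fund_of_four h hA1))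
    · push Not at hl
      refine key (rot h) (fun x => ?_) (fun g hg => ⟨(hfix g hg).2.2.1, (hfix g hg).2.1⟩) (fun x hx => ?_)
      · have := hL1 ⟨l (-x), rfl⟩
        rwa [rhoE_l, neg_neg] at this
      · by_contra hne
        exact hl x hne hx
  · push Not at hu
    refine key h.swap (fun x => ?_) (fun g hg => ⟨(hfix g hg).1, (hfix g hg).2.2.2⟩) (fun x hx => ?_)
    · have := hL1 ⟨u (-x), rfl⟩
      rwa [rhoE_u, neg_neg] at this
    · by_contra hne
      exact hu x hne hx

theorem finrank_sq [FiniteDimensional F V] (U : Submodule F V) :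
    Module.finrank F (U.prod U) = 2 * Module.finrank F U := by
  let e : (U.prod U) ≃ₗ[F] U × U :=
    { toFun := fun p => (⟨p.1.1, p.2.1⟩, ⟨p.1.2, p.2.2⟩)
      map_add' := fun p q => rfl
      map_smul' := fun c p => rfl
      invFun := fun p => ⟨(p.1.1, p.2.1), p.1.2, p.2.2⟩
      left_inv := fun p => rfl
      right_inv := fun p => rfl }
  rw [e.finrank_eq, Module.finrank_prod]
  ring

/-- **the base**: dimension at least 5, gain `dim W - 2` -/
theorem baseP [Finite F] [FiniteDimensional F V] (h2 : (2 : F) ≠ 0) (K : Subgroup ↥(E Q)) (W : Submodule F V)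
    (P : ↥(E Q) → Prop) (hPb : Bad Q P K W)
    (hW : Nd Q W) (hd : 5 ≤ Module.finrank F W) (hK1 : ∀ g ∈ K, ∀ w ∈ W, ap g w ∈ W)
    (hK2 : ∀ u ∈ W, ∀ w ∈ W, Q u = 0 → polar Q u w = 0 → S Q u w ∈ K) (c : ℕ)
    (hc : ∀ Y : Subgroup ↥(E Q), (∀ z ∈ Y, ¬ P z) → c ≤ Y.relIndex (K ⊓ Fix Q W)) (X : Subgroup ↥(E Q)) (hX : ∀ z ∈ X, ¬ P z) :
    Nat.card F ^ (Module.finrank F W - 2) * c ≤ X.relIndex K := by
  have hfE : Finite ↥(E Q) := Cfsg.Agent.H786.IF.finite_E
  have hWb : W ≠ ⊥ := by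
    rintro rfl
    rw [finrank_bot] at hd
    omega
  obtain ⟨w₀, hw, hw0, hR⟩ := exists_w0 h2 (X := X ⊓ (K ⊓ FP Q W)) (fun z hz hF => hX z hz.1 (hPb.fund z hz.2.1 hz.2.2 hF))
    (K ⊓ FP Q W) hWb (fun g hg => hK1 g hg.1)
  obtain ⟨e₁, he₁, f₁, hf₁, hh1, hew⟩ := exists_pair hW (by omega) hw hw0
  have hdim1 := finrank_inf_Dp he₁ hf₁ hh1
  have hW1 := nd_inf_Dp hW he₁ hf₁ hh1
  obtain ⟨x, hx, hx0, -⟩ := OrthFinite.exists_sing_mem (Q := Q) (W ⊓ Dp Q e₁ f₁) (by omega)
  obtain ⟨e₂, he₂, f₂, hf₂, hh2, -⟩ := exists_pair hW1 (by omega) hx hx0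
  have hdim2 := finrank_inf_Dp he₂ hf₂ hh2
  have hU := nd_inf_Dp hW1 he₂ hf₂ hh2
  set U := W ⊓ Dp Q e₁ f₁ ⊓ Dp Q e₂ f₂ with hUdef
  have h4 : Four Q e₁ f₁ e₂ f₂ := ⟨hh1, hh2, he₂.2.1, hf₂.2.1, he₂.2.2, hf₂.2.2⟩
  have hUW : U ≤ W := inf_le_left.trans inf_le_left
  have hUP : ∀ v ∈ U, Pp Q e₁ f₁ e₂ f₂ v := fun v hv => ⟨hv.1.2.1, hv.1.2.2, hv.2.1, hv.2.2⟩
  have hP : ∀ p ∈ U.prod U, Pp Q e₁ f₁ e₂ f₂ p.1 ∧ Pp Q e₁ f₁ e₂ f₂ p.2 := fun p hp => ⟨hUP _ hp.1, hUP _ hp.2⟩
  set H := HG h4 (U.prod U) hP with hHdef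
  have hcard : Nat.card H = Nat.card F ^ (2 * (Module.finrank F W - 4) + 1) := by
    rw [hHdef, card_HG, finrank_sq]
    congr 2
    omega
  have hL2 : h4.rhoE.range ≤ K := range_rhoE_le h4
    (fun a => hK2 _ he₁ _ (W.smul_mem _ hf₂.1) hh1.left (by rw [polar_smul_right, h4.ef, smul_zero]))
    (fun a => hK2 _ he₂.1 _ (W.smul_mem _ hf₁) hh2.left (by rw [polar_smul_right, polar_zero_of_comm h4.fe, smul_zero]))
  have hmemz : ∀ c : F, th Q e₁ e₂ 0 0 c ∈ H := fun c => ⟨0, Submodule.zero_mem _, c, rfl⟩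
  have hnormal : h4.rhoE.range ⊔ (K ⊓ Fix Q W) ≤ Subgroup.normalizer (H : Set ↥(E Q)) := by
    refine sup_le (le_normalizer_of ?_) (le_normalizer_of ?_)
    · rintro _ ⟨A, rfl⟩ _ ⟨p, hp, c, rfl⟩
      have e0 : (h4.rhoE A) * th Q e₁ e₂ p.1 p.2 c * (h4.rhoE A)⁻¹ =
          S Q (A.1 0 0 • e₁ + A.1 1 0 • e₂) p.1 * S Q (A.1 0 1 • e₁ + A.1 1 1 • e₂) p.2 *
            S Q (A.1 0 0 • e₁ + A.1 1 0 • e₂) (c • (A.1 0 1 • e₁ + A.1 1 1 • e₂)) := by
        have k1 := S_conj (h4.rhoE A) e₁ p.1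
        have k2 := S_conj (h4.rhoE A) e₂ p.2
        have k3 := S_conj (h4.rhoE A) e₁ (c • e₂)
        rw [rhoE_e1, rhoE_perp h4 A (hUP _ hp.1)] at k1
        rw [rhoE_e2, rhoE_perp h4 A (hUP _ hp.2)] at k2
        rw [ap_smul, rhoE_e1, rhoE_e2] at k3
        rw [← k1, ← k2, ← k3]
        unfold th
        group
      have e1 := S_line h4 (hUP _ hp.1) (A.1 0 0) (A.1 1 0)
      have e2 := S_line h4 (hUP _ hp.2) (A.1 0 1) (A.1 1 1)
      have e3 := S_line' h4 (A.1 0 0) (A.1 1 0) (A.1 0 1) (A.1 1 1) c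
      rw [e0, e1, e2, e3]
      refine H.mul_mem (H.mul_mem ?_ ?_) (hmemz _)
      · exact ⟨(A.1 0 0 • p.1, A.1 1 0 • p.1), ⟨U.smul_mem _ hp.1, U.smul_mem _ hp.1⟩, _, rfl⟩
      · exact ⟨(A.1 0 1 • p.2, A.1 1 1 • p.2), ⟨U.smul_mem _ hp.2, U.smul_mem _ hp.2⟩, _, rfl⟩
    · rintro g ⟨-, hg⟩ _ ⟨p, hp, c, rfl⟩
      have e0 : g * th Q e₁ e₂ p.1 p.2 c * g⁻¹ = th Q e₁ e₂ p.1 p.2 c := by
        have k1 := S_conj g e₁ p.1
        have k2 := S_conj g e₂ p.2
        have k3 := S_conj g e₁ (c • e₂)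
        rw [hg _ he₁, hg _ (hUW hp.1)] at k1
        rw [hg _ he₂.1, hg _ (hUW hp.2)] at k2
        rw [ap_smul, hg _ he₁, hg _ he₂.1] at k3
        unfold th
        conv_rhs => rw [← k1, ← k2, ← k3]
        group
      rw [e0]
      exact ⟨p, hp, c, rfl⟩
  have hrho : h4.rhoE.range ≤ FP Q W := range_rhoE_le h4
    (fun a => S_mem_FP he₁ (W.smul_mem _ hf₂.1) hh1.left (by rw [polar_smul_right, h4.ef, smul_zero]))
    (fun a => S_mem_FP he₂.1 (W.smul_mem _ hf₁) hh2.left (by rw [polar_smul_right, polar_zero_of_comm h4.fe, smul_zero]))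
  have hLK : h4.rhoE.range ⊔ (K ⊓ Fix Q W) ≤ K := sup_le hL2 inf_le_left
  have hsl : ∀ Y : Subgroup ↥(E Q), (∀ z ∈ Y, ¬ P z) → Nat.card F * c ≤ Y.relIndex (h4.rhoE.range ⊔ (K ⊓ Fix Q W)) := by
    intro Y hY
    exact sl_step h2 h4 _ (K ⊓ Fix Q W) P (fun z hz => hPb.sq z (hLK hz)) (fun g hg z hz => hPb.conj g (hLK hg) z (hLK hz))
      (fun z hz => hPb.fund z (hL2 hz) (hrho hz)) le_sup_left le_sup_right
      (fun g hg => ⟨hg.2 _ he₁, hg.2 _ hf₁, hg.2 _ he₂.1, hg.2 _ hf₂.1⟩) c hc Y hY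
  have hHK : H ≤ K := by
    rintro _ ⟨p, hp, c, rfl⟩
    refine K.mul_mem (K.mul_mem ?_ ?_) ?_
    · exact hK2 _ he₁ _ (hUW hp.1) hh1.left (hUP _ hp.1).a
    · exact hK2 _ he₂.1 _ (hUW hp.2) hh2.left (hUP _ hp.2).c
    · exact hK2 _ he₁ _ (W.smul_mem _ he₂.1) hh1.left (by rw [polar_smul_right, h4.ee, smul_zero])
  have habs := abs_relP K (h4.rhoE.range ⊔ (K ⊓ Fix Q W)) H X hHK hLK
    (by rw [hcard]; exact (odd_q h2).pow)
    (fun l hl x hx => (Subgroup.mem_normalizer_iff.1 (hnormal hl) x).1 hx) P hPb.sq hPb.conj hX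
    (Nat.card F * c) hsl
  have hle : Nat.card (X ⊓ H : Subgroup ↥(E Q)) ≤ Nat.card F ^ (Module.finrank F W - 4) := by
    refine card_inf_HG h4 (U.prod U) hP ?_ X ?_ ?_
    · intro p hp H
      have a1 : p.2 = 0 := by
        apply hU p.2 hp.2
        intro y hy
        have := H (y, 0) ⟨hy, U.zero_mem⟩
        rw [comF_apply] at this
        simpa using this
      have a2 : p.1 = 0 := by
        apply hU p.1 hp.1
        intro y hy
        have := H (0, y) ⟨U.zero_mem, hy⟩
        rw [comF_apply] at this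
        rw [polar_comm]
        simpa using this
      exact Prod.ext a2 a1
    · intro c hc
      by_contra hne
      have hm : S Q e₁ (c • e₂) ∈ K ⊓ FP Q W :=
        ⟨hK2 _ he₁ _ (W.smul_mem _ he₂.1) hh1.left (by rw [polar_smul_right, h4.ee, smul_zero]),
          S_mem_FP he₁ (W.smul_mem _ he₂.1) hh1.left (by rw [polar_smul_right, h4.ee, smul_zero])⟩
      refine hew (hR e₁ (c • e₂) hh1.left ?_ ?_ ⟨hc, hm⟩ hm ?_)
      · rw [QuadraticMap.map_smul, hh2.left, smul_zero]
      · rw [polar_smul_right, h4.ee, smul_zero]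
      · refine S_ne_one hh1 (Submodule.smul_mem _ _ he₂.2) ?_
        exact smul_ne_zero hne hh2.left_ne
    · rw [finrank_sq]
      omega
  rw [hcard] at habs
  refine pow_cancel (m := Module.finrank F W - 4) Nat.card_pos ?_
  calc Nat.card F ^ (Module.finrank F W - 2 + (Module.finrank F W - 4)) * c
      = Nat.card F ^ (2 * (Module.finrank F W - 4) + 1) * (Nat.card F * c) := by
        rw [← mul_assoc, ← pow_succ]
        congr 2
        omega
    _ ≤ _ := habs
    _ ≤ Nat.card F ^ (Module.finrank F W - 4) * X.relIndex K := Nat.mul_le_mul_right _ hle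
    _ = _ := mul_comm _ _

/-- the exponent -/
def psi : ℕ → ℕ
  | 0 => 0
  | 1 => 0
  | 2 => 0
  | 3 => 0
  | 4 => 0
  | 5 => 3
  | 6 => 4
  | (n + 7) => n + 3 + psi (n + 5)

/-- **PHI, ambient form**, for a class `P` of bad involutions -/
theorem phiP [Finite F] [FiniteDimensional F V] (h2 : (2 : F) ≠ 0) (P : ↥(E Q) → Prop) (n : ℕ) : ∀ (K : Subgroup ↥(E Q)) (W : Submodule F V),
    Bad Q P K W →
    Nd Q W → Module.finrank F W = n → (∀ g ∈ K, ∀ w ∈ W, ap g w ∈ W) →
    (∀ u ∈ W, ∀ w ∈ W, Q u = 0 → polar Q u w = 0 → S Q u w ∈ K) → ∀ c : ℕ,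
    (∀ Y : Subgroup ↥(E Q), (∀ z ∈ Y, ¬ P z) → c ≤ Y.relIndex (K ⊓ Fix Q W)) → ∀ X : Subgroup ↥(E Q), (∀ z ∈ X, ¬ P z) →
    Nat.card F ^ psi n * c ≤ X.relIndex K := by
  have hfE : Finite ↥(E Q) := Cfsg.Agent.H786.IF.finite_E
  induction n using Nat.strong_induction_on with
  | _ n ih =>
  intro K W hPb hW hn hK1 hK2 c hc X hX
  have htriv : ∀ m : ℕ, psi m = 0 → Nat.card F ^ psi m * c ≤ X.relIndex K := by
    intro m hm
    rw [hm, pow_zero, one_mul]
    exact (hc X hX).trans (relIndex_mono X inf_le_left)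
  match n, ih, hn with
  | 0, _, _ => exact htriv 0 rfl
  | 1, _, _ => exact htriv 1 rfl
  | 2, _, _ => exact htriv 2 rfl
  | 3, _, _ => exact htriv 3 rfl
  | 4, _, _ => exact htriv 4 rfl
  | 5, _, hn =>
    have := baseP h2 K W P hPb hW (by omega) hK1 hK2 c hc X hX
    rwa [hn] at this
  | 6, _, hn =>
    have := baseP h2 K W P hPb hW (by omega) hK1 hK2 c hc X hX
    rwa [hn] at this
  | (m + 7), ih, hn =>
    obtain ⟨e, he, f, hf, h, hstep⟩ := stepP h2 K W P hPb hW (by omega) hK1 hK2 X hX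
    have hdim := finrank_inf_Dp he hf h
    have h1 := hstep (Nat.card F ^ psi (m + 5) * c) (by
      intro Y hY
      refine ih (m + 5) (by omega) (K ⊓ Fix Q (Submodule.span F {e, f})) (W ⊓ Dp Q e f)
        (hPb.mono inf_le_left inf_le_left) (nd_inf_Dp hW he hf h) (by omega) ?_ ?_
        c ?_ Y hY
      · rintro g ⟨hgK, hgF⟩ w ⟨hw, hw1, hw2⟩
        have h4 : ap g e = e := hgF e (Submodule.subset_span (by simp))
        have h5 : ap g f = f := hgF f (Submodule.subset_span (by simp))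
        refine ⟨hK1 g hgK w hw, ?_, ?_⟩
        · rw [← h4, polar_ap]
          exact hw1
        · rw [← h5, polar_ap]
          exact hw2
      · rintro u ⟨hu, hu1, hu2⟩ w ⟨hw, hw1, hw2⟩ hu0 huw
        refine ⟨hK2 u hu w hw hu0 huw, ?_⟩
        intro v hv
        have hv' : ∀ x : V, x ∈ Dp Q e f → polar Q x v = 0 := by
          intro x hx
          rw [Submodule.mem_span_pair] at hv
          obtain ⟨a, b, rfl⟩ := hv
          rw [polar_add_right, polar_smul_right, polar_smul_right, polar_comm Q x e, polar_comm Q x f, hx.1, hx.2,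
            smul_zero, smul_zero, add_zero]
        exact S_fix hu0 huw (hv' u ⟨hu1, hu2⟩) (hv' w ⟨hw1, hw2⟩)
      · intro Y' hY'
        refine (hc Y' hY').trans (relIndex_mono Y' ?_)
        intro g hg
        refine ⟨⟨hg.1, fun v hv => ?_⟩, fun v hv => hg.2 v hv.1⟩
        refine hg.2 v ?_
        exact (Submodule.span_le.2 (by
          rintro x (rfl | rfl)
          · exact he
          · exact hf)) hv)
    have e1 : Module.finrank F W - 4 = m + 3 := by omega
    rw [e1] at h1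
    have e2 : psi (m + 7) = m + 3 + psi (m + 5) := rfl
    rw [e2, pow_add, mul_assoc]
    exact h1

/-- **PHI, ambient form** -/
theorem phi [Finite F] [FiniteDimensional F V] (h2 : (2 : F) ≠ 0) (n : ℕ) (K : Subgroup ↥(E Q)) (W : Submodule F V)
    (hW : Nd Q W) (hn : Module.finrank F W = n) (hK1 : ∀ g ∈ K, ∀ w ∈ W, ap g w ∈ W)
    (hK2 : ∀ u ∈ W, ∀ w ∈ W, Q u = 0 → polar Q u w = 0 → S Q u w ∈ K) (c : ℕ)
    (hc : ∀ Y : Subgroup ↥(E Q), NF Q Y → c ≤ Y.relIndex (K ⊓ Fix Q W)) (X : Subgroup ↥(E Q)) (hX : NF Q X) :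
    Nat.card F ^ psi n * c ≤ X.relIndex K :=
  phiP h2 (Fund Q) n K W (bad_fund K W) hW hn hK1 hK2 c hc X hX

end Cfsg.Agent.H786.IF

private theorem dce_c164278c4b2f : _root_.True := by
  try have : _root_.True := by simp only [_root_.Cfsg.Agent.UGT.U2.FOne.Orth.Four.rhoE.congr_simp]
  exact _root_.True.intro
end

section
prune_inst 0xffe9ffb9f8f9dfffff7fffa79ccffdffbb3fffe6dffdcbffe06bff4b9f4b00cb41fbaf8bfa10fc1ef7e21414f87b13f9ffefffe26bd87ffffd1ff41ffbff8ffdf7b508519698341f342fff83f0778e7f000000000000000000000000000000000200000002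

-- part: H786/IF/TMin
section
prune_inst 0x1600420406200000000008421000000480001020000000020000b060348e04ae000004008b02410001298002004006000000010400000000000000000050020800052061240a00c840001000000000000000000000000000000000000020004000000000
set_option linter.all false
open scoped Cfsg.Agent.FastGrp

/-!
# S5719, orthogonal groups, `q` odd: centralisers of isometries `t` with `t² = -1` (helper786)

`phi_t` : a subgroup `X` of `E Q` without fundamental involutions has relative index at least `q ^ psit M` in the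
centraliser of `t` (`dim V = 2 M`).
-/

set_option autoImplicit false
set_option linter.unusedSectionVars false
set_option linter.unusedVariables false
set_option linter.unusedSimpArgs false

namespace Cfsg.Agent.H786.IF

open QuadraticMap Cfsg.Agent.LieClassical Cfsg.Agent.LieClassical.OrthCore Cfsg.Agent.LieClassical.OrthTrans
  Cfsg.Agent.AutOrth.SemiSim Cfsg.Agent.AutOrth.Gen Cfsg.Agent.H989.Gs.Gen Cfsg.Agent.H989.Fx
open Cfsg.Agent.UGT.U2.FOne.Orth (Four)

variable {F V : Type*} [Field F] [AddCommGroup V] [Module F V] {Q : QuadraticForm F V}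

/-- orthogonal projection to a nondegenerate subspace -/
theorem exists_proj [FiniteDimensional F V] {W : Submodule F V} (hW : Nd Q W) (v : V) :
    ∃ w ∈ W, ∀ y ∈ W, polar Q y (v - w) = 0 := by
  let L : W →ₗ[F] Module.Dual F W := ((polarBilin Q).comp W.subtype).compl₂ W.subtype
  have hL : ∀ x y : W, L x y = polar Q (x : V) (y : V) := fun x y => rfl
  have hinj : Function.Injective L := by
    rw [← LinearMap.ker_eq_bot, LinearMap.ker_eq_bot']
    intro x hx
    apply Subtype.ext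
    apply hW x x.2
    intro y hy
    have := congrArg (fun φ : Module.Dual F W => φ ⟨y, hy⟩) hx
    exact this
  have hsurj : Function.Surjective L :=
    (LinearMap.injective_iff_surjective_of_finrank_eq_finrank (Subspace.dual_finrank_eq (K := F) (V := W)).symm).1 hinj
  obtain ⟨w, hw⟩ := hsurj ((polarBilin Q v).comp W.subtype)
  refine ⟨w, w.2, fun y hy => ?_⟩
  have h1 := congrArg (fun φ : Module.Dual F W => φ ⟨y, hy⟩) hw
  have h2 : polar Q (w : V) y = polar Q v y := h1
  rw [polar_sub_right, polar_comm Q y v, polar_comm Q y, h2, sub_self]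

/-- an isometry fixing `Wᗮ` pointwise leaves `W` invariant -/
theorem FP_inv [FiniteDimensional F V] (hQ : Nondeg Q) {W : Submodule F V} (hW : Nd Q W) {g : ↥(E Q)}
    (hg : g ∈ FP Q W) {w : V} (hw : w ∈ W) : ap g w ∈ W := by
  obtain ⟨a, ha, hab⟩ := exists_proj hW (ap g w)
  have h0 : ap g w - a = 0 := by
    apply hQ
    intro x
    obtain ⟨x₁, hx₁, hx₂⟩ := exists_proj hW x
    have e1 : x = x₁ + (x - x₁) := by abel
    rw [e1, polar_add_right, polar_comm Q _ x₁, hab x₁ hx₁, zero_add, polar_sub_left, hx₂ a ha, sub_zero]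
    have h3 : ap g (x - x₁) = x - x₁ := hg _ hx₂
    rw [← h3, polar_ap]
    exact hx₂ w hw
  rw [sub_eq_zero.1 h0]
  exact ha

section tt

variable {t : V →ₗ[F] V} (hts : ∀ v, t (t v) = -v) (hQt : ∀ v, Q (t v) = Q v)

include hQt in
theorem polar_t (x y : V) : polar Q (t x) (t y) = polar Q x y := by
  simp only [QuadraticMap.polar, ← map_add, hQt]

include hts hQt in
theorem skew (x y : V) : polar Q (t x) y = -polar Q x (t y) := by
  rw [← polar_t hQt (t x) y, hts, polar_neg_left]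

include hts hQt in
theorem polar_self_t (h2 : (2 : F) ≠ 0) (x : V) : polar Q x (t x) = 0 := by
  have h1 := skew hts hQt x x
  rw [polar_comm] at h1
  have h3 : (2 : F) * polar Q x (t x) = 0 := by linear_combination h1
  exact (mul_eq_zero.1 h3).resolve_left h2

include hts hQt in
/-- a singular vector of `W`, not an eigenvector of `t`, not orthogonal to `w₀` -/
theorem exists_e [Finite F] [FiniteDimensional F V] (h2 : (2 : F) ≠ 0) {W : Submodule F V} (hW : Nd Q W)
    (h4 : 4 ≤ Module.finrank F W) (htW : ∀ w ∈ W, t w ∈ W) {w₀ : V} (hw : w₀ ∈ W) (hw0 : w₀ ≠ 0) :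
    ∃ e ∈ W, Q e = 0 ∧ polar Q e w₀ ≠ 0 ∧ ∀ c : F, t e ≠ c • e := by
  obtain ⟨x, hx, f, hf, h, hxw⟩ := exists_pair hW (by omega) hw hw0
  by_cases hev : ∀ c : F, t x ≠ c • x
  · exact ⟨x, hx, h.left, hxw, hev⟩
  push Not at hev
  obtain ⟨c, hc⟩ := hev
  have hcc : c * c = -1 := by
    have h1 : t (t x) = (c * c) • x := by rw [hc, map_smul, hc, smul_smul]
    rw [hts] at h1
    have h3 : (c * c + 1) • x = 0 := by rw [add_smul, ← h1, one_smul, neg_add_cancel]
    have h5 := (smul_eq_zero.1 h3).resolve_right h.left_ne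
    linear_combination h5
  have hc0 : c ≠ 0 := by
    rintro rfl
    rw [mul_zero] at hcc
    have : (1 : F) = 0 := by linear_combination hcc
    exact one_ne_zero this
  have hdim := finrank_inf_Dp hx hf h
  have hW' := nd_inf_Dp hW hx hf h
  obtain ⟨v, hv, hvc⟩ : ∃ v ∈ W ⊓ Dp Q x f, t v ≠ c • v := by
    have hne : W ⊓ Dp Q x f ≠ ⊥ := by
      intro hb
      rw [hb, finrank_bot] at hdim
      omega
    obtain ⟨v, hv, hv0⟩ := Submodule.exists_mem_ne_zero_of_ne_bot hne
    by_contra hcon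
    push Not at hcon
    apply hv0
    apply hW' v hv
    intro y hy
    have h1 := polar_t hQt v y
    rw [hcon v hv, hcon y hy, polar_smul_left, polar_smul_right, smul_eq_mul, smul_eq_mul] at h1
    have h3 : (2 : F) * polar Q v y = 0 := by linear_combination -h1 + polar Q v y * hcc
    exact (mul_eq_zero.1 h3).resolve_left h2
  set y := t v - c • v with hy
  have hy0 : y ≠ 0 := sub_ne_zero.2 hvc
  have hyW : y ∈ W := W.sub_mem (htW v hv.1) (W.smul_mem _ hv.1)
  have hty : t y = (-c) • y := by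
    rw [hy, map_sub, map_smul, hts, smul_sub, smul_smul, neg_mul, hcc]
    module
  have hxy : polar Q x y = 0 := by
    have h1 : polar Q x (t v) = 0 := by
      have h3 := skew hts hQt x v
      rw [hc, polar_smul_left, hv.2.1, smul_zero] at h3
      linear_combination h3
    rw [hy, polar_sub_right, polar_smul_right, h1, hv.2.1, smul_zero, sub_zero]
  have hQy : Q y = 0 := by
    have h1 := hQt y
    rw [hty, QuadraticMap.map_smul, smul_eq_mul] at h1
    have h3 : (2 : F) * Q y = 0 := by linear_combination -h1 + Q y * hcc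
    exact (mul_eq_zero.1 h3).resolve_left h2
  obtain ⟨z, hzW, hz0, htz, hxz, hQz, hzw⟩ : ∃ z ∈ W, z ≠ 0 ∧ t z = (-c) • z ∧ polar Q x z = 0 ∧ Q z = 0 ∧
      polar Q (x + z) w₀ ≠ 0 := by
    by_cases h1 : polar Q (x + y) w₀ = 0
    · refine ⟨-y, W.neg_mem hyW, neg_ne_zero.2 hy0, by rw [map_neg, hty, smul_neg], by rw [polar_neg_right, hxy, neg_zero],
        by rw [QuadraticMap.map_neg, hQy], ?_⟩
      intro h3
      rw [polar_add_left] at h1 h3
      rw [polar_neg_left] at h3
      have h5 : (2 : F) * polar Q x w₀ = 0 := by linear_combination h1 + h3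
      exact hxw ((mul_eq_zero.1 h5).resolve_left h2)
    · exact ⟨y, hyW, hy0, hty, hxy, hQy, h1⟩
  refine ⟨x + z, W.add_mem hx hzW, by rw [Q_add, h.left, hQz, hxz]; simp, hzw, fun d hd => ?_⟩
  rw [map_add, hc, htz] at hd
  have e1 : (c - d) • x = (c + d) • z := by
    have : (c - d) • x - (c + d) • z = (c • x + (-c) • z) - d • (x + z) := by module
    rw [← sub_eq_zero, this, hd, sub_self]
  have e2 : (c - d) • x = -((c + d) • z) := by
    have h1 := congrArg t e1
    rw [map_smul, map_smul, hc, htz] at h1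
    have h3 : c • ((c - d) • x + (c + d) • z) = 0 := by
      have : c • ((c - d) • x + (c + d) • z) = (c - d) • c • x - (c + d) • (-c) • z := by module
      rw [this, h1, sub_self]
    have h5 := (smul_eq_zero.1 h3).resolve_left hc0
    exact eq_neg_of_add_eq_zero_left h5
  have e3 : (c + d) • z = 0 := by
    have h1 : (2 : F) • ((c + d) • z) = 0 := by
      rw [two_smul]
      nth_rewrite 1 [← e1]
      rw [e2, neg_add_cancel]
    exact (smul_eq_zero.1 h1).resolve_left h2
  have e4 : (c - d) • x = 0 := by rw [e1, e3]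
  have e5 := (smul_eq_zero.1 e3).resolve_right hz0
  have e6 := (smul_eq_zero.1 e4).resolve_right h.left_ne
  have e7 : (2 : F) * c = 0 := by linear_combination e5 + e6
  exact (mul_ne_zero h2 hc0) e7

include hts hQt in
theorem exists_four_t [FiniteDimensional F V] (h2 : (2 : F) ≠ 0) {W : Submodule F V} (hW : Nd Q W)
    (htW : ∀ w ∈ W, t w ∈ W) {e : V} (he : e ∈ W) (hQe : Q e = 0) (hne : ∀ c : F, t e ≠ c • e) :
    ∃ f ∈ W, Four Q e f (t e) (t f) := by
  have hN := nondeg_QR hW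
  obtain ⟨⟨y, hyW⟩, hy1, hy2⟩ := exists_sep (Q := QR Q W) (x := ⟨e, he⟩) (z := ⟨t e, htW e he⟩) hN (by
    intro c hc
    have h1 : e = c • t e := congrArg Subtype.val hc
    apply hne (-c)
    have h3 := congrArg t h1
    rw [map_smul, hts] at h3
    rw [h3]
    module)
  have hy1' : polar Q (t e) y = 0 := hy1
  have hy2' : polar Q e y = 1 := hy2
  have hee : polar Q e (t e) = 0 := polar_self_t hts hQt h2 e
  set f := y - Q y • e with hf
  have hfW : f ∈ W := W.sub_mem hyW (W.smul_mem _ he)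
  have hQf : Q f = 0 := by
    rw [hf, sub_eq_add_neg, ← neg_smul, Q_add, QuadraticMap.map_smul, hQe, polar_smul_right, polar_comm Q y e, hy2']
    simp
  have hef : polar Q e f = 1 := by
    rw [hf, polar_sub_right, polar_smul_right, hy2', polar_self_of_sing hQe, smul_zero, sub_zero]
  have htef : polar Q (t e) f = 0 := by
    rw [hf, polar_sub_right, polar_smul_right, hy1', polar_comm Q (t e) e, hee, smul_zero, sub_zero]
  refine ⟨f, hfW, ⟨⟨hQe, hQf, hef⟩, ⟨by rw [hQt, hQe], by rw [hQt, hQf], by rw [polar_t hQt, hef]⟩, hee, ?_, ?_,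
    polar_self_t hts hQt h2 f⟩⟩
  · have h1 := skew hts hQt e f
    rw [htef] at h1
    linear_combination h1
  · rw [polar_comm]
    exact htef

/-- the elements commuting with `t` which fix the orthogonal space of `W` -/
def KT (Q : QuadraticForm F V) (t : V →ₗ[F] V) (W : Submodule F V) : Subgroup ↥(E Q) where
  carrier := {g | (∀ v, ap g (t v) = t (ap g v)) ∧ g ∈ FP Q W}
  one_mem' := ⟨fun v => rfl, (FP Q W).one_mem⟩
  mul_mem' := fun {a b} ha hb => ⟨fun v => by rw [ap_mul, ap_mul, hb.1, ha.1], (FP Q W).mul_mem ha.2 hb.2⟩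
  inv_mem' := fun {a} ha => ⟨fun v => by
    have h1 := ha.1 (ap a⁻¹ v)
    rw [ap_ap_inv] at h1
    exact ap_inv_of h1, (FP Q W).inv_mem ha.2⟩

include hQt in
theorem t_S {a b : V} (ha : Q a = 0) (hab : polar Q a b = 0) (v : V) :
    t (ap (S Q a b) v) = ap (S Q (t a) (t b)) (t v) := by
  rw [S_ap ha hab, S_ap (by rw [hQt, ha]) (by rw [polar_t hQt, hab]), polar_t hQt, polar_t hQt, hQt]
  simp only [map_sub, map_add, map_smul]

include hts hQt in
theorem th_mem_KT (h2 : (2 : F) ≠ 0) {W : Submodule F V} {e f : V} (h : Four Q e f (t e) (t f)) (he : e ∈ W) (hte : t e ∈ W)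
    {w : V} (hw : w ∈ W) (htw : t w ∈ W) (hp : Pp Q e f (t e) (t f) w) (hp' : Pp Q e f (t e) (t f) (t w)) (c : F) :
    th Q e (t e) w (t w) c ∈ KT Q t W := by
  refine ⟨fun v => ?_, ?_⟩
  · have hz : polar Q e (c • t e) = 0 := by rw [polar_smul_right, h.ee, smul_zero]
    have k1 : S Q (t (t e)) (t (t w)) = S Q e w := by
      have h3 : polar Q e (-w) = 0 := by rw [polar_neg_right, hp.a, neg_zero]
      rw [hts, hts]
      have := S_smul (Q := Q) (-1 : F) h.h1.left h3
      rw [neg_one_smul, neg_one_smul, neg_neg] at this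
      exact this
    have k2 : S Q (t e) (t (c • t e)) = S Q e (c • t e) := by
      rw [z_swap h, map_smul, hts, smul_neg, neg_smul]
    have k3 : S Q (t e) (t w) * S Q e w = S Q e w * S Q (t e) (t w) := by
      have h3 : polar Q (t w) w = 0 := by
        rw [polar_comm]
        exact polar_self_t hts hQt h2 w
      rw [comm21 h hp' hp, h3, neg_zero, zero_smul, S_zero, mul_one]
    unfold th
    rw [ap_mul, ap_mul, ap_mul, ap_mul, t_S hQt h.h1.left hp.a, t_S hQt h.h2.left hp'.c, t_S hQt h.h1.left hz, k1, k2,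
      ← ap_mul, ← ap_mul, ← ap_mul (S Q (t e) (t w)), k3]
    rfl
  · refine (FP Q W).mul_mem ((FP Q W).mul_mem ?_ ?_) ?_
    · exact S_mem_FP he hw h.h1.left hp.a
    · exact S_mem_FP hte htw h.h2.left hp'.c
    · exact S_mem_FP he (W.smul_mem _ hte) h.h1.left (by rw [polar_smul_right, h.ee, smul_zero])

include hts hQt in
/-- **one step for `t² = -1`** -/
theorem step_t [Finite F] [FiniteDimensional F V] (h2 : (2 : F) ≠ 0) (hQ : Nondeg Q) (M : ℕ) (W : Submodule F V)
    (hW : Nd Q W) (hd : Module.finrank F W = 2 * (M + 2)) (htW : ∀ w ∈ W, t w ∈ W) (X : Subgroup ↥(E Q))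
    (hX : NF Q X) : ∃ U : Submodule F V, Nd Q U ∧ Module.finrank F U = 2 * M ∧ (∀ w ∈ U, t w ∈ U) ∧ ∀ c : ℕ,
      (∀ Y : Subgroup ↥(E Q), NF Q Y → c ≤ Y.relIndex (KT Q t U)) →
      Nat.card F ^ (M + 1) * c ≤ X.relIndex (KT Q t W) := by
  have hfE : Finite ↥(E Q) := Cfsg.Agent.H786.IF.finite_E
  have hWb : W ≠ ⊥ := by
    rintro rfl
    rw [finrank_bot] at hd
    omega
  obtain ⟨w₀, hw, hw0, hR⟩ := exists_w0 h2 hX (KT Q t W) hWb (fun g hg w hw => FP_inv hQ hW hg.2 hw)
  obtain ⟨e, he, hQe, hew, hne⟩ := exists_e hts hQt h2 hW (by omega) htW hw hw0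
  obtain ⟨f, hf, h⟩ := exists_four_t hts hQt h2 hW htW he hQe hne
  have hte := htW e he
  have htf := htW f hf
  have he2 : t e ∈ W ⊓ Dp Q e f := ⟨hte, h.ee, h.fe⟩
  have hf2 : t f ∈ W ⊓ Dp Q e f := ⟨htf, h.ef, h.ff⟩
  have hdim1 := finrank_inf_Dp he hf h.h1
  have hW1 := nd_inf_Dp hW he hf h.h1
  have hdim2 := finrank_inf_Dp he2 hf2 h.h2
  have hU := nd_inf_Dp hW1 he2 hf2 h.h2
  set U := W ⊓ Dp Q e f ⊓ Dp Q (t e) (t f) with hUdef
  have hUW : U ≤ W := inf_le_left.trans inf_le_left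
  have hUP : ∀ v ∈ U, Pp Q e f (t e) (t f) v := fun v hv => ⟨hv.1.2.1, hv.1.2.2, hv.2.1, hv.2.2⟩
  have htU : ∀ v ∈ U, t v ∈ U := by
    intro v hv
    refine ⟨⟨htW v (hUW hv), ?_, ?_⟩, ?_, ?_⟩
    · have h1 := skew hts hQt e v
      rw [hv.2.1] at h1
      linear_combination h1
    · have h1 := skew hts hQt f v
      rw [hv.2.2] at h1
      linear_combination h1
    · rw [polar_t hQt]
      exact hv.1.2.1
    · rw [polar_t hQt]
      exact hv.1.2.2
  refine ⟨U, hU, by omega, htU, fun c hc => ?_⟩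
  let P : Submodule F (V × V) := U.map (LinearMap.prod LinearMap.id t)
  have hPmem : ∀ p ∈ P, p.1 ∈ U ∧ p.2 = t p.1 := by
    rintro _ ⟨v, hv, rfl⟩
    exact ⟨hv, rfl⟩
  have hPin : ∀ v ∈ U, (v, t v) ∈ P := fun v hv => ⟨v, hv, rfl⟩
  have hPdim : Module.finrank F P = 2 * M := by
    have h1 : Function.Injective (LinearMap.prod LinearMap.id t : V →ₗ[F] V × V) := by
      intro a b hab
      exact congrArg Prod.fst hab
    have h3 := (Submodule.equivMapOfInjective (LinearMap.prod LinearMap.id t : V →ₗ[F] V × V) h1 U).finrank_eq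
    change Module.finrank F (U.map (LinearMap.prod LinearMap.id t : V →ₗ[F] V × V)) = 2 * M
    rw [← h3]
    omega
  have hP : ∀ p ∈ P, Pp Q e f (t e) (t f) p.1 ∧ Pp Q e f (t e) (t f) p.2 := by
    intro p hp
    obtain ⟨h1, h3⟩ := hPmem p hp
    rw [h3]
    exact ⟨hUP _ h1, hUP _ (htU _ h1)⟩
  have hHK : HG h P hP ≤ KT Q t W := by
    rintro _ ⟨p, hp, c, rfl⟩
    obtain ⟨h1, h3⟩ := hPmem p hp
    rw [h3]
    exact th_mem_KT hts hQt h2 h he hte (hUW h1) (htW _ (hUW h1)) (hUP _ h1) (hUP _ (htU _ h1)) c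
  have hcard : Nat.card (HG h P hP) = Nat.card F ^ (2 * M + 1) := by
    rw [card_HG, hPdim]
  have hLK : KT Q t U ≤ KT Q t W := fun g hg => ⟨hg.1, FP_mono hUW hg.2⟩
  have habs := abs_rel (KT Q t W) (KT Q t U) (HG h P hP) X hHK hLK (by rw [hcard]; exact (odd_q h2).pow) (by
      rintro g hg _ ⟨p, hp, c, rfl⟩
      obtain ⟨h1, h3⟩ := hPmem p hp
      have hge : ap g e = e := hg.2 e fun w hw => by rw [polar_comm]; exact (hUP w hw).a
      have hgte : ap g (t e) = t e := hg.2 (t e) fun w hw => by rw [polar_comm]; exact (hUP w hw).c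
      have hgU : ap g p.1 ∈ U := FP_inv hQ hU hg.2 h1
      refine ⟨(ap g p.1, t (ap g p.1)), hPin _ hgU, c, ?_⟩
      have k1 := S_conj g e p.1
      have k2 := S_conj g (t e) p.2
      have k3 := S_conj g e (c • t e)
      rw [hge] at k1
      rw [hgte, h3, hg.1] at k2
      rw [ap_smul, hge, hgte] at k3
      rw [h3]
      change g * (S Q e p.1 * S Q (t e) (t p.1) * S Q e (c • t e)) * g⁻¹ =
        S Q e (ap g p.1) * S Q (t e) (t (ap g p.1)) * S Q e (c • t e)
      have e0 : g * (S Q e p.1 * S Q (t e) (t p.1) * S Q e (c • t e)) * g⁻¹ =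
          (g * S Q e p.1 * g⁻¹) * (g * S Q (t e) (t p.1) * g⁻¹) * (g * S Q e (c • t e) * g⁻¹) := by group
      rw [e0, k1, k2, k3]) {z | Fund Q z} (fun z hz => Fund.sq hz) (fun g z hz => Fund.conj hz g)
      (fun z hz => hX z hz) c (fun Y hY => hc Y fun z hz => hY z hz)
  have hle : Nat.card (X ⊓ HG h P hP : Subgroup ↥(E Q)) ≤ Nat.card F ^ M := by
    refine card_inf_HG h P hP ?_ X ?_ (by omega)
    · intro p hp H
      obtain ⟨h1, h3⟩ := hPmem p hp
      have h5 : t p.1 = 0 := by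
        apply hU _ (htU _ h1)
        intro y hy
        have h6 := H (y, t y) (hPin y hy)
        rw [comF_apply] at h6
        simp only at h6
        rw [h3] at h6
        have h7 := skew hts hQt p.1 y
        rw [polar_comm Q (t y) p.1] at h6
        have h8 : (2 : F) * polar Q (t p.1) y = 0 := by linear_combination h6 + h7
        exact (mul_eq_zero.1 h8).resolve_left h2
      have h9 : p.1 = 0 := by
        have := hts p.1
        rw [h5, map_zero] at this
        exact neg_eq_zero.1 this.symm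
      refine Prod.ext h9 ?_
      rw [h3, h5]
      rfl
    · intro c hc
      by_contra hne'
      have hm : S Q e (c • t e) ∈ KT Q t W := by
        have := th_mem_KT hts hQt h2 h he hte W.zero_mem (by rw [map_zero]; exact W.zero_mem) Pp.zero
          (by rw [map_zero]; exact Pp.zero) c
        unfold th at this
        rw [map_zero, S_zero, S_zero, one_mul, one_mul] at this
        exact this
      refine hew (hR e (c • t e) hQe ?_ ?_ hc hm ?_)
      · rw [QuadraticMap.map_smul, h.h2.left, smul_zero]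
      · rw [polar_smul_right, h.ee, smul_zero]
      · exact S_ne_one h.h1 (Submodule.smul_mem _ _ he2.2) (smul_ne_zero hne' h.h2.left_ne)
  rw [hcard] at habs
  refine pow_cancel (m := M) Nat.card_pos ?_
  calc Nat.card F ^ (M + 1 + M) * c = Nat.card F ^ (2 * M + 1) * c := by
        congr 2
        omega
    _ ≤ _ := habs
    _ ≤ Nat.card F ^ M * X.relIndex (KT Q t W) := Nat.mul_le_mul_right _ hle
    _ = _ := mul_comm _ _

end tt

/-- the exponent -/
def psit : ℕ → ℕ
  | 0 => 0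
  | 1 => 0
  | (M + 2) => M + 1 + psit M

/-- **PHI for `t² = -1`** -/
theorem phi_t [Finite F] [FiniteDimensional F V] {t : V →ₗ[F] V} (hts : ∀ v, t (t v) = -v) (hQt : ∀ v, Q (t v) = Q v)
    (h2 : (2 : F) ≠ 0) (hQ : Nondeg Q) (M : ℕ) : ∀ (W : Submodule F V), Nd Q W → Module.finrank F W = 2 * M →
    (∀ w ∈ W, t w ∈ W) → ∀ X : Subgroup ↥(E Q), NF Q X → Nat.card F ^ psit M ≤ X.relIndex (KT Q t W) := by
  have hfE : Finite ↥(E Q) := Cfsg.Agent.H786.IF.finite_E
  have htriv : ∀ (X : Subgroup ↥(E Q)) (K : Subgroup ↥(E Q)), 1 ≤ X.relIndex K := fun X K =>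
    Nat.one_le_iff_ne_zero.2 Subgroup.FiniteIndex.index_ne_zero
  induction M using Nat.strong_induction_on with
  | _ M ih =>
  intro W hW hn htW X hX
  match M, ih, hn with
  | 0, _, _ => exact htriv _ _
  | 1, _, _ => exact htriv _ _
  | (m + 2), ih, hn =>
    obtain ⟨U, hU1, hU2, hU3, hU4⟩ := step_t hts hQt h2 hQ m W hW hn htW X hX
    have h1 := hU4 (Nat.card F ^ psit m) (fun Y hY => ih m (by omega) U hU1 hU2 hU3 Y hY)
    have e2 : psit (m + 2) = m + 1 + psit m := rfl
    rw [e2, pow_add]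
    exact h1

end Cfsg.Agent.H786.IF
end

-- part: H353/IF/PhiSL
section
prune_inst 0x2000004000000000000006000000004000010200030000004009040049200a4000064010f02000009200004004006000000010000000000000040000010000008010069008a008800006000000000000000000000000000000000000000000000000000
set_option linter.all false
open scoped Cfsg.Agent.FastGrp

/-!
# S5719 (involution fixity): (LR) and (PHI) for `SL(V)`, `q` odd (helper353)

* `fund z` : `z` is an involution whose `(-1)`-space has dimension 2.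
* `pair` : (LR) two transvections `1 + φ ⊗ v₀`, `1 + ψ ⊗ v₁` of a subgroup `Y` of `SL(V)` without fundamental
  involutions satisfy `φ v₁ = 0` or `ψ v₀ = 0`.
* `exists_center` : if `V ≠ 0` some vector `e` is not the centre of a transvection of `Y`.
* `phi_sl` : (PHI), relative form: `X ≤ SL(V) × Γ` without fundamental involutions `(z, 1)` and without elements
  `(1, z)`, `z ∈ Z`, has index at least `q ^ (d (d - 1) / 2) * c`, `d = dim V`.
`hFT` is the odd order theorem (`fun D _ _ h => Cfsg.Agent.S0205.result h`).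
-/

set_option autoImplicit false
set_option linter.unusedSectionVars false

namespace Cfsg.Agent.H353.Phi

open Module
open Cfsg.Agent.H847.Bs (slV)

universe u v w

section Basic

variable {F : Type*} [Field F] {V : Type*} [AddCommGroup V] [Module F V]

/-- the `(-1)`-space -/
def negS (g : V ≃ₗ[F] V) : Submodule F V where
  carrier := {v | g v = -v}
  add_mem' := by
    intro a b ha hb
    show g (a + b) = -(a + b)
    rw [map_add, show g a = -a from ha, show g b = -b from hb, neg_add]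
  zero_mem' := by show g 0 = -0; rw [map_zero, neg_zero]
  smul_mem' := by
    intro c a ha
    show g (c • a) = -(c • a)
    rw [map_smul, show g a = -a from ha, smul_neg]

theorem mem_negS {g : V ≃ₗ[F] V} {v : V} : v ∈ negS g ↔ g v = -v := Iff.rfl

/-- fundamental involutions of `SL(V)` -/
def fund (z : V ≃ₗ[F] V) : Prop :=
  z * z = 1 ∧ finrank F (LinearMap.range ((z : V →ₗ[F] V) - 1)) = 2

theorem mem_slV {g : V ≃ₗ[F] V} : g ∈ slV F V ↔ LinearMap.det (g : V →ₗ[F] V) = 1 := Iff.rfl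

theorem fund_iff (h2 : (2 : F) ≠ 0) {z : V ≃ₗ[F] V} : fund z ↔ z * z = 1 ∧ finrank F (negS z) = 2 := by
  have key : z * z = 1 → LinearMap.range ((z : V →ₗ[F] V) - 1) = negS z := by
    intro hz
    have hzz : ∀ v, z (z v) = v := fun v => by rw [← LinearEquiv.mul_apply, hz]; rfl
    ext v
    constructor
    · rintro ⟨x, rfl⟩
      show z (z x - x) = -(z x - x)
      rw [map_sub, hzz, neg_sub]
    · intro hv
      refine ⟨-((2 : F)⁻¹ • v), ?_⟩
      show z (-((2 : F)⁻¹ • v)) - -((2 : F)⁻¹ • v) = v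
      rw [map_neg, map_smul, show z v = -v from hv, smul_neg, neg_neg, sub_neg_eq_add, ← two_smul F, smul_smul,
        mul_inv_cancel₀ h2, one_smul]
  constructor
  · rintro ⟨h1, h3⟩
    exact ⟨h1, by rw [← key h1]; exact h3⟩
  · rintro ⟨h1, h3⟩
    exact ⟨h1, by rw [key h1]; exact h3⟩

/-- trivial on `W` -/
def fixG (W : Submodule F V) : Subgroup (V ≃ₗ[F] V) where
  carrier := {g | ∀ w ∈ W, g w = w}
  mul_mem' := by
    intro a b ha hb w hw
    rw [LinearEquiv.mul_apply, hb w hw, ha w hw]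
  one_mem' := fun w _ => rfl
  inv_mem' := by
    intro a ha w hw
    have h1 : a⁻¹ (a w) = w := by rw [← LinearEquiv.mul_apply, inv_mul_cancel]; rfl
    rwa [ha w hw] at h1

/-- trivial on `V/W` -/
def cofixG (W : Submodule F V) : Subgroup (V ≃ₗ[F] V) where
  carrier := {g | ∀ v, g v - v ∈ W}
  mul_mem' := by
    intro a b ha hb v
    have h1 : (a * b) v - v = (a (b v) - b v) + (b v - v) := by rw [LinearEquiv.mul_apply]; abel
    rw [h1]
    exact W.add_mem (ha _) (hb _)
  one_mem' := by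
    intro v
    rw [LinearEquiv.coe_one, id, sub_self]
    exact W.zero_mem
  inv_mem' := by
    intro a ha v
    have h1 := ha (a⁻¹ v)
    have h2 : a (a⁻¹ v) = v := by rw [← LinearEquiv.mul_apply, mul_inv_cancel]; rfl
    rw [h2] at h1
    rw [← neg_sub]
    exact W.neg_mem h1

theorem map_cofix {W : Submodule F V} {g : V ≃ₗ[F] V} (hg : g ∈ cofixG W) :
    W.map (g : V →ₗ[F] V) = W := by
  ext x
  constructor
  · rintro ⟨w, hw, rfl⟩
    have h1 := W.add_mem (hg w) hw
    rwa [sub_add_cancel] at h1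
  · intro hx
    have h1 := (cofixG W).inv_mem hg x
    have h2 := W.add_mem h1 hx
    rw [sub_add_cancel] at h2
    refine ⟨g⁻¹ x, h2, ?_⟩
    rw [LinearEquiv.coe_coe, ← LinearEquiv.mul_apply, mul_inv_cancel]
    rfl

/-- the action on `W` -/
def resH (W : Submodule F V) : cofixG W →* (W ≃ₗ[F] W) where
  toFun g := g.1.ofSubmodules W W (map_cofix g.2)
  map_one' := by ext x; rfl
  map_mul' a b := by ext x; rfl

theorem resH_coe (W : Submodule F V) (g : cofixG W) (w : W) : (resH W g w : V) = g.1 w := rfl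

section Fin

variable [FiniteDimensional F V]

theorem det_cofix (W : Submodule F V) (g : cofixG W) :
    LinearMap.det (g.1 : V →ₗ[F] V) = LinearMap.det (resH W g : W →ₗ[F] W) := by
  have he : W ≤ W.comap (g.1 : V →ₗ[F] V) := fun w hw => by
    rw [Submodule.mem_comap, LinearEquiv.coe_coe]
    have h1 := W.add_mem (g.2 w) hw
    rwa [sub_add_cancel] at h1
  rw [LinearMap.det_eq_det_mul_det W (g.1 : V →ₗ[F] V) he]
  have h1 : (g.1 : V →ₗ[F] V).restrict he = (resH W g : W →ₗ[F] W) := by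
    ext w
    rfl
  have h2 : W.mapQ W (g.1 : V →ₗ[F] V) he = LinearMap.id := by
    ext v
    rw [LinearMap.comp_apply, LinearMap.comp_apply, Submodule.mkQ_apply, Submodule.mapQ_apply, LinearMap.id_apply]
    exact (Submodule.Quotient.eq W).2 (g.2 v)
  rw [h1, h2, LinearMap.det_id, mul_one]

theorem det_invol {g : V ≃ₗ[F] V} (hg : g * g = 1) :
    LinearMap.det (g : V →ₗ[F] V) = (-1) ^ finrank F (negS g) := by
  have hgg : ∀ v, g (g v) = v := fun v => by rw [← LinearEquiv.mul_apply, hg]; rfl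
  have hco : g ∈ cofixG (negS g) := by
    intro v
    show g (g v - v) = -(g v - v)
    rw [map_sub, hgg, neg_sub]
  rw [det_cofix (negS g) ⟨g, hco⟩]
  have h1 : (resH (negS g) ⟨g, hco⟩ : negS g →ₗ[F] negS g) = (-1 : F) • LinearMap.id := by
    ext w
    rw [LinearEquiv.coe_coe, resH_coe, LinearMap.smul_apply, LinearMap.id_apply, neg_smul, one_smul]
    exact w.2
  rw [h1, LinearMap.det_smul, LinearMap.det_id, mul_one]

end Fin

/-! ### Unipotent elements -/

/-- trivial on `W` and on `V/W` -/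
def unipG (W : Submodule F V) : Subgroup (V ≃ₗ[F] V) := fixG W ⊓ cofixG W

theorem unip_pow {W : Submodule F V} {u : V ≃ₗ[F] V} (hu : u ∈ unipG W) (n : ℕ) (v : V) :
    (u ^ n) v = v + n • (u v - v) := by
  induction n with
  | zero => rw [pow_zero, zero_smul, add_zero]; rfl
  | succ n ih =>
    rw [pow_succ', LinearEquiv.mul_apply, ih, map_add, map_nsmul, hu.1 _ (hu.2 v), succ_nsmul]
    abel

theorem unip_eq_one (h2 : (2 : F) ≠ 0) {W : Submodule F V} {u : V ≃ₗ[F] V} (hu : u ∈ unipG W) {a : ℕ}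
    (ha : u ^ (2 ^ a) = 1) : u = 1 := by
  ext v
  have h1 := unip_pow hu (2 ^ a) v
  rw [ha] at h1
  have h3 : (2 ^ a : ℕ) • (u v - v) = 0 := by
    have : v = v + (2 ^ a : ℕ) • (u v - v) := h1
    exact left_eq_add.1 this
  rw [← Nat.cast_smul_eq_nsmul F, smul_eq_zero] at h3
  rcases h3 with h3 | h3
  · exfalso
    rw [Nat.cast_pow, Nat.cast_ofNat] at h3
    exact pow_ne_zero _ h2 h3
  · exact sub_eq_zero.1 h3

/-- `1 + φ ⊗ e` -/
theorem tv_mem (e : V) (φ : V →ₗ[F] F) (h : φ e = 0) :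
    ∃ t ∈ unipG (F ∙ e), ∀ v, (t : V ≃ₗ[F] V) v = v + φ v • e := by
  let t : V ≃ₗ[F] V := LinearEquiv.ofLinearMap (LinearMap.id + φ.smulRight e) (LinearMap.id - φ.smulRight e)
    (by ext v; simp [h]) (by ext v; simp [h])
  have ht : ∀ v, t v = v + φ v • e := fun v => rfl
  refine ⟨t, ⟨?_, ?_⟩, ht⟩
  · intro w hw
    obtain ⟨a, rfl⟩ := Submodule.mem_span_singleton.1 hw
    rw [ht, map_smul, h, smul_zero, zero_smul, add_zero]
  · intro v
    rw [ht, add_sub_cancel_left]
    exact Submodule.mem_span_singleton.2 ⟨_, rfl⟩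

/-- the functional of an element of `unipG (F ∙ e)` -/
theorem exists_functional {e : V} (he : e ≠ 0) {t : V ≃ₗ[F] V} (hu : t ∈ unipG (F ∙ e)) :
    ∃ φ : V →ₗ[F] F, φ e = 0 ∧ ∀ v, t v = v + φ v • e := by
  let ν : V →ₗ[F] V := (t : V →ₗ[F] V) - LinearMap.id
  let φ : V →ₗ[F] F := (LinearEquiv.toSpanNonzeroSingleton F V e he).symm.toLinearMap ∘ₗ
    ν.codRestrict (F ∙ e) hu.2
  have hφ : ∀ v, t v = v + φ v • e := by
    intro v
    have h1 : (LinearEquiv.toSpanNonzeroSingleton F V e he) (φ v) = ν.codRestrict (F ∙ e) hu.2 v := by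
      show (LinearEquiv.toSpanNonzeroSingleton F V e he)
        ((LinearEquiv.toSpanNonzeroSingleton F V e he).symm _) = _
      rw [LinearEquiv.apply_symm_apply]
    have h3 : φ v • e = t v - v := congrArg Subtype.val h1
    rw [h3]
    abel
  refine ⟨φ, ?_, hφ⟩
  have h1 := hφ e
  rw [hu.1 e (Submodule.mem_span_singleton_self e)] at h1
  exact (smul_eq_zero.1 (left_eq_add.1 h1)).resolve_right he

end Basic

theorem finite_equiv (F : Type*) [Field F] (V : Type*) [AddCommGroup V] [Module F V] [Finite V] :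
    Finite (V ≃ₗ[F] V) := Finite.of_injective (fun e : V ≃ₗ[F] V => (e : V → V))
    (fun _ _ h => LinearEquiv.ext fun v => congrFun h v)

/-! ### (LR) -/

section LR

variable {F : Type u} [Field F] {V : Type v} [AddCommGroup V] [Module F V] [Finite F] [Finite V]

/-- **(LR)** -/
theorem pair (h2 : (2 : F) ≠ 0)
    (hFT : ∀ (D : Type v) [Group D] [Finite D], Odd (Nat.card D) → Group.IsSolvable D)
    {Y : Subgroup (V ≃ₗ[F] V)} (hdet : Y ≤ slV F V) (hno : ∀ z ∈ Y, ¬ fund z)
    {t t' : V ≃ₗ[F] V} (ht : t ∈ Y) (ht'Y : t' ∈ Y) {φ ψ : V →ₗ[F] F} {v₀ v₁ : V}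
    (hφ : ∀ v, t v = v + φ v • v₀) (hφ' : ∀ v, t' v = v + ψ v • v₁) (hφ0 : φ v₀ = 0) (hψ1 : ψ v₁ = 0) :
    φ v₁ = 0 ∨ ψ v₀ = 0 := by
  have := finite_equiv F V
  by_contra hcon
  push Not at hcon
  obtain ⟨ha, hb⟩ := hcon
  have hv₀ : v₀ ≠ 0 := by
    rintro rfl
    exact hb (map_zero _)
  let U : Submodule F V := Submodule.span F {v₀, v₁}
  have hU0 : v₀ ∈ U := Submodule.subset_span (by simp)
  have hU1 : v₁ ∈ U := Submodule.subset_span (by simp)
  have hUdim : finrank F U ≤ 2 := by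
    classical
    have h1 := finrank_span_finset_le_card (R := F) (({v₀, v₁} : Finset V))
    have h3 : Submodule.span F ((({v₀, v₁} : Finset V) : Set V)) = U := by simp [U]
    have h4 : ({v₀, v₁} : Finset V).card ≤ 2 := Finset.card_le_two
    rw [Set.finrank, h3] at h1
    exact h1.trans h4
  let D : Subgroup (V ≃ₗ[F] V) := Subgroup.closure {t, t'}
  have hDY : D ≤ Y := by
    rw [Subgroup.closure_le]
    rintro x (rfl | rfl)
    · exact ht
    · exact ht'Y
  have hDU : D ≤ cofixG U := by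
    rw [Subgroup.closure_le]
    rintro x (rfl | rfl)
    · intro v
      rw [hφ, add_sub_cancel_left]
      exact U.smul_mem _ hU0
    · intro v
      rw [hφ', add_sub_cancel_left]
      exact U.smul_mem _ hU1
  have hodd : Odd (Nat.card D) := by
    by_contra hev
    rw [Nat.not_odd_iff_even, even_iff_two_dvd] at hev
    obtain ⟨⟨g, hgD⟩, hg⟩ := exists_prime_orderOf_dvd_card' 2 hev
    rw [← Subgroup.orderOf_coe] at hg
    have hsq : g * g = 1 := by
      have := pow_orderOf_eq_one g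
      rwa [show orderOf g = 2 from hg, pow_two] at this
    have hg1 : g ≠ 1 := by
      rintro rfl
      rw [show orderOf (1 : V ≃ₗ[F] V) = 1 from orderOf_one] at hg
      omega
    have hgg : ∀ v, g (g v) = v := fun v => by rw [← LinearEquiv.mul_apply, hsq]; rfl
    have hle : negS g ≤ U := by
      intro v hv
      have h3 := hDU hgD v
      rw [show g v = -v from hv] at h3
      have h4 : (-(2 : F)⁻¹) • (-v - v) = v := by
        rw [show -v - v = (-(2 : F)) • v by rw [neg_smul, two_smul]; abel, smul_smul, neg_mul_neg,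
          inv_mul_cancel₀ h2, one_smul]
      rw [← h4]
      exact U.smul_mem _ h3
    have h3 : finrank F (negS g) ≤ 2 := (Submodule.finrank_mono hle).trans hUdim
    have h4 : finrank F (negS g) ≠ 2 := fun h => hno g (hDY hgD) ((fund_iff h2).2 ⟨hsq, h⟩)
    have h5 := det_invol hsq
    rw [mem_slV.1 (hdet (hDY hgD))] at h5
    have h6 : finrank F (negS g) ≠ 1 := by
      intro h6
      rw [h6, pow_one] at h5
      apply h2
      rw [← one_add_one_eq_two]
      nth_rewrite 1 [h5]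
      exact neg_add_cancel 1
    have h7 : finrank F (negS g) = 0 := by omega
    have h8 : negS g = ⊥ := Submodule.finrank_eq_zero.1 h7
    apply hg1
    ext v
    have h9 : g v - v ∈ negS g := by
      rw [mem_negS, map_sub, hgg, neg_sub]
    rw [h8, Submodule.mem_bot, sub_eq_zero] at h9
    exact h9
  have hsol : Group.IsSolvable D := hFT D hodd
  let ρ : D →* Module.End F U := LinearEquiv.automorphismGroup.toLinearMapMonoidHom.comp
    ((resH U).comp (Subgroup.inclusion hDU))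
  have hρ : ∀ (g : D) (w : U), (ρ g w : V) = g.1 w := fun g w => rfl
  have hUnt : Nontrivial U := ⟨⟨⟨v₀, hU0⟩, 0, fun h => hv₀ (congrArg Subtype.val h)⟩⟩
  have htD : t ∈ D := Subgroup.subset_closure (by simp)
  have ht'D : t' ∈ D := Subgroup.subset_closure (by simp)
  obtain ⟨w, hw0, hw1, hw2⟩ := OddOrderLocal.QuadOdd.exists_fixed_vector (F := F) (V := U) hodd ρ
    (x := ⟨t, htD⟩) (y := ⟨t', ht'D⟩)
    (by
      rw [eq_top_iff]
      have h1 : (Subgroup.closure ({⟨t, htD⟩, ⟨t', ht'D⟩} : Set D)).map D.subtype = D := by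
        rw [MonoidHom.map_closure, Set.image_pair]
        rfl
      rintro ⟨x, hx⟩ -
      have h3 : x ∈ (Subgroup.closure ({⟨t, htD⟩, ⟨t', ht'D⟩} : Set D)).map D.subtype := by rw [h1]; exact hx
      obtain ⟨z, hz, hz'⟩ := h3
      have h4 : z = ⟨x, hx⟩ := Subtype.ext hz'
      rw [← h4]
      exact hz)
    (by
      ext w
      rw [pow_two, Module.End.mul_apply, LinearMap.sub_apply, LinearMap.sub_apply, Module.End.one_apply,
        LinearMap.zero_apply]
      have h1 : (ρ ⟨t, htD⟩ w - w : U) = ⟨φ w • v₀, U.smul_mem _ hU0⟩ := by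
        apply Subtype.ext
        rw [Submodule.coe_sub, hρ, hφ, add_sub_cancel_left]
      rw [Module.End.one_apply, h1, Submodule.coe_sub, hρ, hφ]
      simp [hφ0])
    (by
      ext w
      rw [pow_two, Module.End.mul_apply, LinearMap.sub_apply, LinearMap.sub_apply, Module.End.one_apply,
        LinearMap.zero_apply]
      have h1 : (ρ ⟨t', ht'D⟩ w - w : U) = ⟨ψ w • v₁, U.smul_mem _ hU1⟩ := by
        apply Subtype.ext
        rw [Submodule.coe_sub, hρ, hφ', add_sub_cancel_left]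
      rw [Module.End.one_apply, h1, Submodule.coe_sub, hρ, hφ']
      simp [hψ1])
  have hw1' : φ w = 0 := by
    have h1 := congrArg Subtype.val hw1
    rw [hρ, hφ] at h1
    exact (smul_eq_zero.1 (add_eq_left.1 h1)).resolve_right hv₀
  have hv₁0 : v₁ ≠ 0 := by
    rintro rfl
    exact ha (map_zero _)
  have hw2' : ψ w = 0 := by
    have h1 := congrArg Subtype.val hw2
    rw [hρ, hφ'] at h1
    exact (smul_eq_zero.1 (add_eq_left.1 h1)).resolve_right hv₁0
  obtain ⟨α, β, hαβ⟩ := Submodule.mem_span_pair.1 w.2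
  rw [← hαβ, map_add, map_smul, map_smul, hφ0, smul_zero, zero_add, smul_eq_mul, mul_eq_zero] at hw1'
  have hβ : β = 0 := hw1'.resolve_right ha
  rw [← hαβ, map_add, map_smul, map_smul, hβ, zero_smul, add_zero, smul_eq_mul, mul_eq_zero] at hw2'
  have hα : α = 0 := hw2'.resolve_right hb
  apply hw0
  apply Subtype.ext
  rw [← hαβ, hα, hβ, zero_smul, zero_smul, add_zero]
  rfl

/-- the nilpotent parts of the transvections of `Y` -/
def IsT (Y : Subgroup (V ≃ₗ[F] V)) (ν : V →ₗ[F] V) : Prop :=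
  ∃ (φ : V →ₗ[F] F) (e : V), φ e = 0 ∧ (∀ v, ν v = φ v • e) ∧ ∃ t ∈ Y, (t : V →ₗ[F] V) = 1 + ν

/-- **if `V ≠ 0` some nonzero vector is not the centre of a transvection of `Y`** -/
theorem exists_center (h2 : (2 : F) ≠ 0)
    (hFT : ∀ (D : Type v) [Group D] [Finite D], Odd (Nat.card D) → Group.IsSolvable D)
    {Y : Subgroup (V ≃ₗ[F] V)} (hdet : Y ≤ slV F V) (hno : ∀ z ∈ Y, ¬ fund z) [Nontrivial V] :
    ∃ e : V, e ≠ 0 ∧ Y ⊓ unipG (F ∙ e) = ⊥ := by
  have := finite_equiv F V
  let E := LinearMap.GeneralLinearGroup.generalLinearEquiv F V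
  let G : Subgroup (LinearMap.GeneralLinearGroup F V) := Y.map E.symm.toMonoidHom
  have hNN : ∀ ν, IsT Y ν → ν * ν = 0 := by
    rintro ν ⟨φ, e, h0, h1, -⟩
    ext v
    rw [Module.End.mul_apply, h1, h1, map_smul, h0, smul_zero, zero_smul, LinearMap.zero_apply]
  have hNM : ∀ ν, IsT Y ν → ∀ μ, IsT Y μ → ν * μ * ν = 0 := by
    rintro ν ⟨φ, e, h0, h1, t, ht, ht'⟩ μ ⟨ψ, f, k0, k1, s, hs, hs'⟩
    have ht1 : ∀ v, t v = v + φ v • e := by
      intro v
      rw [← h1]
      exact congrArg (fun g : V →ₗ[F] V => g v) ht'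
    have hs1 : ∀ v, s v = v + ψ v • f := by
      intro v
      rw [← k1]
      exact congrArg (fun g : V →ₗ[F] V => g v) hs'
    ext v
    rw [Module.End.mul_apply, Module.End.mul_apply, h1 v, map_smul, map_smul, k1, map_smul, h1 f,
      LinearMap.zero_apply]
    rcases pair h2 hFT hdet hno ht hs ht1 hs1 h0 k0 with h | h
    · rw [h, zero_smul, smul_zero, smul_zero]
    · rw [h, zero_smul, smul_zero]
  let W : Set (Subgroup (LinearMap.GeneralLinearGroup F V)) :=
    {A | ∃ (ν : V →ₗ[F] V) (h : IsT Y ν), A = Subgroup.zpowers (H740.oneAdd ν (hNN ν h))}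
  have hWG : ∀ A ∈ W, A ≤ G := by
    rintro _ ⟨ν, hν, rfl⟩
    rw [Subgroup.zpowers_le]
    obtain ⟨φ, e, h0, h1, t, ht, ht'⟩ := id hν
    refine ⟨t, ht, ?_⟩
    apply Units.ext
    rw [H740.coe_oneAdd, ← ht']
    rfl
  have hconj : ∀ A ∈ W, ∀ g ∈ G, conjBy A g ∈ W := by
    rintro _ ⟨ν, hν, rfl⟩ _ ⟨g, hg, rfl⟩
    obtain ⟨φ, e, h0, h1, t, ht, ht'⟩ := id hν
    have hgi : ∀ v, g⁻¹ (g v) = v := fun v => by rw [← LinearEquiv.mul_apply, inv_mul_cancel]; rfl
    have hgi' : ∀ v, g (g⁻¹ v) = v := fun v => by rw [← LinearEquiv.mul_apply, mul_inv_cancel]; rfl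
    have hν' : IsT Y ((g : V →ₗ[F] V) * ν * ((g⁻¹ : V ≃ₗ[F] V) : V →ₗ[F] V)) := by
      refine ⟨φ ∘ₗ ((g⁻¹ : V ≃ₗ[F] V) : V →ₗ[F] V), g e, ?_, ?_, g * t * g⁻¹,
        Y.mul_mem (Y.mul_mem hg ht) (Y.inv_mem hg), ?_⟩
      · show φ (g⁻¹ (g e)) = 0
        rw [hgi, h0]
      · intro v
        show g (ν (g⁻¹ v)) = φ (g⁻¹ v) • g e
        rw [h1, map_smul]
      · ext v
        show g (t (g⁻¹ v)) = v + g (ν (g⁻¹ v))
        have h3 : t (g⁻¹ v) = g⁻¹ v + ν (g⁻¹ v) := congrArg (fun g' : V →ₗ[F] V => g' (g⁻¹ v)) ht'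
        rw [h3, map_add, hgi']
    refine ⟨_, hν', ?_⟩
    rw [conjBy, MonoidHom.map_zpowers]
    congr 1
    apply Units.ext
    rw [H740.coe_oneAdd]
    ext v
    show g ((1 + ν) (g⁻¹ v)) = v + g (ν (g⁻¹ v))
    rw [LinearMap.add_apply, map_add, Module.End.one_apply, hgi']
  have huni : IsUnipotentOn (⨆ A ∈ W, A) := by
    apply H740.isUnipotentOn_iSup hWG
    · rintro _ ⟨a, ha, rfl⟩ _ ⟨b, hb, rfl⟩
      exact H740.isUnipotentOn_zpowers_sup (hNN a ha) (hNN b hb) (hNM a ha b hb) (hNM b hb a ha)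
    · exact hconj
  obtain ⟨n, hn⟩ := (H740.isUnipotentOn_iff _).1 huni
  set J := H740.augSpan (⨆ A ∈ W, A) with hJ
  -- the span of the centres
  by_contra hcon
  push Not at hcon
  have hall : ∀ k : ℕ, (⊤ : Submodule F V) ≤ Submodule.span F {x | ∃ f ∈ J ^ k, ∃ v, x = f v} := by
    intro k
    induction k with
    | zero =>
      intro v _
      refine Submodule.subset_span ⟨1, ?_, v, rfl⟩
      rw [pow_zero]
      exact Submodule.one_le.1 le_rfl
    | succ k ih =>
      intro e _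
      by_cases he : e = 0
      · rw [he]; exact Submodule.zero_mem _
      obtain ⟨t, ⟨htY, htu⟩, ht1⟩ := Subgroup.ne_bot_iff_exists_ne_one.1 (hcon e he) |> fun ⟨x, hx⟩ =>
        (⟨x.1, x.2, fun h => hx (Subtype.ext h)⟩ : ∃ t : V ≃ₗ[F] V, t ∈ Y ⊓ unipG (F ∙ e) ∧ t ≠ 1)
      obtain ⟨φ, h0, h1⟩ := exists_functional he htu
      obtain ⟨x, hx⟩ : ∃ x, φ x ≠ 0 := by
        by_contra hx
        push Not at hx
        apply ht1
        ext v
        rw [h1, hx, zero_smul, add_zero]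
        rfl
      have hν : IsT Y (φ.smulRight e) := by
        refine ⟨φ, e, h0, fun v => rfl, t, htY, ?_⟩
        ext v
        exact h1 v
      have hmem : H740.oneAdd (φ.smulRight e) (hNN _ hν) ∈ (⨆ A ∈ W, A) :=
        (le_iSup₂_of_le (Subgroup.zpowers (H740.oneAdd (φ.smulRight e) (hNN _ hν))) ⟨_, hν, rfl⟩ le_rfl :
          Subgroup.zpowers (H740.oneAdd (φ.smulRight e) (hNN _ hν)) ≤ _) (Subgroup.mem_zpowers _)
      have h3 : e = (φ.smulRight e) ((φ x)⁻¹ • x) := by
        rw [LinearMap.smulRight_apply, map_smul, smul_eq_mul, inv_mul_cancel₀ hx, one_smul]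
      rw [h3]
      have h4 : (φ x)⁻¹ • x ∈ Submodule.span F {x | ∃ f ∈ J ^ k, ∃ v, x = f v} := ih (Submodule.mem_top)
      have h5 := Submodule.mem_map_of_mem (f := φ.smulRight e) h4
      rw [Submodule.map_span] at h5
      refine Submodule.span_mono ?_ h5
      rintro _ ⟨_, ⟨f, hf, v, rfl⟩, rfl⟩
      refine ⟨φ.smulRight e * f, ?_, v, rfl⟩
      rw [pow_succ']
      refine Submodule.mul_mem_mul ?_ hf
      have h6 := H740.sub_one_mem_augSpan hmem
      rwa [H740.coe_oneAdd, add_sub_cancel_left] at h6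
  obtain ⟨x, hx⟩ := exists_ne (0 : V)
  apply hx
  have h1 := hall n (Submodule.mem_top (x := x))
  have h3 : {x | ∃ f ∈ J ^ n, ∃ v, x = f v} ⊆ {(0 : V)} := by
    rintro _ ⟨f, hf, v, rfl⟩
    rw [hn] at hf
    rw [(Submodule.mem_bot F).1 hf]
    rfl
  have h4 := Submodule.span_mono (R := F) h3 h1
  rwa [Submodule.span_singleton_eq_bot.2 rfl, Submodule.mem_bot] at h4

end LR

/-! ### (PHI) -/

section Ext

variable {F : Type u} [Field F] {V : Type v} [AddCommGroup V] [Module F V] {D U : Submodule F V}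

/-- extension by the identity on `D` -/
noncomputable def ext (h : IsCompl D U) : (U ≃ₗ[F] U) →* (V ≃ₗ[F] V) where
  toFun y := (Submodule.prodEquivOfIsCompl D U h).symm.trans
    (((LinearEquiv.refl F D).prodCongr y).trans (Submodule.prodEquivOfIsCompl D U h))
  map_one' := by
    ext v
    obtain ⟨x, rfl⟩ := (Submodule.prodEquivOfIsCompl D U h).surjective v
    simp only [LinearEquiv.trans_apply, LinearEquiv.symm_apply_apply]
    rfl
  map_mul' a b := by
    ext v
    obtain ⟨x, rfl⟩ := (Submodule.prodEquivOfIsCompl D U h).surjective v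
    simp only [LinearEquiv.mul_apply, LinearEquiv.trans_apply, LinearEquiv.symm_apply_apply]
    rfl

theorem ext_add (h : IsCompl D U) (y : U ≃ₗ[F] U) (a : D) (b : U) : ext h y ((a : V) + b) = a + y b := by
  have h1 : (Submodule.prodEquivOfIsCompl D U h).symm ((a : V) + b) = (a, b) := by
    rw [LinearEquiv.symm_apply_eq]
    rfl
  show (Submodule.prodEquivOfIsCompl D U h) (((LinearEquiv.refl F D).prodCongr y)
    ((Submodule.prodEquivOfIsCompl D U h).symm ((a : V) + b))) = _
  rw [h1]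
  rfl

theorem exists_add (h : IsCompl D U) (v : V) : ∃ (a : D) (b : U), v = (a : V) + b := by
  obtain ⟨⟨a, b⟩, rfl⟩ := (Submodule.prodEquivOfIsCompl D U h).surjective v
  exact ⟨a, b, rfl⟩

theorem ext_fix (h : IsCompl D U) (y : U ≃ₗ[F] U) : ext h y ∈ fixG D := by
  intro w hw
  have h1 := ext_add h y ⟨w, hw⟩ 0
  rw [map_zero, Submodule.coe_zero, add_zero] at h1
  exact h1

theorem ext_cofix (h : IsCompl D U) (y : U ≃ₗ[F] U) : ext h y ∈ cofixG U := by
  intro v
  obtain ⟨a, b, rfl⟩ := exists_add h v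
  rw [ext_add, add_sub_add_left_eq_sub]
  exact U.sub_mem (y b).2 b.2

theorem ext_coe (h : IsCompl D U) (y : U ≃ₗ[F] U) (b : U) : ext h y b = y b := by
  have h1 := ext_add h y 0 b
  rw [Submodule.coe_zero, zero_add, zero_add] at h1
  exact h1

theorem ext_mem [FiniteDimensional F V] (h : IsCompl D U) {y : U ≃ₗ[F] U} (hy : y ∈ slV F U) :
    ext h y ∈ slV F V := by
  rw [mem_slV] at hy ⊢
  rw [det_cofix U ⟨ext h y, ext_cofix h y⟩]
  have h1 : resH U ⟨ext h y, ext_cofix h y⟩ = y := by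
    ext b
    rw [resH_coe]
    exact ext_coe h y b
  rw [h1, hy]

theorem ext_fund (h2 : (2 : F) ≠ 0) (h : IsCompl D U) {y : U ≃ₗ[F] U} (hy : fund y) : fund (ext h y) := by
  rw [fund_iff h2] at hy ⊢
  refine ⟨by rw [← map_mul, hy.1, map_one], ?_⟩
  have h0 : negS (ext h y) = (negS y).map U.subtype := by
    ext v
    constructor
    · intro hv
      obtain ⟨a, b, rfl⟩ := exists_add h v
      have h1 : (a : V) + y b = -((a : V) + b) := by rw [← ext_add h]; exact hv
      have h3 : (a : V) + a = -((b : V) + y b) := by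
        have h4 : (a : V) + a = ((a : V) + y b) + a - y b := by abel
        rw [h4, h1]; abel
      have h4 : (a : V) + a ∈ D ⊓ U :=
        ⟨D.add_mem a.2 a.2, by rw [h3]; exact U.neg_mem (U.add_mem b.2 (y b).2)⟩
      rw [h.inf_eq_bot, Submodule.mem_bot, ← two_smul F, smul_eq_zero] at h4
      have h5 : (a : V) = 0 := h4.resolve_left h2
      rw [h5, zero_add, zero_add] at h1
      refine ⟨b, Subtype.ext h1, ?_⟩
      rw [h5, zero_add]
      rfl
    · rintro ⟨b, hb, rfl⟩
      show ext h y b = -(b : V)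
      rw [ext_coe]
      exact congrArg Subtype.val (show y b = -b from hb)
  rw [h0, Submodule.finrank_map_subtype_eq U (negS y), hy.2]

/-- `SL(U) × Γ → SL(V) × Γ` -/
noncomputable def lam [FiniteDimensional F V] (h : IsCompl D U) (Γ : Type w) [Group Γ] :
    slV F U × Γ →* slV F V × Γ :=
  MonoidHom.prodMap (((ext h).comp (slV F U).subtype).codRestrict (slV F V) (fun y => ext_mem h y.2))
    (MonoidHom.id Γ)

end Ext

theorem unip_le_slV {F : Type u} [Field F] {V : Type v} [AddCommGroup V] [Module F V] [FiniteDimensional F V]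
    (W : Submodule F V) : unipG W ≤ slV F V := by
  intro g hg
  rw [mem_slV, det_cofix W ⟨g, hg.2⟩]
  have h1 : resH W ⟨g, hg.2⟩ = 1 := by
    ext x
    rw [resH_coe]
    exact hg.1 x x.2
  rw [h1]
  exact LinearMap.det_id

theorem card_unip {F : Type u} [Field F] [Finite F] {V : Type v} [AddCommGroup V] [Module F V] [Finite V]
    {e : V} (he : e ≠ 0) {n : ℕ} (hn : finrank F V = n + 1) :
    Nat.card F ^ n ≤ Nat.card (unipG (F ∙ e)) := by
  have := finite_equiv F V
  let K := LinearMap.ker (LinearMap.applyₗ (R := F) (M₂ := F) e)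
  have h1 : finrank F (LinearMap.range (LinearMap.applyₗ (R := F) (M₂ := F) e)) ≤ 1 := by
    refine (Submodule.finrank_le _).trans ?_
    rw [finrank_self]
  have h3 := LinearMap.finrank_range_add_finrank_ker (LinearMap.applyₗ (R := F) (M₂ := F) e)
  have h4 : finrank F (V →ₗ[F] F) = n + 1 := by rw [finrank_linearMap, finrank_self, mul_one, hn]
  have h5 : n ≤ finrank F K := by
    have h6 : finrank F (LinearMap.range (LinearMap.applyₗ (R := F) (M₂ := F) e)) + finrank F K = n + 1 := by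
      rw [← h4]; exact h3
    omega
  have hfin : Finite (V →ₗ[F] F) := Finite.of_injective (fun e : V →ₗ[F] F => (e : V → F))
    (fun _ _ h => LinearMap.ext fun v => congrFun h v)
  have h6 : Nat.card F ^ n ≤ Nat.card K := by
    rw [Module.natCard_eq_pow_finrank (K := F) (V := K)]
    exact Nat.pow_le_pow_right Nat.card_pos h5
  refine h6.trans ?_
  have hK : ∀ φ : K, φ.1 e = 0 := fun φ => φ.2
  choose T hT hT' using fun φ : K => tv_mem e φ.1 (hK φ)
  refine Nat.card_le_card_of_injective (fun φ => (⟨T φ, hT φ⟩ : unipG (F ∙ e))) ?_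
  intro a b hab
  have h7 : T a = T b := congrArg Subtype.val hab
  apply Subtype.ext
  ext v
  have h8 := hT' a v
  rw [h7, hT' b v] at h8
  have h9 := add_left_cancel h8
  rw [← sub_eq_zero, ← sub_smul, smul_eq_zero] at h9
  exact (sub_eq_zero.1 (h9.resolve_right he)).symm

/-- **(PHI) for `SL(V)`, relative form** (`q` odd). -/
theorem phi_sl {F : Type u} [Field F] [Finite F] (h2 : (2 : F) ≠ 0)
    (hFT : ∀ (D : Type v) [Group D] [Finite D], Odd (Nat.card D) → Group.IsSolvable D) :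
    ∀ (d : ℕ) (V : Type v) [AddCommGroup V] [Module F V] [Module.Finite F V], finrank F V = d →
      ∀ (Γ : Type w) [Group Γ] [Finite Γ] (Z : Set Γ) (c : ℕ), (∀ z ∈ Z, z * z = 1) →
        (∀ g, ∀ z ∈ Z, g * z * g⁻¹ ∈ Z) → (∀ Y : Subgroup Γ, (∀ z ∈ Z, z ∉ Y) → c ≤ Y.index) →
        ∀ X : Subgroup (slV F V × Γ), (∀ z : slV F V, fund z.1 → (z, 1) ∉ X) →
          (∀ z ∈ Z, ((1 : slV F V), z) ∉ X) → Nat.card F ^ (d * (d - 1) / 2) * c ≤ X.index := by
  intro d
  induction d with
  | zero =>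
    intro V _ _ _ hd Γ _ _ Z c hZ hZc hc X hX1 hX2
    have : Finite V := Module.finite_of_finite F
    have := finite_equiv F V
    have h1 : c ≤ (X.comap (MonoidHom.inr (slV F V) Γ)).index := hc _ fun z hz h => hX2 z hz h
    have h3 : (X.comap (MonoidHom.inr (slV F V) Γ)).index ≤ X.index := by
      rw [Subgroup.index_comap]
      rw [← Subgroup.relIndex_top_right X]
      exact Subgroup.relIndex_le_of_le_right le_top Subgroup.index_ne_zero_of_finite
    simpa using h1.trans h3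
  | succ n ih =>
    intro V _ _ _ hd Γ _ _ Z c hZ hZc hc X hX1 hX2
    have : Finite V := Module.finite_of_finite F
    have := finite_equiv F V
    have hnt : Nontrivial V := by
      rw [← Module.finrank_pos_iff (R := F)]
      omega
    -- the choice of `e`
    let Y : Subgroup (V ≃ₗ[F] V) := (X.comap (MonoidHom.inl (slV F V) Γ)).map (slV F V).subtype
    have hYsl : Y ≤ slV F V := by
      rintro _ ⟨g, -, rfl⟩
      exact g.2
    have hYno : ∀ z ∈ Y, ¬ fund z := by
      rintro _ ⟨g, hg, rfl⟩ hf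
      exact hX1 g hf hg
    obtain ⟨e, he, hbot⟩ := exists_center h2 hFT hYsl hYno
    obtain ⟨U, hU⟩ := (F ∙ e).exists_isCompl
    have hUd : finrank F U = n := by
      have h1 := Submodule.finrank_add_eq_of_isCompl hU
      rw [finrank_span_singleton he] at h1
      omega
    -- the group `Q`
    let Q : Subgroup (slV F V × Γ) := ((unipG (F ∙ e)).subgroupOf (slV F V)).prod ⊥
    have hQ1 : ∀ g : slV F V, ∀ γ : Γ, (g, γ) ∈ Q ↔ g.1 ∈ unipG (F ∙ e) ∧ γ = 1 := by
      intro g γ
      rw [Subgroup.mem_prod, Subgroup.mem_bot, Subgroup.mem_subgroupOf]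
    have hQodd : Odd (Nat.card Q) := by
      by_contra hev
      rw [Nat.not_odd_iff_even, even_iff_two_dvd] at hev
      obtain ⟨⟨⟨g, γ⟩, hgQ⟩, hg⟩ := exists_prime_orderOf_dvd_card' 2 hev
      rw [← Subgroup.orderOf_coe] at hg
      obtain ⟨hgu, rfl⟩ := (hQ1 g γ).1 hgQ
      have h1 := pow_orderOf_eq_one ((g, (1 : Γ)) : slV F V × Γ)
      rw [show orderOf ((g, (1 : Γ)) : slV F V × Γ) = 2 from hg] at h1
      have h3 : g.1 ^ (2 ^ 1) = 1 := congrArg (fun p : slV F V × Γ => p.1.1) h1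
      have h4 := unip_eq_one h2 hgu h3
      have h5 : ((g, (1 : Γ)) : slV F V × Γ) = 1 := Prod.ext (Subtype.ext h4) rfl
      have h6 : orderOf ((g, (1 : Γ)) : slV F V × Γ) = 2 := hg
      rw [h5, orderOf_one] at h6
      omega
    have hQcard : Nat.card F ^ n ≤ Nat.card Q := by
      refine (card_unip he hd).trans ?_
      refine Nat.card_le_card_of_injective (fun g : unipG (F ∙ e) =>
        (⟨(⟨g.1, unip_le_slV _ g.2⟩, 1), (hQ1 _ _).2 ⟨g.2, rfl⟩⟩ : Q)) ?_
      intro a b hab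
      have h1 := congrArg (fun p : Q => p.1.1.1) hab
      exact Subtype.ext h1
    have hXQ : X ⊓ Q = ⊥ := by
      rw [Subgroup.eq_bot_iff_forall]
      rintro ⟨g, γ⟩ ⟨hg, hgQ⟩
      obtain ⟨hgu, rfl⟩ := (hQ1 g γ).1 hgQ
      have h1 : g.1 ∈ Y ⊓ unipG (F ∙ e) := ⟨⟨g, hg, rfl⟩, hgu⟩
      rw [hbot, Subgroup.mem_bot] at h1
      exact Prod.ext (Subtype.ext h1) rfl
    have := finite_equiv F U
    let Zs : Set (slV F V × Γ) := {p | (fund p.1.1 ∧ p.2 = 1) ∨ (p.1 = 1 ∧ p.2 ∈ Z)}
    have key := H847.IF.abs_index (lam hU Γ) Q X hQodd ?_ Zs ?_ ?_ ?_ (Nat.card F ^ (n * (n - 1) / 2) * c) ?_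
    · rw [hXQ, Subgroup.card_bot, one_mul] at key
      refine le_trans ?_ key
      rw [show n + 1 - 1 = n from rfl, show (n + 1) * n / 2 = n * (n - 1) / 2 + n from Nat.triangle_succ n,
        add_comm, pow_add, mul_assoc]
      exact Nat.mul_le_mul_right _ hQcard
    · rintro ⟨l, γ⟩ ⟨g, γ'⟩ hg
      obtain ⟨hgu, rfl⟩ := (hQ1 g γ').1 hg
      refine (hQ1 _ _).2 ⟨?_, ?_⟩
      · show ext hU l.1 * g.1 * (ext hU l.1)⁻¹ ∈ unipG (F ∙ e)
        constructor
        · intro w hw
          have h1 : (ext hU l.1)⁻¹ w = w := (fixG (F ∙ e)).inv_mem (ext_fix hU l.1) w hw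
          rw [LinearEquiv.mul_apply, LinearEquiv.mul_apply, h1, hgu.1 w hw]
          exact ext_fix hU l.1 w hw
        · intro v
          have h1 : v = ext hU l.1 ((ext hU l.1)⁻¹ v) := by
            rw [← LinearEquiv.mul_apply, mul_inv_cancel]
            rfl
          have h3 : (ext hU l.1 * g.1 * (ext hU l.1)⁻¹) v - v =
              ext hU l.1 (g.1 ((ext hU l.1)⁻¹ v) - (ext hU l.1)⁻¹ v) := by
            rw [map_sub, ← h1]
            rfl
          rw [h3, ext_fix hU l.1 _ (hgu.2 _)]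
          exact hgu.2 _
      · show γ * 1 * γ⁻¹ = 1
        rw [mul_one, mul_inv_cancel]
    · rintro ⟨g, γ⟩ (⟨h1, rfl⟩ | ⟨rfl, h1⟩)
      · exact Prod.ext (Subtype.ext h1.1) (mul_one _)
      · exact Prod.ext (mul_one _) (hZ _ h1)
    · rintro ⟨a, α⟩ ⟨g, γ⟩ (⟨h1, h3⟩ | ⟨h1, h3⟩)
      · left
        have h3' : γ = 1 := h3
        subst h3'
        refine ⟨?_, ?_⟩
        · rw [fund_iff h2] at h1 ⊢
          have hsq : (a.1 * g.1 * a.1⁻¹) * (a.1 * g.1 * a.1⁻¹) = 1 := by
            have h5 : (a.1 * g.1 * a.1⁻¹) * (a.1 * g.1 * a.1⁻¹) = a.1 * (g.1 * g.1) * a.1⁻¹ := by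
              simp only [mul_assoc, inv_mul_cancel_left]
            rw [h5, h1.1, mul_one, mul_inv_cancel]
          refine ⟨hsq, ?_⟩
          rw [← h1.2]
          have h6 : negS (a.1 * g.1 * a.1⁻¹) = (negS g.1).map (a.1 : V →ₗ[F] V) := by
            ext v
            constructor
            · intro hv
              have h7 : a.1 (g.1 (a.1⁻¹ v)) = -v := hv
              refine ⟨a.1⁻¹ v, ?_, ?_⟩
              · show g.1 (a.1⁻¹ v) = -(a.1⁻¹ v)
                apply a.1.injective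
                rw [h7, map_neg, ← LinearEquiv.mul_apply, mul_inv_cancel]
                rfl
              · show (a.1 * a.1⁻¹) v = v
                rw [mul_inv_cancel]
                rfl
            · rintro ⟨x, hx, rfl⟩
              have hx' : g.1 x = -x := hx
              show a.1 (g.1 (a.1⁻¹ (a.1 x))) = -(a.1 x)
              rw [← LinearEquiv.mul_apply a.1⁻¹, inv_mul_cancel, LinearEquiv.coe_one, id, hx', map_neg]
          show finrank F (negS (a.1 * g.1 * a.1⁻¹)) = _
          rw [h6]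
          exact LinearEquiv.finrank_map_eq a.1 (negS g.1)
        · show α * 1 * α⁻¹ = 1
          rw [mul_one, mul_inv_cancel]
      · right
        have h1' : g = 1 := h1
        subst h1'
        refine ⟨?_, hZc α γ h3⟩
        show a * 1 * a⁻¹ = 1
        rw [mul_one, mul_inv_cancel]
    · rintro ⟨g, γ⟩ (⟨h1, h3⟩ | ⟨h1, h3⟩) hX
      · have h3' : γ = 1 := h3
        subst h3'
        exact hX1 g h1 hX
      · have h1' : g = 1 := h1
        subst h1'
        exact hX2 γ h3 hX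
    · intro Y' hY'
      refine ih U hUd Γ Z c hZ hZc hc Y' ?_ ?_
      · intro z hz hzY
        exact hY' _ hzY (Or.inl ⟨ext_fund h2 hU hz, rfl⟩)
      · intro z hz hzY
        refine hY' _ hzY (Or.inr ⟨?_, hz⟩)
        exact Subtype.ext (map_one (ext hU))

end Cfsg.Agent.H353.Phi
end

-- part: H353/IF/PhiSLCor
section
prune_inst 0x14004201062000008000506320020004c0000020023400089400b460b41e10a600407401cf0241080d280806048806001000110425000000e000c0000050020808352269248b00ca40007800084000000000000000000000000000000020000000000000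
set_option linter.all false
open scoped Cfsg.Agent.FastGrp

/-!
# S5719: corollaries of (PHI) for `SL` (helper353)

* `phi_sl_abs`, `phi_sl_prod` : `X ≤ SL(V)`, `X ≤ SL(V) × SL(V')`.
* `slEquiv : SpecialLinearGroup n F ≃* slV F (n → F)`, `mfund`, `mfund_iff`;
* `phi_mat_abs`, `phi_mat_prod`, `phi_mat_rel` : the same for `Matrix.SpecialLinearGroup`.
* `relIndex_eq` : transport along an embedding (`X ≤ G`, `f : K →* G`): `(X.comap f).index = X.relIndex f.range`.
-/

set_option autoImplicit false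
set_option linter.unusedSectionVars false

namespace Cfsg.Agent.H353.Phi

open Module
open Cfsg.Agent.H847.Bs (slV)

universe u v w

theorem fund_conj {F : Type*} [Field F] (h2 : (2 : F) ≠ 0) {V : Type*} [AddCommGroup V] [Module F V]
    (a : V ≃ₗ[F] V) {z : V ≃ₗ[F] V} (hz : fund z) : fund (a * z * a⁻¹) := by
  rw [fund_iff h2] at hz ⊢
  have hsq : (a * z * a⁻¹) * (a * z * a⁻¹) = 1 := by
    have h5 : (a * z * a⁻¹) * (a * z * a⁻¹) = a * (z * z) * a⁻¹ := by
      simp only [mul_assoc, inv_mul_cancel_left]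
    rw [h5, hz.1, mul_one, mul_inv_cancel]
  refine ⟨hsq, ?_⟩
  rw [← hz.2]
  have h6 : negS (a * z * a⁻¹) = (negS z).map (a : V →ₗ[F] V) := by
    ext v
    constructor
    · intro hv
      have h7 : a (z (a⁻¹ v)) = -v := hv
      refine ⟨a⁻¹ v, ?_, ?_⟩
      · show z (a⁻¹ v) = -(a⁻¹ v)
        apply a.injective
        rw [h7, map_neg, ← LinearEquiv.mul_apply, mul_inv_cancel]
        rfl
      · show (a * a⁻¹) v = v
        rw [mul_inv_cancel]
        rfl
    · rintro ⟨x, hx, rfl⟩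
      have hx' : z x = -x := hx
      show a (z (a⁻¹ (a x))) = -(a x)
      rw [← LinearEquiv.mul_apply a⁻¹, inv_mul_cancel, LinearEquiv.coe_one, id, hx', map_neg]
  rw [h6]
  exact LinearEquiv.finrank_map_eq a (negS z)

section Cor

variable {F : Type u} [Field F] [Finite F] (h2 : (2 : F) ≠ 0)
  (hFT : ∀ (D : Type v) [Group D] [Finite D], Odd (Nat.card D) → Group.IsSolvable D)

include h2 hFT

/-- **(PHI) for `SL(V)`, absolute form** -/
theorem phi_sl_abs {V : Type v} [AddCommGroup V] [Module F V] [Module.Finite F V] {X : Subgroup (slV F V)}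
    (hX : ∀ z : slV F V, fund z.1 → z ∉ X) :
    Nat.card F ^ (finrank F V * (finrank F V - 1) / 2) ≤ X.index := by
  have h1 := phi_sl h2 hFT (finrank F V) V rfl Unit ∅ 1 (fun z hz => (Set.notMem_empty z hz).elim)
    (fun g z hz => (Set.notMem_empty z hz).elim) (fun Y _ => Nat.one_le_iff_ne_zero.2 Subgroup.index_ne_zero_of_finite)
    (X.prod ⊤) (fun z hz h => hX z hz (Subgroup.mem_prod.1 h).1) (fun z hz => (Set.notMem_empty z hz).elim)
  rwa [mul_one, Subgroup.index_prod, Subgroup.index_top, mul_one] at h1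

/-- **(PHI) for `SL(V) × SL(V')`** -/
theorem phi_sl_prod {V V' : Type v} [AddCommGroup V] [Module F V] [Module.Finite F V] [AddCommGroup V']
    [Module F V'] [Module.Finite F V'] {X : Subgroup (slV F V × slV F V')}
    (hX : ∀ z : slV F V, fund z.1 → (z, 1) ∉ X) (hX' : ∀ z : slV F V', fund z.1 → (1, z) ∉ X) :
    Nat.card F ^ (finrank F V * (finrank F V - 1) / 2 + finrank F V' * (finrank F V' - 1) / 2) ≤ X.index := by
  have : Finite V' := Module.finite_of_finite F
  have := finite_equiv F V'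
  have h1 := phi_sl h2 hFT (finrank F V) V rfl (slV F V') {z | fund z.1}
    (Nat.card F ^ (finrank F V' * (finrank F V' - 1) / 2)) (fun z hz => Subtype.ext hz.1)
    (fun g z hz => fund_conj h2 g.1 hz) (fun Y hY => phi_sl_abs h2 hFT fun z hz => hY z hz) X hX
    (fun z hz => hX' z hz)
  rwa [← pow_add] at h1

end Cor

/-! ### matrices -/

section Mat

variable (F : Type u) [Field F] (ι : Type v) [Fintype ι] [DecidableEq ι]

/-- `SL_n(F) = SL(Fⁿ)` -/
noncomputable def slEquiv : Matrix.SpecialLinearGroup ι F ≃* slV F (ι → F) :=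
  MulEquiv.ofBijective ((Matrix.SpecialLinearGroup.toLin' (n := ι) (R := F)).codRestrict (slV F (ι → F))
    (fun A => by
      show LinearMap.det (Matrix.toLin' (A : Matrix ι ι F)) = 1
      rw [LinearMap.det_toLin', A.2])) (by
    constructor
    · intro A B h
      have h1 := congrArg Subtype.val h
      exact Matrix.SpecialLinearGroup.toLin'_injective h1
    · rintro ⟨g, hg⟩
      refine ⟨⟨LinearMap.toMatrix' (g : (ι → F) →ₗ[F] (ι → F)), ?_⟩, ?_⟩
      · rw [LinearMap.det_toMatrix']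
        exact hg
      · apply Subtype.ext
        apply LinearEquiv.toLinearMap_injective
        exact Matrix.toLin'_toMatrix' _)

variable {F ι}

/-- fundamental involutions of `SL_n(F)` : `z² = 1`, `rank (z - 1) = 2` -/
def mfund (z : Matrix.SpecialLinearGroup ι F) : Prop :=
  z * z = 1 ∧ ((z : Matrix ι ι F) - 1).rank = 2

theorem mfund_iff (z : Matrix.SpecialLinearGroup ι F) : mfund z ↔ fund (slEquiv F ι z).1 := by
  have h1 : z * z = 1 ↔ (slEquiv F ι z).1 * (slEquiv F ι z).1 = 1 := by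
    constructor
    · intro h
      have h3 : slEquiv F ι z * slEquiv F ι z = 1 := by rw [← map_mul, h, map_one]
      exact congrArg Subtype.val h3
    · intro h
      apply (slEquiv F ι).injective
      rw [map_mul, map_one]
      exact Subtype.ext h
  have h3 : LinearMap.range (((slEquiv F ι z).1 : (ι → F) →ₗ[F] (ι → F)) - 1) =
      LinearMap.range (((z : Matrix ι ι F) - 1).mulVecLin) := by
    congr 1
    ext v : 1
    rw [← Matrix.toLin'_apply', map_sub, Matrix.toLin'_one]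
    rfl
  unfold mfund fund
  rw [h1, h3]
  rfl

section Cor

variable [Finite F] (h2 : (2 : F) ≠ 0)
  (hFT : ∀ (D : Type (max u v)) [Group D] [Finite D], Odd (Nat.card D) → Group.IsSolvable D)

include h2 hFT

/-- **(PHI) for `SL_n(F)`, relative form** -/
theorem phi_mat_rel (Γ : Type w) [Group Γ] [Finite Γ] (Z : Set Γ) (c : ℕ) (hZ : ∀ z ∈ Z, z * z = 1)
    (hZc : ∀ g, ∀ z ∈ Z, g * z * g⁻¹ ∈ Z) (hc : ∀ Y : Subgroup Γ, (∀ z ∈ Z, z ∉ Y) → c ≤ Y.index)
    {X : Subgroup (Matrix.SpecialLinearGroup ι F × Γ)}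
    (hX : ∀ z : Matrix.SpecialLinearGroup ι F, mfund z → (z, 1) ∉ X)
    (hX' : ∀ z ∈ Z, ((1 : Matrix.SpecialLinearGroup ι F), z) ∉ X) :
    Nat.card F ^ (Fintype.card ι * (Fintype.card ι - 1) / 2) * c ≤ X.index := by
  let e : Matrix.SpecialLinearGroup ι F × Γ ≃* slV F (ι → F) × Γ := (slEquiv F ι).prodCongr (MulEquiv.refl Γ)
  have h1 := phi_sl h2 hFT (Fintype.card ι) (ι → F) (finrank_fintype_fun_eq_card F) Γ Z c hZ hZc hc
    (X.map (e : _ →* _)) ?_ ?_
  · rwa [Subgroup.index_map_equiv] at h1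
  · rintro z hz ⟨⟨y, γ⟩, hy, he⟩
    have h3 : slEquiv F ι y = z := congrArg Prod.fst he
    have h4 : γ = 1 := congrArg Prod.snd he
    subst h4
    exact hX y ((mfund_iff y).2 (by rw [h3]; exact hz)) hy
  · rintro z hz ⟨⟨y, γ⟩, hy, he⟩
    have h3 : slEquiv F ι y = 1 := congrArg Prod.fst he
    have h4 : γ = z := congrArg Prod.snd he
    subst h4
    have h5 : y = 1 := (slEquiv F ι).injective (by rw [h3, map_one])
    subst h5
    exact hX' γ hz hy

/-- **(PHI) for `SL_n(F)`, absolute form** -/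
theorem phi_mat_abs {X : Subgroup (Matrix.SpecialLinearGroup ι F)}
    (hX : ∀ z : Matrix.SpecialLinearGroup ι F, mfund z → z ∉ X) :
    Nat.card F ^ (Fintype.card ι * (Fintype.card ι - 1) / 2) ≤ X.index := by
  have h1 := phi_mat_rel h2 hFT Unit ∅ 1 (fun z hz => (Set.notMem_empty z hz).elim)
    (fun g z hz => (Set.notMem_empty z hz).elim) (fun Y _ => Nat.one_le_iff_ne_zero.2 Subgroup.index_ne_zero_of_finite)
    (X := X.prod ⊤) (fun z hz h => hX z hz (Subgroup.mem_prod.1 h).1) (fun z hz => (Set.notMem_empty z hz).elim)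
  rwa [mul_one, Subgroup.index_prod, Subgroup.index_top, mul_one] at h1

end Cor

end Mat

/-- index of a preimage -/
theorem relIndex_eq {K G : Type*} [Group K] [Group G] (f : K →* G) (X : Subgroup G) :
    (X.comap f).index = X.relIndex f.range := Subgroup.index_comap X f

end Cfsg.Agent.H353.Phi
end

-- part: H198/IF/End
section
prune_inst 0x1400060504000000000000430000000080001020003000038000302034fd048e004064048302c1000808c002004004001000000024000000400000000050020800242008248000c840001800080000000000000000000000000000000061000000000000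
set_option linter.all false
open scoped Cfsg.Agent.FastGrp

-- part: H198/IF/Sl
section
/-!
# S5719: `SL_n` inside `E Q` for a hyperbolic system (helper198)

`HS Q e f` : hyperbolic system. `phi hs hG h3 : SL_n(F) →* E Q`; it contains the root elements `S Q (e i) (t • f j)` and
commutes with every isometry fixing the system.
-/

set_option autoImplicit false
set_option linter.unusedSectionVars false

namespace Cfsg.Agent.H198.IF

open QuadraticMap Matrix
open Cfsg.Agent.LieClassical.OrthCore Cfsg.Agent.LieClassical.OrthTrans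
open Cfsg.Agent.H989.Gs.Gen

variable {F V : Type*} [Field F] [AddCommGroup V] [Module F V] {Q : QuadraticForm F V} {n : ℕ}

/-- a hyperbolic system -/
structure HS (Q : QuadraticForm F V) (e f : Fin n → V) : Prop where
  qe : ∀ i, Q (e i) = 0
  qf : ∀ i, Q (f i) = 0
  ee : ∀ i j, polar Q (e i) (e j) = 0
  ff : ∀ i j, polar Q (f i) (f j) = 0
  ef : ∀ i j, polar Q (e i) (f j) = if i = j then 1 else 0

theorem polar_sum {ι : Type*} (s : Finset ι) (x : V) (g : ι → V) :
    polar Q x (∑ i ∈ s, g i) = ∑ i ∈ s, polar Q x (g i) := map_sum (polarBilin Q x) g s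

/-- the values on the system -/
def cx (Q : QuadraticForm F V) (e : Fin n → V) (v : V) : Fin n → F := fun i => polar Q (e i) v

theorem cx_add (e : Fin n → V) (v w : V) : cx Q e (v + w) = cx Q e v + cx Q e w := by
  funext i
  exact polar_add_right _ _ _ _

theorem cx_smul (e : Fin n → V) (a : F) (v : V) : cx Q e (a • v) = a • cx Q e v := by
  funext i
  exact polar_smul_right _ _ _ _

/-- a combination -/
def cb (e : Fin n → V) (a : Fin n → F) : V := ∑ i, a i • e i

theorem cb_add (e : Fin n → V) (a b : Fin n → F) : cb e (a + b) = cb e a + cb e b := by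
  simp only [cb, Pi.add_apply, add_smul, Finset.sum_add_distrib]

theorem cb_sub (e : Fin n → V) (a b : Fin n → F) : cb e (a - b) = cb e a - cb e b := by
  simp only [cb, Pi.sub_apply, sub_smul, Finset.sum_sub_distrib]

theorem cb_smul (e : Fin n → V) (c : F) (a : Fin n → F) : cb e (c • a) = c • cb e a := by
  simp only [cb, Pi.smul_apply, smul_eq_mul, Finset.smul_sum, smul_smul]

theorem polar_cb (e : Fin n → V) (a : Fin n → F) (v : V) : polar Q v (cb e a) = a ⬝ᵥ cx Q e v := by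
  rw [cb, polar_sum]
  refine Finset.sum_congr rfl fun i _ => ?_
  rw [polar_smul_right, polar_comm]
  rfl

/-- the linear map -/
def L (Q : QuadraticForm F V) (e f : Fin n → V) (M N : Matrix (Fin n) (Fin n) F) : V →ₗ[F] V where
  toFun v := v + cb e (M *ᵥ cx Q f v - cx Q f v) + cb f (N *ᵥ cx Q e v - cx Q e v)
  map_add' v w := by
    rw [cx_add, cx_add, mulVec_add, mulVec_add]
    simp only [cb_sub, cb_add]
    abel
  map_smul' c v := by
    rw [cx_smul, cx_smul, mulVec_smul, mulVec_smul]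
    simp only [cb_sub, cb_smul, RingHom.id_apply, smul_add, smul_sub]

theorem L_apply (e f : Fin n → V) (M N : Matrix (Fin n) (Fin n) F) (v : V) :
    L Q e f M N v = v + cb e (M *ᵥ cx Q f v - cx Q f v) + cb f (N *ᵥ cx Q e v - cx Q e v) := rfl

theorem L_one (e f : Fin n → V) (v : V) : L Q e f 1 1 v = v := by
  rw [L_apply, one_mulVec, one_mulVec, sub_self, sub_self]
  simp [cb]

namespace HS

variable {e f : Fin n → V} (h : HS Q e f)

include h

theorem fe (i j : Fin n) : polar Q (f i) (e j) = if i = j then 1 else 0 := by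
  rw [polar_comm, h.ef]
  simp only [eq_comm]

theorem symm : HS Q f e := ⟨h.qf, h.qe, h.ff, h.ee, h.fe⟩

theorem cx_ee (a : Fin n → F) : cx Q e (cb e a) = 0 := by
  funext i
  show polar Q (e i) (cb e a) = 0
  rw [polar_cb]
  have : cx Q e (e i) = 0 := by
    funext j
    exact h.ee j i
  rw [this, dotProduct_zero]

theorem cx_fe (a : Fin n → F) : cx Q f (cb e a) = a := by
  funext i
  show polar Q (f i) (cb e a) = a i
  rw [polar_cb]
  have : cx Q e (f i) = Pi.single i 1 := by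
    funext j
    show polar Q (e j) (f i) = _
    rw [h.ef, Pi.single_apply]
  rw [this, dotProduct_single, mul_one]

theorem Q_cb (a : Fin n → F) : Q (cb e a) = 0 := by
  have key : ∀ s : Finset (Fin n), Q (∑ i ∈ s, a i • e i) = 0 := by
    intro s
    induction s using Finset.induction_on with
    | empty => simp
    | insert i s hi ih =>
      rw [Finset.sum_insert hi, Q_add, ih, QuadraticMap.map_smul, h.qe, smul_zero, polar_smul_left, polar_sum]
      simp only [polar_smul_right, h.ee, smul_zero, Finset.sum_const_zero, add_zero]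
  exact key _

theorem cxf_L (M N : Matrix (Fin n) (Fin n) F) (v : V) : cx Q f (L Q e f M N v) = M *ᵥ cx Q f v := by
  rw [L_apply, cx_add, cx_add, h.cx_fe, h.symm.cx_ee]
  abel

theorem cxe_L (M N : Matrix (Fin n) (Fin n) F) (v : V) : cx Q e (L Q e f M N v) = N *ᵥ cx Q e v := by
  rw [L_apply, cx_add, cx_add, h.symm.cx_fe, h.cx_ee]
  abel

theorem L_mul (M N M' N' : Matrix (Fin n) (Fin n) F) (v : V) :
    L Q e f M N (L Q e f M' N' v) = L Q e f (M * M') (N * N') v := by
  rw [L_apply e f M N, h.cxf_L, h.cxe_L, L_apply, L_apply, ← mulVec_mulVec, ← mulVec_mulVec]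
  simp only [cb_sub]
  abel

theorem Q_L {M N : Matrix (Fin n) (Fin n) F} (hMN : Mᵀ * N = 1) (v : V) : Q (L Q e f M N v) = Q v := by
  rw [L_apply, add_assoc, Q_add, Q_add (cb e _) (cb f _), h.Q_cb, h.symm.Q_cb, polar_add_right, polar_cb, polar_cb, polar_cb,
    h.cx_fe]
  have h1 : (M *ᵥ cx Q f v) ⬝ᵥ (N *ᵥ cx Q e v) = cx Q f v ⬝ᵥ cx Q e v := by
    rw [← vecMul_transpose, ← dotProduct_mulVec, mulVec_mulVec, hMN, one_mulVec]
  simp only [sub_dotProduct, dotProduct_sub, dotProduct_comm (N *ᵥ cx Q e v) (cx Q f v),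
    dotProduct_comm (N *ᵥ cx Q e v) (M *ᵥ cx Q f v), dotProduct_comm (cx Q e v) (M *ᵥ cx Q f v),
    dotProduct_comm (cx Q e v) (cx Q f v), h1]
  ring

/-- the linear equivalence -/
def Le (A : SpecialLinearGroup (Fin n) F) : V ≃ₗ[F] V :=
  LinearEquiv.ofLinearMap (L Q e f A.1 (A⁻¹).1ᵀ) (L Q e f (A⁻¹).1 A.1ᵀ)
    (by
      apply LinearMap.ext
      intro v
      show L Q e f A.1 (A⁻¹).1ᵀ (L Q e f (A⁻¹).1 A.1ᵀ v) = v
      rw [h.L_mul, ← transpose_mul]
      have h1 : A.1 * (A⁻¹).1 = 1 := congrArg Subtype.val (mul_inv_cancel A)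
      rw [h1, transpose_one, L_one])
    (by
      apply LinearMap.ext
      intro v
      show L Q e f (A⁻¹).1 A.1ᵀ (L Q e f A.1 (A⁻¹).1ᵀ v) = v
      rw [h.L_mul, ← transpose_mul]
      have h1 : (A⁻¹).1 * A.1 = 1 := congrArg Subtype.val (inv_mul_cancel A)
      rw [h1, transpose_one, L_one])

theorem Le_apply (A : SpecialLinearGroup (Fin n) F) (v : V) : h.Le A v = L Q e f A.1 (A⁻¹).1ᵀ v := rfl

theorem Le_mem (A : SpecialLinearGroup (Fin n) F) : h.Le A ∈ O Q := by
  intro v
  rw [Le_apply]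
  apply h.Q_L
  rw [← transpose_mul]
  have h1 : (A⁻¹).1 * A.1 = 1 := congrArg Subtype.val (inv_mul_cancel A)
  rw [h1, transpose_one]

/-- as a homomorphism -/
def phiO : SpecialLinearGroup (Fin n) F →* (V ≃ₗ[F] V) :=
  MonoidHom.mk' h.Le fun A B => by
    apply LinearEquiv.ext
    intro v
    show L Q e f (A * B).1 ((A * B)⁻¹).1ᵀ v = L Q e f A.1 (A⁻¹).1ᵀ (L Q e f B.1 (B⁻¹).1ᵀ v)
    rw [h.L_mul, ← transpose_mul]
    congr 3
    rw [_root_.mul_inv_rev]
    rfl

theorem phiO_mem (hG : Good Q) (h3 : 3 ≤ n) (A : SpecialLinearGroup (Fin n) F) : h.phiO A ∈ E Q := by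
  have h1 : h.phiO.range ≤ E Q := by
    have h2 : h.phiO.range ≤ O Q := by
      rintro _ ⟨t, rfl⟩
      exact h.Le_mem t
    have h4 : ⁅h.phiO.range, h.phiO.range⁆ = h.phiO.range := by
      have h5 : commutator (SpecialLinearGroup (Fin n) F) = ⊤ :=
        LieClassical.SLGen.commutator_eq_top (by rw [Fintype.card_fin]; exact h3)
      rw [commutator_def] at h5
      rw [MonoidHom.range_eq_map h.phiO, ← Subgroup.map_commutator, h5]
    rw [← h4, Subgroup.commutator_le]
    intro a ha b hb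
    exact H749.comm_mem_E hG (h2 ha) (h2 hb)
  exact h1 ⟨A, rfl⟩

/-- `SL_n →* E Q` -/
def phi (hG : Good Q) (h3 : 3 ≤ n) : SpecialLinearGroup (Fin n) F →* ↥(E Q) :=
  h.phiO.codRestrict (E Q) (h.phiO_mem hG h3)

end HS

end Cfsg.Agent.H198.IF
end

-- part: H198/IF/End
section
/-!
# S5719, orthogonal groups, `q` odd: the end game (helper198)

`end_game` : a subgroup `X` of `E Q` which contains a fundamental involution and, with every fundamental involution
`z`, all Siegel elements of the fixed space of `z`, is `E Q` (dimension at least 11).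
-/

set_option autoImplicit false
set_option linter.unusedSectionVars false

namespace Cfsg.Agent.H198.IF

open QuadraticMap Matrix
open Cfsg.Agent.LieClassical.OrthCore Cfsg.Agent.LieClassical.OrthTrans Cfsg.Agent.LieClassical.OrthSimple
open Cfsg.Agent.LieClassical.SLTwoUnipotent (u l coe_u coe_l eq_top_of_u_mem_of_l_mem)
open Cfsg.Agent.H989.Gs.Gen
open Cfsg.Agent.H989.Fx (Fund fund_ap fund_of_four)
open Cfsg.Agent.UGT.U2.FOne.Orth (Four tl)
open Cfsg.Agent.AutOrth.SemiSim (RS sg mem_RS)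
open Cfsg.Agent.AutOrth.Gen (sup_RS_eq_top)

variable {F V : Type*} [Field F] [AddCommGroup V] [Module F V] {Q : QuadraticForm F V}

namespace HS

variable {n : ℕ} {e f : Fin n → V}

/-- one more hyperbolic pair -/
theorem exists_hyp [Finite F] (h : HS Q e f) (hQ : Nondeg Q) (hN : 2 * n + 3 ≤ Module.finrank F V) :
    ∃ x y, Hyp Q x y ∧ (∀ i, polar Q (e i) x = 0) ∧ (∀ i, polar Q (f i) x = 0) ∧ (∀ i, polar Q (e i) y = 0) ∧
      ∀ i, polar Q (f i) y = 0 := by
  obtain ⟨x, h0, hx, hp⟩ := LieClassical.OrthFinite.exists_sing_perp (Q := Q) (Fin.append e f) (by omega)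
  have hex : ∀ i, polar Q (e i) x = 0 := fun i => by
    have := hp (Fin.castAdd n i)
    rwa [Fin.append_left] at this
  have hfx : ∀ i, polar Q (f i) x = 0 := fun i => by
    have := hp (Fin.natAdd n i)
    rwa [Fin.append_right] at this
  obtain ⟨y, hy⟩ := Cfsg.Agent.LieClassical.OrthTrans.exists_hyp hQ hx h0
  have hcx : cx Q e x = 0 := funext hex
  have hcx' : cx Q f x = 0 := funext hfx
  obtain ⟨y₁, hy₁⟩ : ∃ y₁, y₁ = y - cb e (cx Q f y) - cb f (cx Q e y) := ⟨_, rfl⟩
  have h1 : polar Q x y₁ = 1 := by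
    rw [hy₁, polar_sub_right, polar_sub_right, polar_cb, polar_cb, hcx, hcx', dotProduct_zero, dotProduct_zero,
      hy.pair, sub_zero, sub_zero]
  have h2 : cx Q e y₁ = 0 := by
    have : y₁ = y + (-1 : F) • cb e (cx Q f y) + (-1 : F) • cb f (cx Q e y) := by rw [hy₁]; module
    rw [this, cx_add, cx_add, cx_smul, cx_smul, h.cx_ee, h.symm.cx_fe]
    funext i
    simp
  have h3 : cx Q f y₁ = 0 := by
    have : y₁ = y + (-1 : F) • cb e (cx Q f y) + (-1 : F) • cb f (cx Q e y) := by rw [hy₁]; module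
    rw [this, cx_add, cx_add, cx_smul, cx_smul, h.cx_fe, h.symm.cx_ee]
    funext i
    simp
  refine ⟨x, y₁ + (-Q y₁) • x, ⟨hx, ?_, ?_⟩, hex, hfx, ?_, ?_⟩
  · rw [Q_add, QuadraticMap.map_smul, hx, polar_smul_right, polar_comm Q y₁ x, h1]
    simp
  · rw [polar_add_right, polar_smul_right, polar_self_of_sing hx, h1]
    simp
  · intro i
    rw [polar_add_right, polar_smul_right, hex, smul_zero, add_zero]
    exact congrFun h2 i
  · intro i
    rw [polar_add_right, polar_smul_right, hfx, smul_zero, add_zero]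
    exact congrFun h3 i

theorem cons (h : HS Q e f) {x y : V} (hxy : Hyp Q x y) (h1 : ∀ i, polar Q (e i) x = 0) (h2 : ∀ i, polar Q (f i) x = 0)
    (h3 : ∀ i, polar Q (e i) y = 0) (h4 : ∀ i, polar Q (f i) y = 0) : HS Q (vecCons x e) (vecCons y f) where
  qe i := Fin.cases hxy.left (fun i => h.qe i) i
  qf i := Fin.cases hxy.right (fun i => h.qf i) i
  ee i j := by
    refine Fin.cases ?_ (fun i => ?_) i <;> refine Fin.cases ?_ (fun j => ?_) j
    · exact hxy.polar_left
    · exact polar_zero_of_comm (h1 j)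
    · exact h1 i
    · exact h.ee i j
  ff i j := by
    refine Fin.cases ?_ (fun i => ?_) i <;> refine Fin.cases ?_ (fun j => ?_) j
    · exact hxy.polar_right
    · exact polar_zero_of_comm (h4 j)
    · exact h4 i
    · exact h.ff i j
  ef i j := by
    refine Fin.cases ?_ (fun i => ?_) i <;> refine Fin.cases ?_ (fun j => ?_) j
    · simpa using hxy.pair
    · rw [if_neg (Fin.succ_ne_zero j).symm]
      exact polar_zero_of_comm (h2 j)
    · rw [if_neg (Fin.succ_ne_zero i)]
      exact h3 i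
    · have := h.ef i j
      simpa using this

theorem exists_cons [Finite F] (h : HS Q e f) (hQ : Nondeg Q) (hN : 2 * n + 3 ≤ Module.finrank F V) :
    ∃ x y, HS Q (vecCons x e) (vecCons y f) := by
  obtain ⟨x, y, hxy, h1, h2, h3, h4⟩ := h.exists_hyp hQ hN
  exact ⟨x, y, h.cons hxy h1 h2 h3 h4⟩

theorem of_four {e₁ f₁ e₂ f₂ : V} (h : Four Q e₁ f₁ e₂ f₂) : HS Q ![e₁, e₂] ![f₁, f₂] where
  qe := Fin.forall_fin_two.2 ⟨h.h1.left, h.h2.left⟩
  qf := Fin.forall_fin_two.2 ⟨h.h1.right, h.h2.right⟩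
  ee := Fin.forall_fin_two.2 ⟨Fin.forall_fin_two.2 ⟨h.h1.polar_left, h.ee⟩,
    Fin.forall_fin_two.2 ⟨polar_zero_of_comm h.ee, h.h2.polar_left⟩⟩
  ff := Fin.forall_fin_two.2 ⟨Fin.forall_fin_two.2 ⟨h.h1.polar_right, h.ff⟩,
    Fin.forall_fin_two.2 ⟨polar_zero_of_comm h.ff, h.h2.polar_right⟩⟩
  ef := Fin.forall_fin_two.2 ⟨Fin.forall_fin_two.2 ⟨by simpa using h.h1.pair, by simpa using h.ef⟩,
    Fin.forall_fin_two.2 ⟨by simpa using polar_zero_of_comm h.fe, by simpa using h.h2.pair⟩⟩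

/-- two members of a hyperbolic system -/
theorem four (h : HS Q e f) {i j : Fin n} (hij : i ≠ j) : Four Q (e i) (f i) (e j) (f j) where
  h1 := ⟨h.qe i, h.qf i, by rw [h.ef, if_pos rfl]⟩
  h2 := ⟨h.qe j, h.qf j, by rw [h.ef, if_pos rfl]⟩
  ee := h.ee i j
  ef := by rw [h.ef, if_neg hij]
  fe := by rw [h.fe, if_neg hij]
  ff := h.ff i j

theorem hyp (h : HS Q e f) (i : Fin n) : Hyp Q (e i) (f i) := ⟨h.qe i, h.qf i, by rw [h.ef, if_pos rfl]⟩

end HS

/-- the long `SL₂` in terms of Siegel elements -/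
theorem rhoE_u {e₁ f₁ e₂ f₂ : V} (h : Four Q e₁ f₁ e₂ f₂) (t : F) : h.rhoE (u t) = S Q e₁ ((-t) • f₂) := by
  have hq : Q ((-t) • f₂) = 0 := by rw [QuadraticMap.map_smul, h.h2.right, smul_zero]
  apply ext_ap
  intro v
  rw [S_ap' h.h1.left (h.e1_s t) hq]
  exact h.rho_u t v

theorem rhoE_l {e₁ f₁ e₂ f₂ : V} (h : Four Q e₁ f₁ e₂ f₂) (t : F) : h.rhoE (l t) = S Q e₂ ((-t) • f₁) := by
  have hq : Q ((-t) • f₁) = 0 := by rw [QuadraticMap.map_smul, h.h1.right, smul_zero]
  apply ext_ap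
  intro v
  rw [S_ap' h.h2.left (h.e2_s t) hq]
  exact h.rho_l t v

/-- `-1` in `SL₂` -/
def neg₂ (F : Type*) [Field F] : SpecialLinearGroup (Fin 2) F := ⟨-1, by simp [Matrix.det_neg]⟩

/-- the fundamental involution of a quadruple -/
theorem fund_rho {e₁ f₁ e₂ f₂ : V} (h : Four Q e₁ f₁ e₂ f₂) : Fund Q (h.rhoE (neg₂ F)) := fund_of_four h rfl

theorem rho_neg {e₁ f₁ e₂ f₂ : V} (h : Four Q e₁ f₁ e₂ f₂) :
    ap (h.rhoE (neg₂ F)) e₁ = -e₁ ∧ ap (h.rhoE (neg₂ F)) f₁ = -f₁ ∧ ap (h.rhoE (neg₂ F)) e₂ = -e₂ ∧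
      ap (h.rhoE (neg₂ F)) f₂ = -f₂ := by
  have a00 : (neg₂ F).1 0 0 = -1 := by simp [neg₂]
  have a01 : (neg₂ F).1 0 1 = 0 := by simp [neg₂]
  have a10 : (neg₂ F).1 1 0 = 0 := by simp [neg₂]
  have a11 : (neg₂ F).1 1 1 = -1 := by simp [neg₂]
  refine ⟨(h.rho_e1 _).trans ?_, (h.rho_f1 _).trans ?_, (h.rho_e2 _).trans ?_, (h.rho_f2 _).trans ?_⟩
  · rw [a00, a10]; module
  · rw [a11, a01]; module
  · rw [a01, a11]; module
  · rw [a10, a00]; module

theorem rho_fix {e₁ f₁ e₂ f₂ : V} (h : Four Q e₁ f₁ e₂ f₂) {v : V} (h1 : polar Q e₁ v = 0) (h2 : polar Q f₁ v = 0)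
    (h3 : polar Q e₂ v = 0) (h4 : polar Q f₂ v = 0) (M : SpecialLinearGroup (Fin 2) F) : ap (h.rhoE M) v = v :=
  h.rho_perp h1 h2 h3 h4 M

/-- all of the long `SL₂` is in `X` if the Siegel elements of the four space are -/
theorem rho_mem_of {X : Subgroup ↥(E Q)} {e₁ f₁ e₂ f₂ : V} (h : Four Q e₁ f₁ e₂ f₂)
    (h1 : ∀ t : F, S Q e₁ (t • f₂) ∈ X) (h2 : ∀ t : F, S Q e₂ (t • f₁) ∈ X) (M : SpecialLinearGroup (Fin 2) F) :
    h.rhoE M ∈ X := by
  have h3 : X.comap h.rhoE = ⊤ := by
    apply eq_top_of_u_mem_of_l_mem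
    · intro t
      rw [Subgroup.mem_comap, rhoE_u]
      exact h1 _
    · intro t
      rw [Subgroup.mem_comap, rhoE_l]
      exact h2 _
  exact Subgroup.mem_comap.1 (h3 ▸ Subgroup.mem_top M)

/-- **the end game** -/
theorem end_game [Finite F] [FiniteDimensional F V] (hQ : Nondeg Q) (hN : 11 ≤ Module.finrank F V)
    (X : Subgroup ↥(E Q)) (z : ↥(E Q)) (hz : Fund Q z) (hzX : z ∈ X)
    (step : ∀ z : ↥(E Q), Fund Q z → z ∈ X → ∀ u w : V, Q u = 0 → polar Q u w = 0 → ap z u = u → ap z w = w →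
      S Q u w ∈ X) : X = ⊤ := by
  have hG : Good Q := LieClassical.OrthFinite.good_of_finite hQ (by omega)
  obtain ⟨e₁, f₁, e₂, f₂, hF, z1, z2, z3, z4, z5⟩ := hz
  have hz : Fund Q z := ⟨e₁, f₁, e₂, f₂, hF, z1, z2, z3, z4, z5⟩
  have H2 := HS.of_four hF
  obtain ⟨a₁, b₁, H3⟩ := H2.exists_cons hQ (by omega)
  obtain ⟨a₂, b₂, H4⟩ := H3.exists_cons hQ (by omega)
  obtain ⟨x, y, H5⟩ := H4.exists_cons hQ (by omega)
  -- z fixes the last three pairs
  have fixz : ∀ v, polar Q e₁ v = 0 → polar Q f₁ v = 0 → polar Q e₂ v = 0 → polar Q f₂ v = 0 → ap z v = v := z5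
  have hA : Four Q a₁ b₁ a₂ b₂ := H5.four (i := 2) (j := 1) (by decide)
  have za₁ : ap z a₁ = a₁ := fixz _ (H5.ee 3 2) ((H5.fe 3 2).trans (if_neg (by decide))) (H5.ee 4 2)
    ((H5.fe 4 2).trans (if_neg (by decide)))
  have zb₁ : ap z b₁ = b₁ := fixz _ ((H5.ef 3 2).trans (if_neg (by decide))) (H5.ff 3 2)
    ((H5.ef 4 2).trans (if_neg (by decide))) (H5.ff 4 2)
  have za₂ : ap z a₂ = a₂ := fixz _ (H5.ee 3 1) ((H5.fe 3 1).trans (if_neg (by decide))) (H5.ee 4 1)
    ((H5.fe 4 1).trans (if_neg (by decide)))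
  have zb₂ : ap z b₂ = b₂ := fixz _ ((H5.ef 3 1).trans (if_neg (by decide))) (H5.ff 3 1)
    ((H5.ef 4 1).trans (if_neg (by decide))) (H5.ff 4 1)
  have zx : ap z x = x := fixz _ (H5.ee 3 0) ((H5.fe 3 0).trans (if_neg (by decide))) (H5.ee 4 0)
    ((H5.fe 4 0).trans (if_neg (by decide)))
  have zy : ap z y = y := fixz _ ((H5.ef 3 0).trans (if_neg (by decide))) (H5.ff 3 0)
    ((H5.ef 4 0).trans (if_neg (by decide))) (H5.ff 4 0)
  -- the second fundamental involution
  have hz'X : hA.rhoE (neg₂ F) ∈ X := by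
    apply rho_mem_of hA
    · intro t
      exact step z hz hzX _ _ hA.h1.left (by rw [polar_smul_right, hA.ef, smul_zero]) za₁ (by rw [ap_smul, zb₂])
    · intro t
      exact step z hz hzX _ _ hA.h2.left (by rw [polar_smul_right, polar_zero_of_comm hA.fe, smul_zero]) za₂
        (by rw [ap_smul, zb₁])
  set z' := hA.rhoE (neg₂ F) with hz'
  have hz'F : Fund Q z' := fund_rho hA
  have fixz' : ∀ v, polar Q a₁ v = 0 → polar Q b₁ v = 0 → polar Q a₂ v = 0 → polar Q b₂ v = 0 → ap z' v = v :=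
    fun v k1 k2 k3 k4 => rho_fix hA k1 k2 k3 k4 _
  have y1 : ap z' e₁ = e₁ := fixz' _ (H5.ee 2 3) ((H5.fe 2 3).trans (if_neg (by decide))) (H5.ee 1 3)
    ((H5.fe 1 3).trans (if_neg (by decide)))
  have y2 : ap z' f₁ = f₁ := fixz' _ ((H5.ef 2 3).trans (if_neg (by decide))) (H5.ff 2 3)
    ((H5.ef 1 3).trans (if_neg (by decide))) (H5.ff 1 3)
  have y3 : ap z' e₂ = e₂ := fixz' _ (H5.ee 2 4) ((H5.fe 2 4).trans (if_neg (by decide))) (H5.ee 1 4)
    ((H5.fe 1 4).trans (if_neg (by decide)))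
  have y4 : ap z' f₂ = f₂ := fixz' _ ((H5.ef 2 4).trans (if_neg (by decide))) (H5.ff 2 4)
    ((H5.ef 1 4).trans (if_neg (by decide))) (H5.ff 1 4)
  have z'x : ap z' x = x := fixz' _ (H5.ee 2 0) ((H5.fe 2 0).trans (if_neg (by decide))) (H5.ee 1 0)
    ((H5.fe 1 0).trans (if_neg (by decide)))
  have z'y : ap z' y = y := fixz' _ ((H5.ef 2 0).trans (if_neg (by decide))) (H5.ff 2 0)
    ((H5.ef 1 0).trans (if_neg (by decide))) (H5.ff 1 0)
  -- Siegel elements of `x` and `y`
  have key : ∀ e : V, Q e = 0 → ap z e = e → ap z' e = e → polar Q e e₁ = 0 → polar Q e f₁ = 0 → polar Q e e₂ = 0 →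
      polar Q e f₂ = 0 → ∀ w, polar Q e w = 0 → S Q e w ∈ X := by
    intro e he ze z'e p1 p2 p3 p4 w hw
    obtain ⟨w₂, hw₂⟩ : ∃ w₂, w₂ = polar Q f₁ w • e₁ + polar Q e₁ w • f₁ + (polar Q f₂ w • e₂ + polar Q e₂ w • f₂) :=
      ⟨_, rfl⟩
    have hzw : ap z w = w - (2 : F) • w₂ := by rw [hw₂]; exact fund_ap hF z1 z2 z3 z4 z5 w
    have hzw₂ : ap z w₂ = -w₂ := by
      rw [hw₂]
      simp only [ap_add, ap_smul, z1, z2, z3, z4]
      module
    have hz'w₂ : ap z' w₂ = w₂ := by
      rw [hw₂]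
      simp only [ap_add, ap_smul, y1, y2, y3, y4]
    have ew₂ : polar Q e w₂ = 0 := by
      rw [hw₂]
      simp only [polar_add_right, polar_smul_right, p1, p2, p3, p4, smul_zero, add_zero]
    have ew₁ : polar Q e (w - w₂) = 0 := by rw [polar_sub_right, hw, ew₂, sub_zero]
    have hzw₁ : ap z (w - w₂) = w - w₂ := by
      rw [ap_sub, hzw, hzw₂]
      module
    have h1 := step z hz hzX e (w - w₂) he ew₁ ze hzw₁
    have h2 := step z' hz'F hz'X e w₂ he ew₂ z'e hz'w₂
    have h3 : S Q e w = S Q e (w - w₂) * S Q e w₂ := by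
      rw [← S_add he ew₁ ew₂, sub_add_cancel]
    rw [h3]
    exact X.mul_mem h1 h2
  have hxy : Hyp Q x y := H5.hyp 0
  rw [eq_top_iff, ← sup_RS_eq_top hG hxy, sup_le_iff]
  constructor
  · intro g hg
    obtain ⟨w, hw, rfl⟩ := mem_RS.1 hg
    rw [← S_eq hxy.left hw]
    exact key x hxy.left zx z'x (H5.ee 0 3) ((H5.ef 0 3).trans (if_neg (by decide))) (H5.ee 0 4)
      ((H5.ef 0 4).trans (if_neg (by decide))) w hw
  · intro g hg
    obtain ⟨w, hw, rfl⟩ := mem_RS.1 hg
    rw [← S_eq hxy.right hw]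
    exact key y hxy.right zy z'y ((H5.fe 0 3).trans (if_neg (by decide))) (H5.ff 0 3)
      ((H5.fe 0 4).trans (if_neg (by decide))) (H5.ff 0 4) w hw

/-- **the end game for two subspaces**: `D`, `D'` with their Siegel elements in `X`, `U ⊔ D = ⊤`, `U ≤ D'`, and a
hyperbolic pair in `D ⊓ D'` orthogonal to `U` (e.g. `D = U^⊥`, `D' = U'^⊥`, `U ⊥ U'` nondegenerate) -/
theorem end_two (hG : Good Q) {x y : V} (hxy : Hyp Q x y) (U D D' : Submodule F V) (hUD : U ⊔ D = ⊤) (hU' : U ≤ D')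
    (hx : x ∈ D) (hy : y ∈ D) (hx' : x ∈ D') (hy' : y ∈ D') (hxU : ∀ u ∈ U, polar Q x u = 0)
    (hyU : ∀ u ∈ U, polar Q y u = 0) (X : Subgroup ↥(E Q))
    (hX : ∀ u ∈ D, ∀ w ∈ D, Q u = 0 → polar Q u w = 0 → S Q u w ∈ X)
    (hX' : ∀ u ∈ D', ∀ w ∈ D', Q u = 0 → polar Q u w = 0 → S Q u w ∈ X) : X = ⊤ := by
  have key : ∀ e ∈ D, e ∈ D' → Q e = 0 → (∀ u ∈ U, polar Q e u = 0) → ∀ w, polar Q e w = 0 → S Q e w ∈ X := by
    intro e he he' hq heU w hw
    have h1 : w ∈ U ⊔ D := by rw [hUD]; exact Submodule.mem_top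
    obtain ⟨a, ha, b, hb, rfl⟩ := Submodule.mem_sup.1 h1
    have h2 := heU a ha
    have h3 : polar Q e b = 0 := by
      rw [polar_add_right, h2, zero_add] at hw
      exact hw
    rw [S_add hq h2 h3]
    exact X.mul_mem (hX' e he' a (hU' ha) hq h2) (hX e he b hb hq h3)
  rw [eq_top_iff, ← sup_RS_eq_top hG hxy, sup_le_iff]
  constructor
  · intro g hg
    obtain ⟨w, hw, rfl⟩ := mem_RS.1 hg
    rw [← S_eq hxy.left hw]
    exact key x hx hx' hxy.left hxU w hw
  · intro g hg
    obtain ⟨w, hw, rfl⟩ := mem_RS.1 hg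
    rw [← S_eq hxy.right hw]
    exact key y hy hy' hxy.right hyU w hw

end Cfsg.Agent.H198.IF
end

private theorem dce_ff7909448807 : _root_.True := by
  try have : _root_.True := by simp only [_root_.Cfsg.Agent.H198.IF.cb.eq_1]
  try have : _root_.True := by simp only [_root_.Cfsg.Agent.H198.IF.neg₂.eq_1]
  exact _root_.True.intro
end

-- part: H325/IF/Inv
section
prune_inst 0x200020704000000800050222000000480001920000400000400a440349a0422004000006b0041000928c1020040040010000100220000000000c0000050000008012049048a000200006000000000000000000000000000000000000020000000000000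
set_option linter.all false
open scoped Cfsg.Agent.FastGrp

/-!
# S5719, orthogonal groups, `q` odd: involutions of `E Q` (helper325)

`Vm g`, `Vp g` : the spaces where `g` is `-1`, `1`. For `g ∈ E Q`, `g * g = 1`:
* `isCompl`, `polar_Vm_Vp`, `mem_Vp_iff`, `mem_Vm_iff` : orthogonal decomposition;
* `even_Vm`, `dc_Vm` : `Vm g` has even dimension and square discriminant;
* `fund_of_finrank` : dimension `4`: `g` is a fundamental involution.
-/

set_option autoImplicit false
set_option linter.unusedSectionVars false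

namespace Cfsg.Agent.H325.IF

open QuadraticMap Module Cfsg.Agent.LieClassical.OrthCore Cfsg.Agent.LieClassical.OrthTrans
open Cfsg.Agent.H989.Gs.Gen Cfsg.Agent.H989.Fx
open Cfsg.Agent.H160.QSpin Cfsg.Agent.H160.QDisc
open Cfsg.Agent.UGT.U2.FOne.Orth (Four)

variable {F V : Type*} [Field F] [AddCommGroup V] [Module F V] {Q : QuadraticForm F V}

/-- the space where `g` is `-1` -/
def Vm (g : ↥(E Q)) : Submodule F V := LinearMap.ker ((g.1 : V →ₗ[F] V) + LinearMap.id)

/-- the space where `g` is `1` -/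
def Vp (g : ↥(E Q)) : Submodule F V := LinearMap.ker ((g.1 : V →ₗ[F] V) - LinearMap.id)

theorem mem_Vm {g : ↥(E Q)} {v : V} : v ∈ Vm g ↔ ap g v = -v := by
  rw [Vm, LinearMap.mem_ker, LinearMap.add_apply, LinearMap.id_apply]
  exact add_eq_zero_iff_eq_neg

theorem mem_Vp {g : ↥(E Q)} {v : V} : v ∈ Vp g ↔ ap g v = v := by
  rw [Vp, LinearMap.mem_ker, LinearMap.sub_apply, LinearMap.id_apply]
  exact sub_eq_zero

section

variable (h2 : (2 : F) ≠ 0) {g : ↥(E Q)}

include h2

theorem disj_Vm_Vp : Disjoint (Vm g) (Vp g) := by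
  rw [Submodule.disjoint_def]
  intro v hv hv'
  rw [mem_Vm] at hv
  rw [mem_Vp] at hv'
  have h3 : (2 : F) • v = 0 := by rw [two_smul]; nth_rewrite 1 [← hv']; rw [hv]; exact neg_add_cancel v
  exact (smul_eq_zero.1 h3).resolve_left h2

theorem isCompl (hg : g * g = 1) : IsCompl (Vm g) (Vp g) := by
  refine ⟨disj_Vm_Vp h2, ?_⟩
  rw [codisjoint_iff, eq_top_iff]
  intro v _
  have hgg : ∀ v, ap g (ap g v) = v := fun v => by rw [← ap_mul, hg, ap_one]
  rw [Submodule.mem_sup]
  refine ⟨(2 : F)⁻¹ • (v - ap g v), mem_Vm.2 ?_, (2 : F)⁻¹ • (v + ap g v), mem_Vp.2 ?_, ?_⟩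
  · rw [ap_smul, ap_sub, hgg, ← smul_neg, neg_sub]
  · rw [ap_smul, ap_add, hgg, add_comm]
  · rw [← smul_add, sub_add_add_cancel, ← two_smul F, smul_smul, inv_mul_cancel₀ h2, one_smul]

theorem polar_Vm_Vp {u w : V} (hu : u ∈ Vm g) (hw : w ∈ Vp g) : polar Q u w = 0 := by
  rw [mem_Vm] at hu
  rw [mem_Vp] at hw
  have h3 : polar Q u w = - polar Q u w := by
    conv_lhs => rw [← polar_ap g, hu, hw, polar_neg_left]
  have h4 : (2 : F) * polar Q u w = 0 := by rw [two_mul]; nth_rewrite 1 [h3]; exact neg_add_cancel _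
  exact (mul_eq_zero.1 h4).resolve_left h2

variable (hQ : Nondeg Q)

include hQ

theorem mem_Vp_iff (hg : g * g = 1) {v : V} : v ∈ Vp g ↔ ∀ u ∈ Vm g, polar Q u v = 0 := by
  refine ⟨fun h u hu => polar_Vm_Vp h2 hu h, fun h => ?_⟩
  obtain ⟨a, ha, b, hb, rfl⟩ := Submodule.mem_sup.1 (((isCompl h2 hg).codisjoint.eq_top).symm ▸
    Submodule.mem_top : v ∈ Vm g ⊔ Vp g)
  have h3 : a = 0 := by
    apply hQ
    intro y
    obtain ⟨c, hc, d, hd, rfl⟩ := Submodule.mem_sup.1 (((isCompl h2 hg).codisjoint.eq_top).symm ▸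
      Submodule.mem_top : y ∈ Vm g ⊔ Vp g)
    have h4 := h c hc
    rw [polar_add_right, polar_Vm_Vp h2 hc hb, add_zero] at h4
    rw [polar_add_right, polar_Vm_Vp h2 ha hd, add_zero, polar_comm, h4]
  rw [h3, zero_add]
  exact hb

/-- the restriction to `Vm g` is nondegenerate -/
theorem nondeg_Vm (hg : g * g = 1) : Nondeg (Q.comp (Vm g).subtype) := by
  intro x hx
  apply Subtype.ext
  apply hQ
  intro y
  obtain ⟨c, hc, d, hd, rfl⟩ := Submodule.mem_sup.1 (((isCompl h2 hg).codisjoint.eq_top).symm ▸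
    Submodule.mem_top : y ∈ Vm g ⊔ Vp g)
  rw [polar_add_right, polar_Vm_Vp h2 x.2 hd, add_zero]
  exact hx ⟨c, hc⟩

/-- the restriction to `Vp g` is nondegenerate -/
theorem nondeg_Vp (hg : g * g = 1) : Nondeg (Q.comp (Vp g).subtype) := by
  intro x hx
  apply Subtype.ext
  apply hQ
  intro y
  obtain ⟨c, hc, d, hd, rfl⟩ := Submodule.mem_sup.1 (((isCompl h2 hg).codisjoint.eq_top).symm ▸
    Submodule.mem_top : y ∈ Vm g ⊔ Vp g)
  rw [polar_add_right, polar_comm, polar_Vm_Vp h2 hc x.2, zero_add]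
  exact hx ⟨d, hd⟩

end

section dec

variable (h2 : (2 : F) ≠ 0) {g : ↥(E Q)} (hg : g * g = 1)

/-- the decomposition as an isometry -/
noncomputable def dec : (Vm g × Vp g) ≃ₗ[F] V := Submodule.prodEquivOfIsCompl (Vm g) (Vp g) (isCompl h2 hg)

theorem dec_apply (x : Vm g × Vp g) : dec h2 hg x = (x.1 : V) + x.2 := by
  rw [dec, Submodule.coe_prodEquivOfIsCompl']

theorem isIso_dec : IsIso ((Q.comp (Vm g).subtype).prod (Q.comp (Vp g).subtype)) Q (dec h2 hg) := by
  intro x
  rw [dec_apply, Q_add, polar_Vm_Vp h2 x.1.2 x.2.2, add_zero]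
  rfl

theorem cj_dec : cj (dec h2 hg) (pr (LinearEquiv.neg F) 1) = (g : V ≃ₗ[F] V) := by
  ext v
  obtain ⟨x, rfl⟩ := (dec h2 hg).surjective v
  rw [cj_apply', pr_apply, dec_apply, dec_apply]
  have h3 : (g : V ≃ₗ[F] V) ((x.1 : V) + x.2) = ap g x.1 + ap g x.2 := ap_add g _ _
  rw [h3, mem_Vm.1 x.1.2, mem_Vp.1 x.2.2]
  rfl

end dec

section finite

variable [Finite F] [FiniteDimensional F V] (h2 : (2 : F) ≠ 0) {g : ↥(E Q)} (hg : g * g = 1)

include h2 hg

theorem even_Vm (hG : Good Q) : Even (finrank F (Vm g)) := by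
  have hfin : Finite V := Module.finite_of_finite F
  have h3 := ((Cfsg.Agent.H380.Bs.mem_E_iff' hG h2 (E_le_O g.2)).1 g.2).1
  rw [← cj_dec h2 hg, det_cj, det_pr, map_one, mul_one] at h3
  have h4 : LinearMap.det ((LinearEquiv.neg F : Vm g ≃ₗ[F] Vm g) : Vm g →ₗ[F] Vm g) = 1 := by
    rw [← LinearEquiv.coe_det, h3, Units.val_one]
  have h5 : ((LinearEquiv.neg F : Vm g ≃ₗ[F] Vm g) : Vm g →ₗ[F] Vm g) = (-1 : F) • LinearMap.id := by
    ext x
    simp
  rw [h5, LinearMap.det_smul, LinearMap.det_id, mul_one] at h4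
  by_contra hc
  rw [Nat.not_even_iff_odd] at hc
  rw [hc.neg_one_pow] at h4
  apply h2
  linear_combination -h4

theorem dc_Vm [Fintype F] [DecidableEq F] (hG : Good Q) : dc (Q.comp (Vm g).subtype) = 1 := by
  have hfin : Finite V := Module.finite_of_finite F
  have hfin2 : Finite (Vm g × Vp g) := Finite.of_equiv V (dec h2 hg).symm.toEquiv
  have h3 := ((Cfsg.Agent.H380.Bs.mem_E_iff' hG h2 (E_le_O g.2)).1 g.2).2
  have n1 := nondeg_Vm h2 hG.nondeg hg
  have n2 := nondeg_Vp h2 hG.nondeg hg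
  have h4 := spin_cj (isIso_dec h2 hg) (pr_mem_O (neg_mem_O (Q.comp (Vm g).subtype))
    (O (Q.comp (Vp g).subtype)).one_mem)
  have h5 : (⟨cj (dec h2 hg) (pr (LinearEquiv.neg F) 1), cj_mem_O (isIso_dec h2 hg)
      (pr_mem_O (neg_mem_O (Q.comp (Vm g).subtype)) (O (Q.comp (Vp g).subtype)).one_mem)⟩ : O Q) =
      ⟨g, E_le_O g.2⟩ := Subtype.ext (cj_dec h2 hg)
  rw [h5, h3, spin_pr h2 n1 n2 (neg_mem_O _) (O (Q.comp (Vp g).subtype)).one_mem] at h4
  have h6 : spin (Q.comp (Vp g).subtype) ⟨1, (O (Q.comp (Vp g).subtype)).one_mem⟩ = 1 := map_one _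
  rw [h6, mul_one] at h4
  rw [← spin_neg_one h2 n1 (even_Vm h2 hg hG), ← h4]
  rfl

theorem dc_Vp [Fintype F] [DecidableEq F] (hG : Good Q) : dc (Q.comp (Vp g).subtype) = dc Q := by
  rw [dc_iso (isIso_dec h2 hg), dc_prod, dc_Vm h2 hg hG, one_mul]

end finite

/-! ### Hyperbolic planes and spaces of plus type of dimension four -/

section planes

variable (F)

/-- the hyperbolic plane -/
noncomputable def hp : QuadraticForm F (F × F) := QuadraticMap.linMulLin (LinearMap.fst F F F) (LinearMap.snd F F F)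

variable {F}

theorem hp_apply (x : F × F) : hp F x = x.1 * x.2 := rfl

theorem polar_hp (x y : F × F) : polar (hp F) x y = x.1 * y.2 + y.1 * x.2 := by
  simp only [polar, hp_apply, Prod.fst_add, Prod.snd_add]
  ring

theorem nondeg_hp : Nondeg (hp F) := by
  intro x hx
  have h1 := hx (0, 1)
  have h2 := hx (1, 0)
  rw [polar_hp] at h1 h2
  simp only [mul_one, zero_mul, add_zero, mul_zero, one_mul, zero_add] at h1 h2
  exact Prod.ext h1 h2

theorem dc_hp [Fintype F] [DecidableEq F] : dc (hp F) = quadraticChar F (-1) := by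
  rw [dc_eq (Basis.finTwoProd F)]
  congr 1
  rw [Matrix.det_fin_two]
  simp only [LinearMap.BilinForm.toMatrix_apply, Basis.finTwoProd_zero, Basis.finTwoProd_one]
  change polar (hp F) _ _ * polar (hp F) _ _ - polar (hp F) _ _ * polar (hp F) _ _ = _
  simp only [polar_hp]
  ring

theorem dc_hp_hp [Fintype F] [DecidableEq F] : dc ((hp F).prod (hp F)) = 1 := by
  rw [dc_prod, dc_hp, ← map_mul, neg_one_mul, neg_neg, map_one]

end planes

section four

variable [Finite F] [FiniteDimensional F V] (h2 : (2 : F) ≠ 0)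

include h2

/-- a nondegenerate subspace of dimension four and square discriminant contains two orthogonal hyperbolic pairs -/
theorem exists_four [Fintype F] [DecidableEq F] {U : Submodule F V} (hU : Nondeg (Q.comp U.subtype))
    (hd : finrank F U = 4) (hc : dc (Q.comp U.subtype) = 1) : ∃ e₁ f₁ e₂ f₂ : V, Four Q e₁ f₁ e₂ f₂ ∧
      e₁ ∈ U ∧ f₁ ∈ U ∧ e₂ ∈ U ∧ f₂ ∈ U ∧
      ∀ v, polar Q e₁ v = 0 → polar Q f₁ v = 0 → polar Q e₂ v = 0 → polar Q f₂ v = 0 → ∀ u ∈ U, polar Q u v = 0 := by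
  obtain ⟨e, he⟩ := exists_iso h2 (nondeg_prod (nondeg_hp (F := F)) nondeg_hp) hU (by simp [hd])
    (by rw [dc_hp_hp, hc])
  have hQ : ∀ x, Q (e x : V) = x.1.1 * x.1.2 + x.2.1 * x.2.2 := fun x => he x
  have hP : ∀ x y, polar Q (e x : V) (e y : V) = (x.1.1 * y.1.2 + y.1.1 * x.1.2) +
      (x.2.1 * y.2.2 + y.2.1 * x.2.2) := by
    intro x y
    have h3 := he.polar x y
    have h4 : polar ((hp F).prod (hp F)) x y = polar (hp F) x.1 y.1 + polar (hp F) x.2 y.2 := polar_pr x y
    rw [h4, polar_hp, polar_hp] at h3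
    exact h3
  refine ⟨e ((1, 0), (0, 0)), e ((0, 1), (0, 0)), e ((0, 0), (1, 0)), e ((0, 0), (0, 1)),
    ⟨⟨?_, ?_, ?_⟩, ⟨?_, ?_, ?_⟩, ?_, ?_, ?_, ?_⟩, Subtype.prop _, Subtype.prop _, Subtype.prop _, Subtype.prop _, ?_⟩
  · rw [hQ]; simp
  · rw [hQ]; simp
  · rw [hP]; simp
  · rw [hQ]; simp
  · rw [hQ]; simp
  · rw [hP]; simp
  · rw [hP]; simp
  · rw [hP]; simp
  · rw [hP]; simp
  · rw [hP]; simp
  · intro v h3 h4 h5 h6 u hu
    obtain ⟨x, hx⟩ := e.surjective ⟨u, hu⟩
    have h7 : u = x.1.1 • (e ((1, 0), (0, 0)) : V) + x.1.2 • (e ((0, 1), (0, 0)) : V) +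
        (x.2.1 • (e ((0, 0), (1, 0)) : V) + x.2.2 • (e ((0, 0), (0, 1)) : V)) := by
      have h8 : x = x.1.1 • ((1, 0), (0, 0)) + x.1.2 • ((0, 1), (0, 0)) +
          (x.2.1 • ((0, 0), (1, 0)) + x.2.2 • ((0, 0), (0, 1))) := by
        obtain ⟨⟨a, b⟩, ⟨c, d⟩⟩ := x
        simp
      have h9 : (e x : V) = u := congrArg Subtype.val hx
      rw [← h9]
      conv_lhs => rw [h8]
      simp only [map_add, map_smul]
      rfl
    rw [h7, polar_add_left, polar_add_left, polar_add_left, polar_smul_left, polar_smul_left, polar_smul_left,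
      polar_smul_left, h3, h4, h5, h6]
    simp

/-- **an involution of rank four in `E Q` is fundamental** -/
theorem fund_of_finrank (hG : Good Q) {g : ↥(E Q)} (hg : g * g = 1) (hd : finrank F (Vm g) = 4) : Fund Q g := by
  classical
  cases nonempty_fintype F
  obtain ⟨e₁, f₁, e₂, f₂, h, m1, m2, m3, m4, hp⟩ := exists_four h2 (nondeg_Vm h2 hG.nondeg hg) hd (dc_Vm h2 hg hG)
  exact ⟨e₁, f₁, e₂, f₂, h, mem_Vm.1 m1, mem_Vm.1 m2, mem_Vm.1 m3, mem_Vm.1 m4, fun v h3 h4 h5 h6 =>
    mem_Vp.1 ((mem_Vp_iff h2 hG.nondeg hg).2 (hp v h3 h4 h5 h6))⟩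

end four

end Cfsg.Agent.H325.IF

private theorem dce_304b778ff604 : _root_.True := by
  try have : _root_.True := by simp only [_root_.Cfsg.Agent.H325.IF.Vp.eq_1]
  try have : _root_.True := by simp only [_root_.Cfsg.Agent.H325.IF.dec.eq_1]
  try have : _root_.True := by simp only [_root_.Cfsg.Agent.H325.IF.Vm.eq_1]
  exact _root_.True.intro
end

-- part: H325/IF/Inv2
section
prune_inst 0x2000207040000000000582230000044c00009200030000084008440149e04ae00106400620241000928c000004004001000010022000000000040040050000008012049048a008a00006000004000000000000000000000000000000020000000000000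
set_option linter.all false
open scoped Cfsg.Agent.FastGrp

/-!
# S5719, orthogonal groups, `q` odd: existence and conjugacy of involutions of `E Q` (helper325)

* `exists_sub` : subspaces of given dimension and class in a nondegenerate space;
* `exists_inv` : the involution of `E Q` with given `Vm g = U` (`U` nondegenerate, even dimension, square discriminant);
* `exists_inv_le` : involutions of `E Q` of rank `k` with `Vm g ≤ W`;
* `isConj_of_finrank` : involutions of `E Q` of the same rank are conjugate in `E Q`.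
-/

set_option autoImplicit false
set_option linter.unusedSectionVars false

namespace Cfsg.Agent.H325.IF

open QuadraticMap Module Cfsg.Agent.LieClassical.OrthCore Cfsg.Agent.LieClassical.OrthTrans
open Cfsg.Agent.H989.Gs.Gen Cfsg.Agent.H989.Fx
open Cfsg.Agent.H160.QSpin Cfsg.Agent.H160.QDisc

variable {F V W₁ : Type*} [Field F] [AddCommGroup V] [Module F V] [AddCommGroup W₁] [Module F W₁]
  {Q : QuadraticForm F V} [FiniteDimensional F V] [FiniteDimensional F W₁]

section split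

variable [Fintype F] [DecidableEq F] (h2 : (2 : F) ≠ 0)

include h2

/-- embedding of a smaller nondegenerate space -/
theorem exists_embed {Q₁ : QuadraticForm F W₁} (hQ : Nondeg Q) (hQ₁ : Nondeg Q₁)
    (hd : finrank F W₁ < finrank F V) : ∃ (m : ℕ) (Q₂ : QuadraticForm F (Fin (m + 1) → F))
      (e : (W₁ × (Fin (m + 1) → F)) ≃ₗ[F] V), Nondeg Q₂ ∧ IsIso (Q₁.prod Q₂) Q e := by
  obtain ⟨m, hm⟩ := Nat.exists_eq_add_of_lt hd
  have hdd : dc Q * dc Q₁ = 1 ∨ dc Q * dc Q₁ = -1 := by
    rcases dc_cases hQ with h | h <;> rcases dc_cases hQ₁ with h' | h' <;> rw [h, h'] <;> simp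
  obtain ⟨Q₂, hQ₂, hc⟩ := exists_form h2 hdd m
  obtain ⟨e, he⟩ := exists_iso h2 (nondeg_prod hQ₁ hQ₂) hQ (by rw [finrank_prod, finrank_fin_fun, hm]; omega) (by
    rw [dc_prod, hc]
    rcases dc_cases hQ₁ with h' | h' <;> rw [h'] <;> ring)
  exact ⟨m, Q₂, e, hQ₂, he⟩

/-- a nondegenerate space of dimension at least two represents every nonzero element -/
theorem exists_value (hQ : Nondeg Q) (hd : 2 ≤ finrank F V) {α : F} (hα : α ≠ 0) : ∃ v, Q v = α := by
  obtain ⟨m, Q₂, e, -, he⟩ := exists_embed h2 hQ (nondeg_oneF h2 hα) (by rw [finrank_self]; omega)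
  refine ⟨e (1, 0), ?_⟩
  rw [he, Qpr_apply, QuadraticMap.map_zero, oneF_apply]
  ring

end split

/-! ### the orthogonal complement -/

section perp

/-- the orthogonal space -/
def Pp (Q : QuadraticForm F V) (U : Submodule F V) : Submodule F V := LinearMap.BilinForm.orthogonal (polarBilin Q) U

theorem mem_Pp {U : Submodule F V} {v : V} : v ∈ Pp Q U ↔ ∀ u ∈ U, polar Q u v = 0 := Iff.rfl

theorem isCompl_Pp {U : Submodule F V} (hU : Nondeg (Q.comp U.subtype)) : IsCompl U (Pp Q U) := by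
  refine LinearMap.BilinForm.isCompl_orthogonal_of_restrict_nondegenerate (isSymm_bilin Q).isRefl ?_
  exact nondeg_bilin hU

variable {U : Submodule F V} (hU : Nondeg (Q.comp U.subtype))

/-- the decomposition as an isometry -/
noncomputable def decU : (U × Pp Q U) ≃ₗ[F] V := Submodule.prodEquivOfIsCompl U (Pp Q U) (isCompl_Pp hU)

theorem decU_apply (x : U × Pp Q U) : decU hU x = (x.1 : V) + x.2 := by
  rw [decU, Submodule.coe_prodEquivOfIsCompl']

theorem isIso_decU : IsIso ((Q.comp U.subtype).prod (Q.comp (Pp Q U).subtype)) Q (decU hU) := by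
  intro x
  rw [decU_apply, Q_add, mem_Pp.1 x.2.2 x.1 x.1.2, add_zero]
  rfl

include hU in
theorem nondeg_Pp (hQ : Nondeg Q) : Nondeg (Q.comp (Pp Q U).subtype) := by
  have h3 := (isIso_decU hU).symm.nondeg hQ
  intro x hx
  have h4 := h3 (0, x) (fun y => by
    have h5 : polar ((Q.comp U.subtype).prod (Q.comp (Pp Q U).subtype)) (0, x) y =
        polar (Q.comp U.subtype) 0 y.1 + polar (Q.comp (Pp Q U).subtype) x y.2 := polar_pr _ _
    rw [h5, hx, polar_zero_left, add_zero])
  exact congrArg Prod.snd h4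

end perp

section exist

variable [Finite F] (h2 : (2 : F) ≠ 0)

include h2

/-- **the involution of `E Q` with given `Vm g`** -/
theorem exists_inv [Fintype F] [DecidableEq F] (hG : Good Q) {U : Submodule F V}
    (hU : Nondeg (Q.comp U.subtype)) (he : Even (finrank F U)) (hc : dc (Q.comp U.subtype) = 1) :
    ∃ g : ↥(E Q), g * g = 1 ∧ Vm g = U := by
  have hfin : Finite V := Module.finite_of_finite F
  have hfin2 : Finite (U × Pp Q U) := Finite.of_equiv V (decU hU).symm.toEquiv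
  have hW := nondeg_Pp hU hG.nondeg
  have hO : cj (decU hU) (pr (LinearEquiv.neg F) 1) ∈ O Q := cj_mem_O (isIso_decU hU)
    (pr_mem_O (neg_mem_O (Q.comp U.subtype)) (O (Q.comp (Pp Q U).subtype)).one_mem)
  have hE : cj (decU hU) (pr (LinearEquiv.neg F) 1) ∈ E Q := by
    rw [Cfsg.Agent.H380.Bs.mem_E_iff' hG h2 hO]
    constructor
    · rw [det_cj, det_pr, map_one, mul_one, det_neg_even he]
    · rw [spin_cj (isIso_decU hU) (pr_mem_O (neg_mem_O (Q.comp U.subtype))
        (O (Q.comp (Pp Q U).subtype)).one_mem), spin_pr h2 hU hW (neg_mem_O _)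
        (O (Q.comp (Pp Q U).subtype)).one_mem]
      have h6 : spin (Q.comp (Pp Q U).subtype) ⟨1, (O (Q.comp (Pp Q U).subtype)).one_mem⟩ = 1 := map_one _
      rw [h6, mul_one]
      apply Units.ext
      rw [spin_neg_one h2 hU he, hc]
      rfl
  have key : ∀ x : U × Pp Q U, ap (⟨_, hE⟩ : ↥(E Q)) ((x.1 : V) + x.2) = -(x.1 : V) + x.2 := by
    intro x
    have h3 : ap (⟨_, hE⟩ : ↥(E Q)) (decU hU x) = decU hU (pr (LinearEquiv.neg F) 1 x) := cj_apply' _ _ _
    rw [decU_apply, decU_apply] at h3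
    exact h3
  refine ⟨⟨_, hE⟩, ?_, ?_⟩
  · apply ext_ap
    intro v
    obtain ⟨x, rfl⟩ := (decU hU).surjective v
    rw [ap_mul, ap_one, decU_apply, key]
    have h3 := key (-x.1, x.2)
    rw [Submodule.coe_neg, neg_neg] at h3
    exact h3
  · ext v
    rw [mem_Vm]
    obtain ⟨x, rfl⟩ := (decU hU).surjective v
    rw [decU_apply, key, neg_add, add_right_inj]
    constructor
    · intro h
      have h3 : (2 : F) • (x.2 : V) = 0 := by
        rw [two_smul]
        nth_rewrite 1 [h]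
        exact neg_add_cancel _
      rw [(smul_eq_zero.1 h3).resolve_left h2, add_zero]
      exact x.1.2
    · intro h
      have h3 : (x.2 : V) ∈ U := by
        have := U.sub_mem h x.1.2
        rwa [add_sub_cancel_left] at this
      have h4 : (x.2 : V) = 0 := Submodule.disjoint_def.1 (isCompl_Pp hU).disjoint _ h3 x.2.2
      rw [h4, neg_zero]

/-- **Small involutions.** An involution `z` of `E Q` with `rank (z - 1) ≤ 4` has rank two or is fundamental. -/
theorem two_or_fund (hG : Good Q) {z : ↥(E Q)} (hz : z * z = 1) (hz1 : z ≠ 1) (hd : finrank F (Vm z) ≤ 4) :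
    finrank F (Vm z) = 2 ∨ Fund Q z := by
  have he := even_Vm h2 hz hG
  have h0 : finrank F (Vm z) ≠ 0 := by
    intro h
    apply hz1
    rw [Submodule.finrank_eq_zero] at h
    have h3 := (isCompl h2 hz).codisjoint.eq_top
    rw [h, bot_sup_eq] at h3
    apply ext_ap
    intro v
    rw [ap_one]
    exact mem_Vp.1 (h3 ▸ Submodule.mem_top)
  have h4 : finrank F (Vm z) = 2 ∨ finrank F (Vm z) = 4 := by
    obtain ⟨k, hk⟩ := he
    omega
  exact h4.imp id (fund_of_finrank h2 hG hz)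

omit h2 in
theorem finrank_Vm_le {z : ↥(E Q)} (hz : z * z = 1) {k : ℕ} {W : Submodule F V} (hW : finrank F W ≤ k)
    (h : ∀ v, ap z v - v ∈ W) (h2 : (2 : F) ≠ 0) : finrank F (Vm z) ≤ k := by
  refine le_trans (Submodule.finrank_mono fun v hv => ?_) hW
  have h3 := h ((-(2 : F)⁻¹) • v)
  rw [ap_smul, mem_Vm.1 hv, smul_neg, neg_smul, neg_neg, sub_neg_eq_add, ← add_smul] at h3
  have h4 : (2 : F)⁻¹ + (2 : F)⁻¹ = 1 := by rw [← two_mul, mul_inv_cancel₀ h2]
  rwa [h4, one_smul] at h3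

/-- the form used by helper170 -/
theorem two_or_fund' (hG : Good Q) {z : ↥(E Q)} (hz : z * z = 1) (hz1 : z ≠ 1)
    (hd : ∃ W : Submodule F V, finrank F W ≤ 4 ∧ ∀ v, ap z v - v ∈ W) : finrank F (Vm z) = 2 ∨ Fund Q z := by
  obtain ⟨W, hW, h⟩ := hd
  exact two_or_fund h2 hG hz hz1 (finrank_Vm_le hz hW h h2)

end exist

end Cfsg.Agent.H325.IF

private theorem dce_a040271a16fe : _root_.True := by
  try have : _root_.True := by simp only [_root_.Cfsg.Agent.H325.IF.decU.eq_1]
  exact _root_.True.intro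
end

-- part: H325/IF/Inv3
section
prune_inst 0x1600060704000000000050622000004480001020003000009400a440349a24a4000064006a0241000928c00600c004001000010023000000000040040040000008352069258a00c240006000000000000000000000000000000000000020000000000000
set_option linter.all false
open scoped Cfsg.Agent.FastGrp

/-!
# S5719, orthogonal groups, `q` odd: conjugacy of involutions of `E Q`, lifts (helper325)

* `isConj_of_finrank` : involutions of `E Q` of the same rank are conjugate in `E Q`;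
* `exists_lift` : an involution of `A ≤ T`, `π : E Q →* T` with kernel `± 1`, lifts to `g`, `g * g = 1` or `-1`;
* `cases_eight`, `cases_ten` : the ranks in dimension `8`, `10`.
-/

set_option autoImplicit false
set_option linter.unusedSectionVars false

namespace Cfsg.Agent.H325.IF

open QuadraticMap Module Cfsg.Agent.LieClassical.OrthCore Cfsg.Agent.LieClassical.OrthTrans
open Cfsg.Agent.H989.Gs.Gen Cfsg.Agent.H989.Fx
open Cfsg.Agent.H160.QSpin Cfsg.Agent.H160.QDisc

variable {F V : Type*} [Field F] [AddCommGroup V] [Module F V] {Q : QuadraticForm F V}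

/-- reflections in eigenvectors commute with `s` -/
theorem refl_eig {s : V ≃ₗ[F] V} (hs : s ∈ O Q) {τ : F} (hτ : τ * τ = 1) {a : V} (ha : Q a ≠ 0)
    (h : s a = τ • a) (v : V) : s (refl Q a ha v) = refl Q a ha (s v) := by
  have h3 : polar Q a (s v) = τ * polar Q a v := by
    have h4 := polar_map hs a v
    rw [h, polar_smul_left, smul_eq_mul] at h4
    calc polar Q a (s v) = τ * τ * polar Q a (s v) := by rw [hτ, one_mul]
      _ = τ * (τ * polar Q a (s v)) := by ring
      _ = τ * polar Q a v := by rw [h4]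
  rw [refl_apply, refl_apply, map_sub, map_smul, h, h3, smul_smul]
  congr 2
  ring

section conj

variable [Finite F] [FiniteDimensional F V] (h2 : (2 : F) ≠ 0)

include h2

/-- isometries of all classes commuting with an involution -/
theorem exists_comm [Fintype F] [DecidableEq F] [Finite V] (hG : Good Q) {g : ↥(E Q)} (hg : g * g = 1) {h : V ≃ₗ[F] V} (hh : h ∈ O Q) :
    ∃ c : V ≃ₗ[F] V, (∀ v, c (ap g v) = ap g (c v)) ∧ c * h ∈ E Q := by
  obtain ⟨X, τ, hτ, hX, hXd, hXe⟩ : ∃ (X : Submodule F V) (τ : F), τ * τ = 1 ∧ Nondeg (Q.comp X.subtype) ∧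
      2 ≤ finrank F X ∧ ∀ a ∈ X, ap g a = τ • a := by
    have h3 := Submodule.finrank_add_eq_of_isCompl (isCompl h2 hg)
    have h4 := hG.dim
    rcases Nat.lt_or_ge (finrank F (Vm g)) 2 with h5 | h5
    · exact ⟨Vp g, 1, by ring, nondeg_Vp h2 hG.nondeg hg, by omega, fun a ha => by rw [one_smul]; exact mem_Vp.1 ha⟩
    · exact ⟨Vm g, -1, by ring, nondeg_Vm h2 hG.nondeg hg, h5, fun a ha => by
        rw [neg_one_smul]; exact mem_Vm.1 ha⟩
  obtain ⟨α, hα, hqα⟩ := exists_qc (F := F) h2 (d := 1) (Or.inl rfl)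
  obtain ⟨β, hβ, hqβ⟩ := exists_qc (F := F) h2 (d := -1) (Or.inr rfl)
  obtain ⟨a, ha⟩ := exists_value h2 hX hXd hα
  obtain ⟨b, hb⟩ := exists_value h2 hX hXd hβ
  have ha' : Q (a : V) = α := ha
  have hb' : Q (b : V) = β := hb
  have ha0 : Q (a : V) ≠ 0 := by rw [ha']; exact hα
  have hb0 : Q (b : V) ≠ 0 := by rw [hb']; exact hβ
  have ca : ∀ v, refl Q (a : V) ha0 (ap g v) = ap g (refl Q (a : V) ha0 v) := fun v =>
    (refl_eig (E_le_O g.2) hτ ha0 (hXe a a.2) v).symm
  have cb : ∀ v, refl Q (b : V) hb0 (ap g v) = ap g (refl Q (b : V) hb0 v) := fun v =>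
    (refl_eig (E_le_O g.2) hτ hb0 (hXe b b.2) v).symm
  have sa : spin Q ⟨refl Q (a : V) ha0, refl_mem_O ha0⟩ = -1 := by
    apply Units.ext
    rw [spin_refl_int h2, ha', hqα]
    rfl
  have sb : spin Q ⟨refl Q (b : V) hb0, refl_mem_O hb0⟩ = 1 := by
    apply Units.ext
    rw [spin_refl_int h2, hb', hqβ]
    rfl
  have key : ∀ (c : V ≃ₗ[F] V) (hc : c ∈ O Q), LinearEquiv.det c * LinearEquiv.det h = 1 →
      spin Q ⟨c, hc⟩ * spin Q ⟨h, hh⟩ = 1 → c * h ∈ E Q := by
    intro c hc k1 k2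
    rw [Cfsg.Agent.H380.Bs.mem_E_iff' hG h2 ((O Q).mul_mem hc hh)]
    refine ⟨by rw [map_mul]; exact k1, ?_⟩
    have k3 : (⟨c * h, (O Q).mul_mem hc hh⟩ : O Q) = ⟨c, hc⟩ * ⟨h, hh⟩ := rfl
    rw [k3, map_mul]
    exact k2
  rcases Cfsg.Agent.H380.Bs.det_eq_or hG.nondeg hh with hd | hd <;>
    rcases Int.units_eq_one_or (spin Q ⟨h, hh⟩) with hs | hs
  · refine ⟨1, fun v => rfl, key 1 (O Q).one_mem ?_ ?_⟩
    · rw [hd, map_one, one_mul]
    · rw [hs, mul_one]
      exact map_one (spin Q)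
  · refine ⟨refl Q (a : V) ha0 * refl Q (b : V) hb0, fun v => ?_,
      key _ ((O Q).mul_mem (refl_mem_O ha0) (refl_mem_O hb0)) ?_ ?_⟩
    · change refl Q (a : V) ha0 (refl Q (b : V) hb0 (ap g v)) = ap g (refl Q (a : V) ha0 (refl Q (b : V) hb0 v))
      rw [cb, ca]
    · rw [hd, map_mul, det_refl, det_refl]
      simp
    · have k3 : (⟨refl Q (a : V) ha0 * refl Q (b : V) hb0, (O Q).mul_mem (refl_mem_O ha0) (refl_mem_O hb0)⟩ : O Q) =
        ⟨refl Q (a : V) ha0, refl_mem_O ha0⟩ * ⟨refl Q (b : V) hb0, refl_mem_O hb0⟩ := rfl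
      rw [k3, map_mul, sa, sb, hs]
      simp
  · refine ⟨refl Q (b : V) hb0, cb, key _ (refl_mem_O hb0) ?_ ?_⟩
    · rw [hd, det_refl]
      simp
    · rw [sb, hs, one_mul]
  · refine ⟨refl Q (a : V) ha0, ca, key _ (refl_mem_O ha0) ?_ ?_⟩
    · rw [hd, det_refl]
      simp
    · rw [sa, hs]
      simp

/-- **involutions of the same rank are conjugate in `E Q`** -/
theorem isConj_of_finrank (hG : Good Q) {g g' : ↥(E Q)} (hg : g * g = 1) (hg' : g' * g' = 1)
    (hd : finrank F (Vm g) = finrank F (Vm g')) : IsConj g g' := by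
  classical
  cases nonempty_fintype F
  have hfin : Finite V := Module.finite_of_finite F
  have d1 := Submodule.finrank_add_eq_of_isCompl (isCompl h2 hg)
  have d2 := Submodule.finrank_add_eq_of_isCompl (isCompl h2 hg')
  obtain ⟨e1, he1⟩ := exists_iso h2 (nondeg_Vm h2 hG.nondeg hg) (nondeg_Vm h2 hG.nondeg hg') hd
    (by rw [dc_Vm h2 hg hG, dc_Vm h2 hg' hG])
  obtain ⟨e2, he2⟩ := exists_iso h2 (nondeg_Vp h2 hG.nondeg hg) (nondeg_Vp h2 hG.nondeg hg') (by omega)
    (by rw [dc_Vp h2 hg hG, dc_Vp h2 hg' hG])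
  let h : V ≃ₗ[F] V := (dec h2 hg).symm.trans ((e1.prodCongr e2).trans (dec h2 hg'))
  have hh' : ∀ x : Vm g × Vp g, h ((x.1 : V) + x.2) = (e1 x.1 : V) + e2 x.2 := by
    intro x
    have h3 : h (dec h2 hg x) = dec h2 hg' (e1 x.1, e2 x.2) := by
      change dec h2 hg' ((e1.prodCongr e2) ((dec h2 hg).symm (dec h2 hg x))) = _
      rw [LinearEquiv.symm_apply_apply]
      rfl
    rw [dec_apply, dec_apply] at h3
    exact h3
  have hO : h ∈ O Q := by
    intro v
    obtain ⟨x, rfl⟩ := (dec h2 hg).surjective v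
    rw [dec_apply, hh', Q_add, Q_add, polar_Vm_Vp h2 x.1.2 x.2.2, polar_Vm_Vp h2 (e1 x.1).2 (e2 x.2).2]
    have k1 : Q (e1 x.1 : V) = Q (x.1 : V) := he1 x.1
    have k2 : Q (e2 x.2 : V) = Q (x.2 : V) := he2 x.2
    rw [k1, k2]
  have hc : ∀ v, h (ap g v) = ap g' (h v) := by
    intro v
    obtain ⟨x, rfl⟩ := (dec h2 hg).surjective v
    rw [dec_apply, ap_add, mem_Vm.1 x.1.2, mem_Vp.1 x.2.2, hh', ap_add, mem_Vm.1 (e1 x.1).2, mem_Vp.1 (e2 x.2).2]
    have h3 := hh' (-x.1, x.2)
    rw [Submodule.coe_neg, map_neg, Submodule.coe_neg] at h3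
    exact h3
  obtain ⟨c, hc1, hc2⟩ := exists_comm h2 hG hg' hO
  rw [isConj_iff]
  refine ⟨⟨c * h, hc2⟩, ?_⟩
  rw [mul_inv_eq_iff_eq_mul]
  apply ext_ap
  intro v
  rw [ap_mul, ap_mul]
  change c (h (ap g v)) = ap g' (c (h v))
  rw [hc, hc1]

end conj

/-! ### lifts -/

section lift

variable {T : Type*} [Group T] (π : ↥(E Q) →* T) (hπ : Function.Surjective π)
  (hker : ∀ g, π g = 1 ↔ g = 1 ∨ ∀ v, ap g v = -v)

include hπ hker

/-- **lifts of involutions** -/
theorem exists_lift [Finite T] {A : Subgroup T} (hev : Even (Nat.card A)) :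
    ∃ g : ↥(E Q), π g ∈ A ∧ π g ≠ 1 ∧ π (g * g) = 1 ∧ (g * g = 1 ∨ ∀ v, ap g (ap g v) = -v) := by
  obtain ⟨a, ha⟩ := exists_prime_orderOf_dvd_card' 2 hev.two_dvd
  obtain ⟨g, hg⟩ := hπ (a : T)
  have h1 : (a : T) ≠ 1 := by
    intro h
    have h3 : a = 1 := Subtype.ext h
    rw [h3, orderOf_one] at ha
    omega
  have h3 : (a : T) * a = 1 := by
    have h4 := pow_orderOf_eq_one a
    rw [ha, pow_two] at h4
    exact congrArg Subtype.val h4
  have h4 : π (g * g) = 1 := by rw [map_mul, hg, h3]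
  refine ⟨g, by rw [hg]; exact a.2, by rw [hg]; exact h1, h4, ?_⟩
  rcases (hker _).1 h4 with h5 | h5
  · exact Or.inl h5
  · exact Or.inr fun v => by rw [← ap_mul]; exact h5 v

omit hπ in
/-- the rank of the lift of an involution -/
theorem finrank_lift [Finite F] [FiniteDimensional F V] (h2 : (2 : F) ≠ 0) (hG : Good Q) {g : ↥(E Q)}
    (hg : g * g = 1) (h1 : π g ≠ 1) :
    Even (finrank F (Vm g)) ∧ 0 < finrank F (Vm g) ∧ finrank F (Vm g) < finrank F V := by
  refine ⟨even_Vm h2 hg hG, ?_, ?_⟩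
  · rw [Nat.pos_iff_ne_zero]
    intro h
    apply h1
    rw [hker]
    left
    rw [Submodule.finrank_eq_zero] at h
    have h3 := (isCompl h2 hg).codisjoint.eq_top
    rw [h, bot_sup_eq] at h3
    apply ext_ap
    intro v
    rw [ap_one]
    exact mem_Vp.1 (h3 ▸ Submodule.mem_top)
  · rw [lt_iff_le_and_ne]
    refine ⟨Submodule.finrank_le _, fun h => h1 ?_⟩
    rw [hker]
    right
    intro v
    have h3 := Submodule.eq_top_of_finrank_eq h
    exact mem_Vm.1 (h3 ▸ Submodule.mem_top)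

/-- **dimension 10** -/
theorem cases_ten [Finite T] [Finite F] [FiniteDimensional F V] (h2 : (2 : F) ≠ 0) (hG : Good Q)
    (hN : finrank F V = 10) {A : Subgroup T} (hev : Even (Nat.card A)) :
    ∃ g : ↥(E Q), π g ∈ A ∧ π g ≠ 1 ∧ π (g * g) = 1 ∧ ((g * g = 1 ∧ finrank F (Vm g) = 2) ∨
      (g * g = 1 ∧ finrank F (Vm g) = 8) ∨ (g * g = 1 ∧ finrank F (Vm g) = 6) ∨ Fund Q g ∨
      ∀ v, ap g (ap g v) = -v) := by
  obtain ⟨g, h3, h4, h5, h6⟩ := exists_lift π hπ hker hev
  refine ⟨g, h3, h4, h5, ?_⟩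
  rcases h6 with h6 | h6
  · obtain ⟨⟨k, hk⟩, k2, k3⟩ := finrank_lift π hker h2 hG h6 h4
    rw [hN] at k3
    have h7 : finrank F (Vm g) = 2 ∨ finrank F (Vm g) = 8 ∨ finrank F (Vm g) = 6 ∨ finrank F (Vm g) = 4 := by
      omega
    rcases h7 with h7 | h7 | h7 | h7
    · exact Or.inl ⟨h6, h7⟩
    · exact Or.inr (Or.inl ⟨h6, h7⟩)
    · exact Or.inr (Or.inr (Or.inl ⟨h6, h7⟩))
    · exact Or.inr (Or.inr (Or.inr (Or.inl (fund_of_finrank h2 hG h6 h7))))
  · exact Or.inr (Or.inr (Or.inr (Or.inr h6)))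

end lift

end Cfsg.Agent.H325.IF
end

-- part: H325/IF/Inv4
section
prune_inst 0x16004606062000000000584230000044c0001920003000068400b460b49624ae00406400eb02410009698902004006001000010426800000e00080040050020800352069258ac0cb40001000084000000000000000000000000000000020004000000000
set_option linter.all false
open scoped Cfsg.Agent.FastGrp

/-!
# S5719, orthogonal groups, `q` odd: fundamental involutions (helper325)

* `Vm_of_fund`, `finrank_Vm_of_fund` : the `-1` space of a fundamental involution;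
* `fund_iff` : `g` is fundamental iff `g * g = 1` and `Vm g` has dimension `4`;
* `isConj_of_fund`, `fund_conj`.
-/

set_option autoImplicit false
set_option linter.unusedSectionVars false

namespace Cfsg.Agent.H325.IF

open QuadraticMap Module Cfsg.Agent.LieClassical.OrthCore Cfsg.Agent.LieClassical.OrthTrans
open Cfsg.Agent.H989.Gs.Gen Cfsg.Agent.H989.Fx Cfsg.Agent.LieClassical
open Cfsg.Agent.H160.QSpin Cfsg.Agent.H160.QDisc
open Cfsg.Agent.UGT.U2.FOne.Orth (Four)

variable {F V : Type*} [Field F] [AddCommGroup V] [Module F V] {Q : QuadraticForm F V}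

/-- four vectors of two perpendicular hyperbolic pairs are independent -/
theorem linInd_four {e₁ f₁ e₂ f₂ : V} (h : Four Q e₁ f₁ e₂ f₂) : LinearIndependent F ![e₁, f₁, e₂, f₂] := by
  obtain ⟨⟨a1, a2, a3⟩, ⟨b1, b2, b3⟩, c1, c2, c3, c4⟩ := h
  have hs : ∀ u v : V, polar Q u v = polar Q v u := fun u v => polar_comm Q u v
  have h0 : ∀ u : V, Q u = 0 → polar Q u u = 0 := fun u hu => by rw [polar_self, hu, smul_zero]
  rw [Fintype.linearIndependent_iff]
  intro g hg
  rw [Fin.sum_univ_four] at hg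
  simp only [Matrix.cons_val] at hg
  have key : ∀ w : V, g 0 * polar Q e₁ w + g 1 * polar Q f₁ w + g 2 * polar Q e₂ w + g 3 * polar Q f₂ w = 0 := by
    intro w
    have h1 : polar Q (g 0 • e₁ + g 1 • f₁ + g 2 • e₂ + g 3 • f₂) w = 0 := by
      rw [hg, polar_zero_left]
    simpa only [polar_add_left, polar_smul_left, smul_eq_mul] using h1
  have k0 := key f₁
  have k1 := key e₁
  have k2 := key f₂
  have k3 := key e₂
  rw [h0 f₁ a2, hs e₂ f₁, c3, hs f₂ f₁, c4, a3] at k0
  rw [h0 e₁ a1, hs f₁ e₁, a3, hs e₂ e₁, c1, hs f₂ e₁, c2] at k1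
  rw [h0 f₂ b2, c2, c4, b3] at k2
  rw [h0 e₂ b1, hs f₂ e₂, c1, c3, b3] at k3
  intro i
  fin_cases i
  · simpa using k0
  · simpa using k1
  · simpa using k2
  · simpa using k3

theorem exists_four_comb {e₁ f₁ e₂ f₂ : V} (h : Four Q e₁ f₁ e₂ f₂) (v : V) :
    ∃ v', (polar Q e₁ v' = 0 ∧ polar Q f₁ v' = 0 ∧ polar Q e₂ v' = 0 ∧ polar Q f₂ v' = 0) ∧
      ∃ a b c d : F, v = v' + a • e₁ + b • f₁ + c • e₂ + d • f₂ := by
  obtain ⟨h1, h2, h3, h4, h5, h6⟩ := h
  refine ⟨OrthTrans.proj Q e₁ f₁ (OrthTrans.proj Q e₂ f₂ v), ⟨polar_proj_left h1 _, polar_proj_right h1 _, ?_, ?_⟩, ?_⟩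
  · rw [polar_proj_of_perp h3 h5, polar_proj_left h2]
  · rw [polar_proj_of_perp h4 h6, polar_proj_right h2]
  · refine ⟨polar Q f₁ (OrthTrans.proj Q e₂ f₂ v), polar Q e₁ (OrthTrans.proj Q e₂ f₂ v), polar Q f₂ v, polar Q e₂ v, ?_⟩
    conv_rhs => rw [OrthTrans.proj]
    generalize polar Q f₁ (OrthTrans.proj Q e₂ f₂ v) = a
    generalize polar Q e₁ (OrthTrans.proj Q e₂ f₂ v) = b
    rw [OrthTrans.proj]
    module

theorem fund_mul_self {z : ↥(E Q)} (h : Fund Q z) : z * z = 1 := by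
  obtain ⟨e₁, f₁, e₂, f₂, h, z1, z2, z3, z4, hz⟩ := h
  refine Subtype.ext (LinearEquiv.ext fun v => ?_)
  show ap z (ap z v) = v
  obtain ⟨v', hv', a, b, c, d, rfl⟩ := exists_four_comb h v
  have hz' := hz v' hv'.1 hv'.2.1 hv'.2.2.1 hv'.2.2.2
  simp only [ap_add, ap_smul, hz', z1, z2, z3, z4, smul_neg, ap_neg, neg_neg]

variable (h2 : (2 : F) ≠ 0)

include h2

theorem Vm_of_fund {z : ↥(E Q)} {e₁ f₁ e₂ f₂ : V} (h : Four Q e₁ f₁ e₂ f₂) (z1 : ap z e₁ = -e₁) (z2 : ap z f₁ = -f₁)
    (z3 : ap z e₂ = -e₂) (z4 : ap z f₂ = -f₂)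
    (hz : ∀ v, polar Q e₁ v = 0 → polar Q f₁ v = 0 → polar Q e₂ v = 0 → polar Q f₂ v = 0 → ap z v = v) :
    Vm z = Submodule.span F (Set.range ![e₁, f₁, e₂, f₂]) := by
  have m1 : e₁ ∈ Submodule.span F (Set.range ![e₁, f₁, e₂, f₂]) := Submodule.subset_span ⟨0, rfl⟩
  have m2 : f₁ ∈ Submodule.span F (Set.range ![e₁, f₁, e₂, f₂]) := Submodule.subset_span ⟨1, rfl⟩
  have m3 : e₂ ∈ Submodule.span F (Set.range ![e₁, f₁, e₂, f₂]) := Submodule.subset_span ⟨2, rfl⟩
  have m4 : f₂ ∈ Submodule.span F (Set.range ![e₁, f₁, e₂, f₂]) := Submodule.subset_span ⟨3, rfl⟩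
  apply le_antisymm
  · intro v hv
    rw [mem_Vm] at hv
    obtain ⟨v', hv', a, b, c, d, rfl⟩ := exists_four_comb h v
    have hz' := hz v' hv'.1 hv'.2.1 hv'.2.2.1 hv'.2.2.2
    simp only [ap_add, ap_smul, hz', z1, z2, z3, z4, smul_neg] at hv
    have h3 : (2 : F) • v' = 0 := by
      rw [two_smul]
      have h4 := congrArg (fun w => w + (v' + a • e₁ + b • f₁ + c • e₂ + d • f₂)) hv
      simp only [neg_add_cancel] at h4
      rw [← h4]
      abel
    have h4 : v' = 0 := (smul_eq_zero.1 h3).resolve_left h2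
    rw [h4, zero_add]
    exact add_mem (add_mem (add_mem (Submodule.smul_mem _ _ m1) (Submodule.smul_mem _ _ m2))
      (Submodule.smul_mem _ _ m3)) (Submodule.smul_mem _ _ m4)
  · rw [Submodule.span_le]
    rintro _ ⟨i, rfl⟩
    fin_cases i
    · exact mem_Vm.2 z1
    · exact mem_Vm.2 z2
    · exact mem_Vm.2 z3
    · exact mem_Vm.2 z4

theorem finrank_Vm_of_fund {z : ↥(E Q)} (h : Fund Q z) : finrank F (Vm z) = 4 := by
  obtain ⟨e₁, f₁, e₂, f₂, h, z1, z2, z3, z4, hz⟩ := h
  rw [Vm_of_fund h2 h z1 z2 z3 z4 hz, finrank_span_eq_card (linInd_four h), Fintype.card_fin]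

/-- fundamental involutions are conjugate -/
theorem isConj_of_fund [Finite F] [FiniteDimensional F V] (hG : Good Q) {z z' : ↥(E Q)} (h : Fund Q z)
    (h' : Fund Q z') : IsConj z z' :=
  isConj_of_finrank h2 hG (fund_mul_self h) (fund_mul_self h')
    (by rw [finrank_Vm_of_fund h2 h, finrank_Vm_of_fund h2 h'])

theorem exists_conj_of_fund [Finite F] [FiniteDimensional F V] (hG : Good Q) {z z' : ↥(E Q)} (h : Fund Q z)
    (h' : Fund Q z') : ∃ g : ↥(E Q), g * z * g⁻¹ = z' :=
  isConj_iff.1 (isConj_of_fund h2 hG h h')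

end Cfsg.Agent.H325.IF
end

-- part: H556/IF/Ten
section
prune_inst 0x12000204040000000000584230000044c0001020000000048400b060248e04ae00000400890241000028000000400000000001000000000000000000005002080005206926ca00ca40001000004000000000000000000000000000000020004000000000
set_option linter.all false
open scoped Cfsg.Agent.FastGrp

/-!
# S5719, orthogonal groups of dimension 10, `q` odd, both types (helper556)

* `Tri.q_le` : a subgroup without involutions of rank 2 has relative index at least `q` in every `L ≥ Ω₃`;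
* `ten_false` : no counterexample of S5719 in dimension 10, given the exclusion of the ranks 2 and 8 (CLAIM 0) and a
  fundamental involution in the case `t * t = -1`;
* `six_step` : `t * t = 1`, a 6-dimensional eigenspace `W`, `X` without involutions of rank 2 and without fundamental
  involutions in `Ω(W)`: `q ^ 5 ≤ |C(t) : X ∩ C(t)|`.
-/

set_option autoImplicit false
set_option maxHeartbeats 400000
set_option linter.unusedSimpArgs false
set_option linter.unusedVariables false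
set_option linter.unusedSectionVars false

namespace Cfsg.Agent.H556.IF

open QuadraticMap Cfsg.Agent.LieClassical Cfsg.Agent.LieClassical.OrthCore Cfsg.Agent.LieClassical.OrthTrans
  Cfsg.Agent.AutOrth.SemiSim Cfsg.Agent.AutOrth.Gen Cfsg.Agent.H989.Gs.Gen Cfsg.Agent.H989.Fx
  Cfsg.Agent.H786.IF Cfsg.Agent.H325.IF

/-- pigeonhole -/
theorem exists_ne_of_relIndex_lt {G M : Type*} [Group G] [Finite G] [AddGroup M] [Finite M] (g : M → G)
    (hg : ∀ a b, (g a)⁻¹ * g b = g (-a + b)) {L Y : Subgroup G} (hL : ∀ a, g a ∈ L)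
    (hlt : Y.relIndex L < Nat.card M) : ∃ a ≠ 0, g a ∈ Y := by
  by_contra hcon
  push Not at hcon
  have hinj : Function.Injective (fun a : M => ((⟨g a, hL a⟩ : L) : L ⧸ Y.subgroupOf L)) := by
    intro a b hab
    have h1 : ((⟨g a, hL a⟩ : L) : L ⧸ Y.subgroupOf L) = (⟨g b, hL b⟩ : L) := hab
    rw [QuotientGroup.eq, Subgroup.mem_subgroupOf] at h1
    have h2 : g (-a + b) ∈ Y := by
      rw [← hg]
      exact h1
    by_contra hne
    exact hcon (-a + b) (fun h => hne (by rw [neg_add_eq_zero] at h; exact h)) h2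
  have h3 := Nat.card_le_card_of_injective _ hinj
  exact absurd hlt (not_lt.2 h3)

variable {F V : Type*} [Field F] [AddCommGroup V] [Module F V] {Q : QuadraticForm F V}

theorem Neg_eq (t : ↥(E Q)) : Neg t = Vm t := by
  ext v
  rw [mem_Neg, mem_Vm]

theorem Tri.q_le [Finite F] [FiniteDimensional F V] (h2 : (2 : F) ≠ 0) {e f w : V} (h : Tri Q e f w)
    {L Y : Subgroup ↥(E Q)} (hLe : ∀ a : F, S Q e (a • w) ∈ L) (hLf : ∀ a : F, S Q f (a • w) ∈ L)
    (hY : ∀ t ∈ Y, t * t = 1 → Module.finrank F (Vm t) ≠ 2) : Nat.card F ≤ Y.relIndex L := by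
  have hfE : Finite ↥(E Q) := Cfsg.Agent.H786.IF.finite_E
  by_contra hcon
  push Not at hcon
  have key : ∀ {x : V}, Q x = 0 → polar Q x w = 0 → ∀ a b : F,
      (S Q x (a • w))⁻¹ * S Q x (b • w) = S Q x ((-a + b) • w) := by
    intro x hx hxw a b
    have h3 : ∀ c : F, polar Q x (c • w) = 0 := fun c => by rw [polar_smul_right, hxw, smul_zero]
    rw [S_inv hx (h3 a), ← S_add hx (by rw [polar_neg_right, h3, neg_zero]) (h3 b)]
    congr 1
    module
  obtain ⟨a, ha, ha'⟩ := exists_ne_of_relIndex_lt (fun a : F => S Q e (a • w)) (key h.hyp.left h.ew) hLe hcon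
  obtain ⟨c, hc, hc'⟩ := exists_ne_of_relIndex_lt (fun a : F => S Q f (a • w)) (key h.hyp.right h.fw) hLf hcon
  obtain ⟨t, ht, ht2, htr, -⟩ := h.exists_rank_two h2 ha hc ha' hc'
  rw [Neg_eq] at htr
  exact hY t ht ht2 htr

/-- hyperbolic pairs with a nonsingular vector -/
theorem exists_tri [Finite F] [FiniteDimensional F V] (h2 : (2 : F) ≠ 0) {W : Submodule F V} (hW : Nd Q W)
    (h3 : 3 ≤ Module.finrank F W) : ∃ e ∈ W, ∃ f ∈ W, ∃ w ∈ W, Tri Q e f w := by
  have hWb : W ≠ ⊥ := by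
    rintro rfl
    rw [finrank_bot] at h3
    omega
  obtain ⟨w₀, hw, hw0⟩ := Submodule.exists_mem_ne_zero_of_ne_bot hWb
  obtain ⟨e, he, f, hf, hyp, -⟩ := exists_pair hW h3 hw hw0
  have hd := finrank_inf_Dp he hf hyp
  have hN := nd_inf_Dp hW he hf hyp
  by_contra hcon
  push Not at hcon
  have hq : ∀ w ∈ W ⊓ Dp Q e f, Q w = 0 := by
    intro w hw
    by_contra hne
    exact hcon e he f hf w hw.1 ⟨hyp, hw.2.1, hw.2.2, hne⟩
  have hb : W ⊓ Dp Q e f = ⊥ := by
    rw [Submodule.eq_bot_iff]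
    intro x hx
    apply hN x hx
    intro y hy
    have h4 := hq _ (Submodule.add_mem _ hx hy)
    rw [Q_add, hq x hx, hq y hy, zero_add, zero_add] at h4
    exact h4
  rw [hb, finrank_bot] at hd
  omega

/-- **the step**: a 6-dimensional eigenspace -/
theorem six_step [Finite F] [FiniteDimensional F V] (h2 : (2 : F) ≠ 0) {t : ↥(E Q)} {W W' : Submodule F V} {ε : F}
    (hε : ε = 1 ∨ ε = -1) (hWe : ∀ v, v ∈ W ↔ ap t v = ε • v) (hWe' : ∀ v, v ∈ W' ↔ ap t v = -ε • v)
    (hperp : ∀ u ∈ W, ∀ v ∈ W', polar Q u v = 0)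
    (hW : Nd Q W) (hd : Module.finrank F W = 6) (hW' : Nd Q W') (hd' : 3 ≤ Module.finrank F W')
    (X : Subgroup ↥(E Q)) (hX2 : ∀ z ∈ X, z * z = 1 → Module.finrank F (Vm z) ≠ 2)
    (hXF : ∀ z ∈ X, z ∈ FP Q W → ¬ Fund Q z) :
    Nat.card F ^ 5 ≤ X.relIndex (Subgroup.centralizer ({t} : Set ↥(E Q))) := by
  set K := Subgroup.centralizer ({t} : Set ↥(E Q)) with hK
  have hmemK : ∀ g : ↥(E Q), g ∈ K ↔ t * g = g * t := by
    intro g
    rw [hK, Subgroup.mem_centralizer_singleton_iff]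
    exact eq_comm
  have hKW : ∀ g ∈ K, ∀ w ∈ W, ap g w ∈ W := by
    intro g hg w hw
    rw [hWe] at hw ⊢
    rw [← ap_mul, (hmemK g).1 hg, ap_mul, hw, ap_smul]
  have hεε : ε * ε = 1 := by
    rcases hε with rfl | rfl <;> ring
  have hSK : ∀ (τ : F), τ * τ = 1 → ∀ u w : V, ap t u = τ • u → ap t w = τ • w → Q u = 0 → polar Q u w = 0 →
      S Q u w ∈ K := by
    intro τ hτ u w hu hw hu0 huw
    rw [hmemK, ← mul_inv_eq_iff_eq_mul, S_conj, hu, hw, S_smul _ hu0 (by rw [polar_smul_right, huw, smul_zero]),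
      smul_smul, hτ, one_smul]
  let P : ↥(E Q) → Prop := fun z => (z * z = 1 ∧ Module.finrank F (Vm z) = 2) ∨ (z ∈ FP Q W ∧ Fund Q z)
  have hbad : Bad Q P K W := by
    refine ⟨?_, ?_, fun z _ hz hF => Or.inr ⟨hz, hF⟩⟩
    · rintro z - (⟨hz, -⟩ | ⟨-, hz⟩)
      · exact hz
      · exact hz.sq
    · rintro g hg z - (⟨hz, hz'⟩ | ⟨hz, hz'⟩)
      · refine Or.inl ⟨?_, ?_⟩
        · have : g * z * g⁻¹ * (g * z * g⁻¹) = g * (z * z) * g⁻¹ := by group
          rw [this, hz, mul_one, mul_inv_cancel]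
        · rw [← hz']
          have e1 : Vm (g * z * g⁻¹) = (Vm z).map (g : V ≃ₗ[F] V).toLinearMap := by
            ext v
            rw [mem_Vm, Submodule.mem_map]
            constructor
            · intro hv
              refine ⟨ap g⁻¹ v, mem_Vm.2 ?_, ap_ap_inv g v⟩
              rw [ap_mul, ap_mul] at hv
              have h4 := congrArg (ap g⁻¹) hv
              rw [ap_inv_ap, ap_neg] at h4
              exact h4
            · rintro ⟨x, hx, rfl⟩
              have h5 : ((g : V ≃ₗ[F] V).toLinearMap x) = ap g x := rfl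
              rw [h5, ap_mul, ap_mul, ap_inv_ap, mem_Vm.1 hx, ap_neg]
          rw [e1]
          exact LinearEquiv.finrank_map_eq _ _
      · refine Or.inr ⟨?_, hz'.conj g⟩
        rw [mem_FP] at hz ⊢
        intro v hv
        have h4 : ap z (ap g⁻¹ v) = ap g⁻¹ v := by
          apply hz
          intro w hw
          have h5 := hv (ap g w) (hKW g hg w hw)
          rw [← polar_ap g⁻¹, ap_inv_ap] at h5
          exact h5
        rw [ap_mul, ap_mul, h4, ap_ap_inv]
  have hXP : ∀ z ∈ X, ¬ P z := by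
    rintro z hz (⟨h4, h5⟩ | ⟨h4, h5⟩)
    · exact hX2 z hz h4 h5
    · exact hXF z hz h4 h5
  obtain ⟨e, he, f, hf, w, hw, htri⟩ := exists_tri h2 hW' hd'
  have hfixS : ∀ {u v : V}, u ∈ W' → v ∈ W' → Q u = 0 → polar Q u v = 0 → S Q u v ∈ K ⊓ Fix Q W := by
    intro u v hu hv hu0 huv
    refine ⟨hSK (-ε) (by rw [neg_mul_neg, hεε]) u v ((hWe' u).1 hu) ((hWe' v).1 hv) hu0 huv, ?_⟩
    intro x hx
    exact S_fix hu0 huv (by rw [polar_comm]; exact hperp x hx u hu) (by rw [polar_comm]; exact hperp x hx v hv)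
  have hc : ∀ Y : Subgroup ↥(E Q), (∀ z ∈ Y, ¬ P z) → Nat.card F ≤ Y.relIndex (K ⊓ Fix Q W) := by
    intro Y hY
    refine htri.q_le h2 (fun a => hfixS he (W'.smul_mem _ hw) htri.hyp.left (htri.e_s a))
      (fun a => hfixS hf (W'.smul_mem _ hw) htri.hyp.right (htri.f_s a)) fun t ht ht2 h4 => ?_
    exact hY t ht (Or.inl ⟨ht2, h4⟩)
  have h5 := baseP h2 K W P hbad hW (by omega) hKW
    (fun u hu w hw hu0 huw => hSK ε hεε u w ((hWe u).1 hu) ((hWe w).1 hw) hu0 huw) (Nat.card F) hc X hXP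
  rw [hd] at h5
  calc Nat.card F ^ 5 = Nat.card F ^ (6 - 2) * Nat.card F := by norm_num [pow_succ]
    _ ≤ _ := h5

theorem finrank_Vm_of_fund [FiniteDimensional F V] (h2 : (2 : F) ≠ 0) {z : ↥(E Q)} (hz : Fund Q z) :
    Module.finrank F (Vm z) = 4 := by
  obtain ⟨e₁, f₁, e₂, f₂, h, h1, h3, h4, h5, h6⟩ := hz
  let L : F × F × F × F →ₗ[F] V :=
    { toFun := fun p => p.1 • e₁ + p.2.1 • f₁ + p.2.2.1 • e₂ + p.2.2.2 • f₂
      map_add' := fun p p' => by
        simp only [Prod.fst_add, Prod.snd_add]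
        module
      map_smul' := fun c p => by
        simp only [Prod.smul_fst, Prod.smul_snd, RingHom.id_apply, smul_eq_mul]
        module }
  have hL : ∀ p, L p = p.1 • e₁ + p.2.1 • f₁ + p.2.2.1 • e₂ + p.2.2.2 • f₂ := fun _ => rfl
  have hinj : Function.Injective L := by
    rw [injective_iff_map_eq_zero]
    intro p hp
    rw [hL] at hp
    obtain ⟨a1, a2, a3, a4⟩ := h.indep hp
    exact Prod.ext a1 (Prod.ext a2 (Prod.ext a3 a4))
  have hr : LinearMap.range L = Vm z := by
    ext v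
    rw [LinearMap.mem_range, mem_Vm]
    constructor
    · rintro ⟨p, rfl⟩
      rw [hL]
      simp only [ap_add, ap_smul, h1, h3, h4, h5]
      module
    · intro hv
      rw [fund_ap h h1 h3 h4 h5 h6 v] at hv
      refine ⟨(polar Q f₁ v, polar Q e₁ v, polar Q f₂ v, polar Q e₂ v), ?_⟩
      rw [hL]
      have h7 : (2 : F) • (v - (polar Q f₁ v • e₁ + polar Q e₁ v • f₁ + (polar Q f₂ v • e₂ + polar Q e₂ v • f₂))) = 0 := by
        have : (2 : F) • (v - (polar Q f₁ v • e₁ + polar Q e₁ v • f₁ + (polar Q f₂ v • e₂ + polar Q e₂ v • f₂))) =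
          (v - (2 : F) • (polar Q f₁ v • e₁ + polar Q e₁ v • f₁ + (polar Q f₂ v • e₂ + polar Q e₂ v • f₂))) + v := by module
        rw [this, hv, neg_add_cancel]
      have h8 := (smul_eq_zero.1 h7).resolve_left h2
      rw [sub_eq_zero] at h8
      dsimp only
      rw [← add_assoc] at h8
      exact h8.symm
  rw [← hr, LinearMap.finrank_range_of_inj hinj]
  simp only [Module.finrank_prod, Module.finrank_self]

theorem nd_of_nondeg {W : Submodule F V} (h : Nondeg (Q.comp W.subtype)) : Nd Q W := by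
  intro x hx hy
  have := h ⟨x, hx⟩ (fun y => hy y y.2)
  exact congrArg Subtype.val this

/-- the product of two involutions with orthogonal `-1`-spaces -/
theorem finrank_Vm_mul [FiniteDimensional F V] (h2 : (2 : F) ≠ 0) (hQ : Nondeg Q) {z s : ↥(E Q)} (hz : z * z = 1)
    (hs : s * s = 1) (hsz : ∀ v ∈ Vm z, ap s v = v) : (z * s) * (z * s) = 1 ∧
      Module.finrank F (Vm (z * s)) = Module.finrank F (Vm z) + Module.finrank F (Vm s) := by
  have hzz : ∀ v, ap z (ap z v) = v := fun v => by rw [← ap_mul, hz, ap_one]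
  have hss : ∀ v, ap s (ap s v) = v := fun v => by rw [← ap_mul, hs, ap_one]
  have hle : Vm s ≤ Vp z := by
    intro v hv
    rw [mem_Vp_iff h2 hQ hz]
    intro u hu
    have h3 : polar Q u v = - polar Q u v := by
      conv_lhs => rw [← polar_ap s, hsz u hu, mem_Vm.1 hv, polar_neg_right]
    have h4 : (2 : F) * polar Q u v = 0 := by linear_combination h3
    exact (mul_eq_zero.1 h4).resolve_left h2
  have hpres : ∀ v ∈ Vp z, ap s v ∈ Vp z := by
    intro v hv
    rw [mem_Vp_iff h2 hQ hz] at hv ⊢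
    intro u hu
    rw [← polar_ap s, hsz u hu, hss]
    exact hv u hu
  have hdec : ∀ v, ∃ a ∈ Vm z, ∃ b ∈ Vp z, a + b = v := fun v =>
    Submodule.mem_sup.1 (((isCompl h2 hz).codisjoint.eq_top).symm ▸ Submodule.mem_top : v ∈ Vm z ⊔ Vp z)
  have hact : ∀ a ∈ Vm z, ∀ b ∈ Vp z, ap (z * s) (a + b) = -a + ap s b := by
    intro a ha b hb
    rw [ap_mul, ap_add, ap_add, hsz a ha, mem_Vm.1 ha, mem_Vp.1 (hpres b hb)]
  have hV : Vm (z * s) = Vm z ⊔ Vm s := by
    apply le_antisymm
    · intro v hv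
      obtain ⟨a, ha, b, hb, rfl⟩ := hdec v
      rw [mem_Vm, hact a ha b hb] at hv
      refine Submodule.add_mem_sup ha ?_
      rw [mem_Vm]
      have : ap s b = (-a + ap s b) + a := by abel
      rw [this, hv]
      abel
    · rw [sup_le_iff]
      constructor
      · intro a ha
        rw [mem_Vm, ap_mul, hsz a ha, mem_Vm.1 ha]
      · intro b hb
        rw [mem_Vm, ap_mul, mem_Vm.1 hb, ap_neg, mem_Vp.1 (hle hb)]
  constructor
  · apply ext_ap
    intro v
    obtain ⟨a, ha, b, hb, rfl⟩ := hdec v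
    rw [ap_mul, hact a ha b hb, ap_one, hact (-a) ((Vm z).neg_mem ha) _ (hpres b hb), hss, neg_neg]
  · rw [hV]
    have h3 := Submodule.finrank_sup_add_finrank_inf_eq (Vm z) (Vm s)
    have h4 : Vm z ⊓ Vm s = ⊥ := by
      have h5 := (isCompl h2 hz).disjoint
      rw [disjoint_iff] at h5
      rw [eq_bot_iff, ← h5]
      exact inf_le_inf le_rfl hle
    rw [h4, finrank_bot, add_zero] at h3
    exact h3

/-- **S5719, dimension 10, both types** -/
theorem ten_false [Finite F] [FiniteDimensional F V] (h2 : (2 : F) ≠ 0) (hG : Good Q)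
    (hN : Module.finrank F V = 10) {T : Type*} [Group T] [Finite T] [IsSimpleGroup T] (hna : ∃ a b : T, a * b ≠ b * a)
    {A : Subgroup T} {Γ : Subgroup (MulAut T)} (h : Cfsg.Agent.H209.Fxy.IF A Γ) (π : ↥(E Q) →* T)
    (hπ : Function.Surjective π) (hker : ∀ g, π g = 1 ↔ g = 1 ∨ ∀ v, ap g v = -v) (hev : Even (Nat.card A))
    (hC0 : ∀ t ∈ A.comap π, t * t = 1 → (Module.finrank F (Vm t) = 2 ∨ Module.finrank F (Vm t) = 8) → False)
    (hII : ∀ t ∈ A.comap π, (∀ v, ap t (ap t v) = -v) → ∃ z ∈ A.comap π, Fund Q z) : False := by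
  have hfE : Finite ↥(E Q) := Cfsg.Agent.H786.IF.finite_E
  have hQ := hG.nondeg
  have hq1 : 1 < Nat.card F := Finite.one_lt_card
  have hX2 : ∀ z ∈ A.comap π, z * z = 1 → Module.finrank F (Vm z) ≠ 2 :=
    fun z hz hzz h4 => hC0 z hz hzz (Or.inl h4)
  -- the numerical contradiction
  have hnum : ∀ t ∈ A.comap π, t * t = 1 → π t ≠ 1 →
      Module.finrank F (Vm t) * (10 - Module.finrank F (Vm t)) ≤ 24 →
      Nat.card F ^ 5 ≤ (A.comap π).relIndex (Subgroup.centralizer ({t} : Set ↥(E Q))) → False := by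
    intro t ht htt ht1 hk hle
    have h3 := Cfsg.Agent.H847.IF.lift_E2 h hna π hπ (Subgroup.mem_comap.1 ht) ht1 (by rw [htt, map_one])
      (B := Subgroup.centralizer ({t} : Set ↥(E Q))) (fun b hb => by
        rw [Subgroup.mem_centralizer_singleton_iff] at hb
        rw [hb])
    have h4 := Cfsg.Agent.H237.IF.class_sq_one h2 hQ t htt (Vm t) (fun v => mem_Vm)
    rw [hN] at h4
    have h5 : Nat.card F ^ (Module.finrank F (Vm t) * (10 - Module.finrank F (Vm t)) + 1) ≤ Nat.card F ^ 25 :=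
      Nat.pow_le_pow_right (by omega) (by omega)
    have h6 : (Nat.card F ^ 5) ^ 5 ≤ (A.comap π).relIndex (Subgroup.centralizer ({t} : Set ↥(E Q))) ^ 5 :=
      Nat.pow_le_pow_left hle 5
    rw [← pow_mul] at h6
    norm_num at h6
    omega
  have hdim : ∀ t : ↥(E Q), t * t = 1 → Module.finrank F (Vm t) + Module.finrank F (Vp t) = 10 := by
    intro t ht
    rw [← hN]
    exact Submodule.finrank_add_eq_of_isCompl (isCompl h2 ht)
  -- no fundamental involutions
  have hNF : ∀ z ∈ A.comap π, ¬ Fund Q z := by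
    intro z hz hF
    have hzz := hF.sq
    have h4 := finrank_Vm_of_fund h2 hF
    have h6 : Module.finrank F (Vp z) = 6 := by have := hdim z hzz; omega
    have hz1 : π z ≠ 1 := by
      intro h1
      rcases (hker z).1 h1 with h1 | h1
      · exact hF.ne_one h2 h1
      · have h7 : Vm z = ⊤ := by
          rw [eq_top_iff]
          intro v _
          exact mem_Vm.2 (h1 v)
        rw [h7, finrank_top] at h4
        omega
    refine hnum z hz hzz hz1 (by rw [h4]) ?_
    refine six_step h2 (ε := 1) (Or.inl rfl) (W := Vp z) (W' := Vm z) (fun v => by rw [mem_Vp, one_smul])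
      (fun v => by rw [mem_Vm, neg_one_smul]) (fun u hu v hv => by rw [polar_comm]; exact polar_Vm_Vp h2 hv hu)
      (nd_of_nondeg (nondeg_Vp h2 hQ hzz)) h6 (nd_of_nondeg (nondeg_Vm h2 hQ hzz)) (by omega) _ hX2 ?_
    intro s hs hsW hsF
    have hsz : ∀ v ∈ Vm z, ap s v = v := by
      intro v hv
      refine mem_FP.1 hsW v fun w hw => ?_
      rw [polar_comm]
      exact polar_Vm_Vp h2 hv hw
    obtain ⟨h7, h8⟩ := finrank_Vm_mul h2 hQ hzz hsF.sq hsz
    refine hC0 (z * s) ((A.comap π).mul_mem hz hs) h7 (Or.inr ?_)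
    rw [h8, h4, finrank_Vm_of_fund h2 hsF]
  obtain ⟨g, hg, hg1, hg2, hcase⟩ := cases_ten π hπ hker h2 hG hN hev
  rcases hcase with ⟨h3, h4⟩ | ⟨h3, h4⟩ | ⟨h3, h4⟩ | h3 | h3
  · exact hC0 g hg h3 (Or.inl h4)
  · exact hC0 g hg h3 (Or.inr h4)
  · have h6 : Module.finrank F (Vp g) = 4 := by have := hdim g h3; omega
    refine hnum g hg h3 hg1 (by rw [h4]) ?_
    exact six_step h2 (ε := -1) (Or.inr rfl) (W := Vm g) (W' := Vp g) (fun v => by rw [mem_Vm, neg_one_smul])
      (fun v => by rw [mem_Vp, neg_neg, one_smul]) (fun u hu v hv => polar_Vm_Vp h2 hu hv)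
      (nd_of_nondeg (nondeg_Vm h2 hQ h3)) h4 (nd_of_nondeg (nondeg_Vp h2 hQ h3)) (by omega) _ hX2
      (fun z hz _ hF => hNF z hz hF)
  · exact hNF g hg h3
  · obtain ⟨z, hz, hF⟩ := hII g hg h3
    exact hNF z hz hF

end Cfsg.Agent.H556.IF
end

-- part: H399/IF/Tools
section
set_option linter.all false
open scoped Cfsg.Agent.FastGrp

/-!
# S5719: tools for the small sporadic rows (helper399)

* `kk A t` : number of `T`-conjugates of `t` in `A`; `cnt` : `f(t) |t^T| = n kk`;
* `mem_of_prime` : `t ∈ A` an involution, `g` commutes with `t`, `g ^ p = 1`, `f(t) < p`: `g ∈ A`.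
-/

set_option autoImplicit false
set_option linter.unusedSectionVars false

namespace Cfsg.Agent.H399.IF

open MulAction Subgroup Cfsg.Agent.H209.Fxy
open Cfsg.Agent.H999.IFB (icl center_of orderOf_conj)

variable {T : Type*} [Group T] [Finite T] {A : Subgroup T} {Γ : Subgroup (MulAut T)}

/-- number of the conjugates of `t` in `A` -/
noncomputable def kk (A : Subgroup T) (t : T) : ℕ := {s : T | s ∈ A ∧ IsConj t s}.ncard

/-- the fixity of `t` -/
noncomputable abbrev ff (A : Subgroup T) (t : T) : ℕ := fx A (MulAut.conj t)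

theorem conj_injective [IsSimpleGroup T] (hna : ∃ a b : T, a * b ≠ b * a) :
    Function.Injective (MulAut.conj : T →* MulAut T) := by
  rw [injective_iff_map_eq_one]
  intro z hz
  apply center_of hna
  intro x
  have h3 := congrArg (fun τ : MulAut T => τ x) hz
  simp only [MulAut.conj_apply, MulAut.one_apply] at h3
  rwa [mul_inv_eq_iff_eq_mul] at h3

/-- the fixed point formula inside `T` -/
theorem cnt [IsSimpleGroup T] (h : IF A Γ) (hna : ∃ a b : T, a * b ≠ b * a) {t : T} (ht : t ∈ A)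
    (h2 : orderOf t = 2) : ff A t * (centralizer ({t} : Set T)).index = A.index * kk A t := by
  have hσ : MulAut.conj t ∈ Γ := (h.conj t).2 ht
  have h1 := H999.IFB.IF.fix_formula' h hσ
  rw [(H999.IFB.IF.E2' h hna ht h2).2.1] at h1
  rw [h1]
  congr 1
  have h3 : (MulAut.conj : T →* MulAut T) '' {s : T | s ∈ A ∧ IsConj t s} = icl (MulAut.conj t) ∩ (Γ : Set (MulAut T)) := by
    ext τ
    constructor
    · rintro ⟨s, ⟨hs, hc⟩, rfl⟩
      obtain ⟨c, rfl⟩ := isConj_iff.1 hc
      exact ⟨⟨c, by rw [map_mul, map_mul, map_inv]⟩, (h.conj _).2 hs⟩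
    · rintro ⟨⟨x, rfl⟩, hx⟩
      refine ⟨x * t * x⁻¹, ⟨?_, isConj_iff.2 ⟨x, rfl⟩⟩, by rw [map_mul, map_mul, map_inv]⟩
      rw [← h.conj, map_mul, map_mul, map_inv]
      exact hx
  rw [← h3, Set.ncard_image_of_injective _ (conj_injective hna)]
  rfl

/-- `n > f^6` for an involution `t ∈ A` -/
theorem small [IsSimpleGroup T] (h : IF A Γ) (hna : ∃ a b : T, a * b ≠ b * a) {t : T} (ht : t ∈ A)
    (h2 : orderOf t = 2) : ff A t ^ 6 < A.index :=
  h.small _ ((h.conj t).2 ht) (by rw [orderOf_conj hna, h2])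

/-- `f^5 < |t^T|` -/
theorem five [IsSimpleGroup T] (h : IF A Γ) (hna : ∃ a b : T, a * b ≠ b * a) {t : T} (ht : t ∈ A)
    (h2 : orderOf t = 2) : ff A t ^ 5 < (centralizer ({t} : Set T)).index :=
  (H999.IFB.IF.E2' h hna ht h2).2.2.1

/-- a group centralized by `t` acts on the fixed points -/
theorem relIndex_le [IsSimpleGroup T] (h : IF A Γ) (hna : ∃ a b : T, a * b ≠ b * a) {t : T} (ht : t ∈ A)
    (h2 : orderOf t = 2) {B : Subgroup T} (hB : B ≤ centralizer ({t} : Set T)) : A.relIndex B ≤ ff A t := by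
  refine (H999.IFB.IF.E1 h ((h.conj t).2 ht) (by rw [orderOf_conj hna, h2]) (B := B) fun b hb => ?_).1
  have := Subgroup.mem_centralizer_singleton_iff.1 (hB hb)
  rw [MulAut.conj_apply, mul_inv_eq_iff_eq_mul]
  exact this.symm

/-- **an element of prime order `p > f(t)` commuting with `t` is in `A`** -/
theorem mem_of_prime [IsSimpleGroup T] (h : IF A Γ) (hna : ∃ a b : T, a * b ≠ b * a) {t : T} (ht : t ∈ A)
    (h2 : orderOf t = 2) {p : ℕ} (hp : p.Prime) (hf : ff A t < p) {g : T} (hg : g * t = t * g) (hgp : g ^ p = 1) :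
    g ∈ A := by
  have h1 := relIndex_le h hna ht h2 (B := zpowers g) (by
    rw [zpowers_le]
    exact mem_centralizer_singleton_iff.2 hg)
  have h3 : A.relIndex (zpowers g) ∣ p := by
    refine (relIndex_dvd_card A (zpowers g)).trans ?_
    rw [Nat.card_zpowers]
    exact orderOf_dvd_of_pow_eq_one hgp
  rcases (Nat.dvd_prime hp).1 h3 with h4 | h4
  · exact relIndex_eq_one.1 h4 (mem_zpowers g)
  · omega

/-- conjugates in `A` -/
theorem le_kk (A : Subgroup T) {t : T} (S : Finset T) (hS : ∀ s ∈ S, s ∈ A ∧ IsConj t s) : S.card ≤ kk A t := by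
  rw [kk, ← Set.ncard_coe_finset S]
  exact Set.ncard_le_ncard (fun s hs => hS s hs) (Set.toFinite _)

/-- all automorphisms inner: an involution in `A` with at least three fixed points -/
theorem exists_three [IsSimpleGroup T] (h : IF A Γ) (hna : ∃ a b : T, a * b ≠ b * a)
    (hin : ∀ σ : MulAut T, ∃ g : T, σ = MulAut.conj g) : ∃ t ∈ A, orderOf t = 2 ∧ 3 ≤ ff A t := by
  obtain ⟨σ, hσ, h2, h3⟩ := h.ex
  obtain ⟨g, rfl⟩ := hin σ
  exact ⟨g, (h.conj g).1 hσ, by rwa [orderOf_conj hna] at h2, h3⟩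

/-- the index of a centralizer -/
theorem index_eq {t : T} {N c m : ℕ} (hN : Nat.card T = N) (hc : Nat.card (centralizer ({t} : Set T)) = c)
    (hm : c * m = N) (hc0 : 0 < c) : (centralizer ({t} : Set T)).index = m := by
  have h1 := (centralizer ({t} : Set T)).card_mul_index
  rw [hN, hc, ← hm] at h1
  exact Nat.eq_of_mul_eq_mul_left hc0 h1

end Cfsg.Agent.H399.IF

private theorem dce_75b2cc669dcc : _root_.True := by
  try have : _root_.True := by simp only [_root_.Cfsg.Agent.H399.IF.kk.eq_1]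
  exact _root_.True.intro
end
end
end
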